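import Mathlib
import Cfsg.Agent.Lib.Helper44.OFldStmt
import Cfsg.Agent.Lib.Helper44.MCentStmt
import Cfsg.Agent.Lib.Helper45.MinusInndiag

set_option autoImplicit false

/-! Piece statements for S2717 (involutory graph-field automorphisms of `PΩ⁺_{2m}`), as `Prop`s.
Each piece is proved in its own file as `theorem main : <hypothesis pieces> → GFStmt.<Name>`.

Notation: `F` (universe `u`) the big field, `σ` its involution, `F₀` (universe `v`) the fixed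
field, `j : F₀ →+* F`; the plus form lives on `PI k = Fin (k+1) ⊕ Fin (k+1)` (`m = k + 1`), the
minus form on `MI k`; `Hs k ω ω'` is the matrix of `(x, y, z₁, z₂) ↦ (x, z₁ + ω z₂ ; y, z₁ + ω' z₂)`,
an isometry from `quadFormMinus k F (ω + ω') (ω ω')` to `quadFormPlus (k+1) F`. -/

namespace Cfsg.Agent.Lib.Helper44.GFStmt

open Matrix Module QuadraticMap
open Cfsg.Agent.Lib.Helper43.OPlAut Cfsg.Agent.Lib.Helper45.OmegaAut
  Cfsg.Agent.Lib.Helper43.H90Fin Cfsg.Agent.Lib.Helper45.MinusInndiag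
open Cfsg.Agent.Lib.Helper44.OFld0 Cfsg.Agent.Lib.Helper44.OFld1
  Cfsg.Agent.Lib.Helper44.OFldStmt Cfsg.Agent.Lib.Helper44.MFld0
  Cfsg.Agent.Lib.Helper44.MFldStmt Cfsg.Agent.Lib.Helper44.MCentStmt

universe u v

/-- the index type of the plus form of dimension `2(k+1)` -/
abbrev PI (k : ℕ) : Type := Fin (k + 1) ⊕ Fin (k + 1)

/-- the rows of the splitting matrix -/
def HsRow {F : Type u} [Field F] (k : ℕ) (ω ω' : F) : PI k → MI k → F :=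
  Sum.elim
    (Fin.lastCases (motive := fun _ => MI k → F)
      (Pi.single (Sum.inr 0) 1 + Pi.single (Sum.inr 1) ω)
      (fun i => Pi.single (Sum.inl (Sum.inl i)) 1))
    (Fin.lastCases (motive := fun _ => MI k → F)
      (Pi.single (Sum.inr 0) 1 + Pi.single (Sum.inr 1) ω')
      (fun i => Pi.single (Sum.inl (Sum.inr i)) 1))

/-- the splitting matrix `(x, y, z₁, z₂) ↦ (x, z₁ + ω z₂ ; y, z₁ + ω' z₂)` -/
def Hs {F : Type u} [Field F] (k : ℕ) (ω ω' : F) : Matrix (PI k) (MI k) F :=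
  Matrix.of (HsRow k ω ω')

/-- similarities whose multiplier is a square -/
def sqSim {F : Type u} [Field F] {ι : Type} [Fintype ι] [DecidableEq ι] (Q : (ι → F) → F) :
    Subgroup (GOq Q) where
  carrier := {g | ∃ c : Fˣ, ∀ v : ι → F,
    Q (((g : GL ι F) : Matrix ι ι F) *ᵥ v) = (c : F) ^ 2 * Q v}
  mul_mem' := by
    rintro a b ⟨c, hc⟩ ⟨d, hd⟩
    refine ⟨c * d, fun v => ?_⟩
    show Q ((((a : GL ι F) : Matrix ι ι F) * ((b : GL ι F) : Matrix ι ι F)) *ᵥ v) = _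
    rw [← Matrix.mulVec_mulVec, hc, hd, Units.val_mul]
    ring
  one_mem' := ⟨1, fun v => by
    show Q ((1 : Matrix ι ι F) *ᵥ v) = _
    rw [Matrix.one_mulVec, Units.val_one, one_pow, one_mul]⟩
  inv_mem' := by
    rintro a ⟨c, hc⟩
    refine ⟨c⁻¹, fun v => ?_⟩
    have h := hc ((((a : GL ι F)⁻¹ : GL ι F) : Matrix ι ι F) *ᵥ v)
    rw [Matrix.mulVec_mulVec, ← Units.val_mul, mul_inv_cancel, Units.val_one,
      Matrix.one_mulVec] at h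
    show Q ((((a : GL ι F)⁻¹ : GL ι F) : Matrix ι ι F) *ᵥ v) = _
    rw [h, Units.val_inv_eq_inv_val, ← mul_assoc, inv_pow, inv_mul_cancel₀ (pow_ne_zero 2 c.ne_zero),
      one_mul]

/-! ### basics -/

/-- [UI] a finite field has at most one involutory automorphism -/
def UniqueInvolution : Prop := ∀ (F : Type u) [Field F] [Fintype F] (σ τ : RingAut F),
  orderOf σ = 2 → orderOf τ = 2 → σ = τ

/-- [CH] characteristic two -/
def CharTwoIff : Prop := ∀ (F : Type u) [Field F] [Fintype F] (p f : ℕ), p.Prime →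
  Fintype.card F = p ^ f → ((2 : F) = 0 ↔ p = 2)

/-- [EA] anisotropic binary forms exist -/
def ExistsAniso : Prop := ∀ (F₀ : Type v) [Field F₀] [Fintype F₀], ∃ a b : F₀, Aniso a b

/-- [RT] the binary form splits over the quadratic extension, with conjugate roots -/
def SplitRoots : Prop := ∀ (F₀ : Type v) [Field F₀] [Fintype F₀] (F : Type u) [Field F]
  [Fintype F] (j : F₀ →+* F) (σ : RingAut F), orderOf σ = 2 →
  (∀ y : F, σ y = y ↔ ∃ y₀ : F₀, j y₀ = y) → ∀ a₀ b₀ : F₀, Aniso a₀ b₀ →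
    ∃ ω : F, ω + σ ω = j a₀ ∧ ω * σ ω = j b₀ ∧ σ ω ≠ ω

/-- [SF] the fixed field of an involution consists of squares -/
def SqOfFix : Prop := ∀ (F : Type u) [Field F] [Fintype F] (σ : RingAut F), orderOf σ = 2 →
  ∀ y : F, σ y = y → IsSquare y

/-- [NQ] two non-squares differ by a square -/
def NonsqQuot : Prop := ∀ (F₀ : Type v) [Field F₀] [Fintype F₀], (2 : F₀) ≠ 0 →
  ∀ x y : F₀, x ≠ 0 → ¬ IsSquare x → ¬ IsSquare y → ∃ c : F₀, c ≠ 0 ∧ x = c ^ 2 * y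

/-- [NT] the square class of `c^n κ` -/
def SquareCrit : Prop := ∀ (F : Type u) [Field F] [Fintype F], (2 : F) ≠ 0 →
  ∀ σ : RingAut F, orderOf σ = 2 → ∀ (c κ ν : F) (n : ℕ), σ ν = ν →
    (¬ ∃ y : F, σ y = y ∧ y ^ 2 = ν) → c ^ 2 = ν → κ * σ κ = ν →
    (IsSquare (c ^ n * κ) ↔ (Odd n ∧ Nat.card ↥(fixF σ) % 4 = 1))

/-! ### the splitting matrix -/

/-- [HS] -/
def HsInv : Prop := ∀ (F : Type u) [Field F] (k : ℕ) (ω ω' : F), ω ≠ ω' →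
  ∃ H' : Matrix (MI k) (PI k) F, Hs k ω ω' * H' = 1 ∧ H' * Hs k ω ω' = 1

def HsIso : Prop := ∀ (F : Type u) [Field F] (k : ℕ) (ω ω' : F) (v : MI k → F),
  Cfsg.quadFormPlus (k + 1) F (Hs k ω ω' *ᵥ v) = Cfsg.quadFormMinus k F (ω + ω') (ω * ω') v

def HsMap : Prop := ∀ (F : Type u) [Field F] (k : ℕ) (ω ω' : F) (σ : F ≃+* F),
  (Hs k ω ω').map σ = Hs k (σ ω) (σ ω')

/-- [SW] exchanging the two roots is a reflection -/
def SwapRefl : Prop := ∀ (F : Type u) [Field F] (k : ℕ) (ω ω' : F),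
  ∃ (b : GO (k + 1) F) (w : PI k → F), Cfsg.quadFormPlus (k + 1) F w ≠ 0 ∧
    (∀ (σ : F ≃+* F) (i : PI k), σ (w i) = w i) ∧
    ((b : GL (PI k) F) : Matrix (PI k) (PI k) F) =
      Cfsg.reflectionMatrix (Cfsg.quadFormPlus (k + 1) F) w ∧
    ((b : GL (PI k) F) : Matrix (PI k) (PI k) F) * Hs k ω' ω = Hs k ω ω' ∧ b * b = 1

/-! ### comparison of the two groups through `Hs` -/

/-- [KC2] kernels of `Phi` -/
def KerCompat2 : Prop := ∀ (F₀ : Type v) [Field F₀] [Fintype F₀] (F : Type u) [Field F]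
  [Fintype F] (j : F₀ →+* F) (k : ℕ), 3 ≤ k → ∀ (a₀ b₀ : F₀), Aniso a₀ b₀ →
  ∀ (ω ω' : F), ω + ω' = j a₀ → ω * ω' = j b₀ → ω ≠ ω' →
  ∀ (g₀ : GOq (Cfsg.quadFormMinus k F₀ a₀ b₀)) (g : GO (k + 1) F),
    ((g : GL (PI k) F) : Matrix (PI k) (PI k) F) * Hs k ω ω' =
      Hs k ω ω' * ((g₀ : GL (MI k) F₀) : Matrix (MI k) (MI k) F₀).map j →
    (Phi (Cfsg.quadFormMinus k F₀ a₀ b₀) g₀ = 1 ↔ Phi (Cfsg.quadFormPlus (k + 1) F) g = 1)

/-- [CPO] `Inndiag` of the minus form over `F₀` against the class character, odd characteristic -/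
def Compat2Odd : Prop := ∀ (F₀ : Type v) [Field F₀] [Fintype F₀] (F : Type u) [Field F]
  [Fintype F] (j : F₀ →+* F) (k : ℕ), 3 ≤ k → ∀ (a₀ b₀ : F₀), Aniso a₀ b₀ → (2 : F) ≠ 0 →
  ∀ (ω ω' : F), ω + ω' = j a₀ → ω * ω' = j b₀ → ω ≠ ω' →
  ∀ (ε : GO (k + 1) F →* Multiplicative (ZMod 2)), IsEps ε →
  ∀ (g₀ : GOq (Cfsg.quadFormMinus k F₀ a₀ b₀)) (g : GO (k + 1) F),
    ((g : GL (PI k) F) : Matrix (PI k) (PI k) F) * Hs k ω ω' =
      Hs k ω ω' * ((g₀ : GL (MI k) F₀) : Matrix (MI k) (MI k) F₀).map j →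
    (Phi (Cfsg.quadFormMinus k F₀ a₀ b₀) g₀ ∈ Cfsg.inndiagPOmegaMinus k F₀ a₀ b₀ ↔ ε g = 1)

/-- [CPT] the same in characteristic two -/
def Compat2Two : Prop := ∀ (F₀ : Type v) [Field F₀] [Fintype F₀] (F : Type u) [Field F]
  [Fintype F] (j : F₀ →+* F) (k : ℕ), 3 ≤ k → ∀ (a₀ b₀ : F₀), Aniso a₀ b₀ → (2 : F) = 0 →
  ∀ (ω ω' : F), ω + ω' = j a₀ → ω * ω' = j b₀ → ω ≠ ω' →
  ∀ (ε : GO (k + 1) F →* Multiplicative (ZMod 2)), IsEps ε →
  ∀ (g₀ : GOq (Cfsg.quadFormMinus k F₀ a₀ b₀)) (g : GO (k + 1) F),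
    ((g : GL (PI k) F) : Matrix (PI k) (PI k) F) * Hs k ω ω' =
      Hs k ω ω' * ((g₀ : GL (MI k) F₀) : Matrix (MI k) (MI k) F₀).map j →
    (Phi (Cfsg.quadFormMinus k F₀ a₀ b₀) g₀ ∈ Cfsg.inndiagPOmegaMinus k F₀ a₀ b₀ ↔ ε g = 1)

/-! ### counting classes -/

/-- [SPC] the split count is invariant under conjugation by an element normalising both groups -/
def SplitConj : Prop := ∀ (X : Type u) [Group X] (H K : Subgroup X) (c x : X),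
  (∀ h : X, h ∈ H ↔ c * h * c⁻¹ ∈ H) → (∀ k : X, k ∈ K ↔ c * k * c⁻¹ ∈ K) →
    Cfsg.splitClassCount H K (c * x * c⁻¹) = Cfsg.splitClassCount H K x

/-- [SPL] the split count as an index -/
def SplitIndex : Prop := ∀ (X : Type u) [Group X] (H K : Subgroup X), K ≤ H →
  K.Normal → ∀ x : X,
    Cfsg.splitClassCount H K x = (K ⊔ (H ⊓ Subgroup.centralizer {x})).relIndex H

/-- [IIP] characteristic two: `Inndiag = Inn` for the plus form -/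
def InndiagInnPlus2 : Prop := ∀ (F : Type u) [Field F] [Fintype F] (m : ℕ), 3 ≤ m →
  (2 : F) = 0 →
    Cfsg.inndiagPOmegaPlus m F = Cfsg.Inn (Cfsg.POmega F (Cfsg.quadFormPlus m F))

/-- [G2a] the class-preserving similarities with square multiplier have index two -/
def IndexSq : Prop := ∀ (F : Type u) [Field F] [Fintype F] (m : ℕ), 3 ≤ m → (2 : F) ≠ 0 →
  ∀ (ε : GO m F →* Multiplicative (ZMod 2)), IsEps ε →
    ((ε.ker ⊓ sqSim (Cfsg.quadFormPlus m F)).map (Phi (Cfsg.quadFormPlus m F))).relIndex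
      (Cfsg.inndiagPOmegaPlus m F) = 2

/-- [G2b] and contain the inner automorphisms with index two, when `-1` is a square -/
def IndexInn : Prop := ∀ (F : Type u) [Field F] [Fintype F] (m : ℕ), 3 ≤ m → (2 : F) ≠ 0 →
  IsSquare (-1 : F) → ∀ (ε : GO m F →* Multiplicative (ZMod 2)), IsEps ε →
    Cfsg.Inn (Cfsg.POmega F (Cfsg.quadFormPlus m F)) ≤
        (ε.ker ⊓ sqSim (Cfsg.quadFormPlus m F)).map (Phi (Cfsg.quadFormPlus m F)) ∧
      (Cfsg.Inn (Cfsg.POmega F (Cfsg.quadFormPlus m F))).relIndex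
        ((ε.ker ⊓ sqSim (Cfsg.quadFormPlus m F)).map (Phi (Cfsg.quadFormPlus m F))) = 2

/-- [RAT] rational inner-diagonal elements with square multiplier become inner -/
def RatOmega : Prop := ∀ (F₀ : Type v) [Field F₀] [Fintype F₀] (F : Type u) [Field F]
  [Fintype F] (j : F₀ →+* F) (σ : RingAut F), orderOf σ = 2 →
  (∀ y : F, σ y = y ↔ ∃ y₀ : F₀, j y₀ = y) → ∀ (k : ℕ), 3 ≤ k → ∀ (a₀ b₀ : F₀),
  Aniso a₀ b₀ → (2 : F) ≠ 0 → ∀ (ω ω' : F), ω + ω' = j a₀ → ω * ω' = j b₀ → ω ≠ ω' →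
  ∀ (g₀ : GOq (Cfsg.quadFormMinus k F₀ a₀ b₀)),
    Phi (Cfsg.quadFormMinus k F₀ a₀ b₀) g₀ ∈ Cfsg.inndiagPOmegaMinus k F₀ a₀ b₀ →
    (∃ c₀ : F₀ˣ, ∀ v : MI k → F₀, Cfsg.quadFormMinus k F₀ a₀ b₀
      (((g₀ : GL (MI k) F₀) : Matrix (MI k) (MI k) F₀) *ᵥ v) =
        (c₀ : F₀) ^ 2 * Cfsg.quadFormMinus k F₀ a₀ b₀ v) →
  ∀ (g : GO (k + 1) F),
    ((g : GL (PI k) F) : Matrix (PI k) (PI k) F) * Hs k ω ω' =
      Hs k ω ω' * ((g₀ : GL (MI k) F₀) : Matrix (MI k) (MI k) F₀).map j →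
    Phi (Cfsg.quadFormPlus (k + 1) F) g ∈ Cfsg.Inn (Cfsg.POmega F (Cfsg.quadFormPlus (k + 1) F))

/-- [DZ] an inner-diagonal similarity of the minus form with non-square multiplier -/
def DeltaZero : Prop := ∀ (F₀ : Type v) [Field F₀] [Fintype F₀], (2 : F₀) ≠ 0 → ∀ (k : ℕ),
  3 ≤ k → ∀ (a₀ b₀ : F₀), Aniso a₀ b₀ →
  ∃ (δ₀ : GOq (Cfsg.quadFormMinus k F₀ a₀ b₀)) (s t ν : F₀),
    ν = s ^ 2 + a₀ * s * t + b₀ * t ^ 2 ∧ ¬ IsSquare ν ∧
    ((δ₀ : GL (MI k) F₀) : Matrix (MI k) (MI k) F₀) = Dm k ν s t a₀ b₀ ∧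
    Phi (Cfsg.quadFormMinus k F₀ a₀ b₀) δ₀ ∈ Cfsg.inndiagPOmegaMinus k F₀ a₀ b₀

/-- [DEL] the image of that similarity is inner iff `c^(k-1) (s + t ω)` is a square -/
def DeltaInn : Prop := ∀ (F : Type u) [Field F] [Fintype F], (2 : F) ≠ 0 → IsSquare (-1 : F) →
  ∀ (k : ℕ), 3 ≤ k → ∀ (ω ω' s t c : F), ω ≠ ω' → c ≠ 0 →
  c ^ 2 = s ^ 2 + (ω + ω') * s * t + ω * ω' * t ^ 2 →
  ∀ (g : GO (k + 1) F),
    ((g : GL (PI k) F) : Matrix (PI k) (PI k) F) * Hs k ω ω' =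
      Hs k ω ω' * Dm k (c ^ 2) s t (ω + ω') (ω * ω') →
    (Phi (Cfsg.quadFormPlus (k + 1) F) g ∈
        Cfsg.Inn (Cfsg.POmega F (Cfsg.quadFormPlus (k + 1) F)) ↔
      IsSquare (c ^ (k - 1) * (s + t * ω)))

/-! ### conjugating by `Hs` -/

/-- [TH] conjugating a rational similarity of the minus form by `Hs` -/
def ThetaExists : Prop := ∀ (F₀ : Type v) [Field F₀] [Fintype F₀] (F : Type u) [Field F]
  [Fintype F] (j : F₀ →+* F) (k : ℕ) (a₀ b₀ : F₀) (ω ω' : F), ω + ω' = j a₀ → ω * ω' = j b₀ →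
  ω ≠ ω' → ∀ (g₀ : GOq (Cfsg.quadFormMinus k F₀ a₀ b₀)), ∃ g : GO (k + 1) F,
    ((g : GL (PI k) F) : Matrix (PI k) (PI k) F) * Hs k ω ω' =
      Hs k ω ω' * ((g₀ : GL (MI k) F₀) : Matrix (MI k) (MI k) F₀).map j

/-- [MU] the multiplier of the conjugate -/
def MultHs : Prop := ∀ (F₀ : Type v) [Field F₀] [Fintype F₀] (F : Type u) [Field F]
  [Fintype F] (j : F₀ →+* F) (k : ℕ) (a₀ b₀ : F₀) (ω ω' : F), ω + ω' = j a₀ → ω * ω' = j b₀ →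
  ω ≠ ω' → ∀ (g₀ : GOq (Cfsg.quadFormMinus k F₀ a₀ b₀)) (g : GO (k + 1) F),
    ((g : GL (PI k) F) : Matrix (PI k) (PI k) F) * Hs k ω ω' =
      Hs k ω ω' * ((g₀ : GL (MI k) F₀) : Matrix (MI k) (MI k) F₀).map j →
    ∀ μ₀ : F₀, (∀ v : MI k → F₀, Cfsg.quadFormMinus k F₀ a₀ b₀
        (((g₀ : GL (MI k) F₀) : Matrix (MI k) (MI k) F₀) *ᵥ v) =
          μ₀ * Cfsg.quadFormMinus k F₀ a₀ b₀ v) →
    ∀ w : PI k → F, Cfsg.quadFormPlus (k + 1) F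
        (((g : GL (PI k) F) : Matrix (PI k) (PI k) F) *ᵥ w) =
      j μ₀ * Cfsg.quadFormPlus (k + 1) F w

/-! ### the two assemblies -/

/-- [CI] the centraliser of the standard graph-field involution `Phi b * cσ σ` in `Inndiag`:
its elements are the `Phi g` with `g = Hs g₀ Hs⁻¹`, `g₀` rational and inner-diagonal, and it is
isomorphic to `Inndiag` of the minus form over the fixed field -/
def CentIso : Prop := ∀ (F₀ : Type v) [Field F₀] [Fintype F₀] (F : Type u) [Field F]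
  [Fintype F] (j : F₀ →+* F) (σ : RingAut F), orderOf σ = 2 →
  (∀ y : F, σ y = y ↔ ∃ y₀ : F₀, j y₀ = y) → ∀ (k : ℕ), 3 ≤ k → ∀ (a₀ b₀ : F₀), Aniso a₀ b₀ →
  ∀ (ω : F), ω + σ ω = j a₀ → ω * σ ω = j b₀ → σ ω ≠ ω →
  ∀ (ε : GO (k + 1) F →* Multiplicative (ZMod 2)), IsEps ε →
  ∀ (b : GO (k + 1) F),
    ((b : GL (PI k) F) : Matrix (PI k) (PI k) F) * Hs k (σ ω) ω = Hs k ω (σ ω) →
    (∀ d : MulAut (Cfsg.POmega F (Cfsg.quadFormPlus (k + 1) F)),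
      d ∈ Cfsg.inndiagPOmegaPlus (k + 1) F ⊓ Subgroup.centralizer
          {Phi (Cfsg.quadFormPlus (k + 1) F) b * cσ σ} ↔
        ∃ (g₀ : GOq (Cfsg.quadFormMinus k F₀ a₀ b₀)) (g : GO (k + 1) F),
          Phi (Cfsg.quadFormMinus k F₀ a₀ b₀) g₀ ∈ Cfsg.inndiagPOmegaMinus k F₀ a₀ b₀ ∧
          ((g : GL (PI k) F) : Matrix (PI k) (PI k) F) * Hs k ω (σ ω) =
            Hs k ω (σ ω) * ((g₀ : GL (MI k) F₀) : Matrix (MI k) (MI k) F₀).map j ∧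
          d = Phi (Cfsg.quadFormPlus (k + 1) F) g) ∧
    Nonempty (↥(Cfsg.inndiagPOmegaPlus (k + 1) F ⊓ Subgroup.centralizer
        {Phi (Cfsg.quadFormPlus (k + 1) F) b * cσ σ}) ≃*
      ↥(Cfsg.inndiagPOmegaMinus k F₀ a₀ b₀))

/-- [CNT] odd characteristic: the number of `Inn`-classes in the `Inndiag`-class of an
automorphism `x₁` whose centraliser in `Inndiag` is the one described in [CI] -/
def Count : Prop := ∀ (F₀ : Type v) [Field F₀] [Fintype F₀] (F : Type u) [Field F]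
  [Fintype F] (j : F₀ →+* F) (σ : RingAut F), orderOf σ = 2 →
  (∀ y : F, σ y = y ↔ ∃ y₀ : F₀, j y₀ = y) → ∀ (k : ℕ), 3 ≤ k → ∀ (a₀ b₀ : F₀), Aniso a₀ b₀ →
  (2 : F) ≠ 0 → ∀ (ω : F), ω + σ ω = j a₀ → ω * σ ω = j b₀ → σ ω ≠ ω →
  ∀ (ε : GO (k + 1) F →* Multiplicative (ZMod 2)), IsEps ε →
  ∀ (x₁ : MulAut (Cfsg.POmega F (Cfsg.quadFormPlus (k + 1) F))),
    (∀ d : MulAut (Cfsg.POmega F (Cfsg.quadFormPlus (k + 1) F)),
      d ∈ Cfsg.inndiagPOmegaPlus (k + 1) F ⊓ Subgroup.centralizer {x₁} ↔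
        ∃ (g₀ : GOq (Cfsg.quadFormMinus k F₀ a₀ b₀)) (g : GO (k + 1) F),
          Phi (Cfsg.quadFormMinus k F₀ a₀ b₀) g₀ ∈ Cfsg.inndiagPOmegaMinus k F₀ a₀ b₀ ∧
          ((g : GL (PI k) F) : Matrix (PI k) (PI k) F) * Hs k ω (σ ω) =
            Hs k ω (σ ω) * ((g₀ : GL (MI k) F₀) : Matrix (MI k) (MI k) F₀).map j ∧
          d = Phi (Cfsg.quadFormPlus (k + 1) F) g) →
    ((Odd (k + 1) ∧ Nat.card ↥(fixF σ) % 4 = 1) →
      Cfsg.splitClassCount (Cfsg.inndiagPOmegaPlus (k + 1) F)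
        (Cfsg.Inn (Cfsg.POmega F (Cfsg.quadFormPlus (k + 1) F))) x₁ = 4) ∧
    (¬ (Odd (k + 1) ∧ Nat.card ↥(fixF σ) % 4 = 1) →
      Cfsg.splitClassCount (Cfsg.inndiagPOmegaPlus (k + 1) F)
        (Cfsg.Inn (Cfsg.POmega F (Cfsg.quadFormPlus (k + 1) F))) x₁ = 2)

end Cfsg.Agent.Lib.Helper44.GFStmt
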