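import Mathlib
import Cfsg.Agent.Lib.Helper44.SpinCount
import Cfsg.Agent.Lib.Helper44.QBasis
import Cfsg.Agent.Lib.Helper44.QClass
import Cfsg.Agent.Lib.Helper44.Inv8
import Cfsg.Agent.Lib.Helper44.Der5

set_option autoImplicit false

namespace Cfsg.Agent.Lib.Helper44.OTyp1

open Module QuadraticMap
open Cfsg.Agent.Lib.Helper44.QSpace Cfsg.Agent.Lib.Helper44.QClass Cfsg.Agent.Lib.Helper44.QBasis
open Cfsg.Agent.Lib.Helper44.SpinCount Cfsg.Agent.Lib.Helper44.NegPairs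

universe u v

variable {F : Type*} [Field F]

theorem hab_of_ell' {ζ : F} (h : ∀ t : F, t ^ 2 + t + ζ ≠ 0) :
    ∀ z₁ z₂ : F, z₁ ^ 2 + 1 * z₁ * z₂ + ζ * z₂ ^ 2 = 0 → z₁ = 0 ∧ z₂ = 0 := by
  intro z₁ z₂ h0
  have hz2 : z₂ = 0 := by
    by_contra hz
    apply h (z₁ / z₂)
    field_simp
    linear_combination h0
  subst hz2
  refine ⟨?_, rfl⟩
  have : z₁ ^ 2 = 0 := by linear_combination h0
  exact (pow_eq_zero_iff (by norm_num : (2 : ℕ) ≠ 0)).mp this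

theorem NP_ne_NM (q k : ℕ) (hq : 2 ≤ q) :
    q ^ (k + 2) + (q ^ (k + 1) - 1) * q ^ (k + 1)
      ≠ q ^ (k + 1) + q ^ 2 * ((q ^ k - 1) * q ^ k) := by
  obtain ⟨B, hB⟩ : ∃ B, q ^ k = B + 1 :=
    ⟨q ^ k - 1, by have := Nat.one_le_pow k q (by omega); omega⟩
  obtain ⟨c, hc⟩ : ∃ c, q = c + 2 := ⟨q - 2, by omega⟩
  have h1 : q ^ (k + 1) = (B + 1) * (c + 2) := by rw [pow_succ, hB, hc]
  have h2 : q ^ (k + 2) = (B + 1) * (c + 2) * (c + 2) := by rw [pow_succ, h1, hc]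
  have h4 : (B + 1) * (c + 2) - 1 = B * c + 2 * B + c + 1 := by
    have : (B + 1) * (c + 2) = B * c + 2 * B + c + 2 := by ring
    omega
  rw [h2, h1, h4, hB, Nat.add_sub_cancel, hc]
  intro h
  have h5 : (B + 1) * (c + 2) * (c + 2) + (B * c + 2 * B + c + 1) * ((B + 1) * (c + 2))
      = (B + 1) * (c + 2) + (c + 2) ^ 2 * (B * (B + 1)) + 2 * (c + 2) * (B + 1) * (c + 1) := by
    ring
  have hpos : 0 < 2 * (c + 2) * (B + 1) * (c + 1) := by positivity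
  linarith

/-- Two elliptic parameters over a finite field are related by a change of the second basis
vector. -/
theorem exists_alpha [Finite F] {ζ ζ₂ : F} (h1 : ∀ t : F, t ^ 2 + t + ζ ≠ 0)
    (h2 : ∀ t : F, t ^ 2 + t + ζ₂ ≠ 0) : ∃ α : F, ζ₂ + (1 - 4 * ζ₂) * (α - α ^ 2) = ζ := by
  classical
  cases nonempty_fintype F
  by_cases h20 : (2 : F) = 0
  · have : CharP F 2 := CharTwo.of_one_ne_zero_of_two_eq_zero one_ne_zero h20
    obtain ⟨u, hu⟩ := Cfsg.Agent.Lib.Helper44.Der5.exists_wp_eq h1 h2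
    refine ⟨u, ?_⟩
    linear_combination (1 : F) * hu + (ζ₂ - u ^ 2 - 2 * ζ₂ * (u - u ^ 2)) * h20
  · have hns : ∀ c : F, (∀ t : F, t ^ 2 + t + c ≠ 0) → ¬ IsSquare (1 - 4 * c) := by
      rintro c hc ⟨w, hw⟩
      apply hc ((w - 1) / 2)
      field_simp
      linear_combination (-1 : F) * hw
    have hD := quadraticChar_neg_one_iff_not_isSquare.mpr (hns ζ h1)
    have hD₂ := quadraticChar_neg_one_iff_not_isSquare.mpr (hns ζ₂ h2)
    have hD0 : (1 - 4 * ζ) ≠ 0 := by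
      intro h0
      apply hns ζ h1
      rw [h0]
      exact IsSquare.zero
    have hD₂0 : (1 - 4 * ζ₂) ≠ 0 := by
      intro h0
      apply hns ζ₂ h2
      rw [h0]
      exact IsSquare.zero
    have hprod : quadraticChar F ((1 - 4 * ζ) * (1 - 4 * ζ₂)) = 1 := by
      rw [map_mul, hD, hD₂]
      norm_num
    obtain ⟨w, hw⟩ := (quadraticChar_one_iff_isSquare (mul_ne_zero hD0 hD₂0)).mp hprod
    refine ⟨(1 + w / (1 - 4 * ζ₂)) / 2, ?_⟩
    have hu2 : (1 - 4 * ζ₂) * (w / (1 - 4 * ζ₂)) ^ 2 = 1 - 4 * ζ := by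
      rw [div_pow, ← mul_div_assoc, div_eq_iff (pow_ne_zero 2 hD₂0), pow_two, ← hw]
      ring
    obtain ⟨u, hu⟩ : ∃ u, u = w / (1 - 4 * ζ₂) := ⟨_, rfl⟩
    rw [← hu] at hu2 ⊢
    have h4 : (4 : F) ≠ 0 := by
      have : (4 : F) = 2 * 2 := by norm_num
      rw [this]
      exact mul_ne_zero h20 h20
    have h5 : ζ₂ + (1 - 4 * ζ₂) * ((1 + u) / 2 - ((1 + u) / 2) ^ 2) - ζ
        = ζ₂ - ζ + ((1 - 4 * ζ₂) - (1 - 4 * ζ₂) * u ^ 2) / 4 := by
      field_simp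
      ring
    rw [← sub_eq_zero, h5, hu2]
    field_simp
    ring

section abs

variable [Fintype F] {V : Type u} [AddCommGroup V] [Module F V] [FiniteDimensional F V]

omit [Fintype F] [FiniteDimensional F V] in
theorem ell_value {Q : QuadraticForm F V} {x y : V} {ζ : F} (hE : IsEll Q x y ζ) (a b : F) :
    Q (a • x + b • y) = a ^ 2 + a * b + ζ * b ^ 2 := by
  obtain ⟨hx, hxy, hy, -⟩ := hE
  rw [q_add, q_smul, q_smul, polar_smul_l, polar_smul_r, hx, hxy, hy]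
  ring

omit [FiniteDimensional F V] in
theorem ell_change {Q : QuadraticForm F V} {x y : V} {ζ : F} (hE : IsEll Q x y ζ) {ζ' : F}
    (hζ' : ∀ t : F, t ^ 2 + t + ζ' ≠ 0) : ∃ α β : F, IsEll Q x (α • x + β • y) ζ' := by
  obtain ⟨α, hα⟩ := exists_alpha hζ' hE.2.2.2
  refine ⟨α, 1 - 2 * α, hE.1, ?_, ?_, hζ'⟩
  · rw [polar_add_right, polar_smul_r, polar_smul_r, polar_self', hE.1, hE.2.1]
    ring
  · rw [ell_value hE]
    linear_combination hα

omit [Fintype F] in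
/-- Coordinates for a hyperbolic space. -/
theorem coordP (Q : QuadraticForm F V) {k : ℕ} {e f : Fin k → V} (hH : IsHyp Q e f)
    (hfin : finrank F V = 2 * k) :
    ∃ Ψ : V ≃ₗ[F] ((Fin k ⊕ Fin k) ⊕ Fin 0 → F),
      ∀ v, Q v = ∑ i, Ψ v (.inl (.inl i)) * Ψ v (.inl (.inr i)) := by
  set r0 : Fin 0 → V := fun i => i.elim0 with hr0
  have hli : LinearIndependent F r0 := linearIndependent_empty_type
  obtain ⟨bs, hbs⟩ := exists_hyp_basis hH r0 hli (fun i t => t.elim0) (fun i t => t.elim0)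
    (by rw [Fintype.card_fin, hfin]; ring)
  refine ⟨bs.equivFun, fun v => ?_⟩
  rw [q_eq_hyp hH r0 (fun i t => t.elim0) (fun i t => t.elim0) bs hbs v]
  simp [Basis.equivFun_apply]

omit [Fintype F] in
/-- Coordinates for a space of minus type. -/
theorem coordM (Q : QuadraticForm F V) {k : ℕ} {e f : Fin k → V} {x y : V} {ζ : F}
    (hH : IsHyp Q e f) (hE : IsEll Q x y ζ)
    (horth : ∀ i, polar Q (e i) x = 0 ∧ polar Q (e i) y = 0 ∧ polar Q (f i) x = 0 ∧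
      polar Q (f i) y = 0)
    (hfin : finrank F V = 2 * (k + 1)) :
    ∃ Ψ : V ≃ₗ[F] ((Fin k ⊕ Fin k) ⊕ Fin 2 → F),
      ∀ v, Q v = (∑ i, Ψ v (.inl (.inl i)) * Ψ v (.inl (.inr i)))
        + (Ψ v (.inr 0) ^ 2 + Ψ v (.inr 0) * Ψ v (.inr 1) + ζ * Ψ v (.inr 1) ^ 2) := by
  have her : ∀ i (t : Fin 2), polar Q (e i) (![x, y] t) = 0 := by
    intro i t
    fin_cases t
    · exact (horth i).1
    · exact (horth i).2.1
  have hfr : ∀ i (t : Fin 2), polar Q (f i) (![x, y] t) = 0 := by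
    intro i t
    fin_cases t
    · exact (horth i).2.2.1
    · exact (horth i).2.2.2
  obtain ⟨bs, hbs⟩ := exists_hyp_basis hH ![x, y] (linearIndependent_ell hE) her hfr
    (by rw [Fintype.card_fin, hfin]; ring)
  refine ⟨bs.equivFun, fun v => ?_⟩
  rw [q_eq_hyp hH ![x, y] her hfr bs hbs v, Fin.sum_univ_two]
  simp only [Matrix.cons_val_zero, Matrix.cons_val_one, Basis.equivFun_apply]
  rw [ell_value hE]

theorem card_P (Q : QuadraticForm F V) {k : ℕ} {e f : Fin k → V} (hH : IsHyp Q e f)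
    (hfin : finrank F V = 2 * k) :
    Nat.card {v : V // Q v = 0} * Fintype.card F
      = Fintype.card F ^ (k + 1) + (Fintype.card F ^ k - 1) * Fintype.card F ^ k := by
  classical
  set r0 : Fin 0 → V := fun i => i.elim0 with hr0
  have hli : LinearIndependent F r0 := linearIndependent_empty_type
  obtain ⟨bs, hbs⟩ := exists_hyp_basis hH r0 hli (fun i t => t.elim0) (fun i t => t.elim0)
    (by rw [Fintype.card_fin, hfin]; ring)
  have hc := card_level_mul hH r0 (fun i t => t.elim0) (fun i t => t.elim0) bs hbs (0 : F)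
  have h1 : Nat.card {w : Fin 0 → F // Q (∑ t, w t • r0 t) = 0} = 1 := by
    rw [Nat.card_eq_one_iff_unique]
    refine ⟨⟨?_⟩, ⟨⟨0, by simp⟩⟩⟩
    rintro ⟨w, hw⟩ ⟨w', hw'⟩
    apply Subtype.ext
    funext i
    exact i.elim0
  rw [h1, one_mul, Fintype.card_fin, pow_zero, one_mul] at hc
  exact hc

theorem card_M (Q : QuadraticForm F V) {k : ℕ} {e f : Fin k → V} {x y : V} {ζ : F}
    (hH : IsHyp Q e f) (hE : IsEll Q x y ζ)
    (horth : ∀ i, polar Q (e i) x = 0 ∧ polar Q (e i) y = 0 ∧ polar Q (f i) x = 0 ∧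
      polar Q (f i) y = 0)
    (hfin : finrank F V = 2 * (k + 1)) :
    Nat.card {v : V // Q v = 0} * Fintype.card F
      = Fintype.card F ^ (k + 1)
        + Fintype.card F ^ 2 * ((Fintype.card F ^ k - 1) * Fintype.card F ^ k) := by
  classical
  have her : ∀ i (t : Fin 2), polar Q (e i) (![x, y] t) = 0 := by
    intro i t
    fin_cases t
    · exact (horth i).1
    · exact (horth i).2.1
  have hfr : ∀ i (t : Fin 2), polar Q (f i) (![x, y] t) = 0 := by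
    intro i t
    fin_cases t
    · exact (horth i).2.2.1
    · exact (horth i).2.2.2
  obtain ⟨bs, hbs⟩ := exists_hyp_basis hH ![x, y] (linearIndependent_ell hE) her hfr
    (by rw [Fintype.card_fin, hfin]; ring)
  have hc := card_level_mul hH ![x, y] her hfr bs hbs (0 : F)
  have key : ∀ w : Fin 2 → F, Q (∑ t, w t • ![x, y] t) = 0 → w = 0 := by
    intro w hw
    rw [Fin.sum_univ_two] at hw
    simp only [Matrix.cons_val_zero, Matrix.cons_val_one] at hw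
    rw [ell_value hE] at hw
    obtain ⟨h0, h1⟩ := hab_of_ell' hE.2.2.2 (w 0) (w 1) (by linear_combination hw)
    funext t
    fin_cases t
    · exact h0
    · exact h1
  have h1 : Nat.card {w : Fin 2 → F // Q (∑ t, w t • ![x, y] t) = 0} = 1 := by
    rw [Nat.card_eq_one_iff_unique]
    refine ⟨⟨?_⟩, ⟨⟨0, by simp⟩⟩⟩
    rintro ⟨w, hw⟩ ⟨w', hw'⟩
    apply Subtype.ext
    show w = w'
    exact (key w hw).trans (key w' hw').symm
  rw [h1, one_mul, Fintype.card_fin] at hc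
  exact hc

omit [Fintype F] [FiniteDimensional F V] in
theorem sep_of_iso {W : Type v} [AddCommGroup W] [Module F W] {Q : QuadraticForm F V}
    (hS : Sep Q) (Q' : QuadraticForm F W) (Ψ : V ≃ₗ[F] W) (hΨ : ∀ v, Q' (Ψ v) = Q v) :
    Sep Q' := by
  intro w hw
  have h1 : Ψ.symm w = 0 := by
    apply hS
    intro y
    have h2 := hw (Ψ y)
    have h3 : polar Q' (Ψ (Ψ.symm w)) (Ψ y) = polar Q (Ψ.symm w) y := by
      unfold polar
      rw [← map_add, hΨ, hΨ, hΨ]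
    rw [← h3, LinearEquiv.apply_symm_apply]
    exact h2
  have h4 := congrArg Ψ h1
  rw [LinearEquiv.apply_symm_apply, map_zero] at h4
  exact h4

/-- A non-degenerate form on a `2(k+1)`-space with a totally singular `(k+1)`-subspace is
hyperbolic (all characteristics). -/
theorem hyp_of_ts' {Q : QuadraticForm F V} (hS : Sep Q) {k : ℕ}
    (hfin : finrank F V = 2 * (k + 1)) {U : Submodule F V} (hU : ∀ u ∈ U, Q u = 0)
    (hd : k + 1 ≤ finrank F U) : ∃ e f : Fin (k + 1) → V, IsHyp Q e f := by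
  rcases exists_hyp_even k V Q hfin hS with h | ⟨e, f, x, y, ζ, hH, hE, horth⟩
  · exact h
  · exfalso
    have hab := hab_of_ell' hE.2.2.2
    obtain ⟨Ψ, hΨ⟩ := coordM Q hH hE horth hfin
    have hΨ' : ∀ v, minusQ k F 1 ζ (Ψ v) = Q v := by
      intro v
      rw [hΨ v]
      show Cfsg.quadFormMinus k F 1 ζ (Ψ v) = _
      unfold Cfsg.quadFormMinus
      ring
    have hS' : Sep (minusQ k F 1 ζ) := sep_of_iso hS _ Ψ hΨ'
    have hW : ∀ w ∈ U.map Ψ.toLinearMap, minusQ k F 1 ζ w = 0 := by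
      rintro w ⟨u, hu, rfl⟩
      show minusQ k F 1 ζ (Ψ u) = 0
      rw [hΨ']
      exact hU u hu
    have h1 := Cfsg.Agent.Lib.Helper44.Inv8.minus_ts_le hS' hab hW
    have h2 : finrank F (U.map Ψ.toLinearMap) = finrank F U := LinearEquiv.finrank_map_eq Ψ U
    omega

/-- Two non-degenerate quadratic spaces of the same even dimension with the same number of
singular vectors are isometric. -/
theorem exists_iso {V₂ : Type v} [AddCommGroup V₂] [Module F V₂] [FiniteDimensional F V₂]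
    (Q₁ : QuadraticForm F V) (Q₂ : QuadraticForm F V₂) (hS₁ : Sep Q₁) (hS₂ : Sep Q₂) {k : ℕ}
    (h1 : finrank F V = 2 * (k + 1)) (h2 : finrank F V₂ = 2 * (k + 1))
    (hc : Nat.card {v : V // Q₁ v = 0} = Nat.card {v : V₂ // Q₂ v = 0}) :
    ∃ j : V →ₗ[F] V₂, ∀ v, Q₂ (j v) = Q₁ v := by
  have hq : 2 ≤ Fintype.card F := Fintype.one_lt_card
  have hne := NP_ne_NM (Fintype.card F) k hq
  rcases exists_hyp_even k V Q₁ h1 hS₁ with ⟨e₁, f₁, hH₁⟩ | ⟨e₁, f₁, x₁, y₁, ζ₁, hH₁, hE₁, ho₁⟩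
  · rcases exists_hyp_even k V₂ Q₂ h2 hS₂ with ⟨e₂, f₂, hH₂⟩ | ⟨e₂, f₂, x₂, y₂, ζ₂, hH₂, hE₂, ho₂⟩
    · obtain ⟨Ψ₁, hΨ₁⟩ := coordP Q₁ hH₁ h1
      obtain ⟨Ψ₂, hΨ₂⟩ := coordP Q₂ hH₂ h2
      refine ⟨(Ψ₁.trans Ψ₂.symm).toLinearMap, fun v => ?_⟩
      have h3 : Ψ₂ ((Ψ₁.trans Ψ₂.symm).toLinearMap v) = Ψ₁ v := by simp
      rw [hΨ₂, h3, hΨ₁]
    · exfalso
      have c1 := card_P Q₁ hH₁ h1
      have c2 := card_M Q₂ hH₂ hE₂ ho₂ h2
      rw [hc, c2] at c1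
      exact hne c1.symm
  · rcases exists_hyp_even k V₂ Q₂ h2 hS₂ with ⟨e₂, f₂, hH₂⟩ | ⟨e₂, f₂, x₂, y₂, ζ₂, hH₂, hE₂, ho₂⟩
    · exfalso
      have c1 := card_M Q₁ hH₁ hE₁ ho₁ h1
      have c2 := card_P Q₂ hH₂ h2
      rw [hc, c2] at c1
      exact hne c1
    · obtain ⟨α, β, hE₂'⟩ := ell_change hE₂ hE₁.2.2.2
      have ho₂' : ∀ i, polar Q₂ (e₂ i) x₂ = 0 ∧ polar Q₂ (e₂ i) (α • x₂ + β • y₂) = 0 ∧
          polar Q₂ (f₂ i) x₂ = 0 ∧ polar Q₂ (f₂ i) (α • x₂ + β • y₂) = 0 := by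
        intro i
        obtain ⟨a1, a2, a3, a4⟩ := ho₂ i
        refine ⟨a1, ?_, a3, ?_⟩
        · rw [polar_add_right, polar_smul_r, polar_smul_r, a1, a2, mul_zero, mul_zero, add_zero]
        · rw [polar_add_right, polar_smul_r, polar_smul_r, a3, a4, mul_zero, mul_zero, add_zero]
      obtain ⟨Ψ₁, hΨ₁⟩ := coordM Q₁ hH₁ hE₁ ho₁ h1
      obtain ⟨Ψ₂, hΨ₂⟩ := coordM Q₂ hH₂ hE₂' ho₂' h2
      refine ⟨(Ψ₁.trans Ψ₂.symm).toLinearMap, fun v => ?_⟩
      have h3 : Ψ₂ ((Ψ₁.trans Ψ₂.symm).toLinearMap v) = Ψ₁ v := by simp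
      rw [hΨ₂, h3, hΨ₁]

end abs

end Cfsg.Agent.Lib.Helper44.OTyp1
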