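import Mathlib
import Cfsg.Agent.Lib.Helper44.OTyp1
import Cfsg.Agent.Lib.Helper40.RecipPoly

set_option autoImplicit false

namespace Cfsg.Agent.Lib.Helper44.OTyp2

open Module QuadraticMap Polynomial
open Cfsg.Agent.Lib.Helper44.QSpace Cfsg.Agent.Lib.Helper44.QClass Cfsg.Agent.Lib.Helper44.OGroup
open Cfsg.Agent.Lib.Helper44.OTyp1 Cfsg.Agent.Lib.Helper40.RecipPoly

universe u

variable {F : Type*} [Field F] {V : Type u} [AddCommGroup V] [Module F V]

theorem q_sub' (Q : QuadraticForm F V) (x y : V) : Q (x - y) = Q x + Q y - polar Q x y := by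
  have h := q_add Q (x - y) y
  rw [sub_add_cancel, polar_sub_left] at h
  have h2 := polar_self' Q y
  rw [h, h2]
  ring

theorem pow_cancel (φ φ' : Module.End F V) (h2 : φ' * φ = 1) (k : ℕ) : φ' ^ k * φ ^ k = 1 := by
  induction k with
  | zero => simp
  | succ k ih =>
    calc φ' ^ (k + 1) * φ ^ (k + 1) = φ' ^ k * (φ' * φ) * φ ^ k := by
          rw [pow_succ, pow_succ']
          simp only [mul_assoc]
      _ = 1 := by rw [h2, mul_one, ih]

theorem rev_id (f : F[X]) (φ φ' : Module.End F V) (h2 : φ' * φ = 1) :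
    aeval φ' f * φ ^ f.natDegree = aeval φ f.reverse := by
  rw [aeval_eq_sum_range, aeval_eq_sum_range' (Nat.lt_succ_of_le (reverse_natDegree_le f)),
    Finset.sum_mul]
  rw [← Finset.sum_range_reflect (fun k => f.reverse.coeff k • φ ^ k) (f.natDegree + 1)]
  apply Finset.sum_congr rfl
  intro k hk
  rw [Finset.mem_range] at hk
  have hk' : k ≤ f.natDegree := by omega
  have h3 : f.natDegree + 1 - 1 - k = f.natDegree - k := by omega
  rw [h3, coeff_reverse, revAt_le (Nat.sub_le _ _), Nat.sub_sub_self hk', smul_mul_assoc]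
  congr 1
  calc φ' ^ k * φ ^ f.natDegree = φ' ^ k * (φ ^ k * φ ^ (f.natDegree - k)) := by
        rw [← pow_add, Nat.add_sub_cancel' hk']
    _ = φ ^ (f.natDegree - k) := by rw [← mul_assoc, pow_cancel φ φ' h2, one_mul]

theorem adj_pow (Q : QuadraticForm F V) (φ φ' : Module.End F V) (h1 : φ * φ' = 1)
    (hφ : ∀ v, Q (φ v) = Q v) (n : ℕ) (x y : V) :
    polar Q ((φ ^ n) x) y = polar Q x ((φ' ^ n) y) := by
  have hp : ∀ a b, polar Q (φ a) (φ b) = polar Q a b := by
    intro a b
    unfold polar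
    rw [← map_add, hφ, hφ, hφ]
  have h1' : ∀ y, φ (φ' y) = y := fun y => by
    rw [← Module.End.mul_apply, h1, Module.End.one_apply]
  induction n generalizing x y with
  | zero => simp
  | succ n ih =>
    rw [pow_succ', Module.End.mul_apply, pow_succ, Module.End.mul_apply]
    conv_lhs => rw [← h1' y]
    rw [hp, ih]

theorem adj_aeval (Q : QuadraticForm F V) (φ φ' : Module.End F V) (h1 : φ * φ' = 1)
    (hφ : ∀ v, Q (φ v) = Q v) (f : F[X]) (x y : V) :
    polar Q (aeval φ f x) y = polar Q x (aeval φ' f y) := by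
  induction f using Polynomial.induction_on' with
  | add a b ha hb =>
    rw [map_add, map_add, LinearMap.add_apply, LinearMap.add_apply, polar_add_left,
      polar_add_right, ha, hb]
  | monomial n a =>
    rw [aeval_monomial, aeval_monomial, Module.End.mul_apply, Module.End.mul_apply,
      Module.algebraMap_end_apply, Module.algebraMap_end_apply, polar_smul_l, polar_smul_r,
      adj_pow Q φ φ' h1 hφ]

/-- The kernel of `c(φ)` is totally singular when `c` is coprime to its reciprocal and to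
`X - 1`. -/
theorem ts_ker (Q : QuadraticForm F V) (φ φ' : Module.End F V) (h1 : φ * φ' = 1)
    (h2 : φ' * φ = 1) (hφ : ∀ v, Q (φ v) = Q v) (c c' : F[X]) (a₀ : F) (ha₀ : a₀ ≠ 0)
    (hrev : c.reverse = C a₀ * c') (hcop : IsCoprime c c') (hL : IsCoprime c (X - C 1))
    (x : V) (hx : aeval φ c x = 0) : Q x = 0 := by
  have hA : ∀ x y : V, aeval φ c x = 0 → aeval φ c y = 0 → polar Q x y = 0 := by
    intro x y hx hy
    obtain ⟨a, b, hab⟩ := hcop
    obtain ⟨z, hz⟩ : ∃ z, z = aeval φ b y := ⟨_, rfl⟩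
    have hy' : y = aeval φ c' z := by
      have h3 : aeval φ (a * c + b * c') y = y := by rw [hab, map_one, Module.End.one_apply]
      rw [map_add, LinearMap.add_apply, map_mul, Module.End.mul_apply, hy, map_zero, zero_add,
        mul_comm b c', map_mul, Module.End.mul_apply] at h3
      rw [hz]
      exact h3.symm
    have h4 : a₀ • y = aeval φ' c ((φ ^ c.natDegree) z) := by
      rw [← Module.End.mul_apply, rev_id c φ φ' h2, hrev, map_mul, aeval_C, Module.End.mul_apply,
        Module.algebraMap_end_apply, ← hy']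
    have h5 : polar Q x (a₀ • y) = 0 := by
      rw [h4, ← adj_aeval Q φ φ' h1 hφ, hx]
      simp
    rw [polar_smul_r] at h5
    exact (mul_eq_zero.mp h5).resolve_left ha₀
  by_cases h20 : (2 : F) = 0
  · obtain ⟨a, b, hab⟩ := hL
    obtain ⟨z, hz⟩ : ∃ z, z = aeval φ b x := ⟨_, rfl⟩
    have hzc : aeval φ c z = 0 := by
      rw [hz, ← Module.End.mul_apply, ← map_mul, mul_comm, map_mul, Module.End.mul_apply, hx,
        map_zero]
    have hφzc : aeval φ c (φ z) = 0 := by
      have e1 : aeval φ c (φ z) = aeval φ (c * X) z := by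
        rw [map_mul, aeval_X, Module.End.mul_apply]
      have e2 : φ (aeval φ c z) = aeval φ (X * c) z := by
        rw [map_mul, aeval_X, Module.End.mul_apply]
      rw [e1, mul_comm, ← e2, hzc, map_zero]
    have hx' : x = φ z - z := by
      have h3 : aeval φ (a * c + b * (X - C 1)) x = x := by
        rw [hab, map_one, Module.End.one_apply]
      rw [map_add, LinearMap.add_apply, map_mul, Module.End.mul_apply, hx, map_zero, zero_add,
        mul_comm b, map_mul, Module.End.mul_apply, ← hz, map_sub, aeval_X, aeval_C, map_one,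
        LinearMap.sub_apply, Module.End.one_apply] at h3
      exact h3.symm
    rw [hx', q_sub', hφ, hA _ _ hφzc hzc]
    linear_combination (Q z) * h20
  · have h3 := hA x x hx hx
    rw [polar_self'] at h3
    exact (mul_eq_zero.mp h3).resolve_left h20

variable [Fintype F] [FiniteDimensional F V]

/-- Obstruction, odd case: an isometry whose characteristic polynomial splits as `c₁ · c₁*` with
coprime factors (and no eigenvalue `1`) lives on a hyperbolic space. -/
theorem obs_odd (Q : QuadraticForm F V) (hS : Sep Q) {k : ℕ}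
    (hfin : finrank F V = 2 * (k + 1)) (φ φ' : Module.End F V) (h1 : φ * φ' = 1)
    (h2 : φ' * φ = 1) (hφ : ∀ v, Q (φ v) = Q v) (c₁ : F[X]) (hc₁m : c₁.Monic)
    (hc₁0 : c₁.coeff 0 ≠ 0) (hcop : IsCoprime c₁ (rstar (RingHom.id F) c₁))
    (hann : aeval φ (c₁ * rstar (RingHom.id F) c₁) = 0)
    (hL1 : IsCoprime c₁ (X - C 1)) (hL2 : IsCoprime (rstar (RingHom.id F) c₁) (X - C 1)) :
    Nat.card {v : V // Q v = 0} * Fintype.card F
      = Fintype.card F ^ (k + 1 + 1)
        + (Fintype.card F ^ (k + 1) - 1) * Fintype.card F ^ (k + 1) := by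
  obtain ⟨c₂, hc₂⟩ : ∃ c₂, c₂ = rstar (RingHom.id F) c₁ := ⟨_, rfl⟩
  rw [← hc₂] at hcop hann hL2
  have hid2 : ∀ x : F, (RingHom.id F) ((RingHom.id F) x) = x := fun x => rfl
  have hrev1 : c₁.reverse = C (c₁.coeff 0) * c₂ := by
    rw [hc₂]
    unfold rstar
    rw [Polynomial.map_id, RingHom.id_apply, ← mul_assoc, ← C_mul, mul_inv_cancel₀ hc₁0, C_1,
      one_mul]
  have hc₂0 : c₂.coeff 0 ≠ 0 := by
    rw [hc₂, rstar_coeff_zero _ c₁ hc₁m]
    exact inv_ne_zero hc₁0
  have hrev2 : c₂.reverse = C (c₂.coeff 0) * c₁ := by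
    have hss : rstar (RingHom.id F) c₂ = c₁ := by
      rw [hc₂]
      exact rstar_star _ hid2 c₁ hc₁m hc₁0
    conv_rhs => rw [← hss]
    unfold rstar
    rw [Polynomial.map_id, RingHom.id_apply, ← mul_assoc, ← C_mul, mul_inv_cancel₀ hc₂0, C_1,
      one_mul]
  have hW₁ : ∀ x ∈ LinearMap.ker (aeval φ c₁), Q x = 0 := fun x hx =>
    ts_ker Q φ φ' h1 h2 hφ c₁ c₂ _ hc₁0 hrev1 hcop hL1 x (LinearMap.mem_ker.mp hx)
  have hW₂ : ∀ x ∈ LinearMap.ker (aeval φ c₂), Q x = 0 := fun x hx =>
    ts_ker Q φ φ' h1 h2 hφ c₂ c₁ _ hc₂0 hrev2 hcop.symm hL2 x (LinearMap.mem_ker.mp hx)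
  have hsup : LinearMap.ker (aeval φ c₁) ⊔ LinearMap.ker (aeval φ c₂) = ⊤ := by
    rw [Polynomial.sup_ker_aeval_eq_ker_aeval_mul_of_coprime φ hcop, hann, LinearMap.ker_zero]
  have hdim := Submodule.finrank_sup_add_finrank_inf_eq (LinearMap.ker (aeval φ c₁))
    (LinearMap.ker (aeval φ c₂))
  rw [hsup, finrank_top, hfin] at hdim
  have hor : k + 1 ≤ finrank F (LinearMap.ker (aeval φ c₁)) ∨
      k + 1 ≤ finrank F (LinearMap.ker (aeval φ c₂)) := by omega
  rcases hor with h | h
  · obtain ⟨e, f, hH⟩ := hyp_of_ts' hS hfin hW₁ h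
    exact card_P Q hH hfin
  · obtain ⟨e, f, hH⟩ := hyp_of_ts' hS hfin hW₂ h
    exact card_P Q hH hfin

/-- A fixed-point-free isometry of prime order `r` permutes the non-zero singular vectors
freely. -/
theorem dvd_sing (Q : QuadraticForm F V) {r : ℕ} [Fact r.Prime] (g : V ≃ₗ[F] V) (hg : g ∈ O Q)
    (hgr : g ^ r = 1) (hfree : ∀ v, v ≠ 0 → g v ≠ v) :
    ∃ s, Nat.card {v : V // Q v = 0} = 1 + s ∧ r ∣ s := by
  classical
  have : Finite V := Module.finite_of_finite F
  have : Fintype V := Fintype.ofFinite V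
  set π₀ : Equiv.Perm V := MulAction.toPermHom (V ≃ₗ[F] V) V g with hπ₀
  have hπ₀a : ∀ v, π₀ v = g v := fun v => rfl
  have hπ₀r : π₀ ^ r = 1 := by rw [hπ₀, ← map_pow, hgr, map_one]
  have hp : ∀ v, (Q (π₀ v) = 0 ∧ π₀ v ≠ 0) ↔ (Q v = 0 ∧ v ≠ 0) := by
    intro v
    rw [hπ₀a, hg v]
    constructor
    · rintro ⟨h1, h2⟩
      refine ⟨h1, ?_⟩
      rintro rfl
      exact h2 (map_zero g)
    · rintro ⟨h1, h2⟩
      refine ⟨h1, ?_⟩
      intro h0
      apply h2
      rw [← map_zero g] at h0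
      exact g.injective h0
  set π : Equiv.Perm {v : V // Q v = 0 ∧ v ≠ 0} := π₀.subtypePerm hp with hπ
  have hπr : π ^ r ^ 1 = 1 := by
    rw [pow_one, hπ, Equiv.Perm.subtypePerm_pow]
    simp only [hπ₀r]
    rfl
  have hdS : r ∣ Fintype.card {v : V // Q v = 0 ∧ v ≠ 0} := by
    by_contra hnd
    obtain ⟨⟨v, hv1, hv2⟩, hfix⟩ := Equiv.Perm.exists_fixed_point_of_prime hnd hπr
    apply hfree v hv2
    have := congrArg Subtype.val hfix
    exact this
  have hZ : Nat.card {v : V // Q v = 0} = 1 + Nat.card {v : V // Q v = 0 ∧ v ≠ 0} := by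
    have e := Nat.card_congr
      (Equiv.sumCompl (fun x : {v : V // Q v = 0} => (x : V) = 0))
    rw [Nat.card_sum] at e
    rw [← e]
    congr 1
    · rw [Nat.card_eq_one_iff_unique]
      refine ⟨⟨?_⟩, ⟨⟨⟨0, QuadraticMap.map_zero Q⟩, rfl⟩⟩⟩
      rintro ⟨⟨w, hw⟩, hw0⟩ ⟨⟨w', hw'⟩, hw0'⟩
      apply Subtype.ext
      apply Subtype.ext
      exact hw0.trans hw0'.symm
    · exact Nat.card_congr
        (Equiv.subtypeSubtypeEquivSubtypeInter (fun v : V => Q v = 0) (fun v : V => ¬ v = 0))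
  exact ⟨_, hZ, by rw [Nat.card_eq_fintype_card]; exact hdS⟩

/-- Obstruction, even case: the type of a space carrying a fixed-point-free isometry of odd prime
order `r` with `q` of even order `i` modulo `r` is determined by the parity of `dim / i`. -/
theorem obs_even (Q : QuadraticForm F V) (hS : Sep Q) {k : ℕ}
    (hfin : finrank F V = 2 * (k + 1)) {r : ℕ} [Fact r.Prime] (hodd : r ≠ 2)
    (g : V ≃ₗ[F] V) (hg : g ∈ O Q) (hgr : g ^ r = 1) (hfree : ∀ v, v ≠ 0 → g v ≠ v)
    (i : ℕ) (hi : i = orderOf ((Fintype.card F : ℕ) : ZMod r)) (hev : Even i) (K : ℕ)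
    (hK : 2 * (k + 1) = i * K) :
    (Even K → Nat.card {v : V // Q v = 0} * Fintype.card F
      = Fintype.card F ^ (k + 1 + 1)
        + (Fintype.card F ^ (k + 1) - 1) * Fintype.card F ^ (k + 1)) ∧
    (¬ Even K → Nat.card {v : V // Q v = 0} * Fintype.card F
      = Fintype.card F ^ (k + 1)
        + Fintype.card F ^ 2 * ((Fintype.card F ^ k - 1) * Fintype.card F ^ k)) := by
  have hr : r.Prime := Fact.out
  obtain ⟨s, hs1, hs2⟩ := dvd_sing Q g hg hgr hfree
  obtain ⟨X, hX⟩ : ∃ X : ZMod r, X = ((Fintype.card F : ℕ) : ZMod r) := ⟨_, rfl⟩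
  rw [← hX] at hi
  have hsing : ((Nat.card {v : V // Q v = 0} : ℕ) : ZMod r) = 1 := by
    rw [hs1, Nat.cast_add, Nat.cast_one, (ZMod.natCast_eq_zero_iff s r).mpr hs2, add_zero]
  obtain ⟨j, hj⟩ := hev
  have hjK : k + 1 = j * K := by
    have h3 : 2 * (k + 1) = 2 * (j * K) := by
      rw [hK, hj]
      ring
    omega
  have hjpos : 0 < j := by
    rcases Nat.eq_zero_or_pos j with h | h
    · subst h
      simp at hjK
    · exact h
  have h2ne : (2 : ZMod r) ≠ 0 := by
    intro h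
    have h7 : ((2 : ℕ) : ZMod r) = 0 := by
      rw [Nat.cast_ofNat]
      exact h
    have h8 := (ZMod.natCast_eq_zero_iff _ _).mp h7
    exact hodd ((Nat.prime_dvd_prime_iff_eq hr Nat.prime_two).mp h8)
  have hXj : X ^ j = -1 := by
    have h1 : (X ^ j) ^ 2 = 1 := by
      rw [← pow_mul, mul_comm, two_mul, ← hj, hi, pow_orderOf_eq_one]
    have h2 : X ^ j ≠ 1 := by
      apply pow_ne_one_of_lt_orderOf
      · omega
      · rw [← hi]
        omega
    have h4 : (X ^ j - 1) * (X ^ j + 1) = 0 := by linear_combination h1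
    rcases mul_eq_zero.mp h4 with h | h
    · exact absurd (sub_eq_zero.mp h) h2
    · exact eq_neg_of_add_eq_zero_left h
  have hXk : X ^ (k + 1) = (-1) ^ K := by rw [hjK, pow_mul, hXj]
  have hX1 : X ≠ 1 := by
    intro h
    have h3 : orderOf X = 1 := orderOf_eq_one_iff.mpr h
    omega
  have hfin2 : ∀ Y : ZMod r, (2 : ZMod r) * (Y - 1) = 0 → Y = 1 := by
    intro Y h
    rcases mul_eq_zero.mp h with h | h
    · exact absurd h h2ne
    · exact sub_eq_zero.mp h
  rcases exists_hyp_even k V Q hfin hS with ⟨e, f, hH⟩ | ⟨e, f, x, y, ζ, hH, hE, ho⟩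
  · have c := card_P Q hH hfin
    have hone : 1 ≤ Fintype.card F ^ (k + 1) := Nat.one_le_pow _ _ Fintype.card_pos
    have cz := congrArg (Nat.cast : ℕ → ZMod r) c
    rw [Nat.cast_mul, hsing, one_mul, Nat.cast_add, Nat.cast_mul, Nat.cast_sub hone, Nat.cast_pow,
      Nat.cast_pow, Nat.cast_one, ← hX] at cz
    refine ⟨fun _ => c, fun hK' => ?_⟩
    exfalso
    have hKo : Odd K := Nat.not_even_iff_odd.mp hK'
    rw [hKo.neg_one_pow] at hXk
    rw [pow_succ X (k + 1)] at cz
    apply hX1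
    apply hfin2
    linear_combination cz + (X + X ^ (k + 1) - 2) * hXk
  · have c := card_M Q hH hE ho hfin
    have hone : 1 ≤ Fintype.card F ^ k := Nat.one_le_pow _ _ Fintype.card_pos
    have cz := congrArg (Nat.cast : ℕ → ZMod r) c
    rw [Nat.cast_mul, hsing, one_mul, Nat.cast_add, Nat.cast_mul, Nat.cast_mul, Nat.cast_sub hone,
      Nat.cast_pow, Nat.cast_pow, Nat.cast_pow, Nat.cast_one, ← hX] at cz
    refine ⟨fun hK' => ?_, fun _ => c⟩
    exfalso
    rw [hK'.neg_one_pow, pow_succ] at hXk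
    rw [pow_succ X k] at cz
    apply hX1
    apply hfin2
    linear_combination cz - (X - X * X ^ k - 2) * hXk

end Cfsg.Agent.Lib.Helper44.OTyp2
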