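import Mathlib
import Cfsg.Agent.Lib.Helper40.StarCore
import Cfsg.Agent.Lib.Helper40.SympConj
import Cfsg.Agent.Lib.Helper44.WittND
import Cfsg.Agent.Lib.Helper44.OMat

set_option autoImplicit false
set_option linter.unusedSectionVars false

namespace Cfsg.Agent.Lib.Helper44.OConj

open Module QuadraticMap
open Cfsg.Agent.Lib.Helper44.QSpace Cfsg.Agent.Lib.Helper44.OGroup Cfsg.Agent.Lib.Helper44.WittND
open Cfsg.Agent.Lib.Helper40.StarCore Cfsg.Agent.Lib.Helper40.SympConj

universe u

variable {F : Type*} [Field F] {V : Type u} [AddCommGroup V] [Module F V] [FiniteDimensional F V]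
variable {Q : QuadraticForm F V}

/-- The adjoint with respect to the polar form. -/
noncomputable def st (hβ : (polarBilin Q).Nondegenerate) (φ : Module.End F V) : Module.End F V :=
  LinearMap.BilinForm.leftAdjointOfNondegenerate (polarBilin Q) hβ φ

theorem st_spec (hβ : (polarBilin Q).Nondegenerate) (φ : Module.End F V) (u v : V) :
    polar Q (st hβ φ u) v = polar Q u (φ v) :=
  LinearMap.BilinForm.isAdjointPairLeftAdjointOfNondegenerate (polarBilin Q) hβ φ u v

theorem st_unique (hβ : (polarBilin Q).Nondegenerate) (φ ψ : Module.End F V)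
    (h : ∀ u v, polar Q (ψ u) v = polar Q u (φ v)) : ψ = st hβ φ :=
  (LinearMap.BilinForm.isAdjointPair_iff_eq_of_nondegenerate (polarBilin Q) hβ ψ φ).mp (fun u v => h u v)

theorem st_add (hβ : (polarBilin Q).Nondegenerate) (φ ψ : Module.End F V) :
    st hβ (φ + ψ) = st hβ φ + st hβ ψ := by
  symm
  apply st_unique
  intro u v
  rw [LinearMap.add_apply, LinearMap.add_apply, polar_add_left, polar_add_right, st_spec, st_spec]

theorem st_mul (hβ : (polarBilin Q).Nondegenerate) (φ ψ : Module.End F V) :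
    st hβ (φ * ψ) = st hβ ψ * st hβ φ := by
  symm
  apply st_unique
  intro u v
  rw [Module.End.mul_apply, Module.End.mul_apply, st_spec, st_spec]

theorem st_one (hβ : (polarBilin Q).Nondegenerate) : st hβ (1 : Module.End F V) = 1 := by
  symm
  apply st_unique
  intro u v
  rfl

theorem st_st (hβ : (polarBilin Q).Nondegenerate) (φ : Module.End F V) :
    st hβ (st hβ φ) = φ := by
  symm
  apply st_unique
  intro u v
  rw [polar_comm Q u, st_spec, polar_comm]

theorem st_algebraMap (hβ : (polarBilin Q).Nondegenerate) (r : F) :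
    st hβ (algebraMap F (Module.End F V) r) = algebraMap F (Module.End F V) r := by
  symm
  apply st_unique
  intro u v
  rw [Module.algebraMap_end_apply, Module.algebraMap_end_apply, polar_smul_l, polar_smul_r]

theorem eq_of_polar (hS : Sep Q) {u u' : V} (h : ∀ v, polar Q u v = polar Q u' v) : u = u' := by
  have h1 : u - u' = 0 := by
    apply hS
    intro v
    rw [polar_sub_left, h v, sub_self]
  exact sub_eq_zero.mp h1

theorem q_sub (Q : QuadraticForm F V) (x y : V) : Q (x - y) = Q x + Q y - polar Q x y := by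
  have h := q_add Q (x - y) y
  rw [sub_add_cancel, polar_sub_left] at h
  have h2 := polar_self' Q y
  rw [h, h2]
  ring

theorem polar_O {g : V ≃ₗ[F] V} (hg : g ∈ O Q) (u v : V) : polar Q (g u) (g v) = polar Q u v := by
  unfold polar
  rw [← map_add, hg (u + v), hg u, hg v]

theorem pow_apply_equiv (a : V ≃ₗ[F] V) (k : ℕ) (v : V) :
    (a ^ k) v = ((a.toLinearMap : Module.End F V) ^ k) v := by
  induction k generalizing v with
  | zero => rfl
  | succ k ih =>
    rw [pow_succ, pow_succ, LinearEquiv.mul_apply, Module.End.mul_apply, ih]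
    rfl

/-- Wall-type conjugacy for orthogonal groups: an isometry `a` of odd order prime to the
characteristic that is `GL`-conjugate to the isometry `b` is conjugate to it by an isometry. -/
theorem conj_core [Finite F] (hS : Sep Q) {a b x : V ≃ₗ[F] V} (ha : a ∈ O Q) (hb : b ∈ O Q)
    (N : ℕ) (hN : (N : F) ≠ 0) (hodd : Odd N) (haN : a ^ N = 1) (hx : x * a = b * x) :
    ∃ g ∈ O Q, g * a = b * g := by
  classical
  have hβ : (polarBilin Q).Nondegenerate := nondegenerate_of_sep hS
  haveI : Finite V := Module.finite_of_finite F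
  haveI : Finite (Module.End F V) := DFunLike.finite _
  obtain ⟨A, hA⟩ : ∃ A : Module.End F V, A = a.toLinearMap := ⟨_, rfl⟩
  obtain ⟨B, hB⟩ : ∃ B : Module.End F V, B = b.toLinearMap := ⟨_, rfl⟩
  obtain ⟨X, hX⟩ : ∃ X : Module.End F V, X = x.toLinearMap := ⟨_, rfl⟩
  have hAv : ∀ v, A v = a v := fun v => by rw [hA]; rfl
  have hBv : ∀ v, B v = b v := fun v => by rw [hB]; rfl
  have hXv : ∀ v, X v = x v := fun v => by rw [hX]; rfl
  have hXA : X * A = B * X := by
    apply LinearMap.ext; intro v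
    rw [Module.End.mul_apply, Module.End.mul_apply, hAv, hXv, hXv, hBv]
    exact congrArg (fun g : V ≃ₗ[F] V => g v) hx
  have hAN : A ^ N = 1 := by
    apply LinearMap.ext; intro v
    rw [hA, ← pow_apply_equiv, haN]; rfl
  have hpA : ∀ u v, polar Q (A u) (A v) = polar Q u v := fun u v => by
    rw [hAv, hAv]; exact polar_O ha u v
  have hpB : ∀ u v, polar Q (B u) (B v) = polar Q u v := fun u v => by
    rw [hBv, hBv]; exact polar_O hb u v
  obtain ⟨σ, hσ⟩ : ∃ σ : Module.End F V → Module.End F V, σ = st hβ := ⟨_, rfl⟩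
  have σ_spec : ∀ φ u v, polar Q (σ φ u) v = polar Q u (φ v) := by
    intro φ u v; rw [hσ]; exact st_spec hβ φ u v
  have σ_add : ∀ φ ψ, σ (φ + ψ) = σ φ + σ ψ := by intro φ ψ; rw [hσ]; exact st_add hβ φ ψ
  have σ_mul : ∀ φ ψ, σ (φ * ψ) = σ ψ * σ φ := by intro φ ψ; rw [hσ]; exact st_mul hβ φ ψ
  have σ_one : σ 1 = 1 := by rw [hσ]; exact st_one hβ
  have σ_σ : ∀ φ, σ (σ φ) = φ := by intro φ; rw [hσ]; exact st_st hβ φ
  have σ_alg : ∀ r : F, σ (algebraMap F (Module.End F V) r) = algebraMap F (Module.End F V) r := by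
    intro r; rw [hσ]; exact st_algebraMap hβ r
  have hstA : σ A * A = 1 := by
    apply LinearMap.ext; intro u
    apply eq_of_polar hS; intro v
    rw [Module.End.mul_apply, σ_spec, Module.End.one_apply, ← hpA u v]
  have hstB : σ B * B = 1 := by
    apply LinearMap.ext; intro u
    apply eq_of_polar hS; intro v
    rw [Module.End.mul_apply, σ_spec, Module.End.one_apply, ← hpB u v]
  have hAst : A * σ A = 1 := by
    apply LinearMap.ext; intro v
    have h1 : v = A (a.symm v) := by rw [hAv, LinearEquiv.apply_symm_apply]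
    have h2 : σ A (A (a.symm v)) = a.symm v := by
      have := congrArg (fun φ : Module.End F V => φ (a.symm v)) hstA
      simpa using this
    rw [Module.End.mul_apply, Module.End.one_apply]
    nth_rewrite 1 [h1]
    rw [h2, ← h1]
  -- the Gram element
  obtain ⟨s, hs⟩ : ∃ s, s = σ X * X := ⟨_, rfl⟩
  have hss : σ s = s := by rw [hs, σ_mul, σ_σ]
  have hs_spec : ∀ u v, polar Q (s u) v = polar Q (X u) (X v) := by
    intro u v
    rw [hs, Module.End.mul_apply, σ_spec]
  have hsinj : Function.Injective s := by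
    rw [← LinearMap.ker_eq_bot, LinearMap.ker_eq_bot']
    intro v hv
    have h1 : X v = 0 := by
      apply hS
      intro w
      have h2 := hs_spec v (x.symm w)
      rw [hv, hXv (x.symm w), LinearEquiv.apply_symm_apply] at h2
      rw [← h2]
      exact polar_zero_left (Q := Q) _
    rw [hXv] at h1
    exact (LinearEquiv.map_eq_zero_iff x).mp h1
  have hsu : IsUnit s := by
    rw [LinearMap.isUnit_iff_ker_eq_bot]
    exact LinearMap.ker_eq_bot.mpr hsinj
  have hsA : s * A = A * s := by
    have h1 : σ A * s * A = s := by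
      calc σ A * s * A = σ (X * A) * (X * A) := by
            rw [hs, σ_mul]
            simp only [mul_assoc]
        _ = σ (B * X) * (B * X) := by rw [hXA]
        _ = σ X * (σ B * B) * X := by
            rw [σ_mul]
            simp only [mul_assoc]
        _ = s := by rw [hstB, mul_one, hs]
    calc s * A = (A * σ A) * s * A := by rw [hAst, one_mul]
      _ = A * (σ A * s * A) := by simp only [mul_assoc]
      _ = A * s := by rw [h1]
  have hsAs : s * σ A = σ A * s := by
    calc s * σ A = (σ A * A) * s * σ A := by rw [hstA, one_mul]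
      _ = σ A * (A * s) * σ A := by simp only [mul_assoc]
      _ = σ A * (s * A) * σ A := by rw [hsA]
      _ = σ A * s * (A * σ A) := by simp only [mul_assoc]
      _ = σ A * s := by rw [hAst, mul_one]
  -- the projection onto the fixed space
  obtain ⟨T, hT⟩ : ∃ T, T = A ^ 2 := ⟨_, rfl⟩
  have hTN : T ^ N = 1 := by rw [hT, ← pow_mul, mul_comm, pow_mul, hAN, one_pow]
  obtain ⟨k, hk⟩ := hodd
  have hATk : A = T ^ (k + 1) := by
    rw [hT, ← pow_mul]
    have h1 : 2 * (k + 1) = N + 1 := by omega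
    rw [h1, pow_succ, hAN, one_mul]
  have hσT : σ T * T = 1 := by
    rw [hT, pow_two, σ_mul]
    calc σ A * σ A * (A * A) = σ A * (σ A * A) * A := by simp only [mul_assoc]
      _ = 1 := by rw [hstA, mul_one, hstA]
  obtain ⟨P, hP⟩ : ∃ P, P = Pr (F := F) T N := ⟨_, rfl⟩
  obtain ⟨Y, hY⟩ : ∃ Y, Y = Yr (F := F) T N := ⟨_, rfl⟩
  have hPP : P * P = P := by rw [hP]; exact Pr_idem T N hN hTN
  have hTP : T * P = P := by rw [hP]; exact T_mul_Pr T N hTN
  have hPT : P * T = P := by rw [hP]; exact Pr_mul_T T N hTN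
  have hAP : A * P = P := by rw [hATk]; exact pow_mul_of_mul T P hTP (k + 1)
  have hPA : P * A = P := by rw [hATk]; exact mul_pow_of_mul T P hPT (k + 1)
  have hσP : σ P = P := by
    rw [hP]
    exact st_Pr (F := F) σ σ_mul σ_σ T N hN hTN hσT
  have hcAT : Commute A T := by rw [hT]; exact (Commute.refl A).pow_right 2
  have hcAY : Commute A Y := by rw [hY]; exact commute_Yr T A N hcAT
  have hcsT : Commute s T := by rw [hT]; exact (show Commute s A from hsA).pow_right 2
  obtain ⟨e, he⟩ : ∃ e, e = 1 - P := ⟨_, rfl⟩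
  have hee : e * e = e := by
    rw [he, mul_sub, mul_one, sub_mul, one_mul, hPP, sub_self, sub_zero]
  have hσe : σ e = e := by
    rw [he]
    have h1 : σ (1 - P) + σ P = σ 1 := by rw [← σ_add, sub_add_cancel]
    rw [σ_one, hσP] at h1
    exact eq_sub_of_add_eq h1
  have hPe : P * e = 0 := by rw [he, mul_sub, mul_one, hPP, sub_self]
  have heP : e * P = 0 := by rw [he, sub_mul, one_mul, hPP, sub_self]
  have hAe : A * e = e * A := by rw [he, mul_sub, sub_mul, mul_one, one_mul, hAP, hPA]
  have heTY : e = (1 - T) * Y := by rw [he, hP, hY]; exact one_sub_Pr T N hN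
  -- the commutative subring
  obtain ⟨S₀, hS₀⟩ : ∃ S₀ : Set (Module.End F V),
      S₀ = {A, σ A, s} ∪ Set.range (algebraMap F (Module.End F V)) := ⟨_, rfl⟩
  have hmemS : ∀ z, z ∈ S₀ ↔ (z = A ∨ z = σ A ∨ z = s) ∨
      ∃ r : F, algebraMap F (Module.End F V) r = z := by
    intro z
    rw [hS₀]
    rfl
  have hcomm : ∀ z ∈ S₀, ∀ w ∈ S₀, z * w = w * z := by
    intro z hz w hw
    rcases (hmemS z).mp hz with (hz1 | hz1 | hz1) | ⟨r, hz1⟩
    · rcases (hmemS w).mp hw with (hw1 | hw1 | hw1) | ⟨r', hw1⟩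
      · rw [hz1, hw1]
      · rw [hz1, hw1, hAst, hstA]
      · rw [hz1, hw1, hsA]
      · rw [← hw1]; exact (Algebra.commutes r' z).symm
    · rcases (hmemS w).mp hw with (hw1 | hw1 | hw1) | ⟨r', hw1⟩
      · rw [hz1, hw1, hAst, hstA]
      · rw [hz1, hw1]
      · rw [hz1, hw1, hsAs]
      · rw [← hw1]; exact (Algebra.commutes r' z).symm
    · rcases (hmemS w).mp hw with (hw1 | hw1 | hw1) | ⟨r', hw1⟩
      · rw [hz1, hw1, hsA]
      · rw [hz1, hw1, hsAs]
      · rw [hz1, hw1]
      · rw [← hw1]; exact (Algebra.commutes r' z).symm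
    · rw [← hz1]; exact Algebra.commutes r w
  have hstar : ∀ z ∈ S₀, σ z ∈ S₀ := by
    intro z hz
    rcases (hmemS z).mp hz with (hz1 | hz1 | hz1) | ⟨r, hz1⟩
    · rw [hz1]; exact (hmemS _).mpr (Or.inl (Or.inr (Or.inl rfl)))
    · rw [hz1, σ_σ]; exact (hmemS _).mpr (Or.inl (Or.inl rfl))
    · rw [hz1, hss]; exact (hmemS _).mpr (Or.inl (Or.inr (Or.inr rfl)))
    · rw [← hz1, σ_alg]; exact (hmemS _).mpr (Or.inr ⟨r, rfl⟩)
  have hAS : A ∈ Subring.closure S₀ := Subring.subset_closure ((hmemS _).mpr (Or.inl (Or.inl rfl)))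
  have hsS : s ∈ Subring.closure S₀ :=
    Subring.subset_closure ((hmemS _).mpr (Or.inl (Or.inr (Or.inr rfl))))
  have halgS : ∀ r : F, algebraMap F (Module.End F V) r ∈ Subring.closure S₀ :=
    fun r => Subring.subset_closure ((hmemS _).mpr (Or.inr ⟨r, rfl⟩))
  have hTS : T ∈ Subring.closure S₀ := by rw [hT]; exact Subring.pow_mem _ hAS 2
  have hPS : P ∈ Subring.closure S₀ := by rw [hP]; exact Pr_mem T N _ hTS halgS
  have hYS : Y ∈ Subring.closure S₀ := by rw [hY]; exact Yr_mem T N _ hTS halgS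
  have heS : e ∈ Subring.closure S₀ := by rw [he]; exact Subring.sub_mem _ (Subring.one_mem _) hPS
  have hyS : -(A * Y) ∈ Subring.closure S₀ := Subring.neg_mem _ (Subring.mul_mem _ hAS hYS)
  have hθy : (A - σ A) * (-(A * Y)) = e := by
    rw [heTY, hT, pow_two]
    calc (A - σ A) * (-(A * Y)) = -(A * A * Y) + (σ A * A) * Y := by
          rw [sub_mul, mul_neg, mul_neg, sub_neg_eq_add, neg_add_eq_sub, neg_add_eq_sub]
          simp only [mul_assoc]
      _ = (1 - A * A) * Y := by rw [hstA, sub_mul, one_mul]; abel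
  obtain ⟨c, hcS, hc⟩ := star_core σ σ_add σ_mul σ_one σ_σ S₀ hcomm hstar e A (-(A * Y)) s heS hee hσe
    hAS hyS hθy hsS hsu hss
  have hcA : c * A = A * c := by
    apply closure_commute S₀ A _ c hcS
    intro z hz
    exact hcomm z hz A ((hmemS _).mpr (Or.inl (Or.inl rfl)))
  have hcT : Commute c T := by rw [hT]; exact (show Commute c A from hcA).pow_right 2
  have hcP : c * P = P * c := by rw [hP]; exact (commute_Pr T c N hcT).eq
  have hce : c * e = e * c := by rw [he, mul_sub, sub_mul, mul_one, one_mul, hcP]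
  -- the subspace W
  obtain ⟨W, hW⟩ : ∃ W : Submodule F V, W = LinearMap.range e := ⟨_, rfl⟩
  have hWmem : ∀ w, w ∈ W ↔ e w = w := by
    intro w
    rw [hW]
    constructor
    · rintro ⟨v, rfl⟩
      rw [← Module.End.mul_apply, hee]
    · intro h
      exact ⟨w, h⟩
  have hPW : ∀ w ∈ W, P w = 0 := by
    intro w hw
    rw [← (hWmem w).mp hw, ← Module.End.mul_apply, hPe]
    rfl
  have hWofP : ∀ w, P w = 0 → w ∈ W := by
    intro w hw
    rw [hWmem, he, LinearMap.sub_apply, hw, sub_zero]
    rfl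
  have hAW : ∀ w ∈ W, A w ∈ W := by
    intro w hw
    rw [hWmem, ← Module.End.mul_apply, ← hAe, Module.End.mul_apply, (hWmem w).mp hw]
  have hcW : ∀ w ∈ W, c w ∈ W := by
    intro w hw
    rw [hWmem, ← Module.End.mul_apply, ← hce, Module.End.mul_apply, (hWmem w).mp hw]
  -- polar forms agree on W
  have hpol : ∀ u ∈ W, ∀ v, polar Q (X u) (X v) = polar Q (c u) (c v) := by
    intro u hu v
    rw [← hs_spec, ← σ_spec c (c u) v, ← Module.End.mul_apply]
    have h1 : (σ c * c) u = s u := by
      have h2 := congrArg (fun φ : Module.End F V => φ u) hc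
      simp only [Module.End.mul_apply] at h2
      rw [(hWmem u).mp hu] at h2
      exact h2
    rw [h1]
  have hqW : ∀ u ∈ W, Q (X u) = Q (c u) := by
    intro u hu
    obtain ⟨z, hz⟩ : ∃ z, z = ((1 + A) * Y) u := ⟨_, rfl⟩
    have hzW : z ∈ W := by
      apply hWofP
      have hcPA : Commute P A := by rw [Commute, SemiconjBy, hPA, hAP]
      have hcPY : Commute P Y := by
        rw [hY]; exact commute_Yr T P N (show Commute P T by rw [Commute, SemiconjBy, hPT, hTP])
      have hcPZ : Commute P ((1 + A) * Y) := ((Commute.one_right P).add_right hcPA).mul_right hcPY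
      rw [hz, ← Module.End.mul_apply, hcPZ.eq, Module.End.mul_apply, hPW u hu, map_zero]
    have hzu : u = z - A z := by
      have h1 : (1 - A) * ((1 + A) * Y) = e := by
        rw [heTY, hT, pow_two, ← mul_assoc]
        congr 1
        rw [sub_mul, mul_add, mul_add, one_mul, one_mul, mul_one]
        abel
      have h2 : (1 - A) (((1 + A) * Y) u) = e u := by rw [← Module.End.mul_apply, h1]
      rw [(hWmem u).mp hu, ← hz, LinearMap.sub_apply, Module.End.one_apply] at h2
      exact h2.symm
    have hXz : X (A z) = B (X z) := by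
      have := congrArg (fun φ : Module.End F V => φ z) hXA
      simpa using this
    have hcz : c (A z) = A (c z) := by
      have := congrArg (fun φ : Module.End F V => φ z) hcA
      simpa using this
    have hQB : Q (B (X z)) = Q (X z) := by rw [hBv]; exact hb _
    have hQA : Q (A (c z)) = Q (c z) := by rw [hAv]; exact ha _
    have e1 : X u = X z - B (X z) := by rw [hzu, map_sub, hXz]
    have e2 : c u = c z - A (c z) := by rw [hzu, map_sub, hcz]
    rw [e1, e2, q_sub, q_sub, hQB, hQA, ← hXz, ← hcz,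
      hpol z hzW (A z), ← two_mul, ← two_mul, ← polar_self', ← polar_self', hpol z hzW z]
  -- the modified c
  obtain ⟨c', hc'⟩ : ∃ c', c' = c * e + P := ⟨_, rfl⟩
  have hPc' : P * c' = P := by
    rw [hc', mul_add, hPP, ← mul_assoc, ← hcP, mul_assoc, hPe, mul_zero, zero_add]
  have hc'W : ∀ w ∈ W, c' w = c w := by
    intro w hw
    rw [hc', LinearMap.add_apply, Module.End.mul_apply, (hWmem w).mp hw, hPW w hw, add_zero]
  have hc'A : c' * A = A * c' := by
    rw [hc', add_mul, mul_add, hPA, hAP, mul_assoc, ← hAe, ← mul_assoc, hcA, mul_assoc]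
  have hc'inj : Function.Injective c' := by
    rw [← LinearMap.ker_eq_bot, LinearMap.ker_eq_bot']
    intro v hv
    have h1 : P v = 0 := by
      have h2 := congrArg (fun φ : Module.End F V => φ v) hPc'
      simp only [Module.End.mul_apply] at h2
      rw [hv, map_zero] at h2
      exact h2.symm
    have hvW : v ∈ W := hWofP v h1
    have h3 : c v = 0 := by rw [← hc'W v hvW]; exact hv
    have h4 : s v = 0 := by
      have h5 := congrArg (fun φ : Module.End F V => φ v) hc
      simp only [Module.End.mul_apply] at h5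
      rw [(hWmem v).mp hvW, h3, map_zero] at h5
      exact h5.symm
    exact hsinj (by rw [h4, map_zero])
  obtain ⟨cE, hcE⟩ : ∃ cE : V ≃ₗ[F] V, ∀ v, cE v = c' v :=
    ⟨LinearEquiv.ofInjectiveEndo c' hc'inj, fun v => rfl⟩
  have hciW : ∀ w ∈ W, cE.symm w ∈ W := by
    intro w hw
    apply hWofP
    have h2 := congrArg (fun φ : Module.End F V => φ (cE.symm w)) hPc'
    simp only [Module.End.mul_apply] at h2
    rw [← hcE, LinearEquiv.apply_symm_apply, hPW w hw] at h2
    exact h2.symm
  have hci : ∀ w ∈ W, c (cE.symm w) = w := by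
    intro w hw
    rw [← hc'W _ (hciW w hw), ← hcE, LinearEquiv.apply_symm_apply]
  obtain ⟨f, hf⟩ : ∃ f : V →ₗ[F] V, ∀ v, f v = X (cE.symm v) :=
    ⟨X ∘ₗ cE.symm.toLinearMap, fun v => rfl⟩
  have hfQ : ∀ u ∈ W, Q (f u) = Q u := by
    intro u hu
    rw [hf, hqW _ (hciW u hu), hci u hu]
  have hND : NDsub Q W := by
    intro w hw hw0
    apply hS
    intro v
    rw [← (hWmem w).mp hw]
    have h1 : polar Q (e w) v = polar Q w (e v) := by
      nth_rewrite 1 [← hσe]
      exact σ_spec e w v
    rw [h1]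
    exact hw0 _ ((hWmem _).mpr (by rw [← Module.End.mul_apply, hee]))
  obtain ⟨g, hgO, hg⟩ : ∃ g ∈ O Q, ∀ u ∈ W, g u = f u := by
    by_cases h2 : (2 : F) = 0
    · haveI : CharP F 2 := CharTwo.of_one_ne_zero_of_two_eq_zero one_ne_zero h2
      exact witt_two hS _ W f rfl hND hfQ
    · exact witt_odd h2 _ W f rfl hND hfQ
  refine ⟨g, hgO, ?_⟩
  -- intertwining on W
  have h1 : ∀ w ∈ W, g (a w) = b (g w) := by
    intro w hw
    have hAw : A w ∈ W := hAW w hw
    rw [← hAv, hg _ hAw, hg w hw, hf, hf, ← hBv]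
    have h3 : cE.symm (A w) = A (cE.symm w) := by
      apply cE.injective
      rw [LinearEquiv.apply_symm_apply, hcE, ← Module.End.mul_apply, hc'A, Module.End.mul_apply,
        ← hcE, LinearEquiv.apply_symm_apply]
    rw [h3]
    have := congrArg (fun φ : Module.End F V => φ (cE.symm w)) hXA
    simpa using this
  -- intertwining on the fixed space
  have h2 : ∀ v, P v = v → g (a v) = b (g v) := by
    intro v hv
    have hav : a v = v := by
      rw [← hAv, ← hv, ← Module.End.mul_apply, hAP]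
    rw [hav]
    have h3 : ∀ z, polar Q (g v) (B z - z) = 0 := by
      intro z
      obtain ⟨z', hz'⟩ : ∃ z', z' = x.symm z := ⟨_, rfl⟩
      have hz : z = X z' := by rw [hz', hXv, LinearEquiv.apply_symm_apply]
      obtain ⟨w₁, hw₁⟩ : ∃ w₁, w₁ = A z' - z' := ⟨_, rfl⟩
      have hw₁W : w₁ ∈ W := by
        apply hWofP
        rw [hw₁, map_sub, ← Module.End.mul_apply, hPA, sub_self]
      have h4 : B z - z = X w₁ := by
        rw [hz, hw₁, map_sub]
        have := congrArg (fun φ : Module.End F V => φ z') hXA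
        simp only [Module.End.mul_apply] at this
        rw [this]
      obtain ⟨w₂, hw₂⟩ : ∃ w₂, w₂ = c' w₁ := ⟨_, rfl⟩
      have hw₂W : w₂ ∈ W := by rw [hw₂, hc'W w₁ hw₁W]; exact hcW w₁ hw₁W
      have h5 : X w₁ = g w₂ := by
        rw [hg w₂ hw₂W, hf, hw₂, ← hcE, LinearEquiv.symm_apply_apply]
      rw [h4, h5, polar_O hgO, ← hv]
      have h6 : polar Q (P v) w₂ = polar Q v (P w₂) := by
        nth_rewrite 1 [← hσP]
        exact σ_spec P v w₂
      rw [h6, hPW w₂ hw₂W]
      exact polar_zero_right (Q := Q) _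
    symm
    apply eq_of_polar hS
    intro y
    obtain ⟨z, hz⟩ : ∃ z, z = b.symm y := ⟨_, rfl⟩
    have hy : y = B z := by rw [hz, hBv, LinearEquiv.apply_symm_apply]
    have h7 := h3 z
    rw [polar_sub_right, sub_eq_zero] at h7
    rw [hy, ← hBv (g v), hpB, h7]
  apply LinearEquiv.ext
  intro v
  have hv : v = e v + P v := by
    rw [he, LinearMap.sub_apply, Module.End.one_apply, sub_add_cancel]
  have hev : e v ∈ W := (hWmem _).mpr (by rw [← Module.End.mul_apply, hee])
  have hPv : P (P v) = P v := by rw [← Module.End.mul_apply, hPP]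
  rw [LinearEquiv.mul_apply, LinearEquiv.mul_apply]
  have h3 : g (a (e v + P v)) = b (g (e v + P v)) := by
    rw [map_add, map_add, map_add, map_add, h1 _ hev, h2 _ hPv]
  rw [← hv] at h3
  exact h3

open Cfsg.Agent.Lib.Helper44.OMat in
/-- Semisimple elements of odd order of a finite orthogonal group: conjugate in `GL` iff conjugate
in the orthogonal group. -/
theorem main {F : Type*} [Field F] [Fintype F] {p : ℕ} [Fact p.Prime] [CharP F p] {n : ℕ}
    (Q : QuadraticForm F (Fin n → F)) (hQ : (QuadraticMap.polarBilin Q).Nondegenerate)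
    (A B : ↥(Cfsg.isometryGroup F ⇑Q)) (hodd : Odd (orderOf A)) (hA : (orderOf A).Coprime p) :
    IsConj A B ↔ IsConj ((A : Matrix.GeneralLinearGroup (Fin n) F) : Matrix (Fin n) (Fin n) F)
      ((B : Matrix.GeneralLinearGroup (Fin n) F) : Matrix (Fin n) (Fin n) F) := by
  classical
  constructor
  · intro h
    obtain ⟨c, hc⟩ := isConj_iff.mp h
    have h1 : c * A = B * c := by rw [← hc]; group
    have h2 : (c : Matrix.GeneralLinearGroup (Fin n) F) * (A : Matrix.GeneralLinearGroup (Fin n) F)
        = (B : Matrix.GeneralLinearGroup (Fin n) F) * (c : Matrix.GeneralLinearGroup (Fin n) F) :=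
      congrArg Subtype.val h1
    exact ⟨(c : Matrix.GeneralLinearGroup (Fin n) F), congrArg Units.val h2⟩
  · rintro ⟨cu, hcu⟩
    have hpp : p.Prime := Fact.out
    have hN : ((orderOf A : ℕ) : F) ≠ 0 := by
      intro h0
      have h1 := (CharP.cast_eq_zero_iff F p (orderOf A)).mp h0
      have h2 : p ∣ Nat.gcd (orderOf A) p := Nat.dvd_gcd h1 dvd_rfl
      rw [Nat.Coprime.gcd_eq_one hA] at h2
      exact hpp.one_lt.ne' (Nat.dvd_one.mp h2)
    have hS : Sep Q := sep_of_nondegenerate hQ
    have hcu' : (cu : Matrix.GeneralLinearGroup (Fin n) F) * (A : Matrix.GeneralLinearGroup (Fin n) F)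
        = (B : Matrix.GeneralLinearGroup (Fin n) F) * cu := Units.ext hcu
    have hx : glEquiv cu * (isoEquiv Q A : (Fin n → F) ≃ₗ[F] (Fin n → F))
        = (isoEquiv Q B : (Fin n → F) ≃ₗ[F] (Fin n → F)) * glEquiv cu := by
      have h1 := congrArg glEquiv hcu'
      rw [map_mul, map_mul] at h1
      exact h1
    have haN : (isoEquiv Q A : (Fin n → F) ≃ₗ[F] (Fin n → F)) ^ orderOf A = 1 := by
      have h1 : (isoEquiv Q A) ^ orderOf A = 1 := by rw [← map_pow, pow_orderOf_eq_one, map_one]
      exact congrArg Subtype.val h1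
    obtain ⟨g, hg, hga⟩ := conj_core hS (isoEquiv Q A).2 (isoEquiv Q B).2 (orderOf A) hN hodd haN hx
    have h3 : (⟨g, hg⟩ : ↥(O Q)) * isoEquiv Q A = isoEquiv Q B * ⟨g, hg⟩ := Subtype.ext hga
    have h4 : (isoEquiv Q).symm ⟨g, hg⟩ * A = B * (isoEquiv Q).symm ⟨g, hg⟩ := by
      apply (isoEquiv Q).injective
      rw [map_mul, map_mul, MulEquiv.apply_symm_apply]
      exact h3
    exact isConj_iff.mpr ⟨(isoEquiv Q).symm ⟨g, hg⟩, by rw [h4]; group⟩

end Cfsg.Agent.Lib.Helper44.OConj
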