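import Mathlib
import Cfsg.Prelude.Def_Classical
import Cfsg.Agent.Lib.Helper44.QSpace
import Cfsg.Agent.Lib.Helper44.OMat

set_option autoImplicit false

namespace Cfsg.Agent.Lib.Helper44.OExt

open Module QuadraticMap Matrix Polynomial
open Cfsg.Agent.Lib.Helper44.QSpace Cfsg.Agent.Lib.Helper44.OMat

variable {F : Type*} [Field F] {ι τ : Type} [Fintype ι] [DecidableEq ι] [Fintype τ] [DecidableEq τ]

/-- The quadratic form `u ↦ uᵀ N u`. -/
noncomputable def qN (N : Matrix ι ι F) : QuadraticForm F (ι → F) :=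
  LinearMap.BilinMap.toQuadraticMap (Matrix.toBilin' N)

theorem qN_apply (N : Matrix ι ι F) (u : ι → F) : qN N u = u ⬝ᵥ N *ᵥ u := by
  unfold qN
  rw [LinearMap.BilinMap.toQuadraticMap_apply, Matrix.toBilin'_apply']

theorem polar_qN (N : Matrix ι ι F) (x y : ι → F) :
    polar (qN N) x y = x ⬝ᵥ (N + Nᵀ) *ᵥ y := by
  unfold qN
  rw [LinearMap.BilinMap.polar_toQuadraticMap, Matrix.toBilin'_apply', Matrix.toBilin'_apply',
    add_mulVec, dotProduct_add, mulVec_transpose, dotProduct_comm x (y ᵥ* N), ← dotProduct_mulVec]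

theorem polar_eq_dot (Q : QuadraticForm F (τ → F)) (x y : τ → F) :
    polar Q x y = x ⬝ᵥ (LinearMap.BilinForm.toMatrix' (polarBilin Q)) *ᵥ y := by
  rw [← Matrix.toBilin'_apply', Matrix.toBilin'_toMatrix']
  rfl

omit [DecidableEq ι] [DecidableEq τ] in
theorem mulVec_dot (A : Matrix τ ι F) (u : ι → F) (z : τ → F) :
    (A *ᵥ u) ⬝ᵥ z = u ⬝ᵥ (Aᵀ *ᵥ z) := by
  rw [mulVec_transpose, dotProduct_comm u, ← dotProduct_mulVec, dotProduct_comm]

theorem sep_qN {N : Matrix ι ι F} (h : (N + Nᵀ).det ≠ 0) : Sep (qN N) := by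
  intro x hx
  have h1 : x ᵥ* (N + Nᵀ) = 0 := by
    funext i
    have := hx (Pi.single i 1)
    rw [polar_qN, dotProduct_mulVec, dotProduct_single_one] at this
    exact this
  exact Matrix.eq_zero_of_vecMul_eq_zero h h1

theorem qN_isom {N s : Matrix ι ι F} (hs : sᵀ * N * s = N) (u : ι → F) :
    qN N (s *ᵥ u) = qN N u := by
  rw [qN_apply, qN_apply, mulVec_dot, mulVec_mulVec, mulVec_mulVec, hs]

/-- Extension of an isometry along an isometric embedding, acting trivially on the orthogonal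
complement of the image. -/
theorem exists_ext (Q : QuadraticForm F (τ → F)) (N s : Matrix ι ι F)
    (hN : (N + Nᵀ).det ≠ 0) (hs : sᵀ * N * s = N) (r : ℕ) (hr : 0 < r) (hsr : s ^ r = 1)
    (j : (ι → F) →ₗ[F] (τ → F)) (hj : ∀ u, Q (j u) = qN N u)
    (hle : Fintype.card ι ≤ Fintype.card τ) :
    ∃ g : GL τ F, g ∈ Cfsg.isometryGroup F ⇑Q ∧
      (g : Matrix τ τ F).charpoly = (X - C 1) ^ (Fintype.card τ - Fintype.card ι) * s.charpoly ∧
      g ^ r = 1 := by
  classical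
  obtain ⟨J, hJ⟩ : ∃ J : Matrix τ ι F, J = LinearMap.toMatrix' j := ⟨_, rfl⟩
  have hJv : ∀ u, J *ᵥ u = j u := by
    intro u
    rw [hJ, ← Matrix.toLin'_apply, Matrix.toLin'_toMatrix']
  obtain ⟨MT, hMT⟩ : ∃ MT : Matrix τ τ F,
      MT = LinearMap.BilinForm.toMatrix' (polarBilin Q) := ⟨_, rfl⟩
  have hpT : ∀ x y, polar Q x y = x ⬝ᵥ MT *ᵥ y := by
    intro x y
    rw [hMT]
    exact polar_eq_dot Q x y
  obtain ⟨MU, hMU⟩ : ∃ MU : Matrix ι ι F, MU = N + Nᵀ := ⟨_, rfl⟩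
  have hpU : ∀ x y, polar (qN N) x y = x ⬝ᵥ MU *ᵥ y := by
    intro x y
    rw [hMU]
    exact polar_qN N x y
  have hdetU : IsUnit MU.det := isUnit_iff_ne_zero.mpr (hMU ▸ hN)
  have hSU : Sep (qN N) := sep_qN hN
  obtain ⟨Pm, hPm⟩ : ∃ Pm : Matrix ι τ F, Pm = MU⁻¹ * Jᵀ * MT := ⟨_, rfl⟩
  have hstar : ∀ (u' : ι → F) (t : τ → F), polar Q (j u') t = polar (qN N) u' (Pm *ᵥ t) := by
    intro u' t
    have h1 : MU *ᵥ (Pm *ᵥ t) = Jᵀ *ᵥ (MT *ᵥ t) := by
      simp only [hPm, mulVec_mulVec, ← Matrix.mul_assoc, Matrix.mul_nonsing_inv _ hdetU,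
        Matrix.one_mul]
    rw [hpT, hpU, h1, ← hJv, mulVec_dot]
  have hjp : ∀ a b, polar Q (j a) (j b) = polar (qN N) a b := by
    intro a b
    unfold polar
    rw [← map_add, hj, hj, hj]
  have hPmJv : ∀ u, Pm *ᵥ (J *ᵥ u) = u := by
    intro u
    have h1 : Pm *ᵥ (J *ᵥ u) - u = 0 := by
      apply hSU
      intro y
      rw [polar_comm, polar_sub_right, hJv, ← hstar, hjp, sub_self]
    exact sub_eq_zero.mp h1
  have hPmJ : Pm * J = 1 := by
    apply matrix_ext_mulVec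
    intro x
    rw [← mulVec_mulVec, hPmJv, one_mulVec]
  have key : ∀ A B : Matrix ι ι F,
      (1 + J * A * Pm) * (1 + J * B * Pm) = 1 + J * (A + B + A * B) * Pm := by
    intro A B
    have h : J * A * Pm * (J * B * Pm) = J * (A * B) * Pm := by
      calc J * A * Pm * (J * B * Pm) = J * A * (Pm * J) * B * Pm := by
            simp only [Matrix.mul_assoc]
        _ = J * (A * B) * Pm := by rw [hPmJ, Matrix.mul_one, Matrix.mul_assoc J A B]
    rw [Matrix.add_mul, Matrix.one_mul, Matrix.mul_add, Matrix.mul_one, h, Matrix.mul_add,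
      Matrix.mul_add, Matrix.add_mul, Matrix.add_mul]
    abel
  obtain ⟨G, hG⟩ : ∃ G : Matrix τ τ F, G = 1 + J * (s - 1) * Pm := ⟨_, rfl⟩
  have hpow : ∀ k : ℕ, G ^ k = 1 + J * (s ^ k - 1) * Pm := by
    intro k
    induction k with
    | zero => simp
    | succ k ih =>
      rw [pow_succ, ih, hG, key]
      congr 3
      rw [pow_succ]
      noncomm_ring
  have hGr : G ^ r = 1 := by
    rw [hpow, hsr, sub_self, Matrix.mul_zero, Matrix.zero_mul, add_zero]
  have hGv : ∀ t, G *ᵥ t = t + j ((s - 1) *ᵥ (Pm *ᵥ t)) := by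
    intro t
    rw [hG, add_mulVec, one_mulVec, ← mulVec_mulVec, ← mulVec_mulVec, hJv]
  have hiso : ∀ t, Q (G *ᵥ t) = Q t := by
    intro t
    obtain ⟨u, hu⟩ : ∃ u, u = Pm *ᵥ t := ⟨_, rfl⟩
    obtain ⟨w, hw⟩ : ∃ w, w = (s - 1) *ᵥ u := ⟨_, rfl⟩
    have h1 : s *ᵥ u = w + u := by
      rw [hw, sub_mulVec, one_mulVec]
      abel
    have h2 : qN N w + polar (qN N) w u = 0 := by
      have h3 := qN_isom hs u
      rw [h1, q_add] at h3
      linear_combination h3
    rw [hGv, ← hu, ← hw, q_add, hj, polar_comm, hstar, ← hu]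
    linear_combination h2
  have h1 : G * G ^ (r - 1) = 1 := by
    rw [← pow_succ', Nat.sub_add_cancel hr, hGr]
  have h2 : G ^ (r - 1) * G = 1 := by
    rw [← pow_succ, Nat.sub_add_cancel hr, hGr]
  refine ⟨⟨G, G ^ (r - 1), h1, h2⟩, ?_, ?_, ?_⟩
  · intro u _
    exact hiso u
  · show G.charpoly = _
    have h3 : G = J * ((s - 1) * Pm) - Matrix.scalar τ (-1 : F) := by
      rw [hG, map_neg, map_one, sub_neg_eq_add, add_comm, Matrix.mul_assoc]
    have h4 : (s - 1) * Pm * J = s - Matrix.scalar ι (1 : F) := by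
      rw [Matrix.mul_assoc, hPmJ, Matrix.mul_one, map_one]
    rw [h3, Matrix.charpoly_sub_scalar, Matrix.charpoly_mul_comm_of_le J ((s - 1) * Pm) hle, h4,
      Matrix.charpoly_sub_scalar, Polynomial.mul_comp, Polynomial.comp_assoc]
    simp only [Polynomial.X_pow_comp, Polynomial.add_comp, Polynomial.X_comp, Polynomial.one_comp,
      map_neg, map_one]
    rw [neg_add_cancel_right, Polynomial.comp_X, sub_eq_add_neg]
  · apply Units.ext
    rw [Units.val_pow_eq_pow_val]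
    exact hGr

end Cfsg.Agent.Lib.Helper44.OExt
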