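import Mathlib
import Cfsg.Prelude.Def_Classical
import Cfsg.Agent.Lib.Helper44.OConj
import Cfsg.Agent.Lib.Helper44.OExt
import Cfsg.Agent.Lib.Helper40.RecipPoly
import Cfsg.Agent.Lib.Helper40.SSConj

set_option autoImplicit false

namespace Cfsg.Agent.Lib.Helper44.OCls1

open Module QuadraticMap Matrix Polynomial
open Cfsg.Agent.Lib.Helper44.QSpace Cfsg.Agent.Lib.Helper44.OMat Cfsg.Agent.Lib.Helper44.OGroup
open Cfsg.Agent.Lib.Helper44.OConj Cfsg.Agent.Lib.Helper44.OExt
open Cfsg.Agent.Lib.Helper40.RecipPoly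

variable {F : Type*} [Field F] {ι : Type} [Fintype ι] [DecidableEq ι]

theorem reverse_charpoly_of_inv' (A B : Matrix ι ι F) (hAB : A * B = 1) :
    A.charpoly.reverse = C (A.det * (-1) ^ Fintype.card ι) * B.charpoly := by
  rw [Matrix.reverse_charpoly]
  unfold Matrix.charpolyRev Matrix.charpoly Matrix.charmatrix
  have h1 : (1 - (X : F[X]) • A.map C) = (A.map C) *
      -(Matrix.scalar ι (X : F[X]) - (C : F →+* F[X]).mapMatrix B) := by
    have h2 : A.map C * (C : F →+* F[X]).mapMatrix B = 1 := by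
      rw [← RingHom.mapMatrix_apply, ← map_mul, hAB, map_one]
    rw [neg_sub, Matrix.mul_sub, h2]
    congr 1
    rw [Matrix.scalar_apply, ← Matrix.smul_one_eq_diagonal, Matrix.mul_smul, Matrix.mul_one]
  rw [h1, Matrix.det_mul, Matrix.det_neg]
  have hdet : (A.map C).det = C A.det := by
    rw [← RingHom.mapMatrix_apply, ← RingHom.map_det]
  rw [hdet, map_mul, map_pow, map_neg, map_one]
  ring

/-- The characteristic polynomial of the inverse is the reciprocal polynomial. -/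
theorem rstar_charpoly_inv (A B : Matrix ι ι F) (hAB : A * B = 1) :
    rstar (RingHom.id F) A.charpoly = B.charpoly := by
  have h1 := reverse_charpoly_of_inv' A B hAB
  have hsq : ((-1 : F) ^ Fintype.card ι) * (-1) ^ Fintype.card ι = 1 := by
    rw [← mul_pow]
    simp
  have h0 : A.charpoly.coeff 0 = A.det * (-1) ^ Fintype.card ι := by
    rw [Matrix.det_eq_sign_charpoly_coeff]
    linear_combination (-(A.charpoly.coeff 0)) * hsq
  have hdet : A.det ≠ 0 :=
    left_ne_zero_of_mul_eq_one (by rw [← Matrix.det_mul, hAB, Matrix.det_one])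
  unfold rstar
  rw [h1, Polynomial.map_id, RingHom.id_apply, h0, ← mul_assoc, ← C_mul,
    inv_mul_cancel₀ (mul_ne_zero hdet (pow_ne_zero _ (neg_ne_zero.mpr one_ne_zero))), C_1, one_mul]

theorem gram_det_ne_zero {Q : QuadraticForm F (ι → F)} (hS : Sep Q) :
    (LinearMap.BilinForm.toMatrix' (polarBilin Q)).det ≠ 0 := by
  intro h0
  obtain ⟨v, hv0, hv⟩ := Matrix.exists_mulVec_eq_zero_iff.mpr h0
  apply hv0
  apply hS
  intro y
  rw [polar_comm, polar_eq_dot, hv, dotProduct_zero]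

theorem gram_invariant (Q : QuadraticForm F (ι → F)) {g : Matrix ι ι F}
    (hg : ∀ u, Q (g *ᵥ u) = Q u) :
    gᵀ * LinearMap.BilinForm.toMatrix' (polarBilin Q) * g
      = LinearMap.BilinForm.toMatrix' (polarBilin Q) := by
  apply matrix_ext_mulVec
  intro y
  funext i
  have h1 : polar Q (g *ᵥ Pi.single i 1) (g *ᵥ y) = polar Q (Pi.single i 1) y := by
    unfold polar
    rw [← mulVec_add, hg, hg, hg]
  rw [polar_eq_dot, polar_eq_dot, mulVec_dot, mulVec_mulVec, mulVec_mulVec, single_one_dotProduct,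
    single_one_dotProduct] at h1
  exact h1

/-- The characteristic polynomial of an isometry of a nondegenerate quadratic form is
self-reciprocal. -/
theorem rstar_charpoly_iso {Q : QuadraticForm F (ι → F)} (hS : Sep Q) (g g' : Matrix ι ι F)
    (hgg' : g * g' = 1) (hg : ∀ u, Q (g *ᵥ u) = Q u) :
    rstar (RingHom.id F) g.charpoly = g.charpoly := by
  obtain ⟨M, hM⟩ : ∃ M : Matrix ι ι F, M = LinearMap.BilinForm.toMatrix' (polarBilin Q) :=
    ⟨_, rfl⟩
  have hdet : IsUnit M.det := isUnit_iff_ne_zero.mpr (hM ▸ gram_det_ne_zero hS)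
  have hinv : gᵀ * M * g = M := hM ▸ gram_invariant Q hg
  have h1 : gᵀ * M = M * g' := by
    calc gᵀ * M = gᵀ * M * (g * g') := by rw [hgg', Matrix.mul_one]
      _ = M * g' := by rw [← Matrix.mul_assoc, hinv]
  have h2 : g' = M⁻¹ * (gᵀ * M) := by
    rw [h1, ← Matrix.mul_assoc, Matrix.nonsing_inv_mul _ hdet, Matrix.one_mul]
  rw [rstar_charpoly_inv g g' hgg', h2, Matrix.charpoly_mul_comm, Matrix.mul_assoc,
    Matrix.mul_nonsing_inv _ hdet, Matrix.mul_one, Matrix.charpoly_transpose]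

/-- Isometries of odd order prime to the characteristic with the same characteristic polynomial
are conjugate in the isometry group. -/
theorem conj_of_charpoly [Finite F] (Q : QuadraticForm F (ι → F)) (hS : Sep Q)
    (A B : ↥(Cfsg.isometryGroup F ⇑Q)) (r : ℕ) (hodd : Odd r) (hr0 : (r : F) ≠ 0)
    (hA : A ^ r = 1) (hB : B ^ r = 1)
    (hcp : ((A : GL ι F) : Matrix ι ι F).charpoly = ((B : GL ι F) : Matrix ι ι F).charpoly) :
    IsConj A B := by
  classical
  have hpow : ∀ C : ↥(Cfsg.isometryGroup F ⇑Q), C ^ r = 1 →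
      ((C : GL ι F) : Matrix ι ι F) ^ r = 1 := by
    intro C hC
    rw [← Units.val_pow_eq_pow_val, ← Subgroup.coe_pow, hC]
    rfl
  obtain ⟨P, P', hPP', hP'P, hPA⟩ := Cfsg.Agent.Lib.Helper40.SSConj.matrix_conj
    ((A : GL ι F) : Matrix ι ι F) ((B : GL ι F) : Matrix ι ι F) r hr0 (hpow A hA) (hpow B hB) hcp
  obtain ⟨cu, hcu⟩ : ∃ cu : GL ι F, (cu : Matrix ι ι F) = P := ⟨⟨P, P', hPP', hP'P⟩, rfl⟩
  have hcu' : cu * (A : GL ι F) = (B : GL ι F) * cu := by
    apply Units.ext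
    rw [Units.val_mul, Units.val_mul, hcu]
    exact hPA
  have hx : glEquiv cu * (isoEquiv Q A : (ι → F) ≃ₗ[F] (ι → F))
      = (isoEquiv Q B : (ι → F) ≃ₗ[F] (ι → F)) * glEquiv cu := by
    have h1 := congrArg glEquiv hcu'
    rw [map_mul, map_mul] at h1
    exact h1
  have haN : (isoEquiv Q A : (ι → F) ≃ₗ[F] (ι → F)) ^ r = 1 := by
    have h1 : (isoEquiv Q A) ^ r = 1 := by rw [← map_pow, hA, map_one]
    exact congrArg Subtype.val h1
  obtain ⟨g, hg, hga⟩ := conj_core hS (isoEquiv Q A).2 (isoEquiv Q B).2 r hr0 hodd haN hx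
  have h3 : (⟨g, hg⟩ : ↥(O Q)) * isoEquiv Q A = isoEquiv Q B * ⟨g, hg⟩ := Subtype.ext hga
  have h4 : (isoEquiv Q).symm ⟨g, hg⟩ * A = B * (isoEquiv Q).symm ⟨g, hg⟩ := by
    apply (isoEquiv Q).injective
    rw [map_mul, map_mul, MulEquiv.apply_symm_apply]
    exact h3
  exact isConj_iff.mpr ⟨(isoEquiv Q).symm ⟨g, hg⟩, by rw [h4]; group⟩

end Cfsg.Agent.Lib.Helper44.OCls1
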