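import Mathlib
import Cfsg.Agent.Lib.Helper44.OCls1
import Cfsg.Agent.Lib.Helper40.SSCount
import Cfsg.Agent.S2568

set_option autoImplicit false

namespace Cfsg.Agent.Lib.Helper44.OCls2

open Module Matrix Polynomial UniqueFactorizationMonoid
open Cfsg.Agent.Lib.Helper44.OMat Cfsg.Agent.Lib.Helper44.OCls1
open Cfsg.Agent.Lib.Helper40.RecipPoly Cfsg.Agent.Lib.Helper40.SSConj

variable {F : Type*} [Field F]

/-- `Real r c`: the polynomial `c` is the characteristic polynomial of a matrix `s` with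
`s ^ r = 1` preserving a nondegenerate quadratic form `u ↦ uᵀ N u`. -/
def Real (r : ℕ) (c : F[X]) : Prop :=
  ∃ (ι : Type) (_ : Fintype ι) (_ : DecidableEq ι) (s N : Matrix ι ι F),
    s.charpoly = c ∧ s ^ r = 1 ∧ sᵀ * N * s = N ∧ (N + Nᵀ).det ≠ 0

theorem real_one (r : ℕ) : Real r (1 : F[X]) := by
  refine ⟨Empty, inferInstance, inferInstance, 1, 0, ?_, ?_, ?_, ?_⟩
  · exact Matrix.charpoly_isEmpty
  · exact Subsingleton.elim _ _
  · exact Subsingleton.elim _ _
  · rw [Matrix.det_isEmpty]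
    exact one_ne_zero

theorem fromBlocks_diag_pow {ι₁ ι₂ : Type} [Fintype ι₁] [DecidableEq ι₁] [Fintype ι₂]
    [DecidableEq ι₂] (A : Matrix ι₁ ι₁ F) (D : Matrix ι₂ ι₂ F) (k : ℕ) :
    (fromBlocks A 0 0 D) ^ k = fromBlocks (A ^ k) 0 0 (D ^ k) := by
  induction k with
  | zero => rw [pow_zero, pow_zero, pow_zero, fromBlocks_one]
  | succ k ih =>
    rw [pow_succ, ih, fromBlocks_multiply, pow_succ, pow_succ]
    simp

theorem real_mul {r : ℕ} {c₁ c₂ : F[X]} (h₁ : Real r c₁) (h₂ : Real r c₂) :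
    Real r (c₁ * c₂) := by
  obtain ⟨ι₁, _, _, s₁, N₁, hc₁, hr₁, hi₁, hd₁⟩ := h₁
  obtain ⟨ι₂, _, _, s₂, N₂, hc₂, hr₂, hi₂, hd₂⟩ := h₂
  refine ⟨ι₁ ⊕ ι₂, inferInstance, inferInstance, fromBlocks s₁ 0 0 s₂, fromBlocks N₁ 0 0 N₂,
    ?_, ?_, ?_, ?_⟩
  · rw [Matrix.charpoly_fromBlocks_zero₁₂, hc₁, hc₂]
  · rw [fromBlocks_diag_pow, hr₁, hr₂, fromBlocks_one]
  · rw [fromBlocks_transpose, fromBlocks_multiply, fromBlocks_multiply]
    simp [hi₁, hi₂]
  · rw [fromBlocks_transpose, fromBlocks_add]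
    simp only [transpose_zero, add_zero]
    rw [Matrix.det_fromBlocks_zero₁₂]
    exact mul_ne_zero hd₁ hd₂

theorem real_hyp {κ : Type} [Fintype κ] [DecidableEq κ] (A : Matrix κ κ F) (r : ℕ) (hr : 0 < r)
    (hA : A ^ r = 1) : Real r (A.charpoly * rstar (RingHom.id F) A.charpoly) := by
  obtain ⟨A', hA'⟩ : ∃ A' : Matrix κ κ F, A' = A ^ (r - 1) := ⟨_, rfl⟩
  have h1 : A * A' = 1 := by rw [hA', ← pow_succ', Nat.sub_add_cancel hr, hA]
  have h2 : A' * A = 1 := by rw [hA', ← pow_succ, Nat.sub_add_cancel hr, hA]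
  have hA'r : A' ^ r = 1 := by rw [hA', ← pow_mul, mul_comm, pow_mul, hA, one_pow]
  refine ⟨κ ⊕ κ, inferInstance, inferInstance, fromBlocks A 0 0 A'ᵀ, fromBlocks 0 1 0 0,
    ?_, ?_, ?_, ?_⟩
  · rw [Matrix.charpoly_fromBlocks_zero₁₂, Matrix.charpoly_transpose, rstar_charpoly_inv A A' h1]
  · rw [fromBlocks_diag_pow, hA, ← transpose_pow, hA'r, transpose_one, fromBlocks_one]
  · rw [fromBlocks_transpose, fromBlocks_multiply, fromBlocks_multiply]
    simp only [transpose_zero, transpose_transpose, Matrix.mul_zero, Matrix.zero_mul, add_zero,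
      zero_add, Matrix.mul_one]
    rw [← transpose_mul, h2, transpose_one]
  · rw [fromBlocks_transpose, fromBlocks_add]
    simp only [transpose_zero, transpose_one, add_zero, zero_add]
    intro h0
    have h3 : (fromBlocks (0 : Matrix κ κ F) (1 : Matrix κ κ F) (1 : Matrix κ κ F)
        (0 : Matrix κ κ F)) * (fromBlocks (0 : Matrix κ κ F) (1 : Matrix κ κ F)
        (1 : Matrix κ κ F) (0 : Matrix κ κ F)) = 1 := by
      rw [fromBlocks_multiply]
      simp [fromBlocks_one]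
    have h4 := congrArg Matrix.det h3
    rw [Matrix.det_mul, h0, zero_mul, Matrix.det_one] at h4
    exact zero_ne_one h4

/-- An irreducible self-reciprocal factor of `X ^ r - 1` other than `X - 1` is realised on a
nondegenerate quadratic space. -/
theorem real_irr [Finite F] (p : ℕ) [Fact p.Prime] [CharP F p] (r : ℕ) (hr : r.Prime)
    (hr2 : r ≠ 2) (hr0 : (r : F) ≠ 0) (P : F[X]) (hP : Irreducible P) (hPm : P.Monic)
    (hP1 : P ≠ X - C 1) (hPr : P ∣ X ^ r - C 1) (hPs : rstar (RingHom.id F) P = P) :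
    Real r P := by
  classical
  obtain ⟨d, hd⟩ : ∃ d, d = P.natDegree := ⟨_, rfl⟩
  have hXr0 : (X ^ r - C (1 : F)).coeff 0 ≠ 0 := by
    rw [coeff_sub, coeff_X_pow, coeff_C_zero, if_neg hr.ne_zero.symm, zero_sub]
    exact neg_ne_zero.mpr one_ne_zero
  have hP0 : P.coeff 0 ≠ 0 := coeff0_of_dvd hPr hXr0
  obtain ⟨s, hsc, N₀, hN₀pos, hN₀cop, hsN₀⟩ :=
    Cfsg.Agent.Lib.Helper40.SSCount.exists_charpoly p d P hPm hd.symm hP0
  have hsr : s ^ r = 1 := by
    apply Cfsg.Agent.S2568.pow_eq_one_of_charpoly s r N₀ hN₀cop hsN₀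
    intro P' hP'
    rw [hsc, normalizedFactors_irreducible hP, Multiset.mem_singleton, hPm.normalize_eq_self]
      at hP'
    rw [hP']
    exact hPr
  obtain ⟨s', hs'⟩ : ∃ s' : Matrix (Fin d) (Fin d) F, s' = s ^ (r - 1) := ⟨_, rfl⟩
  have h1 : s * s' = 1 := by rw [hs', ← pow_succ', Nat.sub_add_cancel hr.pos, hsr]
  have h2 : s' * s = 1 := by rw [hs', ← pow_succ, Nat.sub_add_cancel hr.pos, hsr]
  have hs'r : s' ^ r = 1 := by rw [hs', ← pow_mul, mul_comm, pow_mul, hsr, one_pow]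
  have hcp : s.charpoly = (s'ᵀ).charpoly := by
    rw [Matrix.charpoly_transpose, ← rstar_charpoly_inv s s' h1, hsc, hPs]
  obtain ⟨P₀, Q₀, hPQ, hQP, hPs₀⟩ := matrix_conj s s'ᵀ r hr0 hsr
    (by rw [← transpose_pow, hs'r, transpose_one]) hcp
  have hinv₀ : sᵀ * P₀ * s = P₀ := by
    rw [Matrix.mul_assoc, hPs₀, ← Matrix.mul_assoc, ← transpose_mul, h2, transpose_one,
      Matrix.one_mul]
  have hne : s ≠ s' := by
    intro h
    have hss : s * s = 1 := by
      nth_rewrite 2 [h]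
      exact h1
    have hs1 : s = 1 := by
      obtain ⟨k, hk⟩ := hr.odd_of_ne_two hr2
      have h3 : s ^ r = s := by rw [hk, pow_succ, pow_mul, pow_two, hss, one_pow, one_mul]
      rw [← h3]
      exact hsr
    rw [hs1, Matrix.charpoly_one, Fintype.card_fin] at hsc
    have hirr : Irreducible ((X - 1 : F[X]) ^ d) := hsc ▸ hP
    have hd1 : d = 1 := by
      by_contra hd1
      exact not_irreducible_pow hd1 hirr
    apply hP1
    rw [← hsc, hd1, pow_one, C_1]
  have hex : ∃ N : Matrix (Fin d) (Fin d) F, sᵀ * N * s = N ∧ N + Nᵀ ≠ 0 := by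
    by_cases h0 : P₀ + P₀ᵀ = 0
    · refine ⟨P₀ * s, ?_, ?_⟩
      · rw [← Matrix.mul_assoc, hinv₀]
      · intro h
        have hP₀T : P₀ᵀ = -P₀ := eq_neg_of_add_eq_zero_right h0
        have h3 : sᵀ * P₀ = P₀ * s' := by
          calc sᵀ * P₀ = sᵀ * P₀ * (s * s') := by rw [h1, Matrix.mul_one]
            _ = P₀ * s' := by rw [← Matrix.mul_assoc, hinv₀]
        rw [transpose_mul, hP₀T, Matrix.mul_neg, h3, ← sub_eq_add_neg, ← Matrix.mul_sub] at h
        have h5 : s - s' = 0 := by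
          calc s - s' = Q₀ * P₀ * (s - s') := by rw [hQP, Matrix.one_mul]
            _ = 0 := by rw [Matrix.mul_assoc, h, Matrix.mul_zero]
        exact hne (sub_eq_zero.mp h5)
    · exact ⟨P₀, hinv₀, h0⟩
  obtain ⟨N, hNinv, hNne⟩ := hex
  refine ⟨Fin d, inferInstance, inferInstance, s, N, hsc, hsr, hNinv, ?_⟩
  intro hdet
  obtain ⟨M, hM⟩ : ∃ M : Matrix (Fin d) (Fin d) F, M = N + Nᵀ := ⟨_, rfl⟩
  rw [← hM] at hdet hNne
  have hMinv : sᵀ * M * s = M := by
    rw [hM, Matrix.mul_add, Matrix.add_mul, hNinv]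
    congr 1
    have h3 := congrArg transpose hNinv
    rw [transpose_mul, transpose_mul, transpose_transpose] at h3
    rw [Matrix.mul_assoc]
    exact h3
  have hMs' : M * s = s'ᵀ * M := by
    calc M * s = (s * s')ᵀ * (M * s) := by rw [h1, transpose_one, Matrix.one_mul]
      _ = s'ᵀ * (sᵀ * M * s) := by
        rw [transpose_mul]
        simp only [Matrix.mul_assoc]
      _ = s'ᵀ * M := by rw [hMinv]
  have hMs : ∀ w, M *ᵥ (s *ᵥ w) = s'ᵀ *ᵥ (M *ᵥ w) := by
    intro w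
    rw [mulVec_mulVec, mulVec_mulVec, hMs']
  obtain ⟨v, hv0, hv⟩ := Matrix.exists_mulVec_eq_zero_iff.mpr hdet
  obtain ⟨φ, hφ⟩ : ∃ φ : Module.End F (Fin d → F), φ = Matrix.toLin' s := ⟨_, rfl⟩
  have hφv : ∀ w, φ w = s *ᵥ w := by
    intro w
    rw [hφ, Matrix.toLin'_apply]
  have hpowv : ∀ n : ℕ, M *ᵥ ((φ ^ n) v) = 0 := by
    intro n
    induction n with
    | zero => simpa using hv
    | succ n ih => rw [pow_succ', Module.End.mul_apply, hφv, hMs, ih, mulVec_zero]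
  have hker : ∀ g : F[X], M *ᵥ (aeval φ g v) = 0 := by
    intro g
    induction g using Polynomial.induction_on' with
    | add a b ha hb => rw [map_add, LinearMap.add_apply, mulVec_add, ha, hb, add_zero]
    | monomial n a =>
      rw [aeval_monomial, Module.End.mul_apply, Module.algebraMap_end_apply, mulVec_smul, hpowv,
        smul_zero]
  have hPv : aeval φ P v = 0 := by
    have h := LinearMap.aeval_self_charpoly φ
    rw [hφ, Matrix.charpoly_toLin', hsc] at h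
    rw [hφ, h]
    rfl
  obtain ⟨ε, -⟩ := model_iso φ v hv0 P hP hPv
  have hfr : finrank F (LinearMap.range (ev φ v)) = d := by
    rw [← ε.finrank_eq, hd, (AdjoinRoot.powerBasis hP.ne_zero).finrank, AdjoinRoot.powerBasis_dim]
  have htop : LinearMap.range (ev φ v) = ⊤ :=
    Submodule.eq_top_of_finrank_eq (by rw [hfr]; simp)
  apply hNne
  apply matrix_ext_mulVec
  intro x
  have hx : x ∈ LinearMap.range (ev φ v) := by
    rw [htop]
    trivial
  obtain ⟨g, rfl⟩ := hx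
  rw [ev_apply, hker, zero_mulVec]

end Cfsg.Agent.Lib.Helper44.OCls2
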