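import Mathlib
import Cfsg.Agent.Lib.Helper44.OCls2

set_option autoImplicit false

namespace Cfsg.Agent.Lib.Helper44.OCls3

open Polynomial UniqueFactorizationMonoid Matrix
open Cfsg.Agent.Lib.Helper40.RecipPoly Cfsg.Agent.Lib.Helper44.OCls2

variable {F : Type*} [Field F] [DecidableEq F]

/-- The set of admissible characteristic polynomials of degree `k`. -/
def D (S : Finset F[X]) (k : ℕ) : Set F[X] :=
  {c | c.Monic ∧ c.natDegree = k ∧ (∀ P ∈ normalizedFactors c, P = X - C 1 ∨ P ∈ S) ∧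
    rstar (RingHom.id F) c = c}

theorem prod_facts (S : Finset F[X]) (i : ℕ)
    (hS : ∀ P ∈ S, Irreducible P ∧ P.Monic ∧ P.natDegree = i ∧ P.coeff 0 ≠ 0)
    (hLS : (X - C (1 : F)) ∉ S) (v : Multiset F[X]) (hv : ∀ P ∈ v, P ∈ S) :
    v.prod.Monic ∧ v.prod.natDegree = i * Multiset.card v ∧ v.prod.coeff 0 ≠ 0 ∧
      ¬ (X - C (1 : F)) ∣ v.prod := by
  have hm : v.prod.Monic := by
    simpa using monic_multiset_prod_of_monic v id (fun P hP => (hS P (hv P hP)).2.1)
  refine ⟨?_, ?_, ?_, ?_⟩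
  · exact hm
  · rw [natDegree_multiset_prod_of_monic v (fun P hP => (hS P (hv P hP)).2.1)]
    have h1 : v.map natDegree = Multiset.replicate (Multiset.card v) i := by
      rw [Multiset.eq_replicate]
      refine ⟨Multiset.card_map _ _, ?_⟩
      intro d hd
      obtain ⟨P, hP, rfl⟩ := Multiset.mem_map.mp hd
      exact (hS P (hv P hP)).2.2.1
    rw [h1, Multiset.sum_replicate, smul_eq_mul, mul_comm]
  · rw [coeff_zero_multiset_prod]
    apply Multiset.prod_ne_zero
    intro h0
    obtain ⟨P, hP, hP0⟩ := Multiset.mem_map.mp h0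
    exact (hS P (hv P hP)).2.2.2 hP0
  · intro hdvd
    have hLp : Prime (X - C (1 : F)) := (irreducible_X_sub_C 1).prime
    obtain ⟨P, hP, hLP⟩ := hLp.exists_mem_multiset_dvd hdvd
    have h2 := (irreducible_X_sub_C (1 : F)).associated_of_dvd (hS P (hv P hP)).1 hLP
    have h3 := eq_of_monic_of_associated (monic_X_sub_C 1) (hS P (hv P hP)).2.1 h2
    exact hLS (h3 ▸ hv P hP)

theorem setup [Fintype F] {p : ℕ} [Fact p.Prime] [CharP F p] (r i t : ℕ) (hr : r.Prime)
    (hr2 : r ≠ 2) (hrp : r ≠ p) (hi : i = orderOf ((Fintype.card F : ℕ) : ZMod r))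
    (ht : t * i = r - 1) :
    ∃ S : Finset F[X], (X - C (1 : F)) ∉ S ∧
      (∀ P ∈ S, Irreducible P ∧ P.Monic ∧ P.natDegree = i) ∧
      (∀ P : F[X], Irreducible P → P.Monic → (P ∣ X ^ r - C (1 : F) ↔ P = X - C 1 ∨ P ∈ S)) ∧
      (∀ k : ℕ, (D S k).ncard = if Odd i then Nat.choose (k / (2 * i) + t / 2) (t / 2)
        else Nat.choose (k / i + t) t) ∧
      (∀ (k : ℕ) (c : F[X]), c ∈ D S k → ∃ c' : F[X],
        c = (X - C 1) ^ (k - c'.natDegree) * c' ∧ c'.natDegree ≤ k ∧ Even c'.natDegree ∧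
        Real r c' ∧ ¬ (X - C 1) ∣ c') := by
  classical
  have hp : p.Prime := Fact.out
  have : Fact r.Prime := ⟨hr⟩
  have hr0 : (r : F) ≠ 0 := by
    rw [Ne, CharP.cast_eq_zero_iff F p]
    intro h
    exact hrp ((Nat.prime_dvd_prime_iff_eq hp hr).mp h).symm
  have hipos : 0 < i := by
    rcases Nat.eq_zero_or_pos i with h | h
    · subst h
      have := hr.two_le
      omega
    · exact h
  obtain ⟨S, hScard, hLS, hS, hSdvd⟩ :=
    Cfsg.Agent.S2568.cyclo_facts (F := F) (p := p) r i t hr hrp hi ht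
  obtain ⟨L, hL⟩ : ∃ L : F[X], L = X - C (1 : F) := ⟨_, rfl⟩
  have hLirr : Irreducible L := hL ▸ irreducible_X_sub_C 1
  have hLm : L.Monic := hL ▸ monic_X_sub_C 1
  have hLd : L.natDegree = 1 := hL ▸ natDegree_X_sub_C 1
  rw [← hL] at hLS hSdvd
  have hLs : rstar (RingHom.id F) L = L := by
    rw [hL]
    exact rstar_X_sub_one (RingHom.id F)
  have hL0 : L.coeff 0 ≠ 0 := by
    rw [hL, coeff_sub, coeff_X_zero, coeff_C_zero, zero_sub]
    exact neg_ne_zero.mpr one_ne_zero
  have hXr0 : (X ^ r - C (1 : F)).coeff 0 ≠ 0 := by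
    rw [coeff_sub, coeff_X_pow, coeff_C_zero, if_neg hr.ne_zero.symm, zero_sub]
    exact neg_ne_zero.mpr one_ne_zero
  have hSd : ∀ P ∈ S, P ∣ X ^ r - C (1 : F) := fun P hP =>
    (hSdvd P (hS P hP).1 (hS P hP).2.1).mpr (Or.inr hP)
  have hS0 : ∀ P ∈ S, P.coeff 0 ≠ 0 := fun P hP => coeff0_of_dvd (hSd P hP) hXr0
  have hid2 : ∀ x : F, (RingHom.id F) ((RingHom.id F) x) = x := fun x => rfl
  have hSs : ∀ P ∈ S, rstar (RingHom.id F) P ∈ S := by
    intro P hP
    obtain ⟨Q, hQ⟩ := hSd P hP
    have h1 : rstar (RingHom.id F) P ∣ X ^ r - C (1 : F) := by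
      have h2 := rstar_X_pow_sub_one (RingHom.id F) r hr.pos
      rw [hQ, rstar_mul] at h2
      exact ⟨rstar (RingHom.id F) Q, by rw [hQ]; exact h2.symm⟩
    rcases (hSdvd _ (rstar_irreducible (RingHom.id F) hid2 P (hS P hP).1 (hS P hP).2.1 (hS0 P hP))
      (rstar_monic (RingHom.id F) P (hS0 P hP))).mp h1 with h | h
    · exfalso
      have h2 := rstar_star (RingHom.id F) hid2 P (hS P hP).2.1 (hS0 P hP)
      rw [h, hLs] at h2
      exact hLS (h2 ▸ hP)
    · exact h
  have hSss : ∀ P ∈ S, rstar (RingHom.id F) (rstar (RingHom.id F) P) = P := fun P hP =>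
    rstar_star (RingHom.id F) hid2 P (hS P hP).2.1 (hS0 P hP)
  have hcrit : ∀ P ∈ S, (rstar (RingHom.id F) P = P ↔ ∃ k : ℕ, r ∣ Fintype.card F ^ k + 1) := by
    intro P hP
    exact rstar_eq_iff (p := p) (RingHom.id F) 1 0 (by rw [pow_zero]) (fun x => by simp) hid2 r hr
      P (hS P hP).1 (hS P hP).2.1 (fun h => hLS (by rw [hL, ← h]; exact hP)) (hSd P hP)
  have h2ne : (2 : ZMod r) ≠ 0 := by
    intro h
    have h7 : ((2 : ℕ) : ZMod r) = 0 := by
      rw [Nat.cast_ofNat]
      exact h
    have h8 := (ZMod.natCast_eq_zero_iff _ _).mp h7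
    exact hr2 ((Nat.prime_dvd_prime_iff_eq hr Nat.prime_two).mp h8)
  have hcast : ∀ k : ℕ, (r ∣ Fintype.card F ^ k + 1 ↔
      ((Fintype.card F : ℕ) : ZMod r) ^ k = -1) := by
    intro k
    rw [← ZMod.natCast_eq_zero_iff, Nat.cast_add, Nat.cast_pow, Nat.cast_one]
    constructor
    · intro h
      exact eq_neg_of_add_eq_zero_left h
    · intro h
      rw [h]
      ring
  have hiff : (∃ k : ℕ, r ∣ Fintype.card F ^ k + 1) ↔ Even i := by
    constructor
    · rintro ⟨k, hk⟩
      rw [hcast] at hk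
      by_contra hodd
      rw [Nat.not_even_iff_odd] at hodd
      have h3 : i ∣ 2 * k := by
        rw [hi]
        apply orderOf_dvd_of_pow_eq_one
        rw [mul_comm, pow_mul, hk, neg_one_sq]
      have h4 : i ∣ k := Nat.Coprime.dvd_of_dvd_mul_left
        (Nat.Coprime.symm (Nat.coprime_two_left.mpr hodd)) h3
      rw [hi] at h4
      have h5 := orderOf_dvd_iff_pow_eq_one.mp h4
      rw [hk] at h5
      apply h2ne
      linear_combination -h5
    · rintro ⟨j, hj⟩
      refine ⟨j, ?_⟩
      rw [hcast]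
      have h1 : (((Fintype.card F : ℕ) : ZMod r) ^ j) ^ 2 = 1 := by
        rw [← pow_mul, mul_comm, two_mul, ← hj, hi, pow_orderOf_eq_one]
      have h2 : ((Fintype.card F : ℕ) : ZMod r) ^ j ≠ 1 := by
        apply pow_ne_one_of_lt_orderOf
        · omega
        · rw [← hi]
          omega
      have h4 : ((((Fintype.card F : ℕ) : ZMod r)) ^ j - 1) *
          ((((Fintype.card F : ℕ) : ZMod r)) ^ j + 1) = 0 := by
        linear_combination h1
      rcases mul_eq_zero.mp h4 with h | h
      · exact absurd (sub_eq_zero.mp h) h2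
      · exact eq_neg_of_add_eq_zero_left h
  have hS' : ∀ P ∈ S, Irreducible P ∧ P.Monic ∧ P.natDegree = i ∧ P.coeff 0 ≠ 0 :=
    fun P hP => ⟨(hS P hP).1, (hS P hP).2.1, (hS P hP).2.2, hS0 P hP⟩
  rw [hL] at hLS
  have hreal_prod : ∀ w : Multiset F[X], (∀ P ∈ w, P ∈ S) →
      (∀ P ∈ S, rstar (RingHom.id F) P = P) → Real r w.prod := by
    intro w
    induction w using Multiset.induction_on with
    | empty =>
      intro _ _
      rw [Multiset.prod_zero]
      exact real_one r
    | cons P w ih =>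
      intro hw hfix
      rw [Multiset.prod_cons]
      have hP : P ∈ S := hw P (Multiset.mem_cons_self P w)
      exact real_mul (real_irr p r hr hr2 hr0 P (hS P hP).1 (hS P hP).2.1
        (fun h => hLS (h ▸ hP)) (hSd P hP) (hfix P hP))
        (ih (fun P' hP' => hw P' (Multiset.mem_cons_of_mem hP')) hfix)
  refine ⟨S, hLS, hS, hL ▸ hSdvd, ?_, ?_⟩
  · intro k
    by_cases hodd : Odd i
    · rw [if_pos hodd]
      have hne : ∀ P ∈ S, rstar (RingHom.id F) P ≠ P := by
        intro P hP h
        have h1 := hiff.mp ((hcrit P hP).mp h)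
        exact (Nat.not_even_iff_odd.mpr hodd) h1
      obtain ⟨R, hRS, hR, hRcard⟩ := exists_half S (rstar (RingHom.id F)) hSs hSss hne
      obtain ⟨-, hcount⟩ := count_fpf (RingHom.id F) hid2 L hLirr hLm hLd hL0 hLs S R i hipos
        hS' (hL ▸ hLS) hSs hRS hR k
      have heq : Nat.card ↥(D S k) = Nat.card {c : F[X] // c.Monic ∧ c.natDegree = k ∧
          (∀ P ∈ normalizedFactors c, P = L ∨ P ∈ S) ∧ rstar (RingHom.id F) c = c} := by
        rw [hL]
        rfl
      have h2 : R.card = t / 2 := by omega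
      rw [← Nat.card_coe_set_eq, heq, hcount, h2, add_comm, Nat.choose_symm_add]
    · rw [if_neg hodd]
      have hfix : ∀ P ∈ S, rstar (RingHom.id F) P = P := fun P hP =>
        (hcrit P hP).mpr (hiff.mpr (Nat.not_odd_iff_even.mp hodd))
      have hcount := Cfsg.Agent.S2568.count_aux L hLirr hLm hLd S i hipos hS (hL ▸ hLS) k
      have heq : Nat.card ↥(D S k) = Nat.card {c : F[X] // c.Monic ∧ c.natDegree = k ∧
          ∀ P ∈ normalizedFactors c, P = L ∨ P ∈ S} := by
        apply Nat.card_congr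
        apply Equiv.subtypeEquivRight
        intro c
        constructor
        · rintro ⟨h1, h2, h3, h4⟩
          exact ⟨h1, h2, hL ▸ h3⟩
        · rintro ⟨h1, h2, h3⟩
          refine ⟨h1, h2, hL ▸ h3, ?_⟩
          have h5 : (normalizedFactors c).map (rstar (RingHom.id F)) = normalizedFactors c := by
            conv_rhs => rw [← Multiset.map_id' (normalizedFactors c)]
            apply Multiset.map_congr rfl
            intro P hP
            rcases h3 P hP with h | h
            · rw [h]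
              exact hLs
            · exact hfix P h
          calc rstar (RingHom.id F) c = rstar (RingHom.id F) (normalizedFactors c).prod := by
                rw [Cfsg.Agent.S2568.prod_nf c h1]
            _ = c := by rw [rstar_multiset_prod, h5, Cfsg.Agent.S2568.prod_nf c h1]
      rw [← Nat.card_coe_set_eq, heq, hcount, hScard, add_comm, Nat.choose_symm_add]
  · intro k c hc
    obtain ⟨hcm, hcd, hcf, hcr⟩ := hc
    by_cases hodd : Odd i
    · have hne : ∀ P ∈ S, rstar (RingHom.id F) P ≠ P := by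
        intro P hP h
        have h1 := hiff.mp ((hcrit P hP).mp h)
        exact (Nat.not_even_iff_odd.mpr hodd) h1
      obtain ⟨R, hRS, hR, hRcard⟩ := exists_half S (rstar (RingHom.id F)) hSs hSss hne
      obtain ⟨hdec, -⟩ := count_fpf (RingHom.id F) hid2 L hLirr hLm hLd hL0 hLs S R i hipos
        hS' (hL ▸ hLS) hSs hRS hR k
      obtain ⟨v, hvR, hvk, hcv⟩ := hdec c hcm hcd (hL ▸ hcf) hcr
      have hvS : ∀ P ∈ v, P ∈ S := fun P hP => hRS (hvR P hP)
      obtain ⟨hvm, hvd, hv0, hvL⟩ := prod_facts S i hS' hLS v hvS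
      have hv'S : ∀ P ∈ v.map (rstar (RingHom.id F)), P ∈ S := by
        intro P hP
        obtain ⟨P', hP', rfl⟩ := Multiset.mem_map.mp hP
        exact hSs P' (hvS P' hP')
      obtain ⟨hv'm, hv'd, hv'0, hv'L⟩ := prod_facts S i hS' hLS _ hv'S
      rw [← rstar_multiset_prod] at hv'm hv'd hv'0 hv'L
      rw [Multiset.card_map] at hv'd
      have hdeg : (v.prod * rstar (RingHom.id F) v.prod).natDegree = 2 * i * Multiset.card v := by
        rw [hvm.natDegree_mul hv'm, hvd, hv'd]
        ring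
      obtain ⟨A, hAc, N₀, hN₀pos, hN₀cop, hAN₀⟩ :=
        Cfsg.Agent.Lib.Helper40.SSCount.exists_charpoly p (i * Multiset.card v) v.prod hvm hvd hv0
      have hAr : A ^ r = 1 := by
        apply Cfsg.Agent.S2568.pow_eq_one_of_charpoly A r N₀ hN₀cop hAN₀
        intro P hP
        rw [hAc, Cfsg.Agent.S2568.nf_prod v (fun P hP => ⟨(hS P (hvS P hP)).1,
          (hS P (hvS P hP)).2.1⟩)] at hP
        exact hSd P (hvS P hP)
      have hreal := real_hyp A r hr.pos hAr
      rw [hAc] at hreal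
      refine ⟨v.prod * rstar (RingHom.id F) v.prod, ?_, ?_, ?_, hreal, ?_⟩
      · rw [hdeg, hcv, hL]
      · rw [hdeg]
        exact hvk
      · rw [hdeg, mul_assoc]
        exact even_two_mul _
      · intro hdvd
        rcases (irreducible_X_sub_C (1 : F)).prime.dvd_or_dvd hdvd with h | h
        · exact hvL h
        · exact hv'L h
    · have hev : Even i := Nat.not_odd_iff_even.mp hodd
      have hfix : ∀ P ∈ S, rstar (RingHom.id F) P = P := fun P hP =>
        (hcrit P hP).mpr (hiff.mpr hev)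
      obtain ⟨M, hM⟩ : ∃ M : Multiset F[X], M = normalizedFactors c := ⟨_, rfl⟩
      obtain ⟨w, hw⟩ : ∃ w : Multiset F[X], w = M.filter (fun P => ¬ P = X - C 1) := ⟨_, rfl⟩
      have hsplit : M = Multiset.replicate (M.count (X - C 1)) (X - C 1) + w := by
        rw [hw, ← Multiset.filter_eq', Multiset.filter_add_not]
      have hwS : ∀ P ∈ w, P ∈ S := by
        intro P hP
        rw [hw, Multiset.mem_filter] at hP
        rcases hcf P (hM ▸ hP.1) with h | h
        · exact absurd h hP.2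
        · exact h
      obtain ⟨hwm, hwd, hw0, hwL⟩ := prod_facts S i hS' hLS w hwS
      have hc1 : c = (X - C 1) ^ (M.count (X - C 1)) * w.prod := by
        conv_lhs => rw [← Cfsg.Agent.S2568.prod_nf c hcm, ← hM, hsplit]
        rw [Multiset.prod_add, Multiset.prod_replicate]
      have hdeg : k = M.count (X - C 1) + w.prod.natDegree := by
        rw [← hcd]
        conv_lhs => rw [hc1]
        rw [((monic_X_sub_C (1 : F)).pow _).natDegree_mul hwm, (monic_X_sub_C (1 : F)).natDegree_pow,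
          natDegree_X_sub_C, mul_one]
      refine ⟨w.prod, ?_, ?_, ?_, hreal_prod w hwS hfix, hwL⟩
      · have h1 : k - w.prod.natDegree = M.count (X - C 1) := by omega
        rw [h1]
        exact hc1
      · omega
      · rw [hwd]
        exact hev.mul_right _

end Cfsg.Agent.Lib.Helper44.OCls3
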