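import Mathlib
import Cfsg.Agent.Lib.Helper44.QClass
import Cfsg.Agent.Lib.Helper44.QBasis

set_option autoImplicit false

namespace Cfsg.Agent.Lib.Helper44.OEmb

open Module QuadraticMap
open Cfsg.Agent.Lib.Helper44.Split Cfsg.Agent.Lib.Helper44.QSpace Cfsg.Agent.Lib.Helper44.QClass
open Cfsg.Agent.Lib.Helper44.QBasis

universe u v

variable {F : Type*} [Field F]

theorem q_hyp_add {V : Type*} [AddCommGroup V] [Module F V] (Q : QuadraticForm F V) {e f w : V}
    (he : Q e = 0) (hf : Q f = 0) (hef : polar Q e f = 1) (hew : polar Q e w = 0)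
    (hfw : polar Q f w = 0) (a b : F) : Q (a • e + b • f + w) = a * b + Q w := by
  rw [q_add, q_add, q_smul, q_smul, he, hf, polar_smul_l, polar_smul_r, hef, polar_add_left,
    polar_smul_l, polar_smul_l, hew, hfw]
  ring

/-- In a nondegenerate space of dimension at least 3 over a finite field, every elliptic
normal form is realised by a pair of vectors. -/
theorem exists_ell_pair [Finite F] {V : Type v} [AddCommGroup V] [Module F V]
    [FiniteDimensional F V] {Q : QuadraticForm F V} (hS : Sep Q) (hd : 3 ≤ finrank F V) (ζ : F) :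
    ∃ x y : V, Q x = 1 ∧ polar Q x y = 1 ∧ Q y = ζ := by
  cases nonempty_fintype F
  by_cases h2 : (2 : F) = 0
  · have : CharP F 2 := CharTwo.of_one_ne_zero_of_two_eq_zero one_ne_zero h2
    obtain ⟨e, he0, he⟩ := exists_singular hS hd
    obtain ⟨f, hf, hef⟩ := exists_hyp_pair hS he0 he
    have hfr := finrank_perp2' he hf hef
    have hS' := sep_perp2 hS he hf hef
    have : Nontrivial (perp2 (polarBilin Q) e f) :=
      Module.nontrivial_of_finrank_pos (R := F) (by omega)
    obtain ⟨w₀, hw₀⟩ := exists_ne_zero hS'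
    have hw₀' : Q (w₀ : V) ≠ 0 := hw₀
    obtain ⟨s, hs⟩ := FiniteField.isSquare_of_char_two (ringChar.eq F 2) (ζ / Q (w₀ : V))
    have hew : polar Q e (w₀ : V) = 0 := ((mem_perp2 _ _ _ _).mp w₀.2).1
    have hfw : polar Q f (w₀ : V) = 0 := ((mem_perp2 _ _ _ _).mp w₀.2).2
    refine ⟨e + f, f + s • (w₀ : V), ?_, ?_, ?_⟩
    · rw [q_add, he, hf, hef]
      ring
    · rw [polar_add_left, polar_add_right, polar_add_right, hef, polar_smul_r, polar_smul_r,
        polar_self', hf, hew, hfw]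
      ring
    · rw [q_add, hf, q_smul, polar_smul_r, hfw]
      have : s * s * Q (w₀ : V) = ζ := by
        rw [← hs]
        field_simp
      rw [this]
      ring
  · obtain ⟨x, hx⟩ := exists_q_eq hS (by omega) (1 : F)
    have hp : polar Q x x ≠ 0 := by
      rw [polar_self', hx, mul_one]
      exact h2
    have hfr := finrank_perp1 (polarBilin Q) (v := x) hp
    have hS' := sep_perp1 hS hp
    obtain ⟨w, hw⟩ := exists_q_eq hS' (by omega) (ζ - (1 / 2) * (1 / 2))
    have hw' : Q (w : V) = ζ - (1 / 2) * (1 / 2) := hw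
    have hxw : polar Q x (w : V) = 0 := (mem_perp1 _ _ _).mp w.2
    refine ⟨x, (1 / 2 : F) • x + (w : V), hx, ?_, ?_⟩
    · rw [polar_add_right, polar_smul_r, polar_self', hx, hxw]
      field_simp
      ring
    · rw [q_add, q_smul, hx, polar_smul_l, hxw, hw']
      ring

/-- An elliptic plane embeds wherever its normal form is realised. -/
theorem ell_embed {V₁ : Type u} [AddCommGroup V₁] [Module F V₁] [FiniteDimensional F V₁]
    {Q₁ : QuadraticForm F V₁} (hV : finrank F V₁ = 2) {x y : V₁} {ζ : F} (hE : IsEll Q₁ x y ζ)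
    {V₂ : Type v} [AddCommGroup V₂] [Module F V₂] (Q₂ : QuadraticForm F V₂) {x' y' : V₂}
    (hx' : Q₂ x' = 1) (hxy' : polar Q₂ x' y' = 1) (hy' : Q₂ y' = ζ) :
    ∃ j : V₁ →ₗ[F] V₂, ∀ v, Q₂ (j v) = Q₁ v := by
  have hli := linearIndependent_ell hE
  have hc : Fintype.card (Fin 2) = finrank F V₁ := by
    rw [hV]
    rfl
  obtain ⟨b, hb⟩ : ∃ b : Basis (Fin 2) F V₁, ⇑b = ![x, y] :=
    ⟨basisOfLinearIndependentOfCardEqFinrank hli hc,
      coe_basisOfLinearIndependentOfCardEqFinrank hli hc⟩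
  refine ⟨b.constr F ![x', y'], fun v => ?_⟩
  have hv : v = b.repr v 0 • x + b.repr v 1 • y := by
    conv_lhs => rw [← b.sum_repr v]
    rw [Fin.sum_univ_two, hb]
    rfl
  have hj : b.constr F ![x', y'] v = b.repr v 0 • x' + b.repr v 1 • y' := by
    rw [Basis.constr_apply_fintype, Fin.sum_univ_two]
    rfl
  obtain ⟨hx, hxy, hy, -⟩ := hE
  rw [hj]
  conv_rhs => rw [hv]
  rw [q_add, q_add, q_smul, q_smul, q_smul, q_smul, polar_smul_l, polar_smul_r, polar_smul_l,
    polar_smul_r, hx, hxy, hy, hx', hxy', hy']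

/-- Embedding lemma: an even-dimensional nondegenerate quadratic space over a finite field embeds
isometrically in every nondegenerate space of larger dimension. -/
theorem exists_embedding [Finite F] (k : ℕ) : ∀ (V₁ : Type u) [AddCommGroup V₁] [Module F V₁]
    [FiniteDimensional F V₁] (Q₁ : QuadraticForm F V₁) (V₂ : Type v) [AddCommGroup V₂]
    [Module F V₂] [FiniteDimensional F V₂] (Q₂ : QuadraticForm F V₂),
    finrank F V₁ = 2 * k → finrank F V₁ < finrank F V₂ → Sep Q₁ → Sep Q₂ →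
    ∃ j : V₁ →ₗ[F] V₂, ∀ v, Q₂ (j v) = Q₁ v := by
  induction k with
  | zero =>
    intro V₁ _ _ _ Q₁ V₂ _ _ _ Q₂ h1 _ _ _
    have : Subsingleton V₁ := Module.finrank_zero_iff.mp (by omega)
    refine ⟨0, fun v => ?_⟩
    rw [Subsingleton.elim v 0]
    simp
  | succ k ih =>
    intro V₁ _ _ _ Q₁ V₂ _ _ _ Q₂ h1 hlt hS₁ hS₂
    by_cases hs : ∃ e, e ≠ 0 ∧ Q₁ e = 0
    · obtain ⟨e, he0, he⟩ := hs
      obtain ⟨f, hf, hef⟩ := exists_hyp_pair hS₁ he0 he
      obtain ⟨e', he0', he'⟩ := exists_singular hS₂ (by omega)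
      obtain ⟨f', hf', hef'⟩ := exists_hyp_pair hS₂ he0' he'
      have hfr₁ := finrank_perp2' he hf hef
      have hfr₂ := finrank_perp2' he' hf' hef'
      obtain ⟨j', hj'⟩ := ih (perp2 (polarBilin Q₁) e f) (res Q₁ _)
        (perp2 (polarBilin Q₂) e' f') (res Q₂ _) (by omega) (by omega)
        (sep_perp2 hS₁ he hf hef) (sep_perp2 hS₂ he' hf' hef')
      have hee : polarBilin Q₁ e e = 0 := by rw [pB_apply, polar_self', he, mul_zero]
      have hff : polarBilin Q₁ f f = 0 := by rw [pB_apply, polar_self', hf, mul_zero]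
      obtain ⟨pr, hpr⟩ : ∃ pr : V₁ →ₗ[F] perp2 (polarBilin Q₁) e f,
          ∀ z, (pr z : V₁) = z - polar Q₁ f z • e - polar Q₁ e z • f :=
        ⟨LinearMap.codRestrict _
          (LinearMap.id - (polarBilin Q₁ f).smulRight e - (polarBilin Q₁ e).smulRight f)
          (fun z => proj_mem_perp2 (polarBilin Q₁) (pB_symm Q₁) hee hff hef z), fun z => rfl⟩
      refine ⟨(polarBilin Q₁ f).smulRight e' + (polarBilin Q₁ e).smulRight f'
        + (perp2 (polarBilin Q₂) e' f').subtype ∘ₗ j' ∘ₗ pr, fun v => ?_⟩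
      have h1 : ((polarBilin Q₁ f).smulRight e' + (polarBilin Q₁ e).smulRight f'
          + (perp2 (polarBilin Q₂) e' f').subtype ∘ₗ j' ∘ₗ pr) v
          = polar Q₁ f v • e' + polar Q₁ e v • f' + (j' (pr v) : V₂) := rfl
      have h2 : v = polar Q₁ f v • e + polar Q₁ e v • f + (pr v : V₁) := by
        rw [hpr]
        abel
      have h3 : Q₂ (j' (pr v) : V₂) = Q₁ (pr v : V₁) := hj' (pr v)
      have h4 := (mem_perp2 _ _ _ _).mp (j' (pr v)).2
      have h5 := (mem_perp2 _ _ _ _).mp (pr v).2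
      rw [h1, q_hyp_add Q₂ he' hf' hef' h4.1 h4.2, h3]
      conv_rhs => rw [h2]
      rw [q_hyp_add Q₁ he hf hef h5.1 h5.2]
    · push Not at hs
      have hle : finrank F V₁ ≤ 2 := by
        by_contra hcon
        obtain ⟨e, he0, he⟩ := exists_singular hS₁ (by omega)
        exact hs e he0 he
      have hV : finrank F V₁ = 2 := by omega
      rcases dim2_cases hV hS₁ with ⟨e, f, he, hf, hef⟩ | ⟨x, y, ζ, hE⟩
      · exfalso
        have he0 : e ≠ 0 := by
          rintro rfl
          simp at hef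
        exact hs e he0 he
      · obtain ⟨x', y', hx', hxy', hy'⟩ := exists_ell_pair hS₂ (by omega) ζ
        exact ell_embed hV hE Q₂ hx' hxy' hy'

end Cfsg.Agent.Lib.Helper44.OEmb
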