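import Mathlib
import Cfsg.Agent.Lib.Helper44.OCls3
import Cfsg.Agent.Lib.Helper44.OEmb

set_option autoImplicit false

namespace Cfsg.Agent.Lib.Helper44.OCls4

open Polynomial UniqueFactorizationMonoid Matrix Module QuadraticMap
open Cfsg.Agent.Lib.Helper44.QSpace Cfsg.Agent.Lib.Helper44.OExt Cfsg.Agent.Lib.Helper44.OCls1
open Cfsg.Agent.Lib.Helper44.OCls2 Cfsg.Agent.Lib.Helper44.OCls3 Cfsg.Agent.Lib.Helper44.OEmb
open Cfsg.Agent.Lib.Helper40.RecipPoly

variable {F : Type*} [Field F]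

theorem rstar_pow' (a : F[X]) (k : ℕ) :
    rstar (RingHom.id F) (a ^ k) = rstar (RingHom.id F) a ^ k := by
  induction k with
  | zero => rw [pow_zero, pow_zero, rstar_one]
  | succ k ih => rw [pow_succ, rstar_mul, ih, pow_succ]

variable [DecidableEq F]

theorem pow_mem_D (S : Finset F[X]) (k : ℕ) : (X - C (1 : F)) ^ k ∈ D S k := by
  refine ⟨(monic_X_sub_C 1).pow _, ?_, ?_, ?_⟩
  · rw [(monic_X_sub_C (1 : F)).natDegree_pow, natDegree_X_sub_C, mul_one]
  · intro P hP
    rw [normalizedFactors_of_irreducible_pow (irreducible_X_sub_C 1),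
      (monic_X_sub_C (1 : F)).normalize_eq_self] at hP
    left
    exact Multiset.eq_of_mem_replicate hP
  · rw [rstar_pow', rstar_X_sub_one]

/-- Multiplication by `X - 1` identifies `D S k` with the members of `D S (k + 1)` divisible by
`X - 1`. -/
theorem mul_mem_D_iff (S : Finset F[X]) (k : ℕ) (c₀ : F[X]) :
    (X - C (1 : F)) * c₀ ∈ D S (k + 1) ↔ c₀ ∈ D S k := by
  have hLm : (X - C (1 : F)).Monic := monic_X_sub_C 1
  have hL0 : (X - C (1 : F)) ≠ 0 := hLm.ne_zero
  have hLs : rstar (RingHom.id F) (X - C (1 : F)) = X - C 1 := rstar_X_sub_one (RingHom.id F)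
  constructor
  · rintro ⟨h1, h2, h3, h4⟩
    have hm : c₀.Monic := hLm.of_mul_monic_left h1
    refine ⟨hm, ?_, ?_, ?_⟩
    · rw [hLm.natDegree_mul hm, natDegree_X_sub_C] at h2
      omega
    · intro P hP
      apply h3
      rw [normalizedFactors_mul hL0 hm.ne_zero]
      exact Multiset.mem_add.mpr (Or.inr hP)
    · rw [rstar_mul, hLs] at h4
      exact mul_left_cancel₀ hL0 h4
  · rintro ⟨h1, h2, h3, h4⟩
    refine ⟨hLm.mul h1, ?_, ?_, ?_⟩
    · rw [hLm.natDegree_mul h1, natDegree_X_sub_C, h2, add_comm]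
    · intro P hP
      rw [normalizedFactors_mul hL0 h1.ne_zero, Multiset.mem_add] at hP
      rcases hP with hP | hP
      · rw [normalizedFactors_irreducible (irreducible_X_sub_C 1), Multiset.mem_singleton,
          hLm.normalize_eq_self] at hP
        exact Or.inl hP
      · exact h3 P hP
    · rw [rstar_mul, hLs, h4]

variable [Fintype F] {τ : Type} [Fintype τ] [DecidableEq τ]

/-- Master count: classes of elements of odd prime order `r` in the isometry group of a
nondegenerate quadratic form, in terms of a type condition `TOK` deciding whether elements without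
fixed vectors occur. -/
theorem master {p : ℕ} [Fact p.Prime] [CharP F p] (Q : QuadraticForm F (τ → F)) (hS : Sep Q)
    (hn : 1 ≤ Fintype.card τ) (r i t : ℕ) (hr : r.Prime) (hr2 : r ≠ 2) (hrp : r ≠ p)
    (hi : i = orderOf ((Fintype.card F : ℕ) : ZMod r)) (ht : t * i = r - 1) (TOK : Prop)
    (hobs : ∀ g : ↥(Cfsg.isometryGroup F ⇑Q), orderOf g = r →
      ¬ (X - C (1 : F)) ∣ ((g : GL τ F) : Matrix τ τ F).charpoly → Even (Fintype.card τ) → TOK)
    (hreal : TOK → ∀ (ι : Type) [Fintype ι] [DecidableEq ι] (s N : Matrix ι ι F),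
      Fintype.card ι = Fintype.card τ → s ^ r = 1 → sᵀ * N * s = N → (N + Nᵀ).det ≠ 0 →
      ¬ (X - C (1 : F)) ∣ s.charpoly →
      ∃ j : (ι → F) →ₗ[F] (τ → F), ∀ u, Q (j u) = qN N u)
    (k₀ : ℕ) (hk₀T : TOK → k₀ = Fintype.card τ) (hk₀F : ¬ TOK → k₀ = Fintype.card τ - 1) :
    Nat.card {C : ConjClasses ↥(Cfsg.isometryGroup F ⇑Q) //
        ∃ g : ↥(Cfsg.isometryGroup F ⇑Q), ConjClasses.mk g = C ∧ orderOf g = r} =
      (if Odd i then Nat.choose (k₀ / (2 * i) + t / 2) (t / 2)
        else Nat.choose (k₀ / i + t) t) - 1 := by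
  classical
  have hp : p.Prime := Fact.out
  have hr0 : (r : F) ≠ 0 := by
    rw [Ne, CharP.cast_eq_zero_iff F p]
    intro h
    exact hrp ((Nat.prime_dvd_prime_iff_eq hp hr).mp h).symm
  obtain ⟨S, hLS, hSp, hSdvd, hcount, hdec⟩ := setup (F := F) (p := p) r i t hr hr2 hrp hi ht
  obtain ⟨n, hnd⟩ : ∃ n, n = Fintype.card τ := ⟨_, rfl⟩
  rw [← hnd] at hn hobs hreal hk₀T hk₀F
  obtain ⟨L, hL⟩ : ∃ L : F[X], L = X - C (1 : F) := ⟨_, rfl⟩
  rw [← hL] at hLS hSdvd hdec hobs hreal
  have hLm : L.Monic := hL ▸ monic_X_sub_C 1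
  have hone : (1 : Matrix τ τ F).charpoly = L ^ n := by
    rw [Matrix.charpoly_one, hL, hnd, C_1]
  have hLn : L ^ n ∈ D S n := hL ▸ pow_mem_D S n
  have hiso : ∀ (g : ↥(Cfsg.isometryGroup F ⇑Q)) (u : τ → F),
      Q (((g : GL τ F) : Matrix τ τ F) *ᵥ u) = Q u := fun g u => g.2 u u
  have hinv : ∀ a b : ↥(Cfsg.isometryGroup F ⇑Q), IsConj a b →
      ((a : GL τ F) : Matrix τ τ F).charpoly = ((b : GL τ F) : Matrix τ τ F).charpoly := by
    intro a b hab
    obtain ⟨c, rfl⟩ := isConj_iff.mp hab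
    have h1 : (((c * a * c⁻¹ : ↥(Cfsg.isometryGroup F ⇑Q)) : GL τ F) : Matrix τ τ F) =
        ((c : GL τ F) : Matrix τ τ F) * ((a : GL τ F) : Matrix τ τ F) *
          (((c : GL τ F)⁻¹ : GL τ F) : Matrix τ τ F) := rfl
    rw [h1, Matrix.coe_units_inv]
    exact (Matrix.charpoly_units_conj (c : GL τ F) ((a : GL τ F) : Matrix τ τ F)).symm
  obtain ⟨cp, hcp⟩ : ∃ cp : ConjClasses ↥(Cfsg.isometryGroup F ⇑Q) → Polynomial F,
      ∀ g : ↥(Cfsg.isometryGroup F ⇑Q), cp (ConjClasses.mk g) =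
        ((g : GL τ F) : Matrix τ τ F).charpoly :=
    ⟨Quotient.lift (fun g : ↥(Cfsg.isometryGroup F ⇑Q) => ((g : GL τ F) : Matrix τ τ F).charpoly)
      (fun a b hab => hinv a b hab), fun g => rfl⟩
  have hpow : ∀ g : ↥(Cfsg.isometryGroup F ⇑Q), g ^ r = 1 →
      ((g : GL τ F) : Matrix τ τ F) ^ r = 1 := by
    intro g h3
    rw [← Units.val_pow_eq_pow_val, ← Subgroup.coe_pow, h3]
    rfl
  have hprop : ∀ g : ↥(Cfsg.isometryGroup F ⇑Q), orderOf g = r →
      ((g : GL τ F) : Matrix τ τ F).charpoly ∈ D S n ∧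
        ((g : GL τ F) : Matrix τ τ F).charpoly ≠ L ^ n := by
    intro g hg
    have hgr := hpow g (by rw [← hg, pow_orderOf_eq_one])
    refine ⟨⟨Matrix.charpoly_monic _, by rw [Matrix.charpoly_natDegree_eq_dim, hnd], ?_, ?_⟩, ?_⟩
    · intro P hP
      rw [← hL]
      apply (hSdvd P (irreducible_of_normalized_factor P hP)
        (Cfsg.Agent.S2568.monic_of_mem_nf _ P hP)).mp
      apply dvd_of_mem_nf_charpoly' ((g : GL τ F) : Matrix τ τ F) _ _ P hP
      rw [map_sub, map_pow, aeval_X, aeval_C, map_one, hgr, sub_self]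
    · exact rstar_charpoly_iso hS _ (((g : GL τ F)⁻¹ : GL τ F) : Matrix τ τ F)
        (Units.mul_inv (g : GL τ F)) (hiso g)
    · intro hmem
      rw [← hone] at hmem
      obtain ⟨P, P', hPP', hP'P, hPA⟩ := Cfsg.Agent.Lib.Helper40.SSConj.matrix_conj
        ((g : GL τ F) : Matrix τ τ F) (1 : Matrix τ τ F) r hr0 hgr (one_pow r) hmem
      have h1 : ((g : GL τ F) : Matrix τ τ F) = 1 := by
        calc ((g : GL τ F) : Matrix τ τ F)
            = P' * P * ((g : GL τ F) : Matrix τ τ F) := by rw [hP'P, Matrix.one_mul]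
          _ = P' * (1 * P) := by rw [Matrix.mul_assoc, hPA]
          _ = 1 := by rw [Matrix.one_mul, hP'P]
      have h2 : g = 1 := Subtype.ext (Units.ext h1)
      rw [h2, orderOf_one] at hg
      exact hr.one_lt.ne' hg.symm
  have heven : ∀ c : F[X], c ∈ D S n → ¬ L ∣ c → Even n := by
    intro c hc hLc
    obtain ⟨c', hc1, hc2, hc3, -, -⟩ := hdec n c hc
    have h0 : n - c'.natDegree = 0 := by
      by_contra h0
      apply hLc
      rw [hc1]
      exact Dvd.dvd.mul_right (dvd_pow_self L h0) _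
    have h1 : c'.natDegree = n := by omega
    exact h1 ▸ hc3
  obtain ⟨Im, hIm⟩ : ∃ Im : Set F[X], Im = {c | c ∈ D S n ∧ c ≠ L ^ n ∧ (L ∣ c ∨ TOK)} :=
    ⟨_, rfl⟩
  have key : Nat.card {C : ConjClasses ↥(Cfsg.isometryGroup F ⇑Q) //
        ∃ g : ↥(Cfsg.isometryGroup F ⇑Q), ConjClasses.mk g = C ∧ orderOf g = r} =
      Nat.card ↥Im := by
    apply Nat.card_eq_of_bijective
      (fun c => (⟨cp c.1, by
        obtain ⟨g, hg, hgo⟩ := c.2
        rw [← hg, hcp, hIm]
        refine ⟨(hprop g hgo).1, (hprop g hgo).2, ?_⟩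
        by_cases hLc : L ∣ ((g : GL τ F) : Matrix τ τ F).charpoly
        · exact Or.inl hLc
        · exact Or.inr (hobs g hgo hLc (heven _ (hprop g hgo).1 hLc))⟩ : ↥Im))
    constructor
    · rintro ⟨C₁, g₁, rfl, h₁⟩ ⟨C₂, g₂, rfl, h₂⟩ h
      have hc : ((g₁ : GL τ F) : Matrix τ τ F).charpoly =
          ((g₂ : GL τ F) : Matrix τ τ F).charpoly := by
        have := congrArg Subtype.val h
        simp only [hcp] at this
        exact this
      apply Subtype.ext
      show ConjClasses.mk g₁ = ConjClasses.mk g₂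
      rw [ConjClasses.mk_eq_mk_iff_isConj]
      exact conj_of_charpoly Q hS g₁ g₂ r (hr.odd_of_ne_two hr2) hr0
        (by rw [← h₁, pow_orderOf_eq_one]) (by rw [← h₂, pow_orderOf_eq_one]) hc
    · rintro ⟨c, hcIm⟩
      rw [hIm] at hcIm
      obtain ⟨hcD, hcne, hcT⟩ := hcIm
      obtain ⟨c', hc1, hc2, hc3, ⟨ι, _, _, s, N, hsc, hsr, hsN, hNdet⟩, hc5⟩ := hdec n c hcD
      have hcard : Fintype.card ι = c'.natDegree := by
        rw [← hsc, Matrix.charpoly_natDegree_eq_dim]
      have hj : ∃ j : (ι → F) →ₗ[F] (τ → F), ∀ u, Q (j u) = qN N u := by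
        rcases Nat.lt_or_ge c'.natDegree n with hlt | hge
        · obtain ⟨kk, hkk⟩ := hc3
          exact exists_embedding kk (ι → F) (qN N) (τ → F) Q
            (by rw [Module.finrank_fintype_fun_eq_card, hcard, hkk, two_mul])
            (by rw [Module.finrank_fintype_fun_eq_card, Module.finrank_fintype_fun_eq_card, hcard,
              ← hnd]; exact hlt)
            (sep_qN hNdet) hS
        · have h1 : c'.natDegree = n := by omega
          have h2 : c = c' := by
            rw [hc1, h1, Nat.sub_self, pow_zero, one_mul]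
          have hT : TOK := by
            rcases hcT with h | h
            · exact absurd (h2 ▸ h) hc5
            · exact h
          exact hreal hT ι s N (by rw [hcard, h1]) hsr hsN hNdet (by rw [hsc]; exact hc5)
      obtain ⟨j, hj⟩ := hj
      obtain ⟨g₀, hg₀m, hg₀c, hg₀r⟩ := exists_ext Q N s hNdet hsN r hr.pos hsr j hj
        (by rw [hcard, ← hnd]; exact hc2)
      have hgc : ((g₀ : GL τ F) : Matrix τ τ F).charpoly = c := by
        rw [hg₀c, hsc, hcard, ← hnd, ← hL, ← hc1]
      obtain ⟨g, hg⟩ : ∃ g : ↥(Cfsg.isometryGroup F ⇑Q), (g : GL τ F) = g₀ := ⟨⟨g₀, hg₀m⟩, rfl⟩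
      have hgr : g ^ r = 1 := by
        apply Subtype.ext
        rw [Subgroup.coe_pow, hg]
        exact hg₀r
      have hord : orderOf g = r := by
        rcases (Nat.dvd_prime hr).mp (orderOf_dvd_of_pow_eq_one hgr) with h | h
        · exfalso
          apply hcne
          have h1 : g = 1 := orderOf_eq_one_iff.mp h
          have h2 : ((g₀ : GL τ F) : Matrix τ τ F) = 1 := by
            rw [← hg, h1]
            rfl
          rw [← hgc, h2, hone]
        · exact h
      refine ⟨⟨ConjClasses.mk g, g, rfl, hord⟩, ?_⟩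
      apply Subtype.ext
      show cp (ConjClasses.mk g) = c
      rw [hcp, hg]
      exact hgc
  have hImcard : Im.ncard = (D S k₀).ncard - 1 := by
    by_cases hT : TOK
    · have hk₀ := hk₀T hT
      have h1 : Im = D S n \ {L ^ n} := by
        rw [hIm]
        ext c
        simp only [Set.mem_setOf_eq, Set.mem_diff, Set.mem_singleton_iff]
        constructor
        · rintro ⟨h1, h2, -⟩
          exact ⟨h1, h2⟩
        · rintro ⟨h1, h2⟩
          exact ⟨h1, h2, Or.inr hT⟩
      rw [h1, hk₀, Set.ncard_sdiff_singleton_of_mem hLn]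
    · have hk₀ := hk₀F hT
      have hn1 : n = k₀ + 1 := by omega
      have hL0 : L ≠ 0 := hLm.ne_zero
      have h1 : Im = (fun c₀ => L * c₀) '' (D S k₀ \ {L ^ k₀}) := by
        rw [hIm]
        ext c
        simp only [Set.mem_setOf_eq, Set.mem_image, Set.mem_diff, Set.mem_singleton_iff]
        constructor
        · rintro ⟨h1, h2, h3⟩
          rcases h3 with h3 | h3
          · obtain ⟨c₀, rfl⟩ := h3
            refine ⟨c₀, ⟨?_, ?_⟩, rfl⟩
            · rw [hn1, hL] at h1
              exact (mul_mem_D_iff S k₀ c₀).mp h1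
            · intro h4
              apply h2
              rw [h4, hn1, pow_succ']
          · exact absurd h3 hT
        · rintro ⟨c₀, ⟨h1, h2⟩, rfl⟩
          refine ⟨?_, ?_, Or.inl (dvd_mul_right L c₀)⟩
          · rw [hn1, hL]
            exact (mul_mem_D_iff S k₀ c₀).mpr h1
          · intro h4
            apply h2
            rw [hn1, pow_succ'] at h4
            exact mul_left_cancel₀ hL0 h4
      rw [h1, Set.ncard_image_of_injective _ (mul_right_injective₀ hL0),
        Set.ncard_sdiff_singleton_of_mem (hL ▸ pow_mem_D S k₀)]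
  rw [key, Nat.card_coe_set_eq, hImcard, hcount]

end Cfsg.Agent.Lib.Helper44.OCls4
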