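import Mathlib
import Cfsg.Agent.Lib.Helper44.OTyp2
import Cfsg.Agent.Lib.Helper44.OCls4
import Cfsg.Agent.Lib.Helper44.QCount

set_option autoImplicit false

namespace Cfsg.Agent.Lib.Helper44.OTyp3

open Polynomial UniqueFactorizationMonoid Matrix Module QuadraticMap
open Cfsg.Agent.Lib.Helper44.QSpace Cfsg.Agent.Lib.Helper44.OExt Cfsg.Agent.Lib.Helper44.OCls1
open Cfsg.Agent.Lib.Helper44.OCls2 Cfsg.Agent.Lib.Helper44.OCls3 Cfsg.Agent.Lib.Helper44.OMat
open Cfsg.Agent.Lib.Helper44.OGroup Cfsg.Agent.Lib.Helper44.OTyp1 Cfsg.Agent.Lib.Helper44.OTyp2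
open Cfsg.Agent.Lib.Helper44.NegPairs Cfsg.Agent.Lib.Helper44.QCount
open Cfsg.Agent.Lib.Helper40.RecipPoly

theorem div_pred (n d : ℕ) (hn : 1 ≤ n) (hd : 1 ≤ d) :
    (d ∣ n → (n - 1) / d + 1 = n / d) ∧ (¬ d ∣ n → (n - 1) / d = n / d) := by
  have h1 := Nat.div_add_mod n d
  have h2 := Nat.mod_lt n (show d > 0 by omega)
  have h3 : n / d * d = d * (n / d) := mul_comm _ _
  constructor
  · intro hdvd
    have h4 : n % d = 0 := Nat.mod_eq_zero_of_dvd hdvd
    have h5 : 1 ≤ n / d := by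
      rcases Nat.eq_zero_or_pos (n / d) with h | h
      · rw [h, mul_zero] at h1
        omega
      · exact h
    obtain ⟨K, hK⟩ : ∃ K, n / d = K + 1 := ⟨n / d - 1, by omega⟩
    rw [hK] at h1 ⊢
    have h6 : (n - 1) / d = K := by
      apply Nat.div_eq_of_lt_le
      · have : d * (K + 1) = K * d + d := by ring
        omega
      · have : d * (K + 1) = (K + 1) * d := by ring
        omega
    rw [h6]
  · intro hdvd
    have h4 : n % d ≠ 0 := fun h => hdvd (Nat.dvd_of_mod_eq_zero h)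
    apply Nat.div_eq_of_lt_le
    · omega
    · have : (n / d + 1) * d = d * (n / d) + d := by ring
      omega

theorem arith (n d T : ℕ) (hn : 1 ≤ n) (hd : 1 ≤ d) (hT : 1 ≤ T) [Decidable (d ∣ n)] :
    Nat.choose ((n - 1) / d + T) T - 1 = Nat.choose (n / d + T) T - 1
      - (if d ∣ n then Nat.choose (n / d + T - 1) (T - 1) else 0) := by
  obtain ⟨h1, h2⟩ := div_pred n d hn hd
  by_cases hdvd : d ∣ n
  · rw [if_pos hdvd]
    obtain ⟨T', rfl⟩ : ∃ T', T = T' + 1 := ⟨T - 1, by omega⟩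
    have h3 := h1 hdvd
    rw [← h3]
    obtain ⟨A, hA⟩ : ∃ A, A = (n - 1) / d := ⟨_, rfl⟩
    rw [← hA]
    have h4 : A + 1 + (T' + 1) = (A + T' + 1) + 1 := by omega
    rw [h4, Nat.add_sub_cancel, Nat.add_sub_cancel, Nat.choose_succ_succ', ← add_assoc]
    omega
  · rw [if_neg hdvd, h2 hdvd, Nat.sub_zero]

variable {F : Type*} [Field F]

theorem coprime_prods (A B : Multiset F[X]) (hA : ∀ P ∈ A, Irreducible P ∧ P.Monic)
    (hB : ∀ P ∈ B, Irreducible P ∧ P.Monic) (hdisj : ∀ P ∈ A, P ∉ B) :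
    IsCoprime A.prod B.prod := by
  induction A using Multiset.induction_on with
  | empty =>
    rw [Multiset.prod_zero]
    exact isCoprime_one_left
  | cons P A ih =>
    rw [Multiset.prod_cons]
    have hP := hA P (Multiset.mem_cons_self P A)
    apply IsCoprime.mul_left
    · rw [hP.1.coprime_iff_not_dvd]
      intro hdvd
      obtain ⟨P', hP', hPP'⟩ := hP.1.prime.exists_mem_multiset_dvd hdvd
      have h2 := hP.1.associated_of_dvd (hB P' hP').1 hPP'
      have h3 := eq_of_monic_of_associated hP.2 (hB P' hP').2 h2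
      exact hdisj P (Multiset.mem_cons_self P A) (h3 ▸ hP')
    · exact ih (fun P' hP' => hA P' (Multiset.mem_cons_of_mem hP'))
        (fun P' hP' => hdisj P' (Multiset.mem_cons_of_mem hP'))

variable [DecidableEq F]

theorem facts [Fintype F] {p : ℕ} [Fact p.Prime] [CharP F p] (r i t : ℕ) (hr : r.Prime)
    (hr2 : r ≠ 2) (hrp : r ≠ p) (hi : i = orderOf ((Fintype.card F : ℕ) : ZMod r))
    (ht : t * i = r - 1) :
    (∀ c : F[X], c.Monic → (∀ P ∈ normalizedFactors c, P ∣ X ^ r - C (1 : F)) →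
      ¬ (X - C (1 : F)) ∣ c → i ∣ c.natDegree) ∧
    (Odd i → ∀ c : F[X], c.Monic → (∀ P ∈ normalizedFactors c, P ∣ X ^ r - C (1 : F)) →
      rstar (RingHom.id F) c = c → ¬ (X - C (1 : F)) ∣ c →
      ∃ c₁ : F[X], c₁.Monic ∧ c₁.coeff 0 ≠ 0 ∧ c = c₁ * rstar (RingHom.id F) c₁ ∧
        IsCoprime c₁ (rstar (RingHom.id F) c₁) ∧ IsCoprime c₁ (X - C 1) ∧
        IsCoprime (rstar (RingHom.id F) c₁) (X - C 1)) := by
  classical
  have hp : p.Prime := Fact.out
  have : Fact r.Prime := ⟨hr⟩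
  have hipos : 0 < i := by
    rcases Nat.eq_zero_or_pos i with h | h
    · subst h
      have := hr.two_le
      omega
    · exact h
  obtain ⟨S, hScard, hLS, hS, hSdvd⟩ :=
    Cfsg.Agent.S2568.cyclo_facts (F := F) (p := p) r i t hr hrp hi ht
  obtain ⟨L, hL⟩ : ∃ L : F[X], L = X - C (1 : F) := ⟨_, rfl⟩
  have hLirr : Irreducible L := hL ▸ irreducible_X_sub_C 1
  have hLm : L.Monic := hL ▸ monic_X_sub_C 1
  have hLd : L.natDegree = 1 := hL ▸ natDegree_X_sub_C 1
  rw [← hL] at hLS hSdvd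
  have hLs : rstar (RingHom.id F) L = L := by
    rw [hL]
    exact rstar_X_sub_one (RingHom.id F)
  have hL0 : L.coeff 0 ≠ 0 := by
    rw [hL, coeff_sub, coeff_X_zero, coeff_C_zero, zero_sub]
    exact neg_ne_zero.mpr one_ne_zero
  have hXr0 : (X ^ r - C (1 : F)).coeff 0 ≠ 0 := by
    rw [coeff_sub, coeff_X_pow, coeff_C_zero, if_neg hr.ne_zero.symm, zero_sub]
    exact neg_ne_zero.mpr one_ne_zero
  have hSd : ∀ P ∈ S, P ∣ X ^ r - C (1 : F) := fun P hP =>
    (hSdvd P (hS P hP).1 (hS P hP).2.1).mpr (Or.inr hP)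
  have hS0 : ∀ P ∈ S, P.coeff 0 ≠ 0 := fun P hP => coeff0_of_dvd (hSd P hP) hXr0
  have hid2 : ∀ x : F, (RingHom.id F) ((RingHom.id F) x) = x := fun x => rfl
  have hSs : ∀ P ∈ S, rstar (RingHom.id F) P ∈ S := by
    intro P hP
    obtain ⟨Q, hQ⟩ := hSd P hP
    have h1 : rstar (RingHom.id F) P ∣ X ^ r - C (1 : F) := by
      have h2 := rstar_X_pow_sub_one (RingHom.id F) r hr.pos
      rw [hQ, rstar_mul] at h2
      exact ⟨rstar (RingHom.id F) Q, by rw [hQ]; exact h2.symm⟩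
    rcases (hSdvd _ (rstar_irreducible (RingHom.id F) hid2 P (hS P hP).1 (hS P hP).2.1 (hS0 P hP))
      (rstar_monic (RingHom.id F) P (hS0 P hP))).mp h1 with h | h
    · exfalso
      have h2 := rstar_star (RingHom.id F) hid2 P (hS P hP).2.1 (hS0 P hP)
      rw [h, hLs] at h2
      exact hLS (h2 ▸ hP)
    · exact h
  have hSss : ∀ P ∈ S, rstar (RingHom.id F) (rstar (RingHom.id F) P) = P := fun P hP =>
    rstar_star (RingHom.id F) hid2 P (hS P hP).2.1 (hS0 P hP)
  have hcrit : ∀ P ∈ S, (rstar (RingHom.id F) P = P ↔ ∃ k : ℕ, r ∣ Fintype.card F ^ k + 1) := by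
    intro P hP
    exact rstar_eq_iff (p := p) (RingHom.id F) 1 0 (by rw [pow_zero]) (fun x => by simp) hid2 r hr
      P (hS P hP).1 (hS P hP).2.1 (fun h => hLS (by rw [hL, ← h]; exact hP)) (hSd P hP)
  have h2ne : (2 : ZMod r) ≠ 0 := by
    intro h
    have h7 : ((2 : ℕ) : ZMod r) = 0 := by
      rw [Nat.cast_ofNat]
      exact h
    have h8 := (ZMod.natCast_eq_zero_iff _ _).mp h7
    exact hr2 ((Nat.prime_dvd_prime_iff_eq hr Nat.prime_two).mp h8)
  have hiff : (∃ k : ℕ, r ∣ Fintype.card F ^ k + 1) → Even i := by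
    rintro ⟨k, hk⟩
    have hk' : ((Fintype.card F : ℕ) : ZMod r) ^ k = -1 := by
      rw [← ZMod.natCast_eq_zero_iff, Nat.cast_add, Nat.cast_pow, Nat.cast_one] at hk
      exact eq_neg_of_add_eq_zero_left hk
    by_contra hodd
    rw [Nat.not_even_iff_odd] at hodd
    have h3 : i ∣ 2 * k := by
      rw [hi]
      apply orderOf_dvd_of_pow_eq_one
      rw [mul_comm, pow_mul, hk', neg_one_sq]
    have h4 : i ∣ k := Nat.Coprime.dvd_of_dvd_mul_left
      (Nat.Coprime.symm (Nat.coprime_two_left.mpr hodd)) h3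
    rw [hi] at h4
    have h5 := orderOf_dvd_iff_pow_eq_one.mp h4
    rw [hk'] at h5
    apply h2ne
    linear_combination -h5
  have hS' : ∀ P ∈ S, Irreducible P ∧ P.Monic ∧ P.natDegree = i ∧ P.coeff 0 ≠ 0 :=
    fun P hP => ⟨(hS P hP).1, (hS P hP).2.1, (hS P hP).2.2, hS0 P hP⟩
  have hfac : ∀ c : F[X], c.Monic → (∀ P ∈ normalizedFactors c, P ∣ X ^ r - C (1 : F)) →
      ¬ L ∣ c → ∀ P ∈ normalizedFactors c, P ∈ S := by
    intro c hcm hc hLc P hP
    rcases (hSdvd P (irreducible_of_normalized_factor P hP)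
      (Cfsg.Agent.S2568.monic_of_mem_nf _ P hP)).mp (hc P hP) with h | h
    · exact absurd (h ▸ dvd_of_mem_normalizedFactors hP) hLc
    · exact h
  rw [← hL]
  constructor
  · intro c hcm hc hLc
    rw [Cfsg.Agent.S2568.natDegree_eq_sum_nf c hcm]
    have h1 : (normalizedFactors c).map natDegree
        = Multiset.replicate (Multiset.card (normalizedFactors c)) i := by
      rw [Multiset.eq_replicate]
      refine ⟨Multiset.card_map _ _, ?_⟩
      intro d hd
      obtain ⟨P, hP, rfl⟩ := Multiset.mem_map.mp hd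
      exact (hS P (hfac c hcm hc hLc P hP)).2.2
    rw [h1, Multiset.sum_replicate, smul_eq_mul]
    exact dvd_mul_left i _
  · intro hodd c hcm hc hcr hLc
    have hne : ∀ P ∈ S, rstar (RingHom.id F) P ≠ P := by
      intro P hP h
      exact (Nat.not_even_iff_odd.mpr hodd) (hiff ((hcrit P hP).mp h))
    obtain ⟨R, hRS, hR, hRcard⟩ := exists_half S (rstar (RingHom.id F)) hSs hSss hne
    obtain ⟨hdec, -⟩ := count_fpf (RingHom.id F) hid2 L hLirr hLm hLd hL0 hLs S R i hipos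
      hS' hLS hSs hRS hR c.natDegree
    obtain ⟨v, hvR, hvk, hcv⟩ := hdec c hcm rfl
      (fun P hP => Or.inr (hfac c hcm hc hLc P hP)) hcr
    have h0 : c.natDegree - 2 * i * Multiset.card v = 0 := by
      by_contra h0
      apply hLc
      rw [hcv]
      exact Dvd.dvd.mul_right (dvd_pow_self L h0) _
    rw [h0, pow_zero, one_mul] at hcv
    have hvS : ∀ P ∈ v, P ∈ S := fun P hP => hRS (hvR P hP)
    obtain ⟨hvm, hvd, hv0, hvL⟩ := prod_facts S i hS' (hL ▸ hLS) v hvS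
    have hv'S : ∀ P ∈ v.map (rstar (RingHom.id F)), P ∈ S := by
      intro P hP
      obtain ⟨P', hP', rfl⟩ := Multiset.mem_map.mp hP
      exact hSs P' (hvS P' hP')
    obtain ⟨hv'm, hv'd, hv'0, hv'L⟩ := prod_facts S i hS' (hL ▸ hLS) _ hv'S
    rw [← rstar_multiset_prod] at hv'm hv'd hv'0 hv'L
    rw [← hL] at hvL hv'L
    refine ⟨v.prod, hvm, hv0, hcv, ?_, (hLirr.coprime_iff_not_dvd.mpr hvL).symm,
      (hLirr.coprime_iff_not_dvd.mpr hv'L).symm⟩
    rw [rstar_multiset_prod]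
    apply coprime_prods
    · intro P hP
      exact ⟨(hS P (hvS P hP)).1, (hS P (hvS P hP)).2.1⟩
    · intro P hP
      exact ⟨(hS P (hv'S P hP)).1, (hS P (hv'S P hP)).2.1⟩
    · intro P hP hP'
      obtain ⟨P', hP'v, rfl⟩ := Multiset.mem_map.mp hP'
      exact ((hR P' (hvS P' hP'v)).mp (hvR P' hP'v)) (hvR _ hP)

section obs

variable [Fintype F] {ι : Type} [Fintype ι] [DecidableEq ι]

/-- The obstruction at matrix level: the number of singular vectors of a nondegenerate quadratic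
form admitting an isometry of odd prime order `r` without fixed vectors. -/
theorem obs_matrix {p : ℕ} [Fact p.Prime] [CharP F p] (Q : QuadraticForm F (ι → F)) (hS : Sep Q)
    {k : ℕ} (hcard : Fintype.card ι = 2 * (k + 1)) (r i t : ℕ) (hr : r.Prime) (hr2 : r ≠ 2)
    (hrp : r ≠ p) (hi : i = orderOf ((Fintype.card F : ℕ) : ZMod r)) (ht : t * i = r - 1)
    (s : Matrix ι ι F) (hsr : s ^ r = 1) (hsQ : ∀ u, Q (s *ᵥ u) = Q u)
    (hsL : ¬ (X - C (1 : F)) ∣ s.charpoly) :
    ((Odd i ∨ Even (2 * (k + 1) / i)) → Nat.card {v : ι → F // Q v = 0} * Fintype.card F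
      = Fintype.card F ^ (k + 1 + 1)
        + (Fintype.card F ^ (k + 1) - 1) * Fintype.card F ^ (k + 1)) ∧
    (¬ (Odd i ∨ Even (2 * (k + 1) / i)) → Nat.card {v : ι → F // Q v = 0} * Fintype.card F
      = Fintype.card F ^ (k + 1)
        + Fintype.card F ^ 2 * ((Fintype.card F ^ k - 1) * Fintype.card F ^ k)) := by
  classical
  have : Fact r.Prime := ⟨hr⟩
  obtain ⟨hf1, hf2⟩ := facts (F := F) (p := p) r i t hr hr2 hrp hi ht
  obtain ⟨s', hs'⟩ : ∃ s' : Matrix ι ι F, s' = s ^ (r - 1) := ⟨_, rfl⟩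
  have h1 : s * s' = 1 := by rw [hs', ← pow_succ', Nat.sub_add_cancel hr.pos, hsr]
  have h2 : s' * s = 1 := by rw [hs', ← pow_succ, Nat.sub_add_cancel hr.pos, hsr]
  have hfin : finrank F (ι → F) = 2 * (k + 1) := by
    rw [Module.finrank_fintype_fun_eq_card, hcard]
  have hcm : s.charpoly.Monic := Matrix.charpoly_monic s
  have hcf : ∀ P ∈ normalizedFactors s.charpoly, P ∣ X ^ r - C (1 : F) := by
    intro P hP
    apply dvd_of_mem_nf_charpoly' s _ _ P hP
    rw [map_sub, map_pow, aeval_X, aeval_C, map_one, hsr, sub_self]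
  have hcr : rstar (RingHom.id F) s.charpoly = s.charpoly := rstar_charpoly_iso hS s s' h1 hsQ
  have hcd : s.charpoly.natDegree = 2 * (k + 1) := by
    rw [Matrix.charpoly_natDegree_eq_dim, hcard]
  have hfree : ∀ v : ι → F, v ≠ 0 → s *ᵥ v ≠ v := by
    intro v hv hsv
    apply hsL
    rw [Polynomial.dvd_iff_isRoot, Polynomial.IsRoot, Matrix.eval_charpoly]
    apply Matrix.exists_mulVec_eq_zero_iff.mp
    refine ⟨v, hv, ?_⟩
    rw [sub_mulVec, hsv, map_one, one_mulVec, sub_self]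
  by_cases hodd : Odd i
  · refine ⟨fun _ => ?_, fun h => absurd (Or.inl hodd) h⟩
    obtain ⟨c₁, hc₁m, hc₁0, hc, hcop, hL1, hL2⟩ := hf2 hodd s.charpoly hcm hcf hcr hsL
    have hmul : Matrix.toLin' s * Matrix.toLin' s' = 1 := by
      rw [Module.End.mul_eq_comp, ← Matrix.toLin'_mul, h1, Matrix.toLin'_one]
      rfl
    have hmul' : Matrix.toLin' s' * Matrix.toLin' s = 1 := by
      rw [Module.End.mul_eq_comp, ← Matrix.toLin'_mul, h2, Matrix.toLin'_one]
      rfl
    have hann : aeval (Matrix.toLin' s) (c₁ * rstar (RingHom.id F) c₁) = 0 := by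
      have h := LinearMap.aeval_self_charpoly (Matrix.toLin' s)
      rw [Matrix.charpoly_toLin', hc] at h
      exact h
    exact obs_odd Q hS hfin (Matrix.toLin' s) (Matrix.toLin' s') hmul hmul'
      (fun v => by rw [Matrix.toLin'_apply]; exact hsQ v) c₁ hc₁m hc₁0 hcop hann hL1 hL2
  · have hev : Even i := Nat.not_odd_iff_even.mp hodd
    obtain ⟨K, hK⟩ := hf1 s.charpoly hcm hcf hsL
    rw [hcd] at hK
    have hipos : 0 < i := by
      rcases Nat.eq_zero_or_pos i with h | h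
      · subst h
        simp at hK
      · exact h
    have hKdiv : 2 * (k + 1) / i = K := by
      rw [hK]
      exact Nat.mul_div_cancel_left K hipos
    obtain ⟨gu, hgu⟩ : ∃ gu : GL ι F, (gu : Matrix ι ι F) = s := ⟨⟨s, s', h1, h2⟩, rfl⟩
    have hgur : gu ^ r = 1 := by
      apply Units.ext
      rw [Units.val_pow_eq_pow_val, hgu, hsr]
      rfl
    have hgr : glEquiv gu ^ r = 1 := by rw [← map_pow, hgur, map_one]
    have hgO : glEquiv gu ∈ O Q := by
      intro x
      rw [glEquiv_apply, hgu]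
      exact hsQ x
    have hgfree : ∀ v : ι → F, v ≠ 0 → glEquiv gu v ≠ v := by
      intro v hv
      rw [glEquiv_apply, hgu]
      exact hfree v hv
    obtain ⟨he1, he2⟩ := obs_even Q hS hfin hr2 (glEquiv gu) hgO hgr hgfree i hi hev K hK
    rw [hKdiv]
    refine ⟨fun h => ?_, fun h => ?_⟩
    · rcases h with h | h
      · exact absurd h hodd
      · exact he1 h
    · exact he2 (fun hK' => h (Or.inr hK'))

end obs

section concrete

variable [Fintype F]

theorem sing_plus (k : ℕ) :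
    Nat.card {v : Fin (k + 1) ⊕ Fin (k + 1) → F // plusQ (k + 1) F v = 0} * Fintype.card F
      = Fintype.card F ^ (k + 1 + 1)
        + (Fintype.card F ^ (k + 1) - 1) * Fintype.card F ^ (k + 1) := by
  have h := card_plusForm_mul (F := F) (κ := Fin (k + 1)) (0 : F)
  rw [if_pos rfl, Fintype.card_fin] at h
  exact h

theorem sing_minus (k : ℕ) (a c : F)
    (hac : ∀ z₁ z₂ : F, z₁ ^ 2 + a * z₁ * z₂ + c * z₂ ^ 2 = 0 → z₁ = 0 ∧ z₂ = 0) :
    Nat.card {v : (Fin k ⊕ Fin k) ⊕ Fin 2 → F // minusQ k F a c v = 0} * Fintype.card F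
      = Fintype.card F ^ (k + 1)
        + Fintype.card F ^ 2 * ((Fintype.card F ^ k - 1) * Fintype.card F ^ k) := by
  have h := card_hypForm_mul (F := F) (κ := Fin k) (τ := Fin 2)
    (fun w => w 0 ^ 2 + a * w 0 * w 1 + c * w 1 ^ 2) (0 : F)
  have h1 : Nat.card {w : Fin 2 → F // w 0 ^ 2 + a * w 0 * w 1 + c * w 1 ^ 2 = 0} = 1 := by
    rw [Nat.card_eq_one_iff_unique]
    have key : ∀ w : Fin 2 → F, w 0 ^ 2 + a * w 0 * w 1 + c * w 1 ^ 2 = 0 → w = 0 := by
      intro w hw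
      obtain ⟨h0, h1⟩ := hac (w 0) (w 1) hw
      funext t
      fin_cases t
      · exact h0
      · exact h1
    refine ⟨⟨?_⟩, ⟨⟨0, by simp⟩⟩⟩
    rintro ⟨w, hw⟩ ⟨w', hw'⟩
    apply Subtype.ext
    show w = w'
    exact (key w hw).trans (key w' hw').symm
  rw [h1, one_mul, Fintype.card_fin, Fintype.card_fin] at h
  exact h

end concrete

end Cfsg.Agent.Lib.Helper44.OTyp3
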