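import Mathlib
import Cfsg.Agent.Lib.Helper44.GFStmt

set_option autoImplicit false

/-! S2717: the action of the splitting matrix `Hs` on vectors, and pieces [HSb], [HSc]. -/

namespace Cfsg.Agent.Lib.Helper44.GFHs

open Matrix Module
open Cfsg.Agent.Lib.Helper44.GFStmt Cfsg.Agent.Lib.Helper44.MFldStmt

universe u

theorem Hs_inl_last {F : Type u} [Field F] (k : ℕ) (ω ω' : F) (v : MI k → F) :
    (Hs k ω ω' *ᵥ v) (Sum.inl (Fin.last k)) = v (Sum.inr 0) + ω * v (Sum.inr 1) := by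
  simp [Hs, HsRow, Matrix.mulVec, dotProduct, add_mul]

theorem Hs_inr_last {F : Type u} [Field F] (k : ℕ) (ω ω' : F) (v : MI k → F) :
    (Hs k ω ω' *ᵥ v) (Sum.inr (Fin.last k)) = v (Sum.inr 0) + ω' * v (Sum.inr 1) := by
  simp [Hs, HsRow, Matrix.mulVec, dotProduct, add_mul]

theorem Hs_inl_cast {F : Type u} [Field F] (k : ℕ) (ω ω' : F) (v : MI k → F) (i : Fin k) :
    (Hs k ω ω' *ᵥ v) (Sum.inl (Fin.castSucc i)) = v (Sum.inl (Sum.inl i)) := by
  show HsRow k ω ω' (Sum.inl (Fin.castSucc i)) ⬝ᵥ v = _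
  simp [HsRow]

theorem Hs_inr_cast {F : Type u} [Field F] (k : ℕ) (ω ω' : F) (v : MI k → F) (i : Fin k) :
    (Hs k ω ω' *ᵥ v) (Sum.inr (Fin.castSucc i)) = v (Sum.inl (Sum.inr i)) := by
  show HsRow k ω ω' (Sum.inr (Fin.castSucc i)) ⬝ᵥ v = _
  simp [HsRow]

/-- piece [HSb] -/
theorem hsIso : HsIso.{u} := by
  intro F _ k ω ω' v
  unfold Cfsg.quadFormPlus Cfsg.quadFormMinus
  rw [Fin.sum_univ_castSucc, Hs_inl_last, Hs_inr_last]
  simp only [Hs_inl_cast, Hs_inr_cast]
  ring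

/-- piece [HSc] -/
theorem hsMap : HsMap.{u} := by
  intro F _ k ω ω' σ
  ext i c
  rcases i with i | i
  · induction i using Fin.lastCases with
    | last =>
      rcases c with (c | c) | c
      · simp [Hs, HsRow]
      · simp [Hs, HsRow]
      · fin_cases c <;> simp [Hs, HsRow]
    | cast i =>
      simp [Hs, HsRow, Pi.single_apply, apply_ite]
  · induction i using Fin.lastCases with
    | last =>
      rcases c with (c | c) | c
      · simp [Hs, HsRow]
      · simp [Hs, HsRow]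
      · fin_cases c <;> simp [Hs, HsRow]
    | cast i =>
      simp [Hs, HsRow, Pi.single_apply, apply_ite]

end Cfsg.Agent.Lib.Helper44.GFHs
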