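import Mathlib
import Cfsg.Agent.Lib.Helper44.GFStmt

set_option autoImplicit false

/-! Piece statements for S2718 (involutory similarity-induced graph automorphisms of `PΩ⁺_{2m}`,
odd characteristic: the `Inndiag`-class is one or two `Inn`-classes), as `Prop`s.
Each piece is proved in its own file as `theorem main : <hypothesis pieces> → GAStmt.<Name>.{u}`. -/

namespace Cfsg.Agent.Lib.Helper44.GAStmt

open Matrix Module QuadraticMap
open Cfsg.Agent.Lib.Helper43.OPlAut Cfsg.Agent.Lib.Helper45.OmegaAut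
open Cfsg.Agent.Lib.Helper44.OFld0 Cfsg.Agent.Lib.Helper44.OFld1
  Cfsg.Agent.Lib.Helper44.OFldStmt Cfsg.Agent.Lib.Helper44.GFStmt

universe u

/-- [IDX] the index of `Inn` in `Inndiag` -/
def IndexInndiag : Prop := ∀ (F : Type u) [Field F] [Fintype F] (m : ℕ), 4 ≤ m →
  Odd (Fintype.card F) →
  Cfsg.Inn (Cfsg.POmega F (Cfsg.quadFormPlus m F)) ≤ Cfsg.inndiagPOmegaPlus m F ∧
  ((Odd m ∧ Fintype.card F % 4 = 3) →
    (Cfsg.Inn (Cfsg.POmega F (Cfsg.quadFormPlus m F))).relIndex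
      (Cfsg.inndiagPOmegaPlus m F) = 2) ∧
  (¬ (Odd m ∧ Fintype.card F % 4 = 3) →
    (Cfsg.Inn (Cfsg.POmega F (Cfsg.quadFormPlus m F))).relIndex
      (Cfsg.inndiagPOmegaPlus m F) = 4)

/-- [LB] outside the exceptional case a similarity-induced graph automorphism does not
centralise `Inndiag / Inn`, so `Inn · C_Inndiag(γ)` is not all of `Inndiag` -/
def LowerBound : Prop := ∀ (F : Type u) [Field F] [Fintype F] (m : ℕ), 4 ≤ m →
  Odd (Fintype.card F) → ¬ (Odd m ∧ Fintype.card F % 4 = 3) →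
  ∀ γ : MulAut (Cfsg.POmega F (Cfsg.quadFormPlus m F)),
    Cfsg.IsSimilarityGraphAutPOmegaPlus m γ →
    ¬ (Cfsg.inndiagPOmegaPlus m F ≤ Cfsg.Inn (Cfsg.POmega F (Cfsg.quadFormPlus m F)) ⊔
        (Cfsg.inndiagPOmegaPlus m F ⊓ Subgroup.centralizer {γ}))

/-- [NEG] a similarity with `g² = -μ(g)` preserves the two classes -/
def NegSq : Prop := ∀ (F : Type u) [Field F] [Fintype F] (m : ℕ), 1 ≤ m → (2 : F) ≠ 0 →
  ∀ (ε : GO m F →* Multiplicative (ZMod 2)), IsEps ε → ∀ (g : GO m F) (μ : F),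
    ((g : GL (Fin m ⊕ Fin m) F) : Matrix (Fin m ⊕ Fin m) (Fin m ⊕ Fin m) F) *
        ((g : GL (Fin m ⊕ Fin m) F) : Matrix (Fin m ⊕ Fin m) (Fin m ⊕ Fin m) F) =
      (-μ) • (1 : Matrix (Fin m ⊕ Fin m) (Fin m ⊕ Fin m) F) →
    (∀ x : Fin m ⊕ Fin m → F, Cfsg.quadFormPlus m F
        (((g : GL (Fin m ⊕ Fin m) F) : Matrix (Fin m ⊕ Fin m) (Fin m ⊕ Fin m) F) *ᵥ x) =
      μ * Cfsg.quadFormPlus m F x) →
    ε g = 1

/-- [CA] a similarity with `g² = c²`, multiplier `c²`, commutes with a product of two reflections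
whose values have a non-square product -/
def CaseSq : Prop := ∀ (F : Type u) [Field F] [Fintype F] (m : ℕ), 4 ≤ m → (2 : F) ≠ 0 →
  ∀ (g : GO m F) (c : F), c ≠ 0 →
    ((g : GL (Fin m ⊕ Fin m) F) : Matrix (Fin m ⊕ Fin m) (Fin m ⊕ Fin m) F) *
        ((g : GL (Fin m ⊕ Fin m) F) : Matrix (Fin m ⊕ Fin m) (Fin m ⊕ Fin m) F) =
      (c ^ 2) • (1 : Matrix (Fin m ⊕ Fin m) (Fin m ⊕ Fin m) F) →
    (∀ x : Fin m ⊕ Fin m → F, Cfsg.quadFormPlus m F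
        (((g : GL (Fin m ⊕ Fin m) F) : Matrix (Fin m ⊕ Fin m) (Fin m ⊕ Fin m) F) *ᵥ x) =
      c ^ 2 * Cfsg.quadFormPlus m F x) →
    ∃ u u' : Fin m ⊕ Fin m → F, Cfsg.quadFormPlus m F u ≠ 0 ∧ Cfsg.quadFormPlus m F u' ≠ 0 ∧
      ¬ IsSquare (Cfsg.quadFormPlus m F u * Cfsg.quadFormPlus m F u') ∧
      ((g : GL (Fin m ⊕ Fin m) F) : Matrix (Fin m ⊕ Fin m) (Fin m ⊕ Fin m) F) *
          (Cfsg.reflectionMatrix (Cfsg.quadFormPlus m F) u *
            Cfsg.reflectionMatrix (Cfsg.quadFormPlus m F) u') =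
        (Cfsg.reflectionMatrix (Cfsg.quadFormPlus m F) u *
            Cfsg.reflectionMatrix (Cfsg.quadFormPlus m F) u') *
          ((g : GL (Fin m ⊕ Fin m) F) : Matrix (Fin m ⊕ Fin m) (Fin m ⊕ Fin m) F)

/-- [CB] the same for `g² = ν`, multiplier `ν`, with `ν` a non-square -/
def CaseNonsq : Prop := ∀ (F : Type u) [Field F] [Fintype F] (m : ℕ), 4 ≤ m → (2 : F) ≠ 0 →
  ∀ (g : GO m F) (ν : F), ¬ IsSquare ν →
    ((g : GL (Fin m ⊕ Fin m) F) : Matrix (Fin m ⊕ Fin m) (Fin m ⊕ Fin m) F) *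
        ((g : GL (Fin m ⊕ Fin m) F) : Matrix (Fin m ⊕ Fin m) (Fin m ⊕ Fin m) F) =
      ν • (1 : Matrix (Fin m ⊕ Fin m) (Fin m ⊕ Fin m) F) →
    (∀ x : Fin m ⊕ Fin m → F, Cfsg.quadFormPlus m F
        (((g : GL (Fin m ⊕ Fin m) F) : Matrix (Fin m ⊕ Fin m) (Fin m ⊕ Fin m) F) *ᵥ x) =
      ν * Cfsg.quadFormPlus m F x) →
    ∃ u u' : Fin m ⊕ Fin m → F, Cfsg.quadFormPlus m F u ≠ 0 ∧ Cfsg.quadFormPlus m F u' ≠ 0 ∧
      ¬ IsSquare (Cfsg.quadFormPlus m F u * Cfsg.quadFormPlus m F u') ∧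
      ((g : GL (Fin m ⊕ Fin m) F) : Matrix (Fin m ⊕ Fin m) (Fin m ⊕ Fin m) F) *
          (Cfsg.reflectionMatrix (Cfsg.quadFormPlus m F) u *
            Cfsg.reflectionMatrix (Cfsg.quadFormPlus m F) u') =
        (Cfsg.reflectionMatrix (Cfsg.quadFormPlus m F) u *
            Cfsg.reflectionMatrix (Cfsg.quadFormPlus m F) u') *
          ((g : GL (Fin m ⊕ Fin m) F) : Matrix (Fin m ⊕ Fin m) (Fin m ⊕ Fin m) F)

/-- [DR] outside the exceptional case, a product of two reflections whose values have a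
non-square product is inner-diagonal but not inner -/
def RotNotInn : Prop := ∀ (F : Type u) [Field F] [Fintype F] (m : ℕ), 4 ≤ m → (2 : F) ≠ 0 →
  ¬ (Odd m ∧ Fintype.card F % 4 = 3) →
  ∀ (ε : GO m F →* Multiplicative (ZMod 2)), IsEps ε → ∀ (u u' : Fin m ⊕ Fin m → F),
    Cfsg.quadFormPlus m F u ≠ 0 → Cfsg.quadFormPlus m F u' ≠ 0 →
    ¬ IsSquare (Cfsg.quadFormPlus m F u * Cfsg.quadFormPlus m F u') →
    ∃ d : GO m F,
      ((d : GL (Fin m ⊕ Fin m) F) : Matrix (Fin m ⊕ Fin m) (Fin m ⊕ Fin m) F) =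
        Cfsg.reflectionMatrix (Cfsg.quadFormPlus m F) u *
          Cfsg.reflectionMatrix (Cfsg.quadFormPlus m F) u' ∧
      ε d = 1 ∧
      Phi (Cfsg.quadFormPlus m F) d ∉ Cfsg.Inn (Cfsg.POmega F (Cfsg.quadFormPlus m F))

end Cfsg.Agent.Lib.Helper44.GAStmt
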