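import Mathlib
import Cfsg.Agent.Lib.Helper44.MFldStmt
import Cfsg.Agent.Lib.Helper45.MinusInndiag

set_option autoImplicit false

/-! S2737: two assemblies from the pieces: the adjustment of the conjugating similarity into
`Inndiag`, and the transport of `Inndiag` along an arbitrary isomorphism of two minus forms. -/

namespace Cfsg.Agent.Lib.Helper44.MFldT

open Matrix Module QuadraticMap
open Cfsg.Agent.Lib.Helper45.OmegaAut
open Cfsg.Agent.Lib.Helper44.MFld0 Cfsg.Agent.Lib.Helper44.MFldStmt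
open Cfsg.Agent.Lib.Helper45.MinusInndiag

universe u

theorem z2_mul (x y : Multiplicative (ZMod 2)) (hx : x ≠ 1) (hy : y ≠ 1) : x * y = 1 := by
  revert x y
  decide

/-- **the adjustment**: `u` or `u ρ` is inner-diagonal -/
theorem minus_adj_of (hMC : MinusCharK.{u}) : MinusAdj.{u} := by
  intro F _ _ m a b hab u ρ w hw hρ
  obtain ⟨K, hKf, hKa, hK⟩ := exists_quadratic_ext hab
  obtain ⟨χ, hχ1, hχ2⟩ := hMC F m a b hab K hK
  have hρ1 : χ ρ ≠ 1 := hχ2 w hw ρ hρ
  have key : ∀ g : GOq (Cfsg.quadFormMinus m F a b), χ g = 1 →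
      Phi (Cfsg.quadFormMinus m F a b) g ∈ Cfsg.inndiagPOmegaMinus m F a b := by
    intro g hg
    exact Subgroup.subset_closure ⟨g.1, g.2, ⟨K, hKf, hKa, hK, (hχ1 g).1 hg⟩,
      (induced_iff _ g.1 g.2 _).mpr rfl⟩
  by_cases h : χ u = 1
  · exact Or.inl (key u h)
  · refine Or.inr (key _ ?_)
    rw [map_mul]
    exact z2_mul _ _ h hρ1

theorem congr_conj {G H : Type*} [Group G] [Group H] (ψ : G ≃* H) (t : G) :
    MulAut.congr ψ (MulAut.conj t) = MulAut.conj (ψ t) := by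
  ext y
  show ψ (t * ψ.symm y * t⁻¹) = ψ t * y * (ψ t)⁻¹
  rw [map_mul, map_mul, map_inv, MulEquiv.apply_symm_apply]

theorem inn_iff {G H : Type u} [Group G] [Group H] (ψ : G ≃* H) (β : MulAut G) :
    β ∈ Cfsg.Inn G ↔ (ψ.symm.trans β).trans ψ ∈ Cfsg.Inn H := by
  constructor
  · rintro ⟨t, rfl⟩
    exact ⟨ψ t, (congr_conj ψ t).symm⟩
  · rintro ⟨t', ht'⟩
    refine ⟨ψ.symm t', (MulAut.congr ψ).injective ?_⟩
    rw [congr_conj, MulEquiv.apply_symm_apply, ht']
    rfl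

theorem normalizer_of_conj_le {G : Type*} [Group G] [Finite G] (D : Subgroup G) (γ : G)
    (h : ∀ δ ∈ D, γ * δ * γ⁻¹ ∈ D) : γ ∈ Subgroup.normalizer (D : Set G) := by
  have hp : ∀ k : ℕ, ∀ δ ∈ D, γ ^ k * δ * (γ ^ k)⁻¹ ∈ D := by
    intro k
    induction k with
    | zero =>
      intro δ hδ
      simpa using hδ
    | succ k ih =>
      intro δ hδ
      have h1 := h _ (ih δ hδ)
      have e : γ ^ (k + 1) * δ * (γ ^ (k + 1))⁻¹ = γ * (γ ^ k * δ * (γ ^ k)⁻¹) * γ⁻¹ := by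
        rw [pow_succ']
        group
      rw [e]
      exact h1
  rw [Subgroup.mem_normalizer_iff]
  intro δ
  refine ⟨h δ, fun hδ => ?_⟩
  have hn : 0 < orderOf γ := orderOf_pos γ
  have hinv : γ ^ (orderOf γ - 1) = γ⁻¹ := by
    rw [eq_inv_iff_mul_eq_one, ← pow_succ, Nat.sub_add_cancel hn, pow_orderOf_eq_one]
  have h1 := hp (orderOf γ - 1) _ hδ
  rw [hinv] at h1
  have e : γ⁻¹ * (γ * δ * γ⁻¹) * γ⁻¹⁻¹ = δ := by group
  rwa [e] at h1

/-- **the transport of `Inndiag`** along any isomorphism of two minus-type groups -/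
theorem transportT_of (hII2 : InndiagInn2.{u}) (hNO : NormalOdd.{u}) (hIE : InducedEq.{u})
    (hITO : IsoTransportOdd.{u})
    (h2696 : ∀ (F : Type u) [Field F] [Fintype F] (m : ℕ), 3 ≤ m → ∀ (a b : F), Aniso a b →
      Cfsg.gammaPOmega F (Cfsg.quadFormMinus m F a b) = ⊤) : TransportT.{u} := by
  intro F _ _ m hm a b a' b' hab hab' ψ β
  by_cases h2 : (2 : F) = 0
  · rw [hII2 F m hm a b hab h2, hII2 F m hm a' b' hab' h2]
    exact inn_iff ψ β
  · obtain ⟨ψ₀, hψ₀⟩ := hITO F m a b a' b' hab hab' h2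
    obtain ⟨α, hα⟩ : ∃ α : MulAut (Cfsg.POmega F (Cfsg.quadFormMinus m F a b)),
        α = ψ.trans ψ₀.symm := ⟨_, rfl⟩
    have e : (ψ.symm.trans β).trans ψ = (ψ₀.symm.trans (α * β * α⁻¹)).trans ψ₀ := by
      ext y
      have e1 : α⁻¹ (ψ₀.symm y) = ψ.symm y := by
        rw [hα]
        show (ψ.trans ψ₀.symm).symm (ψ₀.symm y) = ψ.symm y
        simp
      show ψ (β (ψ.symm y)) = ψ₀ (α (β (α⁻¹ (ψ₀.symm y))))
      rw [e1, hα]
      show ψ (β (ψ.symm y)) = ψ₀ (ψ₀.symm (ψ (β (ψ.symm y))))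
      rw [MulEquiv.apply_symm_apply]
    rw [e, ← hψ₀]
    have hN : α ∈ Subgroup.normalizer
        (Cfsg.inndiagPOmegaMinus m F a b : Set (MulAut (Cfsg.POmega F (Cfsg.quadFormMinus m F a b)))) := by
      have hα' : α ∈ Cfsg.gammaPOmega F (Cfsg.quadFormMinus m F a b) := by
        rw [h2696 F m hm a b hab]
        exact Subgroup.mem_top _
      have hle : Cfsg.gammaPOmega F (Cfsg.quadFormMinus m F a b) ≤
          Subgroup.normalizer (Cfsg.inndiagPOmegaMinus m F a b :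
            Set (MulAut (Cfsg.POmega F (Cfsg.quadFormMinus m F a b)))) := by
        refine (Subgroup.closure_le _).mpr ?_
        rintro γ ⟨g, τ, hpair, hγ⟩
        have hγ' := hIE F (MI m) _ g τ hpair γ hγ
        refine normalizer_of_conj_le _ γ (fun δ hδ => ?_)
        rw [hγ']
        exact hNO F m a b hab h2 g τ hpair δ hδ
      exact hle hα'
    exact Subgroup.mem_normalizer_iff.1 hN β

end Cfsg.Agent.Lib.Helper44.MFldT
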