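import Mathlib
import Cfsg.Agent.Lib.Helper44.MCentStmt
import Cfsg.Agent.Lib.Helper44.MFldT
import Cfsg.Agent.Lib.Helper45.OmegaAutKer

set_option autoImplicit false

/-! S2716: the final assembly from the pieces. -/

namespace Cfsg.Agent.Lib.Helper44.MCentFin

open Matrix Module
open Cfsg.Agent.Lib.Helper45.OmegaAut Cfsg.Agent.Lib.Helper45.OmegaAutKer
open Cfsg.Agent.Lib.Helper44.MFld0 Cfsg.Agent.Lib.Helper44.MFldStmt
  Cfsg.Agent.Lib.Helper44.MCentStmt Cfsg.Agent.Lib.Helper44.MFldT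
  Cfsg.Agent.Lib.Helper44.NegPairs Cfsg.Agent.Lib.Helper44.OMat

universe u v

/-- a conjugacy class that does not split -/
theorem split_eq_one {X : Type*} [Group X] (H K : Subgroup X) (x : X)
    (h : ∀ d ∈ H, ∃ t ∈ K, d * x * d⁻¹ = t * x * t⁻¹) : Cfsg.splitClassCount H K x = 1 := by
  unfold Cfsg.splitClassCount
  rw [Nat.card_eq_one_iff_unique]
  refine ⟨⟨?_⟩, ⟨Quot.mk _ ⟨x, 1, H.one_mem, by simp⟩⟩⟩
  intro q₁ q₂
  induction q₁ using Quot.ind with
  | _ y =>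
    induction q₂ using Quot.ind with
    | _ z =>
      apply Quot.sound
      obtain ⟨d₁, hd₁, e₁⟩ := y.2
      obtain ⟨d₂, hd₂, e₂⟩ := z.2
      obtain ⟨t₁, ht₁, f₁⟩ := h d₁ hd₁
      obtain ⟨t₂, ht₂, f₂⟩ := h d₂ hd₂
      refine ⟨t₂ * t₁⁻¹, K.mul_mem ht₂ (K.inv_mem ht₁), ?_⟩
      rw [e₂, f₂, e₁, f₁]
      group

theorem map_conj {G H : Type*} [Group G] [Group H] (e : G ≃* H) (d x : G) :
    e (d * x * d⁻¹) = e d * e x * (e d)⁻¹ := by
  rw [map_mul, map_mul, map_inv]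

/-- two homomorphisms with the same kernel have isomorphic ranges -/
theorem range_equiv {G A B : Type*} [Group G] [Group A] [Group B] (f : G →* A) (h : G →* B)
    (hk : f.ker = h.ker) : Nonempty (↥h.range ≃* ↥f.range) :=
  ⟨(QuotientGroup.quotientKerEquivRange h).symm.trans
    ((QuotientGroup.quotientMulEquivOfEq hk.symm).trans (QuotientGroup.quotientKerEquivRange f))⟩

/-- scalar similarities -/
theorem exists_scalar {F : Type u} [Field F] {ι : Type} [Fintype ι] [DecidableEq ι]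
    (Q : QuadraticForm F (ι → F)) (c : F) (hc : c ≠ 0) :
    ∃ z : GOq (⇑Q), ((z : GL ι F) : Matrix ι ι F) = c • (1 : Matrix ι ι F) := by
  have h1 : (c • (1 : Matrix ι ι F)) * (c⁻¹ • (1 : Matrix ι ι F)) = 1 := by
    rw [Matrix.smul_mul, Matrix.one_mul, smul_smul, mul_inv_cancel₀ hc, one_smul]
  have h2 : (c⁻¹ • (1 : Matrix ι ι F)) * (c • (1 : Matrix ι ι F)) = 1 := by
    rw [Matrix.smul_mul, Matrix.one_mul, smul_smul, inv_mul_cancel₀ hc, one_smul]
  refine ⟨⟨⟨c • 1, c⁻¹ • 1, h1, h2⟩, ⟨Units.mk0 (c * c) (mul_ne_zero hc hc), fun v => ?_⟩⟩, rfl⟩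
  show Q ((c • (1 : Matrix ι ι F)) *ᵥ v) = c * c * Q v
  rw [Matrix.smul_mulVec, Matrix.one_mulVec, QuadraticMap.map_smul, smul_eq_mul]

section TwoFields

variable {F₀ : Type v} [Field F₀] [Fintype F₀] {F : Type u} [Field F] [Fintype F]

/-- the base change homomorphism -/
def J (hMS : MapSim.{u, v}) (j : F₀ →+* F) (m : ℕ) (a₀ b₀ : F₀) :
    GOq (Cfsg.quadFormMinus m F₀ a₀ b₀) →* GOq (Cfsg.quadFormMinus m F (j a₀) (j b₀)) where
  toFun g := ⟨Matrix.GeneralLinearGroup.map j g.1, hMS F₀ F j m a₀ b₀ g.1 g.2⟩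
  map_one' := Subtype.ext (map_one _)
  map_mul' _ _ := Subtype.ext (map_mul _ _ _)

theorem J_coe (hMS : MapSim.{u, v}) (j : F₀ →+* F) (m : ℕ) (a₀ b₀ : F₀)
    (g : GOq (Cfsg.quadFormMinus m F₀ a₀ b₀)) :
    (((J hMS j m a₀ b₀ g : GOq (Cfsg.quadFormMinus m F (j a₀) (j b₀))) : GL (MI m) F) :
      Matrix (MI m) (MI m) F) = ((g : GL (MI m) F₀) : Matrix (MI m) (MI m) F₀).map j := rfl

set_option maxHeartbeats 1000000 in
/-- the centraliser of the standard field automorphism in `Inndiag` -/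
theorem cent_iso (hMS : MapSim.{u, v}) (hDS : DescendSim.{u, v}) (hKC : KerCompat.{u, v})
    (hCM : CsMulPhiQ.{u}) (hKP : KerPhiMinus.{u}) (hILR : InndiagLeRange.{u})
    (hILR₀ : InndiagLeRange.{v})
    (j : F₀ →+* F) {m : ℕ} (hm : 3 ≤ m) (a₀ b₀ : F₀) (hab₀ : Aniso a₀ b₀)
    (hab : Aniso (j a₀) (j b₀))
    (σ : RingAut F) (hj : ∀ y : F, σ y = y ↔ ∃ y₀ : F₀, j y₀ = y)
    (hInv : InvS (Cfsg.quadFormMinus m F (j a₀) (j b₀)) σ)
    (hC : ∀ (g₀ : GOq (Cfsg.quadFormMinus m F₀ a₀ b₀))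
      (g : GOq (Cfsg.quadFormMinus m F (j a₀) (j b₀))),
      ((g : GL (MI m) F) : Matrix (MI m) (MI m) F) =
        ((g₀ : GL (MI m) F₀) : Matrix (MI m) (MI m) F₀).map j →
      (Phi (Cfsg.quadFormMinus m F₀ a₀ b₀) g₀ ∈ Cfsg.inndiagPOmegaMinus m F₀ a₀ b₀ ↔
        Phi (Cfsg.quadFormMinus m F (j a₀) (j b₀)) g ∈
          Cfsg.inndiagPOmegaMinus m F (j a₀) (j b₀))) :
    Nonempty (↥(Cfsg.inndiagPOmegaMinus m F (j a₀) (j b₀) ⊓
        Subgroup.centralizer {csq (Cfsg.quadFormMinus m F (j a₀) (j b₀)) σ hInv}) ≃*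
      ↥(Cfsg.inndiagPOmegaMinus m F₀ a₀ b₀)) := by
  obtain ⟨G₀, hG₀⟩ : ∃ G₀ : Subgroup (GOq (Cfsg.quadFormMinus m F₀ a₀ b₀)),
      G₀ = (Cfsg.inndiagPOmegaMinus m F₀ a₀ b₀).comap (Phi (Cfsg.quadFormMinus m F₀ a₀ b₀)) :=
    ⟨_, rfl⟩
  have hmemG : ∀ g : GOq (Cfsg.quadFormMinus m F₀ a₀ b₀), g ∈ G₀ ↔
      Phi (Cfsg.quadFormMinus m F₀ a₀ b₀) g ∈ Cfsg.inndiagPOmegaMinus m F₀ a₀ b₀ := by
    intro g
    rw [hG₀]
    exact Subgroup.mem_comap
  obtain ⟨f, hf⟩ : ∃ f : ↥G₀ →* MulAut (Cfsg.POmega F₀ (Cfsg.quadFormMinus m F₀ a₀ b₀)),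
      f = (Phi (Cfsg.quadFormMinus m F₀ a₀ b₀)).comp G₀.subtype := ⟨_, rfl⟩
  obtain ⟨h, hh⟩ : ∃ h : ↥G₀ →* MulAut (Cfsg.POmega F (Cfsg.quadFormMinus m F (j a₀) (j b₀))),
      h = ((Phi (Cfsg.quadFormMinus m F (j a₀) (j b₀))).comp (J hMS j m a₀ b₀)).comp
        G₀.subtype := ⟨_, rfl⟩
  have hfa : ∀ g : ↥G₀, f g = Phi (Cfsg.quadFormMinus m F₀ a₀ b₀) g.1 := by
    intro g
    rw [hf]
    rfl
  have hha : ∀ g : ↥G₀, h g = Phi (Cfsg.quadFormMinus m F (j a₀) (j b₀))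
      (J hMS j m a₀ b₀ g.1) := by
    intro g
    rw [hh]
    rfl
  have hk : f.ker = h.ker := by
    ext g
    rw [MonoidHom.mem_ker, MonoidHom.mem_ker, hfa, hha]
    exact hKC F₀ F j m hm a₀ b₀ hab₀ hab g.1 (J hMS j m a₀ b₀ g.1) rfl
  have hfr : f.range = Cfsg.inndiagPOmegaMinus m F₀ a₀ b₀ := by
    ext d
    constructor
    · rintro ⟨g, rfl⟩
      rw [hfa]
      exact (hmemG g.1).1 g.2
    · intro hd
      obtain ⟨g, rfl⟩ := hILR₀ F₀ m a₀ b₀ hd
      exact ⟨⟨g, (hmemG g).2 hd⟩, hfa _⟩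
  have hhr : h.range = Cfsg.inndiagPOmegaMinus m F (j a₀) (j b₀) ⊓
      Subgroup.centralizer {csq (Cfsg.quadFormMinus m F (j a₀) (j b₀)) σ hInv} := by
    ext d
    constructor
    · rintro ⟨g, rfl⟩
      rw [hha]
      refine Subgroup.mem_inf.2 ⟨(hC g.1 _ rfl).1 ((hmemG g.1).1 g.2), ?_⟩
      rw [Subgroup.mem_centralizer_iff]
      intro y hy
      rw [Set.mem_singleton_iff] at hy
      rw [hy, hCM F (MI m) _ σ hInv (J hMS j m a₀ b₀ g.1)]
      have e : mapGOq (Cfsg.quadFormMinus m F (j a₀) (j b₀)) σ hInv (J hMS j m a₀ b₀ g.1) =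
          J hMS j m a₀ b₀ g.1 := by
        apply Subtype.ext
        apply Units.ext
        ext i k
        exact (hj _).2 ⟨_, rfl⟩
      rw [e]
    · intro hdd
      obtain ⟨hd, hcent⟩ := Subgroup.mem_inf.1 hdd
      obtain ⟨g, rfl⟩ := hILR F m (j a₀) (j b₀) hd
      rw [Subgroup.mem_centralizer_iff] at hcent
      have h1 := hcent _ (Set.mem_singleton _)
      rw [hCM F (MI m) _ σ hInv g] at h1
      have h2 : Phi (Cfsg.quadFormMinus m F (j a₀) (j b₀)) (mapGOq _ σ hInv g) =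
          Phi (Cfsg.quadFormMinus m F (j a₀) (j b₀)) g := mul_right_cancel h1
      have h3 : Phi (Cfsg.quadFormMinus m F (j a₀) (j b₀)) (g⁻¹ * mapGOq _ σ hInv g) = 1 := by
        rw [map_mul, map_inv, h2, inv_mul_cancel]
      obtain ⟨lam, hlam⟩ := hKP F m hm (j a₀) (j b₀) hab _ h3
      have h4 : ((g : GL (MI m) F) : Matrix (MI m) (MI m) F).map σ =
          lam • ((g : GL (MI m) F) : Matrix (MI m) (MI m) F) := by
        have e : (((g⁻¹ * mapGOq _ σ hInv g : GOq (Cfsg.quadFormMinus m F (j a₀) (j b₀))) :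
            GL (MI m) F) : Matrix (MI m) (MI m) F) = lam • (1 : Matrix (MI m) (MI m) F) :=
          matrix_ext_mulVec (fun x => by rw [hlam, Matrix.smul_mulVec, Matrix.one_mulVec])
        have e2 : (mapGOq _ σ hInv g : GOq (Cfsg.quadFormMinus m F (j a₀) (j b₀))) =
            g * (g⁻¹ * mapGOq _ σ hInv g) := by group
        have e3 : (((mapGOq _ σ hInv g : GOq (Cfsg.quadFormMinus m F (j a₀) (j b₀))) :
            GL (MI m) F) : Matrix (MI m) (MI m) F) =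
            ((g : GL (MI m) F) : Matrix (MI m) (MI m) F) *
              (((g⁻¹ * mapGOq _ σ hInv g : GOq (Cfsg.quadFormMinus m F (j a₀) (j b₀))) :
                GL (MI m) F) : Matrix (MI m) (MI m) F) := by
          conv_lhs => rw [e2]
          rfl
        rw [e, Matrix.mul_smul, Matrix.mul_one] at e3
        exact e3
      obtain ⟨i, k, hik⟩ : ∃ i k, ((g : GL (MI m) F) : Matrix (MI m) (MI m) F) i k ≠ 0 := by
        by_contra hcon
        push_neg at hcon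
        have h0 : ((g : GL (MI m) F) : Matrix (MI m) (MI m) F) = 0 := by
          ext i k
          exact hcon i k
        have h5 : ((g : GL (MI m) F) : Matrix (MI m) (MI m) F) *
            (((g : GL (MI m) F)⁻¹ : GL (MI m) F) : Matrix (MI m) (MI m) F) = 1 := by
          rw [← Units.val_mul, mul_inv_cancel, Units.val_one]
        rw [h0, Matrix.zero_mul] at h5
        have h6 := congrFun (congrFun h5 (Sum.inr 0)) (Sum.inr 0)
        rw [Matrix.zero_apply, Matrix.one_apply_eq] at h6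
        exact zero_ne_one h6
      obtain ⟨e, he⟩ : ∃ e, e = ((g : GL (MI m) F) : Matrix (MI m) (MI m) F) i k := ⟨_, rfl⟩
      have he0 : e ≠ 0 := he ▸ hik
      have hσe : σ e = lam * e := by
        have h7 := congrFun (congrFun h4 i) k
        rw [Matrix.map_apply, Matrix.smul_apply, smul_eq_mul, ← he] at h7
        exact h7
      have hlam0 : lam ≠ 0 := by
        rintro rfl
        rw [zero_mul] at hσe
        exact he0 ((map_eq_zero σ).1 hσe)
      obtain ⟨z, hz⟩ : ∃ z : GOq (Cfsg.quadFormMinus m F (j a₀) (j b₀)),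
          ((z : GL (MI m) F) : Matrix (MI m) (MI m) F) = e⁻¹ • (1 : Matrix (MI m) (MI m) F) :=
        exists_scalar (minusQ m F (j a₀) (j b₀)) e⁻¹ (inv_ne_zero he0)
      have hzg : (((z * g : GOq (Cfsg.quadFormMinus m F (j a₀) (j b₀))) : GL (MI m) F) :
          Matrix (MI m) (MI m) F) = e⁻¹ • ((g : GL (MI m) F) : Matrix (MI m) (MI m) F) := by
        show ((z : GL (MI m) F) : Matrix (MI m) (MI m) F) *
          ((g : GL (MI m) F) : Matrix (MI m) (MI m) F) = _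
        rw [hz, Matrix.smul_mul, Matrix.one_mul]
      have hfix : ∀ i' k', σ ((((z * g : GOq (Cfsg.quadFormMinus m F (j a₀) (j b₀))) :
          GL (MI m) F) : Matrix (MI m) (MI m) F) i' k') =
          (((z * g : GOq (Cfsg.quadFormMinus m F (j a₀) (j b₀))) : GL (MI m) F) :
            Matrix (MI m) (MI m) F) i' k' := by
        intro i' k'
        have h7 := congrFun (congrFun h4 i') k'
        rw [Matrix.map_apply, Matrix.smul_apply, smul_eq_mul] at h7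
        rw [hzg, Matrix.smul_apply, smul_eq_mul, map_mul, map_inv₀, h7, hσe]
        field_simp
      obtain ⟨g₀, hg₀⟩ := hDS F₀ F j m a₀ b₀ (z * g) (fun i' k' => (hj _).1 (hfix i' k'))
      have hJ : J hMS j m a₀ b₀ g₀ = z * g := Subtype.ext (Units.ext hg₀)
      have hz1 : Phi (Cfsg.quadFormMinus m F (j a₀) (j b₀)) z = 1 :=
        Phi_eq_one_of_scalar _ z e⁻¹ (fun x => by
          rw [hz, Matrix.smul_mulVec, Matrix.one_mulVec])
      have hPhi : Phi (Cfsg.quadFormMinus m F (j a₀) (j b₀)) (J hMS j m a₀ b₀ g₀) =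
          Phi (Cfsg.quadFormMinus m F (j a₀) (j b₀)) g := by
        rw [hJ, map_mul, hz1, one_mul]
      have hg₀mem : g₀ ∈ G₀ := by
        rw [hmemG]
        refine (hC g₀ (J hMS j m a₀ b₀ g₀) rfl).2 ?_
        rw [hPhi]
        exact hd
      refine ⟨⟨g₀, hg₀mem⟩, ?_⟩
      rw [hha]
      exact hPhi
  obtain ⟨E⟩ := range_equiv f h hk
  exact ⟨(MulEquiv.subgroupCongr hhr.symm).trans (E.trans (MulEquiv.subgroupCongr hfr))⟩

end TwoFields

section OneField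

variable {F : Type u} [Field F]

/-- the class of the standard field automorphism under `Inndiag` is one `Inn`-class -/
theorem split_aux (hCM : CsMulPhiQ.{u}) (hILR : InndiagLeRange.{u})
    {m : ℕ} (a b : F) (σ : RingAut F) (hInv : InvS (Cfsg.quadFormMinus m F a b) σ)
    (hRD : ∀ g : GOq (Cfsg.quadFormMinus m F a b),
      ∃ (ω : ↥(Cfsg.Omega F (Cfsg.quadFormMinus m F a b))) (h : GOq (Cfsg.quadFormMinus m F a b)),
        ((h : GL (MI m) F) : Matrix (MI m) (MI m) F).map σ =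
          ((h : GL (MI m) F) : Matrix (MI m) (MI m) F) ∧
        Phi (Cfsg.quadFormMinus m F a b) g =
          Phi (Cfsg.quadFormMinus m F a b) (inclΩ _ ω) * Phi (Cfsg.quadFormMinus m F a b) h)
    (d : MulAut (Cfsg.POmega F (Cfsg.quadFormMinus m F a b)))
    (hd : d ∈ Cfsg.inndiagPOmegaMinus m F a b) :
    ∃ t ∈ Cfsg.Inn (Cfsg.POmega F (Cfsg.quadFormMinus m F a b)),
      d * csq (Cfsg.quadFormMinus m F a b) σ hInv * d⁻¹ =
        t * csq (Cfsg.quadFormMinus m F a b) σ hInv * t⁻¹ := by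
  obtain ⟨g, rfl⟩ := hILR F m a b hd
  obtain ⟨ω, h, hh, hg⟩ := hRD g
  refine ⟨Phi (Cfsg.quadFormMinus m F a b) (inclΩ _ ω), ?_, ?_⟩
  · rw [inn_eq]
    exact ⟨ω, rfl⟩
  · have hcomm : csq (Cfsg.quadFormMinus m F a b) σ hInv * Phi (Cfsg.quadFormMinus m F a b) h =
        Phi (Cfsg.quadFormMinus m F a b) h * csq (Cfsg.quadFormMinus m F a b) σ hInv := by
      rw [hCM F (MI m) _ σ hInv h]
      have e : mapGOq (Cfsg.quadFormMinus m F a b) σ hInv h = h :=
        Subtype.ext (Units.ext hh)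
      rw [e]
    rw [hg, _root_.mul_inv_rev]
    calc Phi (Cfsg.quadFormMinus m F a b) (inclΩ _ ω) * Phi (Cfsg.quadFormMinus m F a b) h *
          csq (Cfsg.quadFormMinus m F a b) σ hInv *
          ((Phi (Cfsg.quadFormMinus m F a b) h)⁻¹ *
            (Phi (Cfsg.quadFormMinus m F a b) (inclΩ _ ω))⁻¹)
        = Phi (Cfsg.quadFormMinus m F a b) (inclΩ _ ω) *
          (Phi (Cfsg.quadFormMinus m F a b) h * csq (Cfsg.quadFormMinus m F a b) σ hInv) *
          (Phi (Cfsg.quadFormMinus m F a b) h)⁻¹ *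
            (Phi (Cfsg.quadFormMinus m F a b) (inclΩ _ ω))⁻¹ := by group
      _ = Phi (Cfsg.quadFormMinus m F a b) (inclΩ _ ω) *
          (csq (Cfsg.quadFormMinus m F a b) σ hInv * Phi (Cfsg.quadFormMinus m F a b) h) *
          (Phi (Cfsg.quadFormMinus m F a b) h)⁻¹ *
            (Phi (Cfsg.quadFormMinus m F a b) (inclΩ _ ω))⁻¹ := by rw [hcomm]
      _ = _ := by group

end OneField

set_option maxHeartbeats 1000000 in
/-- **S2716** from the pieces -/
theorem final_of (hFA : FieldAutEqQ.{u}) (hCM : CsMulPhiQ.{u}) (hCsO : CsOrderMinus.{u})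
    (hKP : KerPhiMinus.{u}) (hMI : MinusInv.{u}) (hILR : InndiagLeRange.{u})
    (hILR₀ : InndiagLeRange.{v}) (hTT : TransportT.{u}) (hFC : FixCardP.{u})
    (hOD : OddOrder.{u}) (hEMB : ExistsEmb.{u, v}) (hMS : MapSim.{u, v})
    (hDS : DescendSim.{u, v}) (hKC : KerCompat.{u, v}) (hCO : CompatOdd.{u, v})
    (hCT : CompatTwo.{u, v}) (hRDO : RatDecompOdd.{u}) (hRDT : RatDecompTwo.{u})
    {F : Type u} [Field F] [Fintype F] {p f : ℕ} [Fact p.Prime]
    (hF : Fintype.card F = p ^ f) {m : ℕ} (hm : 3 ≤ m) (a b : F) (hab : Aniso a b)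
    (x : MulAut (Cfsg.POmega F (Cfsg.quadFormMinus m F a b)))
    (hx : Cfsg.IsFieldAutClassPOmegaMinus m x) {r : ℕ} (hr : r.Prime) (hxr : orderOf x = r)
    (F₀ : Type v) [Field F₀] [Fintype F₀] (hF₀ : Fintype.card F₀ = p ^ (f / r)) :
    Odd r ∧ r ∣ f ∧ (∃ a₀ b₀ : F₀, (∀ z₁ z₂ : F₀, z₁ ^ 2 + a₀ * z₁ * z₂ + b₀ * z₂ ^ 2 = 0 →
        z₁ = 0 ∧ z₂ = 0) ∧
      Nonempty (↥(Cfsg.inndiagPOmegaMinus m F a b ⊓ Subgroup.centralizer {x}) ≃*
        ↥(Cfsg.inndiagPOmegaMinus m F₀ a₀ b₀))) ∧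
      Cfsg.splitClassCount (Cfsg.inndiagPOmegaMinus m F a b)
        (Cfsg.Inn (Cfsg.POmega F (Cfsg.quadFormMinus m F a b))) x = 1 := by
  obtain ⟨a', b', ψ, σ, hab', hσ, hσa, hσb, hφ⟩ := hx
  have hInv : InvS (Cfsg.quadFormMinus m F a' b') σ := hMI F m a' b' σ hσa hσb
  have hΨx : MulAut.congr ψ x = csq _ σ hInv := hFA F (MI m) _ σ hInv _ hφ
  have hx₀ : orderOf (csq (Cfsg.quadFormMinus m F a' b') σ hInv) = r := by
    rw [← hΨx, MulEquiv.orderOf_eq, hxr]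
  have hσr : orderOf σ = r := by
    rw [← hCsO F m hm a' b' hab' σ hInv]
    exact hx₀
  have hodd : Odd r := hr.odd_of_ne_two (fun h => hOD F a' b' hab' σ hσa hσb (hσr.trans h))
  obtain ⟨hdvd, hcard⟩ := hFC F p f Fact.out hF σ
  rw [hσr] at hdvd hcard
  obtain ⟨j, hj⟩ := hEMB F₀ F σ (hF₀.trans hcard.symm)
  obtain ⟨a₀, rfl⟩ := (hj a').1 hσa
  obtain ⟨b₀, rfl⟩ := (hj b').1 hσb
  have hab₀ : Aniso a₀ b₀ := by
    intro z₁ z₂ h
    have h1 := hab' (j z₁) (j z₂) (by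
      rw [← map_pow, ← map_mul, ← map_mul, ← map_pow, ← map_mul, ← map_add, ← map_add, h,
        map_zero])
    exact ⟨(map_eq_zero j).1 h1.1, (map_eq_zero j).1 h1.2⟩
  have hC : ∀ (g₀ : GOq (Cfsg.quadFormMinus m F₀ a₀ b₀))
      (g : GOq (Cfsg.quadFormMinus m F (j a₀) (j b₀))),
      ((g : GL (MI m) F) : Matrix (MI m) (MI m) F) =
        ((g₀ : GL (MI m) F₀) : Matrix (MI m) (MI m) F₀).map j →
      (Phi (Cfsg.quadFormMinus m F₀ a₀ b₀) g₀ ∈ Cfsg.inndiagPOmegaMinus m F₀ a₀ b₀ ↔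
        Phi (Cfsg.quadFormMinus m F (j a₀) (j b₀)) g ∈
          Cfsg.inndiagPOmegaMinus m F (j a₀) (j b₀)) := by
    intro g₀ g hg
    by_cases h2 : (2 : F) = 0
    · exact hCT F₀ F j m hm a₀ b₀ hab₀ hab' h2 g₀ g hg
    · exact hCO F₀ F j m hm a₀ b₀ hab₀ hab' h2 g₀ g hg
  have hRD : ∀ g : GOq (Cfsg.quadFormMinus m F (j a₀) (j b₀)),
      ∃ (ω : ↥(Cfsg.Omega F (Cfsg.quadFormMinus m F (j a₀) (j b₀))))
        (h : GOq (Cfsg.quadFormMinus m F (j a₀) (j b₀))),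
        ((h : GL (MI m) F) : Matrix (MI m) (MI m) F).map σ =
          ((h : GL (MI m) F) : Matrix (MI m) (MI m) F) ∧
        Phi (Cfsg.quadFormMinus m F (j a₀) (j b₀)) g =
          Phi (Cfsg.quadFormMinus m F (j a₀) (j b₀)) (inclΩ _ ω) *
            Phi (Cfsg.quadFormMinus m F (j a₀) (j b₀)) h := by
    intro g
    by_cases h2 : (2 : F) = 0
    · exact hRDT F m hm _ _ hab' h2 σ hσa hσb g
    · exact hRDO F m hm _ _ hab' h2 σ hσa hσb (hσr ▸ hodd) g
  refine ⟨hodd, hdvd, ⟨a₀, b₀, hab₀, ?_⟩, ?_⟩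
  · obtain ⟨E⟩ := cent_iso hMS hDS hKC hCM hKP hILR hILR₀ j hm a₀ b₀ hab₀ hab' σ hj hInv hC
    have hmap : (Cfsg.inndiagPOmegaMinus m F a b ⊓ Subgroup.centralizer {x}).map
        (MulAut.congr ψ).toMonoidHom = Cfsg.inndiagPOmegaMinus m F (j a₀) (j b₀) ⊓
          Subgroup.centralizer {csq (Cfsg.quadFormMinus m F (j a₀) (j b₀)) σ hInv} := by
      ext d'
      constructor
      · rintro ⟨d, hdd, rfl⟩
        obtain ⟨hd1, hd2⟩ := Subgroup.mem_inf.1 hdd
        refine Subgroup.mem_inf.2 ⟨(hTT F m hm a b _ _ hab hab' ψ d).1 hd1, ?_⟩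
        rw [Subgroup.mem_centralizer_iff] at hd2 ⊢
        intro y hy
        rw [Set.mem_singleton_iff] at hy
        rw [hy, ← hΨx]
        show MulAut.congr ψ x * MulAut.congr ψ d = MulAut.congr ψ d * MulAut.congr ψ x
        rw [← map_mul, ← map_mul, hd2 x (Set.mem_singleton x)]
      · intro hdd
        obtain ⟨hd1, hd2⟩ := Subgroup.mem_inf.1 hdd
        refine ⟨(MulAut.congr ψ).symm d', Subgroup.mem_inf.2 ⟨?_, ?_⟩,
          MulEquiv.apply_symm_apply _ _⟩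
        · rw [hTT F m hm a b _ _ hab hab' ψ]
          show MulAut.congr ψ ((MulAut.congr ψ).symm d') ∈ _
          rw [MulEquiv.apply_symm_apply]
          exact hd1
        · rw [Subgroup.mem_centralizer_iff] at hd2 ⊢
          intro y hy
          rw [Set.mem_singleton_iff] at hy
          rw [hy]
          apply (MulAut.congr ψ).injective
          rw [map_mul, map_mul, MulEquiv.apply_symm_apply, hΨx]
          exact hd2 _ (Set.mem_singleton _)
    exact ⟨((MulEquiv.subgroupMap (MulAut.congr ψ) _).trans (MulEquiv.subgroupCongr hmap)).trans E⟩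
  · apply split_eq_one
    intro d hd
    have hd' := (hTT F m hm a b _ _ hab hab' ψ d).1 hd
    obtain ⟨t', ht', he⟩ := split_aux hCM hILR _ _ σ hInv hRD _ hd'
    refine ⟨(MulAut.congr ψ).symm t', ?_, ?_⟩
    · rw [inn_iff ψ]
      show MulAut.congr ψ ((MulAut.congr ψ).symm t') ∈ _
      rw [MulEquiv.apply_symm_apply]
      exact ht'
    · apply (MulAut.congr ψ).injective
      rw [map_conj, map_conj, MulEquiv.apply_symm_apply, hΨx]
      exact he

end Cfsg.Agent.Lib.Helper44.MCentFin
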