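import Mathlib
import Cfsg.Agent.Lib.Helper44.OFldStmt
import Cfsg.Agent.Lib.Helper43.OPlFin
import Cfsg.Agent.Lib.Helper45.OmegaAutKer

set_option autoImplicit false

/-! S2736: the final assembly from the pieces. -/

namespace Cfsg.Agent.Lib.Helper44.OFldFin

open Matrix Module
open Cfsg.Agent.Lib.Helper43.OPlAut Cfsg.Agent.Lib.Helper45.OmegaAut
  Cfsg.Agent.Lib.Helper43.OPlBase Cfsg.Agent.Lib.Helper43.OPlFrame
  Cfsg.Agent.Lib.Helper43.OPlFin Cfsg.Agent.Lib.Helper45.OmegaAutKer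
open Cfsg.Agent.Lib.Helper44.OFld0 Cfsg.Agent.Lib.Helper44.OFld1
  Cfsg.Agent.Lib.Helper44.OFldStmt

universe u

variable {F : Type u} [Field F] {m : ℕ}

theorem mapGO_mul (σ τ : RingAut F) (g : GO m F) : mapGO (σ * τ) g = mapGO σ (mapGO τ g) := by
  apply Subtype.ext
  apply Units.ext
  ext i j
  rfl

theorem cσ_conj (h2 : CσMul.{u}) (τ σ : RingAut F) :
    (cσ τ * cσ σ * (cσ τ)⁻¹ : MulAut (Cfsg.POmega F (Cfsg.quadFormPlus m F))) =
      cσ (τ * σ * τ⁻¹) := by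
  have e1 : (cσ (τ * σ * τ⁻¹) * cσ τ : MulAut (Cfsg.POmega F (Cfsg.quadFormPlus m F))) =
      cσ τ * cσ σ := by
    rw [← h2 F m, ← h2 F m, inv_mul_cancel_right]
  rw [← e1, mul_inv_cancel_right]

theorem conj_aux {G : Type*} [Group G] (A U X₀ x y : G) (hx : x = A * X₀ * A⁻¹)
    (hy : y = A * (U * X₀ * U⁻¹) * A⁻¹) : y = (A * U * A⁻¹) * x * (A * U * A⁻¹)⁻¹ := by
  subst hx hy
  group

theorem conj_aux2 {G : Type*} [Group G] (A B C D : G) (h : A⁻¹ * D = D * B⁻¹) :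
    B * C * A⁻¹ * D = B * (C * D) * B⁻¹ := by
  calc B * C * A⁻¹ * D = B * C * (A⁻¹ * D) := by group
    _ = B * (C * D) * B⁻¹ := by
        rw [h]
        group

variable [Fintype F]

/-- every automorphism is a similarity times a field automorphism -/
theorem aut_form (hm : 5 ≤ m) (β : MulAut (Cfsg.POmega F (Cfsg.quadFormPlus m F))) :
    ∃ (s : GO m F) (τ : RingAut F), β = Phi (Cfsg.quadFormPlus m F) s * cσ τ := by
  obtain ⟨g, hg⟩ := frame_normal hm β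
  obtain ⟨c, μ, τ, h⟩ := of_frameStable_eq (by omega) _ hg
  refine ⟨g * dg c μ, τ, ?_⟩
  rw [map_mul, mul_assoc, ← h, mul_inv_cancel_left]

/-- normal form of a field or graph-field automorphism -/
theorem normal_form (h2 : CσMul.{u}) (h3 : CσMulPhi.{u}) (h6a : FieldAutEq.{u})
    (h6c : ReflData.{u}) (hm : 5 ≤ m) (x : MulAut (Cfsg.POmega F (Cfsg.quadFormPlus m F)))
    (hx : Cfsg.IsFieldAutClassPOmega (Cfsg.quadFormPlus m F) x ∨
      Cfsg.IsGraphFieldAutClassPOmegaPlus m x) :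
    ∃ (s ρ₀ : GO m F) (σ : RingAut F), σ ≠ 1 ∧ mapGO σ ρ₀ = ρ₀ ∧
      x = Phi (Cfsg.quadFormPlus m F) s * (Phi (Cfsg.quadFormPlus m F) ρ₀ * cσ σ) *
        (Phi (Cfsg.quadFormPlus m F) s)⁻¹ := by
  obtain ⟨α, ρ, σ, hσ, hρ, hα⟩ : ∃ (α : MulAut (Cfsg.POmega F (Cfsg.quadFormPlus m F)))
      (ρ : GO m F) (σ : RingAut F), σ ≠ 1 ∧ mapGO σ ρ = ρ ∧
        α * x * α⁻¹ = Phi (Cfsg.quadFormPlus m F) ρ * cσ σ := by
    rcases hx with ⟨α, φ, σ, hσ, hφ, hα⟩ | ⟨α, γ, φ, σ, v, r₀, hσ, hv, hσv, hr₀, hγ, hφ, hα⟩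
    · refine ⟨α, 1, σ, hσ, map_one _, ?_⟩
      rw [hα, h6a F m σ φ hφ, map_one, one_mul]
    · obtain ⟨ρ, hρ1, hρ2, hρ3⟩ := h6c F m v hv r₀ hr₀ γ hγ σ hσv
      refine ⟨α, ρ, σ, hσ, hρ3, ?_⟩
      rw [hα, hρ2, h6a F m σ φ hφ]
  obtain ⟨s, τ, hβ⟩ := aut_form hm α⁻¹
  refine ⟨s, mapGO τ ρ, τ * σ * τ⁻¹, ?_, ?_, ?_⟩
  · intro h
    apply hσ
    have h1 := congrArg (fun y : RingAut F => τ⁻¹ * y * τ) h
    simp only [mul_one, inv_mul_cancel] at h1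
    rw [← h1]
    group
  · rw [← mapGO_mul, inv_mul_cancel_right, mapGO_mul, hρ]
  · have e1 : Phi (Cfsg.quadFormPlus m F) (mapGO τ ρ) * cσ τ =
        cσ τ * Phi (Cfsg.quadFormPlus m F) ρ := (h3 F m τ ρ).symm
    calc x = α⁻¹ * (α * x * α⁻¹) * α⁻¹⁻¹ := by group
      _ = (Phi (Cfsg.quadFormPlus m F) s * cσ τ) * (Phi (Cfsg.quadFormPlus m F) ρ * cσ σ) *
          (Phi (Cfsg.quadFormPlus m F) s * cσ τ)⁻¹ := by rw [hα, hβ]
      _ = Phi (Cfsg.quadFormPlus m F) s * (cσ τ * Phi (Cfsg.quadFormPlus m F) ρ * cσ σ *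
          (cσ τ)⁻¹) * (Phi (Cfsg.quadFormPlus m F) s)⁻¹ := by group
      _ = Phi (Cfsg.quadFormPlus m F) s * (Phi (Cfsg.quadFormPlus m F) (mapGO τ ρ) * cσ τ *
          cσ σ * (cσ τ)⁻¹) * (Phi (Cfsg.quadFormPlus m F) s)⁻¹ := by rw [e1]
      _ = Phi (Cfsg.quadFormPlus m F) s * (Phi (Cfsg.quadFormPlus m F) (mapGO τ ρ) *
          (cσ τ * cσ σ * (cσ τ)⁻¹)) * (Phi (Cfsg.quadFormPlus m F) s)⁻¹ := by group
      _ = _ := by rw [cσ_conj h2]

set_option maxHeartbeats 1000000 in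
/-- **S2736** from the pieces -/
theorem final_of (h2 : CσMul.{u}) (h3 : CσMulPhi.{u}) (h4 : PowEq.{u}) (hA3 : KerPhiCσ.{u})
    (hA4 : ExistsEps.{u}) (h6a : FieldAutEq.{u}) (h6c : ReflData.{u}) (h6d : InndiagEq.{u})
    (hM : TwistedConj.{u}) (hm : 5 ≤ m)
    (x δ : MulAut (Cfsg.POmega F (Cfsg.quadFormPlus m F)))
    (hx : Cfsg.IsFieldAutClassPOmega (Cfsg.quadFormPlus m F) x ∨
      Cfsg.IsGraphFieldAutClassPOmegaPlus m x) {r : ℕ} (hr : r.Prime) (hxr : orderOf x = r)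
    (hδ : δ ∈ Cfsg.inndiagPOmegaPlus m F) :
    orderOf (δ * x) = r ↔ Cfsg.IsConjUnder (Cfsg.inndiagPOmegaPlus m F) x (δ * x) := by
  constructor
  · intro hord
    obtain ⟨s, ρ₀, σ, hσ, hρ₀, hxeq⟩ := normal_form h2 h3 h6a h6c hm x hx
    obtain ⟨ε, hε⟩ := hA4 F m (by omega)
    have hinn := h6d F m ε hε
    rw [hinn] at hδ ⊢
    obtain ⟨g, hg, rfl⟩ := hδ
    have hg1 : ε g = 1 := hg
    obtain ⟨g', hg'⟩ : ∃ g' : GO m F, g' = s⁻¹ * g * s := ⟨_, rfl⟩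
    have hεg' : ε g' = 1 := by
      rw [hg', map_mul, map_mul, map_inv, hg1, mul_one, inv_mul_cancel]
    have hy : Phi (Cfsg.quadFormPlus m F) g * x = Phi (Cfsg.quadFormPlus m F) s *
        (Phi (Cfsg.quadFormPlus m F) (g' * ρ₀) * cσ σ) * (Phi (Cfsg.quadFormPlus m F) s)⁻¹ := by
      rw [hxeq, hg', map_mul, map_mul, map_mul, map_inv]
      group
    have hx₀ : orderOf (Phi (Cfsg.quadFormPlus m F) ρ₀ * cσ σ) = r := by
      rw [← hxr, hxeq]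
      exact ((MulAut.conj (Phi (Cfsg.quadFormPlus m F) s)).orderOf_eq _).symm
    have hy₀ : orderOf (Phi (Cfsg.quadFormPlus m F) (g' * ρ₀) * cσ σ) = r := by
      rw [← hord, hy]
      exact ((MulAut.conj (Phi (Cfsg.quadFormPlus m F) s)).orderOf_eq _).symm
    have hpow : ∀ b : GO m F, orderOf (Phi (Cfsg.quadFormPlus m F) b * cσ σ) = r →
        σ ^ r = 1 ∧ IsScalar (tw σ b r) := by
      intro b hb
      have h1 : (Phi (Cfsg.quadFormPlus m F) b * cσ σ) ^ r = 1 := by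
        rw [← hb]
        exact pow_orderOf_eq_one _
      rw [h4 F m σ b r] at h1
      exact hA3 F m (by omega) _ _ h1
    have hσr : orderOf σ = r := by
      have h1 := (hpow ρ₀ hx₀).1
      have h2' := orderOf_dvd_of_pow_eq_one h1
      rcases (Nat.dvd_prime hr).1 h2' with h3' | h3'
      · exact absurd (orderOf_eq_one_iff.1 h3') hσ
      · exact h3'
    have ha : IsScalar (tw σ ρ₀ (orderOf σ)) := by
      rw [hσr]
      exact (hpow ρ₀ hx₀).2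
    have hb : IsScalar (tw σ (g' * ρ₀) (orderOf σ)) := by
      rw [hσr]
      exact (hpow _ hy₀).2
    have hab : ε ρ₀ = ε (g' * ρ₀) := by rw [map_mul, hεg', one_mul]
    obtain ⟨u, z, hu, hz, hbz⟩ := hM F m (by omega) ε hε σ ρ₀ (g' * ρ₀) ha hb hab
    obtain ⟨c, hc⟩ := hz
    have hz1 : Phi (Cfsg.quadFormPlus m F) z = 1 := Phi_eq_one_of_scalar _ z c hc
    have e1 : cσ σ * Phi (Cfsg.quadFormPlus m F) u =
        Phi (Cfsg.quadFormPlus m F) (mapGO σ u) * cσ σ := h3 F m σ u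
    have e2 : (Phi (Cfsg.quadFormPlus m F) (mapGO σ u))⁻¹ * cσ σ =
        cσ σ * (Phi (Cfsg.quadFormPlus m F) u)⁻¹ := by
      rw [inv_mul_eq_iff_eq_mul, ← mul_assoc, ← e1, mul_assoc, mul_inv_cancel, mul_one]
    have hy₀' : Phi (Cfsg.quadFormPlus m F) (g' * ρ₀) * cσ σ =
        Phi (Cfsg.quadFormPlus m F) u * (Phi (Cfsg.quadFormPlus m F) ρ₀ * cσ σ) *
          (Phi (Cfsg.quadFormPlus m F) u)⁻¹ := by
      rw [hbz, map_mul, map_mul, map_mul, map_inv, hz1, one_mul]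
      exact conj_aux2 _ _ _ _ e2
    refine ⟨Phi (Cfsg.quadFormPlus m F) (s * u * s⁻¹), ?_, ?_⟩
    · refine Subgroup.mem_map_of_mem _ ?_
      rw [MonoidHom.mem_ker, map_mul, map_mul, map_inv, hu, mul_one, mul_inv_cancel]
    · have e3 : Phi (Cfsg.quadFormPlus m F) (s * u * s⁻¹) =
          Phi (Cfsg.quadFormPlus m F) s * Phi (Cfsg.quadFormPlus m F) u *
            (Phi (Cfsg.quadFormPlus m F) s)⁻¹ := by
        rw [map_mul, map_mul, map_inv]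
      rw [e3]
      refine conj_aux _ _ _ _ _ hxeq ?_
      rw [← hy₀']
      exact hy
  · rintro ⟨h, -, heq⟩
    rw [heq, ← hxr]
    exact (MulAut.conj h).orderOf_eq x

end Cfsg.Agent.Lib.Helper44.OFldFin
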