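import Mathlib
import Cfsg.Agent.Lib.Helper44.GFStmt
import Cfsg.Agent.Lib.Helper44.OFldFin
import Cfsg.Agent.Lib.Helper44.MCentFin

set_option autoImplicit false

/-! S2717: the final assembly from the pieces. -/

namespace Cfsg.Agent.Lib.Helper44.GFFin

open Matrix Module
open Cfsg.Agent.Lib.Helper43.OPlAut Cfsg.Agent.Lib.Helper45.OmegaAut
  Cfsg.Agent.Lib.Helper43.H90Fin Cfsg.Agent.Lib.Helper45.OmegaAutKer
open Cfsg.Agent.Lib.Helper44.OFld0 Cfsg.Agent.Lib.Helper44.OFld1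
  Cfsg.Agent.Lib.Helper44.OFldStmt Cfsg.Agent.Lib.Helper44.MFld0
  Cfsg.Agent.Lib.Helper44.MFldStmt Cfsg.Agent.Lib.Helper44.MCentStmt
  Cfsg.Agent.Lib.Helper44.GFStmt Cfsg.Agent.Lib.Helper44.OFldFin
  Cfsg.Agent.Lib.Helper44.MCentFin

universe u v

theorem zmod2_eq : ∀ a b : Multiplicative (ZMod 2), a ≠ 1 → b ≠ 1 → a = b := by decide

theorem zmod2_mul : ∀ a b : Multiplicative (ZMod 2), a ≠ 1 → b ≠ 1 → a * b = 1 := by decide

/-- the inner automorphisms are normalised by every automorphism -/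
theorem inn_conj_iff {G : Type u} [Group G] (c d : MulAut G) :
    d ∈ Cfsg.Inn G ↔ c * d * c⁻¹ ∈ Cfsg.Inn G := by
  have key : ∀ (c : MulAut G) (t : G), c * MulAut.conj t * c⁻¹ = MulAut.conj (c t) := by
    intro c t
    ext y
    show c (t * c⁻¹ y * t⁻¹) = c t * y * (c t)⁻¹
    rw [map_mul, map_mul, map_inv, MulAut.apply_inv_self]
  constructor
  · rintro ⟨t, rfl⟩
    exact ⟨c t, (key c t).symm⟩
  · rintro ⟨t, ht⟩
    refine ⟨c⁻¹ t, ?_⟩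
    have h1 : d = c⁻¹ * (c * d * c⁻¹) * c⁻¹⁻¹ := by group
    rw [h1, ← ht]
    exact (key c⁻¹ t).symm

theorem conj_aux3 {G : Type*} [Group G] (T T' B X₁ x y : G) (hx : x = T * X₁ * T⁻¹)
    (hy : y = T' * X₁ * T'⁻¹) (hB : B * X₁ = X₁ * B) :
    y = (T' * B * T⁻¹) * x * (T' * B * T⁻¹)⁻¹ := by
  subst hx hy
  calc T' * X₁ * T'⁻¹ = T' * (B * X₁ * B⁻¹) * T'⁻¹ := by rw [hB, mul_inv_cancel_right]
    _ = (T' * B * T⁻¹) * (T * X₁ * T⁻¹) * (T' * B * T⁻¹)⁻¹ := by group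

theorem conj_aux4 {G : Type*} [Group G] (T T' X₁ x y : G) (hx : x = T * X₁ * T⁻¹)
    (hy : y = T' * X₁ * T'⁻¹) : y = (T' * T⁻¹) * x * (T' * T⁻¹)⁻¹ := by
  subst hx hy
  group

/-- conjugate elements have isomorphic centralisers in a subgroup normalised by the conjugator -/
theorem cent_transport {X : Type*} [Group X] (G : Subgroup X) (c x x₁ : X)
    (hc : ∀ d, d ∈ G ↔ c * d * c⁻¹ ∈ G) (hx : x = c * x₁ * c⁻¹) :
    Nonempty (↥(G ⊓ Subgroup.centralizer {x₁}) ≃* ↥(G ⊓ Subgroup.centralizer {x})) := by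
  have hmap : (G ⊓ Subgroup.centralizer {x₁}).map (MulAut.conj c).toMonoidHom =
      G ⊓ Subgroup.centralizer {x} := by
    ext d'
    constructor
    · rintro ⟨d, hdd, rfl⟩
      obtain ⟨hd1, hd2⟩ := Subgroup.mem_inf.1 hdd
      refine Subgroup.mem_inf.2 ⟨(hc d).1 hd1, ?_⟩
      rw [Subgroup.mem_centralizer_iff] at hd2 ⊢
      intro y hy
      rw [Set.mem_singleton_iff] at hy
      have h1 := hd2 x₁ (Set.mem_singleton x₁)
      rw [hy, hx]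
      show c * x₁ * c⁻¹ * (c * d * c⁻¹) = c * d * c⁻¹ * (c * x₁ * c⁻¹)
      calc c * x₁ * c⁻¹ * (c * d * c⁻¹) = c * (x₁ * d) * c⁻¹ := by group
        _ = c * (d * x₁) * c⁻¹ := by rw [h1]
        _ = _ := by group
    · intro hdd
      obtain ⟨hd1, hd2⟩ := Subgroup.mem_inf.1 hdd
      refine ⟨c⁻¹ * d' * c, Subgroup.mem_inf.2 ⟨?_, ?_⟩, ?_⟩
      · rw [hc]
        have h1 : c * (c⁻¹ * d' * c) * c⁻¹ = d' := by group
        rw [h1]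
        exact hd1
      · rw [Subgroup.mem_centralizer_iff] at hd2 ⊢
        intro y hy
        rw [Set.mem_singleton_iff] at hy
        have h1 := hd2 x (Set.mem_singleton x)
        rw [hx] at h1
        rw [hy]
        calc x₁ * (c⁻¹ * d' * c) = c⁻¹ * (c * x₁ * c⁻¹ * d') * c := by group
          _ = c⁻¹ * (d' * (c * x₁ * c⁻¹)) * c := by rw [h1]
          _ = _ := by group
      · show c * (c⁻¹ * d' * c) * c⁻¹ = d'
        group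
  exact ⟨(MulEquiv.subgroupMap (MulAut.conj c) _).trans (MulEquiv.subgroupCongr hmap)⟩

section

variable {F : Type u} [Field F] [Fintype F] {m : ℕ}

/-- normal form of a graph-field automorphism, with the class character of the reflection -/
theorem normal_form' (h2 : CσMul.{u}) (h3 : CσMulPhi.{u}) (h6a : FieldAutEq.{u})
    (h6c : ReflData.{u}) (hm : 5 ≤ m) (ε : GO m F →* Multiplicative (ZMod 2)) (hε : IsEps ε)
    (x : MulAut (Cfsg.POmega F (Cfsg.quadFormPlus m F)))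
    (hx : Cfsg.IsGraphFieldAutClassPOmegaPlus m x) :
    ∃ (s ρ₀ : GO m F) (σ : RingAut F), σ ≠ 1 ∧ mapGO σ ρ₀ = ρ₀ ∧ ε ρ₀ ≠ 1 ∧
      x = Phi (Cfsg.quadFormPlus m F) s * (Phi (Cfsg.quadFormPlus m F) ρ₀ * cσ σ) *
        (Phi (Cfsg.quadFormPlus m F) s)⁻¹ := by
  obtain ⟨α, ρ, σ, hσ, hρ, hερ, hα⟩ : ∃ (α : MulAut (Cfsg.POmega F (Cfsg.quadFormPlus m F)))
      (ρ : GO m F) (σ : RingAut F), σ ≠ 1 ∧ mapGO σ ρ = ρ ∧ ε ρ ≠ 1 ∧
        α * x * α⁻¹ = Phi (Cfsg.quadFormPlus m F) ρ * cσ σ := by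
    obtain ⟨α, γ, φ, σ, v, r₀, hσ, hv, hσv, hr₀, hγ, hφ, hα⟩ := hx
    obtain ⟨ρ, hρ1, hρ2, hρ3⟩ := h6c F m v hv r₀ hr₀ γ hγ σ hσv
    refine ⟨α, ρ, σ, hσ, hρ3, ?_, ?_⟩
    · exact hε.refl v hv ρ (by rw [hρ1]; exact hr₀)
    · rw [hα, hρ2, h6a F m σ φ hφ]
  obtain ⟨s, τ, hβ⟩ := aut_form hm α⁻¹
  refine ⟨s, mapGO τ ρ, τ * σ * τ⁻¹, ?_, ?_, ?_, ?_⟩
  · intro h
    apply hσ
    have h1 := congrArg (fun y : RingAut F => τ⁻¹ * y * τ) h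
    simp only [mul_one, inv_mul_cancel] at h1
    rw [← h1]
    group
  · rw [← mapGO_mul, inv_mul_cancel_right, mapGO_mul, hρ]
  · rw [hε.map]
    exact hερ
  · have e1 : Phi (Cfsg.quadFormPlus m F) (mapGO τ ρ) * cσ τ =
        cσ τ * Phi (Cfsg.quadFormPlus m F) ρ := (h3 F m τ ρ).symm
    calc x = α⁻¹ * (α * x * α⁻¹) * α⁻¹⁻¹ := by group
      _ = (Phi (Cfsg.quadFormPlus m F) s * cσ τ) * (Phi (Cfsg.quadFormPlus m F) ρ * cσ σ) *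
          (Phi (Cfsg.quadFormPlus m F) s * cσ τ)⁻¹ := by rw [hα, hβ]
      _ = Phi (Cfsg.quadFormPlus m F) s * (cσ τ * Phi (Cfsg.quadFormPlus m F) ρ * cσ σ *
          (cσ τ)⁻¹) * (Phi (Cfsg.quadFormPlus m F) s)⁻¹ := by group
      _ = Phi (Cfsg.quadFormPlus m F) s * (Phi (Cfsg.quadFormPlus m F) (mapGO τ ρ) * cσ τ *
          cσ σ * (cσ τ)⁻¹) * (Phi (Cfsg.quadFormPlus m F) s)⁻¹ := by rw [e1]
      _ = Phi (Cfsg.quadFormPlus m F) s * (Phi (Cfsg.quadFormPlus m F) (mapGO τ ρ) *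
          (cσ τ * cσ σ * (cσ τ)⁻¹)) * (Phi (Cfsg.quadFormPlus m F) s)⁻¹ := by group
      _ = _ := by rw [cσ_conj h2]

set_option maxHeartbeats 1000000 in
/-- an involutory graph-field automorphism is conjugate, by the image of a similarity, to
`Phi b * cσ σ` for every `σ`-fixed involutory similarity `b` not preserving the classes -/
theorem nf (h2 : CσMul.{u}) (h3 : CσMulPhi.{u}) (h4 : PowEq.{u}) (hA3 : KerPhiCσ.{u})
    (h6a : FieldAutEq.{u}) (h6c : ReflData.{u}) (hM : TwistedConj.{u}) (hm : 5 ≤ m)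
    (ε : GO m F →* Multiplicative (ZMod 2)) (hε : IsEps ε)
    (x : MulAut (Cfsg.POmega F (Cfsg.quadFormPlus m F)))
    (hx : Cfsg.IsGraphFieldAutClassPOmegaPlus m x) (hx2 : orderOf x = 2) :
    ∃ σ : RingAut F, orderOf σ = 2 ∧ ∀ b : GO m F, ε b ≠ 1 → mapGO σ b = b → b * b = 1 →
      ∃ t : GO m F, x = Phi (Cfsg.quadFormPlus m F) t *
        (Phi (Cfsg.quadFormPlus m F) b * cσ σ) * (Phi (Cfsg.quadFormPlus m F) t)⁻¹ := by
  obtain ⟨s, ρ₀, σ, hσ, hρ₀, hερ₀, hxeq⟩ := normal_form' h2 h3 h6a h6c hm ε hε x hx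
  have hx₀ : orderOf (Phi (Cfsg.quadFormPlus m F) ρ₀ * cσ σ) = 2 := by
    rw [← hx2, hxeq]
    exact ((MulAut.conj (Phi (Cfsg.quadFormPlus m F) s)).orderOf_eq _).symm
  have h1 : (Phi (Cfsg.quadFormPlus m F) ρ₀ * cσ σ) ^ 2 = 1 := by
    rw [← hx₀]
    exact pow_orderOf_eq_one _
  rw [h4 F m σ ρ₀ 2] at h1
  obtain ⟨hσσ, hsc⟩ := hA3 F m (by omega) _ _ h1
  have hσ2 : orderOf σ = 2 := orderOf_eq_prime hσσ hσ
  refine ⟨σ, hσ2, ?_⟩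
  intro b hεb hσb hbb
  have ha : IsScalar (tw σ ρ₀ (orderOf σ)) := by
    rw [hσ2]
    exact hsc
  have hb : IsScalar (tw σ b (orderOf σ)) := by
    rw [hσ2]
    have e : tw σ b 2 = 1 := by
      rw [tw_succ, tw_succ, tw_zero, map_one, mul_one, hσb, hbb]
    rw [e]
    refine ⟨1, fun y => ?_⟩
    show (1 : Matrix (Fin m ⊕ Fin m) (Fin m ⊕ Fin m) F) *ᵥ y = _
    rw [Matrix.one_mulVec, one_smul]
  have hab : ε ρ₀ = ε b := zmod2_eq _ _ hερ₀ hεb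
  obtain ⟨u, z, hu, hz, hbz⟩ := hM F m (by omega) ε hε σ ρ₀ b ha hb hab
  obtain ⟨c, hc⟩ := hz
  have hz1 : Phi (Cfsg.quadFormPlus m F) z = 1 := Phi_eq_one_of_scalar _ z c hc
  have e1 : cσ σ * Phi (Cfsg.quadFormPlus m F) u =
      Phi (Cfsg.quadFormPlus m F) (mapGO σ u) * cσ σ := h3 F m σ u
  have e2 : (Phi (Cfsg.quadFormPlus m F) (mapGO σ u))⁻¹ * cσ σ =
      cσ σ * (Phi (Cfsg.quadFormPlus m F) u)⁻¹ := by
    rw [inv_mul_eq_iff_eq_mul, ← mul_assoc, ← e1, mul_assoc, mul_inv_cancel, mul_one]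
  have hb' : Phi (Cfsg.quadFormPlus m F) b = Phi (Cfsg.quadFormPlus m F) u *
      Phi (Cfsg.quadFormPlus m F) ρ₀ * (Phi (Cfsg.quadFormPlus m F) (mapGO σ u))⁻¹ := by
    conv_lhs => rw [hbz]
    rw [map_mul, map_mul, map_mul, map_inv, hz1, one_mul]
  have hy₀' : Phi (Cfsg.quadFormPlus m F) b * cσ σ =
      Phi (Cfsg.quadFormPlus m F) u * (Phi (Cfsg.quadFormPlus m F) ρ₀ * cσ σ) *
        (Phi (Cfsg.quadFormPlus m F) u)⁻¹ := by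
    rw [hb']
    exact conj_aux2 _ _ _ _ e2
  refine ⟨s * u⁻¹, ?_⟩
  rw [hy₀', hxeq, map_mul, map_inv]
  group

end

set_option maxHeartbeats 1000000 in
/-- **S2717** from the pieces -/
theorem final_of (h2 : CσMul.{u}) (h3 : CσMulPhi.{u}) (h4 : PowEq.{u}) (hA3 : KerPhiCσ.{u})
    (hA4 : ExistsEps.{u}) (h6a : FieldAutEq.{u}) (h6b : ReflMap.{u}) (h6c : ReflData.{u})
    (h6d : InndiagEq.{u}) (hM : TwistedConj.{u}) (hFC : FixCardP.{u})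
    (hEMB : ExistsEmb.{u, v}) (hUI : UniqueInvolution.{u}) (hCH : CharTwoIff.{u})
    (hEA : ExistsAniso.{v}) (hRT : SplitRoots.{u, v}) (hSW : SwapRefl.{u})
    (hSPC : SplitConj.{u}) (hIIP : InndiagInnPlus2.{u}) (hCI : CentIso.{u, v})
    (hCNT : Count.{u, v})
    {F : Type u} [Field F] [Fintype F] {p f : ℕ} [Fact p.Prime]
    (hF : Fintype.card F = p ^ f) {m : ℕ} (hm : 5 ≤ m)
    (x : MulAut (Cfsg.POmega F (Cfsg.quadFormPlus m F)))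
    (hx : Cfsg.IsGraphFieldAutClassPOmegaPlus m x) (hx2 : orderOf x = 2)
    (F₀ : Type v) [Field F₀] [Fintype F₀] (hF₀ : Fintype.card F₀ = p ^ (f / 2)) :
    Even f ∧ (∀ y : MulAut (Cfsg.POmega F (Cfsg.quadFormPlus m F)),
      Cfsg.IsGraphFieldAutClassPOmegaPlus m y → orderOf y = 2 →
        Cfsg.IsConjUnder (Cfsg.inndiagPOmegaPlus m F) x y) ∧
    (∃ a₀ b₀ : F₀, (∀ z₁ z₂ : F₀, z₁ ^ 2 + a₀ * z₁ * z₂ + b₀ * z₂ ^ 2 = 0 → z₁ = 0 ∧ z₂ = 0) ∧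
      Nonempty (↥(Cfsg.inndiagPOmegaPlus m F ⊓ Subgroup.centralizer {x}) ≃*
        ↥(Cfsg.inndiagPOmegaMinus (m - 1) F₀ a₀ b₀))) ∧
    (p = 2 → Cfsg.splitClassCount (Cfsg.inndiagPOmegaPlus m F)
      (Cfsg.Inn (Cfsg.POmega F (Cfsg.quadFormPlus m F))) x = 1) ∧
    ((p ≠ 2 ∧ Odd m ∧ p ^ (f / 2) % 4 = 1) → Cfsg.splitClassCount (Cfsg.inndiagPOmegaPlus m F)
      (Cfsg.Inn (Cfsg.POmega F (Cfsg.quadFormPlus m F))) x = 4) ∧
    ((p ≠ 2 ∧ ¬ (Odd m ∧ p ^ (f / 2) % 4 = 1)) →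
      Cfsg.splitClassCount (Cfsg.inndiagPOmegaPlus m F)
        (Cfsg.Inn (Cfsg.POmega F (Cfsg.quadFormPlus m F))) x = 2) := by
  obtain ⟨k, rfl⟩ : ∃ k, m = k + 1 := ⟨m - 1, by omega⟩
  have hk : 3 ≤ k := by omega
  obtain ⟨ε, hε⟩ := hA4 F (k + 1) (by omega)
  have hinn := h6d F (k + 1) ε hε
  obtain ⟨σ, hσ2, hnf⟩ := nf h2 h3 h4 hA3 h6a h6c hM hm ε hε x hx hx2
  obtain ⟨hdvd, hcard⟩ := hFC F p f Fact.out hF σ
  rw [hσ2] at hdvd hcard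
  obtain ⟨j, hj⟩ := hEMB F₀ F σ (hF₀.trans hcard.symm)
  obtain ⟨a₀, b₀, hab₀⟩ := hEA F₀
  obtain ⟨ω, hω1, hω2, hω3⟩ := hRT F₀ F j σ hσ2 hj a₀ b₀ hab₀
  obtain ⟨b, w, hw, hσw, hbw, hbHs, hbb⟩ := hSW F k ω (σ ω)
  have hσb : mapGO σ b = b := by
    apply Subtype.ext
    apply Units.ext
    show ((b : GL (PI k) F) : Matrix (PI k) (PI k) F).map σ = _
    rw [hbw]
    exact h6b F (PI k) σ _ (Q_map σ) w (hσw σ)
  have hεb : ε b ≠ 1 := hε.refl w hw b hbw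
  obtain ⟨t, hxt⟩ := hnf b hεb hσb hbb
  obtain ⟨hCI1, ⟨E⟩⟩ := hCI F₀ F j σ hσ2 hj k hk a₀ b₀ hab₀ ω hω1 hω2 hω3 ε hε b hbHs
  -- `Phi t` normalises `Inndiag` and `Inn`
  have hcG : ∀ d : MulAut (Cfsg.POmega F (Cfsg.quadFormPlus (k + 1) F)),
      d ∈ Cfsg.inndiagPOmegaPlus (k + 1) F ↔
        Phi (Cfsg.quadFormPlus (k + 1) F) t * d * (Phi (Cfsg.quadFormPlus (k + 1) F) t)⁻¹ ∈
          Cfsg.inndiagPOmegaPlus (k + 1) F := by
    intro d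
    rw [hinn]
    constructor
    · rintro ⟨g, hg, rfl⟩
      have hg1 : ε g = 1 := hg
      refine ⟨t * g * t⁻¹, ?_, by rw [map_mul, map_mul, map_inv]⟩
      show t * g * t⁻¹ ∈ ε.ker
      rw [MonoidHom.mem_ker, map_mul, map_mul, map_inv, hg1, mul_one, mul_inv_cancel]
    · rintro ⟨g, hg, hgeq⟩
      have hg1 : ε g = 1 := hg
      refine ⟨t⁻¹ * g * t, ?_, ?_⟩
      · show t⁻¹ * g * t ∈ ε.ker
        rw [MonoidHom.mem_ker, map_mul, map_mul, map_inv, hg1, mul_one, inv_mul_cancel]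
      · rw [map_mul, map_mul, map_inv, hgeq]
        group
  have hcK : ∀ d : MulAut (Cfsg.POmega F (Cfsg.quadFormPlus (k + 1) F)),
      d ∈ Cfsg.Inn (Cfsg.POmega F (Cfsg.quadFormPlus (k + 1) F)) ↔
        Phi (Cfsg.quadFormPlus (k + 1) F) t * d * (Phi (Cfsg.quadFormPlus (k + 1) F) t)⁻¹ ∈
          Cfsg.Inn (Cfsg.POmega F (Cfsg.quadFormPlus (k + 1) F)) :=
    fun d => inn_conj_iff _ d
  have hbx : Phi (Cfsg.quadFormPlus (k + 1) F) b *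
      (Phi (Cfsg.quadFormPlus (k + 1) F) b * cσ σ) =
      (Phi (Cfsg.quadFormPlus (k + 1) F) b * cσ σ) * Phi (Cfsg.quadFormPlus (k + 1) F) b := by
    rw [mul_assoc (Phi (Cfsg.quadFormPlus (k + 1) F) b) (cσ σ), h3 F (k + 1) σ b, hσb]
  have hsplit : Cfsg.splitClassCount (Cfsg.inndiagPOmegaPlus (k + 1) F)
      (Cfsg.Inn (Cfsg.POmega F (Cfsg.quadFormPlus (k + 1) F))) x =
      Cfsg.splitClassCount (Cfsg.inndiagPOmegaPlus (k + 1) F)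
        (Cfsg.Inn (Cfsg.POmega F (Cfsg.quadFormPlus (k + 1) F)))
        (Phi (Cfsg.quadFormPlus (k + 1) F) b * cσ σ) := by
    rw [hxt]
    exact hSPC _ _ _ _ _ hcG hcK
  refine ⟨even_iff_two_dvd.2 hdvd, ?_, ⟨a₀, b₀, hab₀, ?_⟩, ?_, ?_, ?_⟩
  · intro y hy hy2
    obtain ⟨σ', hσ'2, hnf'⟩ := nf h2 h3 h4 hA3 h6a h6c hM hm ε hε y hy hy2
    have hσσ' : σ' = σ := hUI F σ' σ hσ'2 hσ2
    rw [hσσ'] at hnf'
    obtain ⟨t', hyt⟩ := hnf' b hεb hσb hbb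
    rw [hinn]
    by_cases hεt : ε (t' * t⁻¹) = 1
    · refine ⟨Phi (Cfsg.quadFormPlus (k + 1) F) (t' * t⁻¹), Subgroup.mem_map_of_mem _ hεt, ?_⟩
      rw [map_mul, map_inv]
      exact conj_aux4 _ _ _ _ _ hxt hyt
    · refine ⟨Phi (Cfsg.quadFormPlus (k + 1) F) (t' * b * t⁻¹), Subgroup.mem_map_of_mem _ ?_, ?_⟩
      · show t' * b * t⁻¹ ∈ ε.ker
        rw [MonoidHom.mem_ker]
        have e : ε (t' * b * t⁻¹) = ε (t' * t⁻¹) * ε b := by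
          rw [map_mul, map_mul, map_mul, mul_right_comm]
        rw [e]
        exact zmod2_mul _ _ hεt hεb
      · rw [map_mul, map_mul, map_inv]
        exact conj_aux3 _ _ _ _ _ _ hxt hyt hbx
  · obtain ⟨Ec⟩ := cent_transport (Cfsg.inndiagPOmegaPlus (k + 1) F)
      (Phi (Cfsg.quadFormPlus (k + 1) F) t) x _ hcG hxt
    exact ⟨Ec.symm.trans E⟩
  · intro hp2
    have h2F : (2 : F) = 0 := (hCH F p f Fact.out hF).2 hp2
    rw [hIIP F (k + 1) (by omega) h2F]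
    apply split_eq_one
    intro d hd
    exact ⟨d, hd, rfl⟩
  · rintro ⟨hp, hodd, hmod⟩
    have h2F : (2 : F) ≠ 0 := fun h => hp ((hCH F p f Fact.out hF).1 h)
    rw [hsplit]
    exact (hCNT F₀ F j σ hσ2 hj k hk a₀ b₀ hab₀ h2F ω hω1 hω2 hω3 ε hε _ hCI1).1
      ⟨hodd, by rw [hcard]; exact hmod⟩
  · rintro ⟨hp, hnot⟩
    have h2F : (2 : F) ≠ 0 := fun h => hp ((hCH F p f Fact.out hF).1 h)
    rw [hsplit]
    exact (hCNT F₀ F j σ hσ2 hj k hk a₀ b₀ hab₀ h2F ω hω1 hω2 hω3 ε hε _ hCI1).2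
      (fun h => hnot ⟨h.1, by rw [← hcard]; exact h.2⟩)

end Cfsg.Agent.Lib.Helper44.GFFin
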