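import Mathlib
import Cfsg.Agent.Lib.Helper44.GAStmt
import Cfsg.Agent.Lib.Helper44.GFFin

set_option autoImplicit false

/-! S2718: the final assembly from the pieces. -/

namespace Cfsg.Agent.Lib.Helper44.GAFin

open Matrix Module QuadraticMap
open Cfsg.Agent.Lib.Helper43.OPlAut Cfsg.Agent.Lib.Helper45.OmegaAut
open Cfsg.Agent.Lib.Helper44.OFld0 Cfsg.Agent.Lib.Helper44.OFld1
  Cfsg.Agent.Lib.Helper44.OFldStmt Cfsg.Agent.Lib.Helper44.GFStmt
  Cfsg.Agent.Lib.Helper44.GAStmt Cfsg.Agent.Lib.Helper44.GFFin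
  Cfsg.Agent.Lib.Helper44.OMat Cfsg.Agent.Lib.Helper44.NegPairs
  Cfsg.Agent.Lib.Helper44.QSpace Cfsg.Agent.Lib.Helper44.FinSq

universe u

theorem four_squeeze {a b : ℕ} (h : a * b = 4) (ha : a ≠ 1) (hb : b ≠ 1) : b = 2 := by
  have ha4 : a ≤ 4 := Nat.le_of_dvd (by norm_num) (Dvd.intro _ h)
  have ha0 : a ≠ 0 := by
    rintro rfl
    simp at h
  interval_cases a <;> omega

set_option maxHeartbeats 1000000 in
/-- **S2718** from the pieces -/
theorem final_of (hA4 : ExistsEps.{u}) (h6d : InndiagEq.{u}) (hA3 : KerPhiCσ.{u})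
    (h1 : CσOne.{u}) (hSPL : SplitIndex.{u}) (hIDX : IndexInndiag.{u}) (hLB : LowerBound.{u})
    (hNEG : NegSq.{u}) (hCA : CaseSq.{u}) (hCB : CaseNonsq.{u}) (hDR : RotNotInn.{u})
    {F : Type u} [Field F] [Fintype F] (hodd : Odd (Fintype.card F)) {m : ℕ} (hm : 4 ≤ m)
    (γ : MulAut (Cfsg.POmega F (Cfsg.quadFormPlus m F)))
    (hγ : Cfsg.IsSimilarityGraphAutPOmegaPlus m γ) (hγ2 : orderOf γ = 2) :
    (Cfsg.splitClassCount (Cfsg.inndiagPOmegaPlus m F)
        (Cfsg.Inn (Cfsg.POmega F (Cfsg.quadFormPlus m F))) γ = 1 ∨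
      Cfsg.splitClassCount (Cfsg.inndiagPOmegaPlus m F)
        (Cfsg.Inn (Cfsg.POmega F (Cfsg.quadFormPlus m F))) γ = 2) ∧
    (¬ (Odd m ∧ Fintype.card F % 4 = 3) →
      Cfsg.splitClassCount (Cfsg.inndiagPOmegaPlus m F)
        (Cfsg.Inn (Cfsg.POmega F (Cfsg.quadFormPlus m F))) γ = 2) := by
  have h2 : (2 : F) ≠ 0 := two_ne_zero_of_odd_card hodd
  obtain ⟨ε, hε⟩ := hA4 F m (by omega)
  have hinn := h6d F m ε hε
  have hKn : (Cfsg.Inn (Cfsg.POmega F (Cfsg.quadFormPlus m F))).Normal :=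
    ⟨fun d hd c => (inn_conj_iff c d).1 hd⟩
  obtain ⟨hKG, hidx2, hidx4⟩ := hIDX F m hm hodd
  have hsplit := hSPL _ (Cfsg.inndiagPOmegaPlus m F)
    (Cfsg.Inn (Cfsg.POmega F (Cfsg.quadFormPlus m F))) hKG hKn γ
  have hdvd : (Cfsg.Inn (Cfsg.POmega F (Cfsg.quadFormPlus m F)) ⊔
      (Cfsg.inndiagPOmegaPlus m F ⊓ Subgroup.centralizer {γ})).relIndex
        (Cfsg.inndiagPOmegaPlus m F) ∣
      (Cfsg.Inn (Cfsg.POmega F (Cfsg.quadFormPlus m F))).relIndex
        (Cfsg.inndiagPOmegaPlus m F) :=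
    Subgroup.relIndex_dvd_of_le_left _ le_sup_left
  by_cases hexc : Odd m ∧ Fintype.card F % 4 = 3
  · refine ⟨?_, fun h => absurd hexc h⟩
    rw [hsplit]
    rw [hidx2 hexc] at hdvd
    rcases (Nat.dvd_prime Nat.prime_two).1 hdvd with h | h
    · exact Or.inl h
    · exact Or.inr h
  · have key : (Cfsg.Inn (Cfsg.POmega F (Cfsg.quadFormPlus m F)) ⊔
        (Cfsg.inndiagPOmegaPlus m F ⊓ Subgroup.centralizer {γ})).relIndex
          (Cfsg.inndiagPOmegaPlus m F) = 2 := by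
      have hL := hLB F m hm hodd hexc γ hγ
      obtain ⟨g, hg, hnp, hind⟩ := hγ
      obtain ⟨g₁, hg₁⟩ : ∃ g₁ : GO m F, g₁ = ⟨g, hg⟩ := ⟨_, rfl⟩
      have hγeq : γ = Phi (Cfsg.quadFormPlus m F) g₁ := by
        rw [hg₁]
        exact (induced_iff (Cfsg.quadFormPlus m F) g hg γ).1 hind
      have hεg : ε g₁ ≠ 1 := by
        intro h
        apply hnp
        have h3 := (hε.pres g₁).1 h
        rw [hg₁] at h3
        exact h3
      have hsq : Phi (Cfsg.quadFormPlus m F) (g₁ * g₁) = 1 := by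
        rw [map_mul, ← hγeq, ← pow_two, ← hγ2]
        exact pow_orderOf_eq_one γ
      obtain ⟨-, lam, hlam⟩ := hA3 F m (by omega) (g₁ * g₁) (RingEquiv.refl F)
        (by rw [h1 F m, mul_one]; exact hsq)
      have hmat : ((g₁ : GL (Fin m ⊕ Fin m) F) : Matrix (Fin m ⊕ Fin m) (Fin m ⊕ Fin m) F) *
          ((g₁ : GL (Fin m ⊕ Fin m) F) : Matrix (Fin m ⊕ Fin m) (Fin m ⊕ Fin m) F) =
          lam • (1 : Matrix (Fin m ⊕ Fin m) (Fin m ⊕ Fin m) F) :=
        matrix_ext_mulVec (fun x => by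
          rw [Matrix.smul_mulVec, Matrix.one_mulVec]
          exact hlam x)
      obtain ⟨μ, hμ⟩ := g₁.2
      have hnt : Nontrivial (Fin m ⊕ Fin m → F) := by
        have : Nonempty (Fin m ⊕ Fin m) := ⟨Sum.inl ⟨0, by omega⟩⟩
        infer_instance
      obtain ⟨v, hv⟩ := exists_ne_zero (sep_plusQ (F := F) m)
      have hv' : Cfsg.quadFormPlus m F v ≠ 0 := hv
      have hlm : lam ^ 2 = (μ : F) ^ 2 := by
        have e1 : Cfsg.quadFormPlus m F
            ((((g₁ : GL (Fin m ⊕ Fin m) F) : Matrix (Fin m ⊕ Fin m) (Fin m ⊕ Fin m) F) *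
              ((g₁ : GL (Fin m ⊕ Fin m) F) : Matrix (Fin m ⊕ Fin m) (Fin m ⊕ Fin m) F)) *ᵥ v) =
            (μ : F) * ((μ : F) * Cfsg.quadFormPlus m F v) := by
          rw [← Matrix.mulVec_mulVec, hμ, hμ]
        have e2 : Cfsg.quadFormPlus m F (lam • v) = lam * lam * Cfsg.quadFormPlus m F v :=
          q_smul (plusQ m F) lam v
        rw [hmat, Matrix.smul_mulVec, Matrix.one_mulVec, e2] at e1
        have e3 : (lam * lam - (μ : F) * (μ : F)) * Cfsg.quadFormPlus m F v = 0 := by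
          linear_combination e1
        rcases mul_eq_zero.1 e3 with h | h
        · linear_combination h
        · exact absurd h hv'
      obtain ⟨u, u', hu, hu', hns, hcomm⟩ : ∃ u u' : Fin m ⊕ Fin m → F,
          Cfsg.quadFormPlus m F u ≠ 0 ∧ Cfsg.quadFormPlus m F u' ≠ 0 ∧
          ¬ IsSquare (Cfsg.quadFormPlus m F u * Cfsg.quadFormPlus m F u') ∧
          ((g₁ : GL (Fin m ⊕ Fin m) F) : Matrix (Fin m ⊕ Fin m) (Fin m ⊕ Fin m) F) *
              (Cfsg.reflectionMatrix (Cfsg.quadFormPlus m F) u *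
                Cfsg.reflectionMatrix (Cfsg.quadFormPlus m F) u') =
            (Cfsg.reflectionMatrix (Cfsg.quadFormPlus m F) u *
                Cfsg.reflectionMatrix (Cfsg.quadFormPlus m F) u') *
              ((g₁ : GL (Fin m ⊕ Fin m) F) : Matrix (Fin m ⊕ Fin m) (Fin m ⊕ Fin m) F) := by
        rcases sq_eq_sq_iff_eq_or_eq_neg.1 hlm with h | h
        · by_cases hs : IsSquare (μ : F)
          · obtain ⟨c, hc⟩ := hs
            have hc0 : c ≠ 0 := by
              rintro rfl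
              rw [mul_zero] at hc
              exact μ.ne_zero hc
            exact hCA F m hm h2 g₁ c hc0 (by rw [hmat, h, hc, pow_two])
              (fun x => by rw [hμ, hc, pow_two])
          · exact hCB F m hm h2 g₁ (μ : F) hs (by rw [hmat, h]) hμ
        · exact absurd (hNEG F m (by omega) h2 ε hε g₁ (μ : F) (by rw [hmat, h]) hμ) hεg
      obtain ⟨d, hd, hεd, hdT⟩ := hDR F m hm h2 hexc ε hε u u' hu hu' hns
      have hgd : g₁ * d = d * g₁ := by
        apply Subtype.ext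
        apply Units.ext
        show ((g₁ : GL (Fin m ⊕ Fin m) F) : Matrix (Fin m ⊕ Fin m) (Fin m ⊕ Fin m) F) *
          ((d : GL (Fin m ⊕ Fin m) F) : Matrix (Fin m ⊕ Fin m) (Fin m ⊕ Fin m) F) =
          ((d : GL (Fin m ⊕ Fin m) F) : Matrix (Fin m ⊕ Fin m) (Fin m ⊕ Fin m) F) *
            ((g₁ : GL (Fin m ⊕ Fin m) F) : Matrix (Fin m ⊕ Fin m) (Fin m ⊕ Fin m) F)
        rw [hd]
        exact hcomm
      have hdC : Phi (Cfsg.quadFormPlus m F) d ∈
          Cfsg.inndiagPOmegaPlus m F ⊓ Subgroup.centralizer {γ} := by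
        refine Subgroup.mem_inf.2 ⟨?_, ?_⟩
        · rw [hinn]
          exact Subgroup.mem_map_of_mem _ hεd
        · rw [Subgroup.mem_centralizer_iff]
          intro y hy
          rw [Set.mem_singleton_iff] at hy
          rw [hy, hγeq, ← map_mul, ← map_mul, hgd]
      have hmul := Subgroup.relIndex_mul_relIndex
        (Cfsg.Inn (Cfsg.POmega F (Cfsg.quadFormPlus m F)))
        (Cfsg.Inn (Cfsg.POmega F (Cfsg.quadFormPlus m F)) ⊔
          (Cfsg.inndiagPOmegaPlus m F ⊓ Subgroup.centralizer {γ}))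
        (Cfsg.inndiagPOmegaPlus m F) le_sup_left (sup_le hKG inf_le_left)
      rw [hidx4 hexc] at hmul
      have ha : (Cfsg.Inn (Cfsg.POmega F (Cfsg.quadFormPlus m F))).relIndex
          (Cfsg.Inn (Cfsg.POmega F (Cfsg.quadFormPlus m F)) ⊔
            (Cfsg.inndiagPOmegaPlus m F ⊓ Subgroup.centralizer {γ})) ≠ 1 := by
        intro h
        rw [Subgroup.relIndex_eq_one] at h
        exact hdT (h (Subgroup.mem_sup_right hdC))
      have hb : (Cfsg.Inn (Cfsg.POmega F (Cfsg.quadFormPlus m F)) ⊔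
          (Cfsg.inndiagPOmegaPlus m F ⊓ Subgroup.centralizer {γ})).relIndex
            (Cfsg.inndiagPOmegaPlus m F) ≠ 1 := by
        intro h
        rw [Subgroup.relIndex_eq_one] at h
        exact hL h
      exact four_squeeze hmul ha hb
    exact ⟨Or.inr (hsplit.trans key), fun _ => hsplit.trans key⟩

end Cfsg.Agent.Lib.Helper44.GAFin
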