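import Mathlib
import Cfsg.Agent.Lib.Helper44.GFStmt
import Cfsg.Agent.Lib.Helper44.GFFin

set_option autoImplicit false

/-! S2717, piece [CNT]: the number of `Inn`-classes in the `Inndiag`-class of the standard
graph-field involution, in odd characteristic. -/

namespace Cfsg.Agent.Lib.Helper44.GFCNT

open Matrix Module
open Cfsg.Agent.Lib.Helper43.OPlAut Cfsg.Agent.Lib.Helper45.OmegaAut
  Cfsg.Agent.Lib.Helper43.H90Fin Cfsg.Agent.Lib.Helper45.MinusInndiag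
open Cfsg.Agent.Lib.Helper44.OFld0 Cfsg.Agent.Lib.Helper44.OFld1
  Cfsg.Agent.Lib.Helper44.OFldStmt Cfsg.Agent.Lib.Helper44.MFld0
  Cfsg.Agent.Lib.Helper44.MFldStmt Cfsg.Agent.Lib.Helper44.MCentStmt
  Cfsg.Agent.Lib.Helper44.GFStmt Cfsg.Agent.Lib.Helper44.GFFin

universe u v

section Rel

variable {F₀ : Type v} [Field F₀] {F : Type u} [Field F] (j : F₀ →+* F)
  {ι κ : Type} [Fintype ι] [DecidableEq ι] [Fintype κ] [DecidableEq κ]

theorem rel_mul (H : Matrix κ ι F) (g g' : GL κ F) (g₀ g₀' : GL ι F₀)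
    (h : (g : Matrix κ κ F) * H = H * (g₀ : Matrix ι ι F₀).map j)
    (h' : (g' : Matrix κ κ F) * H = H * (g₀' : Matrix ι ι F₀).map j) :
    ((g * g' : GL κ F) : Matrix κ κ F) * H =
      H * ((g₀ * g₀' : GL ι F₀) : Matrix ι ι F₀).map j := by
  rw [Units.val_mul, Units.val_mul, Matrix.map_mul, Matrix.mul_assoc, h', ← Matrix.mul_assoc, h,
    Matrix.mul_assoc]

theorem rel_inv (H : Matrix κ ι F) (g : GL κ F) (g₀ : GL ι F₀)
    (h : (g : Matrix κ κ F) * H = H * (g₀ : Matrix ι ι F₀).map j) :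
    ((g⁻¹ : GL κ F) : Matrix κ κ F) * H = H * ((g₀⁻¹ : GL ι F₀) : Matrix ι ι F₀).map j := by
  have e1 : ((g⁻¹ : GL κ F) : Matrix κ κ F) * (g : Matrix κ κ F) = 1 := by
    rw [← Units.val_mul, inv_mul_cancel, Units.val_one]
  have e2 : (g₀ : Matrix ι ι F₀).map j * ((g₀⁻¹ : GL ι F₀) : Matrix ι ι F₀).map j = 1 := by
    rw [← Matrix.map_mul, ← Units.val_mul, mul_inv_cancel, Units.val_one,
      Matrix.map_one _ (map_zero j) (map_one j)]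
  calc ((g⁻¹ : GL κ F) : Matrix κ κ F) * H
      = ((g⁻¹ : GL κ F) : Matrix κ κ F) * H *
          ((g₀ : Matrix ι ι F₀).map j * ((g₀⁻¹ : GL ι F₀) : Matrix ι ι F₀).map j) := by
        rw [e2, Matrix.mul_one]
    _ = ((g⁻¹ : GL κ F) : Matrix κ κ F) * (H * (g₀ : Matrix ι ι F₀).map j) *
          ((g₀⁻¹ : GL ι F₀) : Matrix ι ι F₀).map j := by
        simp only [Matrix.mul_assoc]
    _ = ((g⁻¹ : GL κ F) : Matrix κ κ F) * ((g : Matrix κ κ F) * H) *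
          ((g₀⁻¹ : GL ι F₀) : Matrix ι ι F₀).map j := by rw [h]
    _ = (((g⁻¹ : GL κ F) : Matrix κ κ F) * (g : Matrix κ κ F)) * H *
          ((g₀⁻¹ : GL ι F₀) : Matrix ι ι F₀).map j := by
        simp only [Matrix.mul_assoc]
    _ = H * ((g₀⁻¹ : GL ι F₀) : Matrix ι ι F₀).map j := by rw [e1, Matrix.one_mul]

end Rel

theorem two_squeeze {a b : ℕ} (h : a * b = 2) (ha : a ≠ 1) : b = 1 := by
  have hd : a ∣ 2 := Dvd.intro _ h
  rcases (Nat.dvd_prime Nat.prime_two).1 hd with h1 | h2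
  · exact absurd h1 ha
  · rw [h2] at h
    omega

set_option maxHeartbeats 1000000 in
/-- piece [CNT] -/
theorem main (hSPL : SplitIndex.{u}) (hG2a : IndexSq.{u}) (hG2b : IndexInn.{u})
    (h6d : InndiagEq.{u}) (hSF : SqOfFix.{u}) (hNQ : NonsqQuot.{v}) (hNT : SquareCrit.{u})
    (hRAT : RatOmega.{u, v}) (hDZ : DeltaZero.{v}) (hDEL : DeltaInn.{u})
    (hTH : ThetaExists.{u, v}) (hMU : MultHs.{u, v}) (hCPO : Compat2Odd.{u, v}) :
    Count.{u, v} := by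
  intro F₀ _ _ F _ _ j σ hσ2 hj k hk a₀ b₀ hab₀ h2 ω hω1 hω2 hω3 ε hε x₁ hC
  have hne : ω ≠ σ ω := Ne.symm hω3
  have h2₀ : (2 : F₀) ≠ 0 := by
    intro h
    apply h2
    have h1 := congrArg j h
    rw [map_ofNat, map_zero] at h1
    exact h1
  have hinn := h6d F (k + 1) ε hε
  have hsq1 : IsSquare (-1 : F) := hSF F σ hσ2 (-1) (by rw [map_neg, map_one])
  have hidx1 := hG2a F (k + 1) (by omega) h2 ε hε
  obtain ⟨hKG₂, hKidx⟩ := hG2b F (k + 1) (by omega) h2 hsq1 ε hε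
  have hG₂G : (ε.ker ⊓ sqSim (Cfsg.quadFormPlus (k + 1) F)).map
      (Phi (Cfsg.quadFormPlus (k + 1) F)) ≤ Cfsg.inndiagPOmegaPlus (k + 1) F := by
    rw [hinn]
    exact Subgroup.map_mono inf_le_left
  have hKG := hKG₂.trans hG₂G
  have hKn : (Cfsg.Inn (Cfsg.POmega F (Cfsg.quadFormPlus (k + 1) F))).Normal :=
    ⟨fun d hd c => (inn_conj_iff c d).1 hd⟩
  have hsplit := hSPL _ (Cfsg.inndiagPOmegaPlus (k + 1) F)
    (Cfsg.Inn (Cfsg.POmega F (Cfsg.quadFormPlus (k + 1) F))) hKG hKn x₁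
  -- the centraliser lies in `G₂`
  have hCG₂ : Cfsg.inndiagPOmegaPlus (k + 1) F ⊓ Subgroup.centralizer {x₁} ≤
      (ε.ker ⊓ sqSim (Cfsg.quadFormPlus (k + 1) F)).map (Phi (Cfsg.quadFormPlus (k + 1) F)) := by
    intro d hd
    obtain ⟨g₀, g, hg₀, hgH, rfl⟩ := (hC d).1 hd
    obtain ⟨μ₀, hμ₀⟩ := g₀.2
    have hmult := hMU F₀ F j k a₀ b₀ ω (σ ω) hω1 hω2 hne g₀ g hgH (μ₀ : F₀) hμ₀
    obtain ⟨r, hr⟩ := hSF F σ hσ2 (j (μ₀ : F₀)) ((hj _).2 ⟨_, rfl⟩)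
    have hr0 : r ≠ 0 := by
      rintro rfl
      rw [mul_zero] at hr
      exact μ₀.ne_zero ((map_eq_zero j).1 hr)
    have hεg : ε g = 1 :=
      (hCPO F₀ F j k hk a₀ b₀ hab₀ h2 ω (σ ω) hω1 hω2 hne ε hε g₀ g hgH).1 hg₀
    refine Subgroup.mem_map_of_mem _ (Subgroup.mem_inf.2 ⟨hεg, ⟨Units.mk0 r hr0, fun w => ?_⟩⟩)
    rw [hmult, hr, Units.val_mk0, pow_two]
  -- the diagonal element
  obtain ⟨δ₀, s, t, ν, hν, hνsq, hδ₀mat, hδ₀mem⟩ := hDZ F₀ h2₀ k hk a₀ b₀ hab₀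
  obtain ⟨gδ, hgδ⟩ := hTH F₀ F j k a₀ b₀ ω (σ ω) hω1 hω2 hne δ₀
  have hδC : Phi (Cfsg.quadFormPlus (k + 1) F) gδ ∈
      Cfsg.inndiagPOmegaPlus (k + 1) F ⊓ Subgroup.centralizer {x₁} :=
    (hC _).2 ⟨δ₀, gδ, hδ₀mem, hgδ, rfl⟩
  have hν0 : ν ≠ 0 := by
    rintro rfl
    exact hνsq ⟨0, by rw [mul_zero]⟩
  obtain ⟨c, hc⟩ := hSF F σ hσ2 (j ν) ((hj _).2 ⟨_, rfl⟩)
  have hc0 : c ≠ 0 := by
    rintro rfl
    rw [mul_zero] at hc
    exact hν0 ((map_eq_zero j).1 hc)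
  have hcν : c ^ 2 = j ν := by rw [pow_two, ← hc]
  have hjν : j ν = j s ^ 2 + (ω + σ ω) * j s * j t + ω * σ ω * j t ^ 2 := by
    rw [hν, hω1, hω2]
    simp only [map_add, map_mul, map_pow]
  have hc2 : c ^ 2 = j s ^ 2 + (ω + σ ω) * j s * j t + ω * σ ω * j t ^ 2 := by
    rw [hcν, hjν]
  have hgδ' : ((gδ : GL (PI k) F) : Matrix (PI k) (PI k) F) * Hs k ω (σ ω) =
      Hs k ω (σ ω) * Dm k (c ^ 2) (j s) (j t) (ω + σ ω) (ω * σ ω) := by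
    rw [hgδ, hδ₀mat, Dm_map, hcν, hω1, hω2]
  have hDELiff := hDEL F h2 hsq1 k hk ω (σ ω) (j s) (j t) c hne hc0 hc2 gδ hgδ'
  have hσjs : σ (j s) = j s := (hj _).2 ⟨_, rfl⟩
  have hσjt : σ (j t) = j t := (hj _).2 ⟨_, rfl⟩
  have hNTiff := hNT F h2 σ hσ2 c (j s + j t * ω) (j ν) (k - 1) ((hj _).2 ⟨_, rfl⟩)
    (by
      rintro ⟨y, hy1, hy2⟩
      obtain ⟨y₀, rfl⟩ := (hj y).1 hy1
      rw [← map_pow] at hy2
      have h3 := j.injective hy2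
      exact hνsq ⟨y₀, by rw [← h3, pow_two]⟩)
    hcν
    (by
      rw [map_add, map_mul, hσjs, hσjt, hjν]
      ring)
  have hodd : Odd (k - 1) ↔ Odd (k + 1) := by
    rw [Nat.odd_iff, Nat.odd_iff]
    omega
  have hP : Phi (Cfsg.quadFormPlus (k + 1) F) gδ ∈
      Cfsg.Inn (Cfsg.POmega F (Cfsg.quadFormPlus (k + 1) F)) ↔
      (Odd (k + 1) ∧ Nat.card ↥(fixF σ) % 4 = 1) := by
    rw [hDELiff, hNTiff, hodd]
  have hδsim : ∀ v : MI k → F₀, Cfsg.quadFormMinus k F₀ a₀ b₀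
      (((δ₀ : GL (MI k) F₀) : Matrix (MI k) (MI k) F₀) *ᵥ v) =
      ν * Cfsg.quadFormMinus k F₀ a₀ b₀ v := by
    intro v
    rw [hδ₀mat, hν]
    exact Dm_sim k s t a₀ b₀ v
  constructor
  · intro hP'
    have hδK := hP.2 hP'
    have hCK : Cfsg.inndiagPOmegaPlus (k + 1) F ⊓ Subgroup.centralizer {x₁} ≤
        Cfsg.Inn (Cfsg.POmega F (Cfsg.quadFormPlus (k + 1) F)) := by
      intro d hd
      obtain ⟨g₀, g, hg₀, hgH, rfl⟩ := (hC d).1 hd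
      obtain ⟨μ₀, hμ₀⟩ := g₀.2
      by_cases hsq : IsSquare (μ₀ : F₀)
      · obtain ⟨r, hr⟩ := hsq
        have hr0 : r ≠ 0 := by
          rintro rfl
          rw [mul_zero] at hr
          exact μ₀.ne_zero hr
        exact hRAT F₀ F j σ hσ2 hj k hk a₀ b₀ hab₀ h2 ω (σ ω) hω1 hω2 hne g₀ hg₀
          ⟨Units.mk0 r hr0, fun v => by rw [hμ₀, hr, Units.val_mk0, pow_two]⟩ g hgH
      · obtain ⟨r, hr0, hr⟩ := hNQ F₀ h2₀ (μ₀ : F₀) ν μ₀.ne_zero hsq hνsq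
        have hmem1 : Phi (Cfsg.quadFormMinus k F₀ a₀ b₀) (g₀ * δ₀⁻¹) ∈
            Cfsg.inndiagPOmegaMinus k F₀ a₀ b₀ := by
          rw [map_mul, map_inv]
          exact Subgroup.mul_mem _ hg₀ (Subgroup.inv_mem _ hδ₀mem)
        have hmat1 : (((g * gδ⁻¹ : GO (k + 1) F) : GL (PI k) F) : Matrix (PI k) (PI k) F) *
            Hs k ω (σ ω) = Hs k ω (σ ω) *
              (((g₀ * δ₀⁻¹ : GOq (Cfsg.quadFormMinus k F₀ a₀ b₀)) : GL (MI k) F₀) :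
                Matrix (MI k) (MI k) F₀).map j :=
          rel_mul j _ _ _ _ _ hgH (rel_inv j _ _ _ hgδ)
        have hsim1 : ∃ c₀ : F₀ˣ, ∀ v : MI k → F₀, Cfsg.quadFormMinus k F₀ a₀ b₀
            ((((g₀ * δ₀⁻¹ : GOq (Cfsg.quadFormMinus k F₀ a₀ b₀)) : GL (MI k) F₀) :
              Matrix (MI k) (MI k) F₀) *ᵥ v) =
            (c₀ : F₀) ^ 2 * Cfsg.quadFormMinus k F₀ a₀ b₀ v := by
          refine ⟨Units.mk0 r hr0, fun v => ?_⟩
          have e1 : ((δ₀ : GL (MI k) F₀) : Matrix (MI k) (MI k) F₀) *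
              (((δ₀⁻¹ : GOq (Cfsg.quadFormMinus k F₀ a₀ b₀)) : GL (MI k) F₀) :
                Matrix (MI k) (MI k) F₀) = 1 := by
            show ((δ₀ : GL (MI k) F₀) : Matrix (MI k) (MI k) F₀) *
              (((δ₀ : GL (MI k) F₀)⁻¹ : GL (MI k) F₀) : Matrix (MI k) (MI k) F₀) = 1
            rw [← Units.val_mul, mul_inv_cancel, Units.val_one]
          have e2 := hδsim ((((δ₀⁻¹ : GOq (Cfsg.quadFormMinus k F₀ a₀ b₀)) : GL (MI k) F₀) :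
            Matrix (MI k) (MI k) F₀) *ᵥ v)
          rw [Matrix.mulVec_mulVec, e1, Matrix.one_mulVec] at e2
          show Cfsg.quadFormMinus k F₀ a₀ b₀
            ((((g₀ : GL (MI k) F₀) : Matrix (MI k) (MI k) F₀) *
              (((δ₀⁻¹ : GOq (Cfsg.quadFormMinus k F₀ a₀ b₀)) : GL (MI k) F₀) :
                Matrix (MI k) (MI k) F₀)) *ᵥ v) = _
          rw [← Matrix.mulVec_mulVec, hμ₀, hr, Units.val_mk0, mul_assoc, ← e2]
        have h1 := hRAT F₀ F j σ hσ2 hj k hk a₀ b₀ hab₀ h2 ω (σ ω) hω1 hω2 hne (g₀ * δ₀⁻¹)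
          hmem1 hsim1 (g * gδ⁻¹) hmat1
        have e3 : Phi (Cfsg.quadFormPlus (k + 1) F) g =
            Phi (Cfsg.quadFormPlus (k + 1) F) (g * gδ⁻¹) *
              Phi (Cfsg.quadFormPlus (k + 1) F) gδ := by
          rw [← map_mul, inv_mul_cancel_right]
        rw [e3]
        exact Subgroup.mul_mem _ h1 hδK
    have hsup : Cfsg.Inn (Cfsg.POmega F (Cfsg.quadFormPlus (k + 1) F)) ⊔
        (Cfsg.inndiagPOmegaPlus (k + 1) F ⊓ Subgroup.centralizer {x₁}) =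
        Cfsg.Inn (Cfsg.POmega F (Cfsg.quadFormPlus (k + 1) F)) := sup_eq_left.2 hCK
    rw [hsplit, hsup, ← Subgroup.relIndex_mul_relIndex _ _ _ hKG₂ hG₂G, hKidx, hidx1]
  · intro hnP
    have hδK : Phi (Cfsg.quadFormPlus (k + 1) F) gδ ∉
        Cfsg.Inn (Cfsg.POmega F (Cfsg.quadFormPlus (k + 1) F)) := fun h => hnP (hP.1 h)
    have hle : Cfsg.Inn (Cfsg.POmega F (Cfsg.quadFormPlus (k + 1) F)) ⊔
        (Cfsg.inndiagPOmegaPlus (k + 1) F ⊓ Subgroup.centralizer {x₁}) ≤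
        (ε.ker ⊓ sqSim (Cfsg.quadFormPlus (k + 1) F)).map
          (Phi (Cfsg.quadFormPlus (k + 1) F)) := sup_le hKG₂ hCG₂
    have hmul := Subgroup.relIndex_mul_relIndex
      (Cfsg.Inn (Cfsg.POmega F (Cfsg.quadFormPlus (k + 1) F))) _ _ le_sup_left hle
    rw [hKidx] at hmul
    have hne1 : (Cfsg.Inn (Cfsg.POmega F (Cfsg.quadFormPlus (k + 1) F))).relIndex
        (Cfsg.Inn (Cfsg.POmega F (Cfsg.quadFormPlus (k + 1) F)) ⊔
          (Cfsg.inndiagPOmegaPlus (k + 1) F ⊓ Subgroup.centralizer {x₁})) ≠ 1 := by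
      intro h
      rw [Subgroup.relIndex_eq_one] at h
      exact hδK (h (Subgroup.mem_sup_right hδC))
    have h1 := two_squeeze hmul hne1
    rw [Subgroup.relIndex_eq_one] at h1
    have hsup := le_antisymm hle h1
    rw [hsplit, hsup]
    exact hidx1

end Cfsg.Agent.Lib.Helper44.GFCNT
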