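import Mathlib
import Cfsg.Agent.Lib.Helper44.OFldStmt
import Cfsg.Agent.Lib.Helper44.OTyp1
import Cfsg.Agent.Lib.Helper44.QDiag
import Cfsg.Agent.Lib.Helper45.PlusInndiag

set_option autoImplicit false

/-! S2736: twisted conjugacy from the pieces (assembly). -/

namespace Cfsg.Agent.Lib.Helper44.OFldM

open Matrix Module QuadraticMap
open Cfsg.Agent.Lib.Helper43.OPlAut Cfsg.Agent.Lib.Helper45.OmegaAut
  Cfsg.Agent.Lib.Helper43.H90Fin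
open Cfsg.Agent.Lib.Helper44.OFld0 Cfsg.Agent.Lib.Helper44.OFld1 Cfsg.Agent.Lib.Helper44.MaxTS
  Cfsg.Agent.Lib.Helper44.NegPairs Cfsg.Agent.Lib.Helper44.QSpace
  Cfsg.Agent.Lib.Helper44.QClass Cfsg.Agent.Lib.Helper44.OFldStmt
  Cfsg.Agent.Lib.Helper44.OMat Cfsg.Agent.Lib.Helper44.OGroup

universe u

section Gen

variable {F : Type u} [Field F] {ι : Type} [Fintype ι] [DecidableEq ι]

/-- the form `v ↦ d * Q (H v)` -/
def Pf (Q₀ : QuadraticForm F (ι → F)) (d : F) (H : Matrix ι ι F) : QuadraticForm F (ι → F) :=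
  d • Q₀.comp (Matrix.toLin' H)

theorem Pf_apply (Q₀ : QuadraticForm F (ι → F)) (d : F) (H : Matrix ι ι F) (v : ι → F) :
    Pf Q₀ d H v = d * Q₀ (H *ᵥ v) := rfl

theorem polar_Pf (Q₀ : QuadraticForm F (ι → F)) (d : F) (H : Matrix ι ι F) (x y : ι → F) :
    polar (Pf Q₀ d H) x y = d * polar Q₀ (H *ᵥ x) (H *ᵥ y) := by
  unfold polar
  rw [Pf_apply, Pf_apply, Pf_apply, Matrix.mulVec_add]
  ring

theorem sep_Pf {Q₀ : QuadraticForm F (ι → F)} (hS : Sep Q₀) {d : F} (hd : d ≠ 0) (h : GL ι F) :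
    Sep (Pf Q₀ d (h : Matrix ι ι F)) := by
  intro x hx
  have h1 : (h : Matrix ι ι F) *ᵥ x = 0 := by
    apply hS
    intro z
    have h2 := hx (((h⁻¹ : GL ι F) : Matrix ι ι F) *ᵥ z)
    rw [polar_Pf, Matrix.mulVec_mulVec, ← Units.val_mul, mul_inv_cancel, Units.val_one,
      Matrix.one_mulVec] at h2
    exact (mul_eq_zero.1 h2).resolve_left hd
  have h3 : ((h⁻¹ : GL ι F) : Matrix ι ι F) *ᵥ ((h : Matrix ι ι F) *ᵥ x) = x := by
    rw [Matrix.mulVec_mulVec, ← Units.val_mul, inv_mul_cancel, Units.val_one, Matrix.one_mulVec]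
  rw [← h3, h1, Matrix.mulVec_zero]

/-- the embedding of fixed-field vectors -/
def emb (σ : RingAut F) (v : ι → ↥(fixF σ)) : ι → F := fun i => ((v i : ↥(fixF σ)) : F)

theorem emb_add (σ : RingAut F) (u v : ι → ↥(fixF σ)) : emb σ (u + v) = emb σ u + emb σ v := by
  funext i
  rfl

theorem emb_single (σ : RingAut F) (i : ι) :
    emb σ (Pi.single i 1) = (Pi.single i 1 : ι → F) := by
  funext j
  unfold emb
  by_cases h : j = i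
  · subst h
    simp
  · simp [Pi.single_eq_of_ne h]

/-- lifting an isometry of the descended forms -/
theorem lift_iso (σ : RingAut F) (Pa Pb : QuadraticForm F (ι → F))
    (P₀a P₀b : QuadraticForm ↥(fixF σ) (ι → ↥(fixF σ)))
    (ha : ∀ v : ι → ↥(fixF σ), ((P₀a v : ↥(fixF σ)) : F) = Pa (emb σ v))
    (hb : ∀ v : ι → ↥(fixF σ), ((P₀b v : ↥(fixF σ)) : F) = Pb (emb σ v))
    (j : (ι → ↥(fixF σ)) →ₗ[↥(fixF σ)] (ι → ↥(fixF σ))) (hj : ∀ v, P₀b (j v) = P₀a v) :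
    ∃ K : Matrix ι ι F, K.map σ = K ∧ ∀ v, Pb (K *ᵥ v) = Pa v := by
  obtain ⟨K, hKdef⟩ : ∃ K : Matrix ι ι F,
      K = (LinearMap.toMatrix' j).map (fun x : ↥(fixF σ) => (x : F)) := ⟨_, rfl⟩
  have hKσ : K.map σ = K := by
    ext i l
    rw [hKdef]
    simp only [Matrix.map_apply]
    exact (mem_fixF σ _).1 (LinearMap.toMatrix' j i l).2
  have hK : ∀ v₀ : ι → ↥(fixF σ), K *ᵥ emb σ v₀ = emb σ (j v₀) := by
    intro v₀
    funext i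
    have h1 := congrFun (LinearMap.toMatrix'_mulVec j v₀) i
    unfold emb
    rw [← h1, hKdef]
    simp only [Matrix.mulVec, dotProduct, Matrix.map_apply]
    push_cast
    rfl
  have key : ∀ v₀ : ι → ↥(fixF σ), Pb (K *ᵥ emb σ v₀) = Pa (emb σ v₀) := by
    intro v₀
    rw [hK, ← hb, hj, ha]
  have heq : Pb.comp (Matrix.toLin' K) = Pa := by
    apply Cfsg.Agent.Lib.Helper44.QDiag.quad_ext_basis (Pi.basisFun F ι)
    · intro i
      rw [Pi.basisFun_apply, ← emb_single σ i]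
      exact key _
    · intro i l
      unfold polar
      rw [Pi.basisFun_apply, Pi.basisFun_apply, ← emb_single σ i, ← emb_single σ l, ← emb_add]
      show Pb (K *ᵥ _) - Pb (K *ᵥ _) - Pb (K *ᵥ _) = _
      rw [key, key, key]
  refine ⟨K, hKσ, fun v => ?_⟩
  have := congrArg (fun Q : QuadraticForm F (ι → F) => Q v) heq
  exact this

end Gen

section Card

open Cfsg.Agent.Lib.Helper44.OTyp1

/-- forms of the same type have the same number of singular vectors -/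
theorem card_eq_of_hyp_iff {K : Type u} [Field K] [Fintype K] {V : Type u} [AddCommGroup V]
    [Module K V] [FiniteDimensional K V]
    (Q₁ Q₂ : QuadraticForm K V) (hS₁ : Sep Q₁) (hS₂ : Sep Q₂) {k : ℕ}
    (hV : finrank K V = 2 * (k + 1))
    (hiff : (∃ e f : Fin (k + 1) → V, IsHyp Q₁ e f) ↔ (∃ e f : Fin (k + 1) → V, IsHyp Q₂ e f)) :
    Nat.card {v : V // Q₁ v = 0} = Nat.card {v : V // Q₂ v = 0} := by
  have hq : 2 ≤ Fintype.card K := Fintype.one_lt_card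
  have hne := NP_ne_NM (Fintype.card K) k hq
  have hpos : 0 < Fintype.card K := by omega
  have both : ∀ Q : QuadraticForm K V, Sep Q →
      ((∃ e f : Fin (k + 1) → V, IsHyp Q e f) →
        Nat.card {v : V // Q v = 0} * Fintype.card K = Fintype.card K ^ (k + 2)
          + (Fintype.card K ^ (k + 1) - 1) * Fintype.card K ^ (k + 1)) ∧
      ((¬ ∃ e f : Fin (k + 1) → V, IsHyp Q e f) →
        Nat.card {v : V // Q v = 0} * Fintype.card K = Fintype.card K ^ (k + 1)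
          + Fintype.card K ^ 2 * ((Fintype.card K ^ k - 1) * Fintype.card K ^ k)) := by
    intro Q hS
    constructor
    · rintro ⟨e, f, hH⟩
      exact card_P Q hH hV
    · intro hn
      rcases exists_hyp_even k V Q hV hS with h | ⟨e, f, x, y, ζ, hH, hE, ho⟩
      · exact absurd h hn
      · exact card_M Q hH hE ho hV
  by_cases h1 : ∃ e f : Fin (k + 1) → V, IsHyp Q₁ e f
  · have a1 := (both Q₁ hS₁).1 h1
    have a2 := (both Q₂ hS₂).1 (hiff.1 h1)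
    exact Nat.eq_of_mul_eq_mul_right hpos (a1.trans a2.symm)
  · have a1 := (both Q₁ hS₁).2 h1
    have a2 := (both Q₂ hS₂).2 (fun h => h1 (hiff.2 h))
    exact Nat.eq_of_mul_eq_mul_right hpos (a1.trans a2.symm)

end Card

section Main

open Cfsg.Agent.Lib.Helper44.OTyp1 Cfsg.Agent.Lib.Helper45.SingClass
  Cfsg.Agent.Lib.Helper44.MaxTS3

variable {F : Type u} [Field F] [Fintype F]

/-- the type of the descended form is read off from the class character -/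
theorem type_iff (hC1 : EpsParity.{u}) (hMc1 : HypParity.{u}) (hMc2 : EllParity.{u})
    (k : ℕ) (ε : GO (k + 1) F →* Multiplicative (ZMod 2)) (hε : IsEps ε) (σ : RingAut F)
    (a : GO (k + 1) F) (μ d : Fˣ) (h : GL (Fin (k + 1) ⊕ Fin (k + 1)) F)
    (h1 : (μ : F) • ((a : GL (Fin (k + 1) ⊕ Fin (k + 1)) F) :
          Matrix (Fin (k + 1) ⊕ Fin (k + 1)) (Fin (k + 1) ⊕ Fin (k + 1)) F) *
        ((h : Matrix (Fin (k + 1) ⊕ Fin (k + 1)) (Fin (k + 1) ⊕ Fin (k + 1)) F).map σ) =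
      (h : Matrix (Fin (k + 1) ⊕ Fin (k + 1)) (Fin (k + 1) ⊕ Fin (k + 1)) F))
    (hσ : ∀ v : Fin (k + 1) ⊕ Fin (k + 1) → F,
      Pf (plusQ (k + 1) F) (d : F) (h : Matrix _ _ F) (fun i => σ (v i)) =
        σ (Pf (plusQ (k + 1) F) (d : F) (h : Matrix _ _ F) v))
    (P₀ : QuadraticForm ↥(fixF σ) (Fin (k + 1) ⊕ Fin (k + 1) → ↥(fixF σ)))
    (hP₀ : ∀ v : Fin (k + 1) ⊕ Fin (k + 1) → ↥(fixF σ), ((P₀ v : ↥(fixF σ)) : F) =
      Pf (plusQ (k + 1) F) (d : F) (h : Matrix _ _ F) (fun i => ((v i : ↥(fixF σ)) : F)))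
    (hS₀ : Sep P₀) :
    (∃ e f : Fin (k + 1) → (Fin (k + 1) ⊕ Fin (k + 1) → ↥(fixF σ)), IsHyp P₀ e f) ↔ ε a = 1 := by
  have hSP : Sep (Pf (plusQ (k + 1) F) (d : F) (h : Matrix _ _ F)) :=
    sep_Pf (sep_plusQ (F := F) (k + 1)) d.ne_zero h
  obtain ⟨U, hUdef⟩ : ∃ U : Submodule F (Fin (k + 1) ⊕ Fin (k + 1) → F),
      U = (LinearMap.ker (LinearMap.funLeft F F
        (Sum.inr : Fin (k + 1) → Fin (k + 1) ⊕ Fin (k + 1)))).map
        (Matrix.toLin' ((h⁻¹ : GL (Fin (k + 1) ⊕ Fin (k + 1)) F) : Matrix _ _ F)) := ⟨_, rfl⟩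
  have hUmap : U.map (Matrix.toLin' (h : Matrix (Fin (k + 1) ⊕ Fin (k + 1))
      (Fin (k + 1) ⊕ Fin (k + 1)) F)) = LinearMap.ker (LinearMap.funLeft F F
        (Sum.inr : Fin (k + 1) → Fin (k + 1) ⊕ Fin (k + 1))) := by
    rw [hUdef, ← Submodule.map_comp, ← Matrix.toLin'_mul, ← Units.val_mul, mul_inv_cancel,
      Units.val_one, Matrix.toLin'_one, Submodule.map_id]
  have hTS : TS (plusQ (k + 1) F) (k + 1) (U.map (Matrix.toLin' (h : Matrix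
      (Fin (k + 1) ⊕ Fin (k + 1)) (Fin (k + 1) ⊕ Fin (k + 1)) F))) := by
    rw [hUmap]
    exact ts_std (k + 1)
  have hTSP : TS (Pf (plusQ (k + 1) F) (d : F) (h : Matrix _ _ F)) (k + 1) U := by
    refine ⟨?_, ?_⟩
    · have e1 := hTS.1
      rw [toLin'_eq, LinearEquiv.finrank_map_eq] at e1
      exact e1
    · intro u hu
      rw [Pf_apply]
      have e2 : (h : Matrix _ _ F) *ᵥ u ∈ U.map (Matrix.toLin' (h : Matrix
          (Fin (k + 1) ⊕ Fin (k + 1)) (Fin (k + 1) ⊕ Fin (k + 1)) F)) :=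
        ⟨u, hu, by rw [Matrix.toLin'_apply]⟩
      rw [hTS.2 _ e2, mul_zero]
  have hpar := hC1 F (k + 1) (by omega) ε hε σ a μ h h1 U hTS
  have hcard : Fintype.card (Fin (k + 1) ⊕ Fin (k + 1)) = 2 * (k + 1) := by
    rw [Fintype.card_sum, Fintype.card_fin]
    ring
  constructor
  · intro hh
    exact hpar.2 (hMc1 F (Fin (k + 1) ⊕ Fin (k + 1)) (k + 1) hcard σ _ hSP hσ P₀ hP₀ U hTSP hh)
  · intro he
    have hev := hpar.1 he
    have hfin : finrank ↥(fixF σ) (Fin (k + 1) ⊕ Fin (k + 1) → ↥(fixF σ)) = 2 * (k + 1) := by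
      rw [Module.finrank_fintype_fun_eq_card, hcard]
    rcases exists_hyp_even k _ P₀ hfin hS₀ with hh | ⟨e, f, x, y, ζ, hH, hE, ho⟩
    · exact hh
    · exact absurd hev
        (hMc2 F (Fin (k + 1) ⊕ Fin (k + 1)) k hcard σ _ hSP hσ P₀ hP₀ U hTSP e f x y ζ hH hE ho)

end Main

section Final

open Cfsg.Agent.Lib.Helper44.OTyp1 Cfsg.Agent.Lib.Helper45.SingClass
  Cfsg.Agent.Lib.Helper44.MaxTS3 Cfsg.Agent.Lib.Helper45.PlusInndiag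

variable {F : Type u} [Field F] [Fintype F]

theorem z2_mul : ∀ x y : Multiplicative (ZMod 2), x ≠ 1 → y ≠ 1 → x * y = 1 := by decide

/-- conjugating the reflection of `Pf` -/
theorem refl_conj (k : ℕ) (d : Fˣ) (h : GL (Fin (k + 1) ⊕ Fin (k + 1)) F)
    (w : Fin (k + 1) ⊕ Fin (k + 1) → F) :
    (h : Matrix (Fin (k + 1) ⊕ Fin (k + 1)) (Fin (k + 1) ⊕ Fin (k + 1)) F) *
        Cfsg.reflectionMatrix (⇑(Pf (plusQ (k + 1) F) (d : F) (h : Matrix _ _ F))) w =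
      Cfsg.reflectionMatrix (Cfsg.quadFormPlus (k + 1) F) ((h : Matrix _ _ F) *ᵥ w) *
        (h : Matrix (Fin (k + 1) ⊕ Fin (k + 1)) (Fin (k + 1) ⊕ Fin (k + 1)) F) := by
  apply matrix_ext_mulVec
  intro x
  rw [← Matrix.mulVec_mulVec, ← Matrix.mulVec_mulVec, reflection_mulVec]
  have e := reflection_mulVec (plusQ (k + 1) F) ((h : Matrix _ _ F) *ᵥ w) ((h : Matrix _ _ F) *ᵥ x)
  rw [coe_plusQ] at e
  rw [e, reflE_apply, reflE_apply, polar_Pf, Pf_apply, Matrix.mulVec_sub, Matrix.mulVec_smul]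
  congr 2
  have hd : (d : F) ≠ 0 := d.ne_zero
  by_cases hq : plusQ (k + 1) F ((h : Matrix _ _ F) *ᵥ w) = 0
  · simp [hq]
  · field_simp

end Final

section Build

open Cfsg.Agent.Lib.Helper44.OTyp1 Cfsg.Agent.Lib.Helper45.SingClass
  Cfsg.Agent.Lib.Helper44.MaxTS3 Cfsg.Agent.Lib.Helper45.PlusInndiag

variable {F : Type u} [Field F] [Fintype F]

theorem map_mul' {ι : Type} [Fintype ι] [DecidableEq ι] (σ : F ≃+* F) (M N : Matrix ι ι F) :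
    (M * N).map σ = M.map σ * N.map σ := by
  ext i j
  simp only [Matrix.map_apply, Matrix.mul_apply, map_sum, map_mul]

theorem map_one' {ι : Type} [Fintype ι] [DecidableEq ι] (σ : F ≃+* F) :
    (1 : Matrix ι ι F).map σ = 1 := Matrix.map_one _ (map_zero σ) (map_one σ)

theorem build (k : ℕ) (σ : RingAut F) (a b : GO (k + 1) F) (μa da μb db : Fˣ)
    (ha' hb' : GL (Fin (k + 1) ⊕ Fin (k + 1)) F)
    (ha1 : (μa : F) • ((a : GL (Fin (k + 1) ⊕ Fin (k + 1)) F) :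
          Matrix (Fin (k + 1) ⊕ Fin (k + 1)) (Fin (k + 1) ⊕ Fin (k + 1)) F) *
        ((ha' : Matrix (Fin (k + 1) ⊕ Fin (k + 1)) (Fin (k + 1) ⊕ Fin (k + 1)) F).map σ) =
      (ha' : Matrix (Fin (k + 1) ⊕ Fin (k + 1)) (Fin (k + 1) ⊕ Fin (k + 1)) F))
    (hb1 : (μb : F) • ((b : GL (Fin (k + 1) ⊕ Fin (k + 1)) F) :
          Matrix (Fin (k + 1) ⊕ Fin (k + 1)) (Fin (k + 1) ⊕ Fin (k + 1)) F) *
        ((hb' : Matrix (Fin (k + 1) ⊕ Fin (k + 1)) (Fin (k + 1) ⊕ Fin (k + 1)) F).map σ) =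
      (hb' : Matrix (Fin (k + 1) ⊕ Fin (k + 1)) (Fin (k + 1) ⊕ Fin (k + 1)) F))
    (K' : Matrix (Fin (k + 1) ⊕ Fin (k + 1)) (Fin (k + 1) ⊕ Fin (k + 1)) F)
    (hKσ : K'.map σ = K')
    (hK : ∀ v, Pf (plusQ (k + 1) F) (db : F) (hb' : Matrix _ _ F) (K' *ᵥ v) =
      Pf (plusQ (k + 1) F) (da : F) (ha' : Matrix _ _ F) v) :
    ∃ u : GO (k + 1) F,
      ((u : GL (Fin (k + 1) ⊕ Fin (k + 1)) F) : Matrix _ _ F) =
        (hb' : Matrix _ _ F) * K' * ((ha'⁻¹ : GL (Fin (k + 1) ⊕ Fin (k + 1)) F) : Matrix _ _ F) ∧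
      ∃ z : GO (k + 1) F, IsScalar z ∧ b = z * (u * a * (mapGO σ u)⁻¹) := by
  obtain ⟨A, hA⟩ : ∃ A : Matrix (Fin (k + 1) ⊕ Fin (k + 1)) (Fin (k + 1) ⊕ Fin (k + 1)) F,
      A = ((a : GL (Fin (k + 1) ⊕ Fin (k + 1)) F) : Matrix _ _ F) := ⟨_, rfl⟩
  obtain ⟨B, hB⟩ : ∃ B : Matrix (Fin (k + 1) ⊕ Fin (k + 1)) (Fin (k + 1) ⊕ Fin (k + 1)) F,
      B = ((b : GL (Fin (k + 1) ⊕ Fin (k + 1)) F) : Matrix _ _ F) := ⟨_, rfl⟩
  obtain ⟨Ha, hHa⟩ : ∃ Ha : Matrix (Fin (k + 1) ⊕ Fin (k + 1)) (Fin (k + 1) ⊕ Fin (k + 1)) F,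
      Ha = (ha' : Matrix _ _ F) := ⟨_, rfl⟩
  obtain ⟨Hb, hHb⟩ : ∃ Hb : Matrix (Fin (k + 1) ⊕ Fin (k + 1)) (Fin (k + 1) ⊕ Fin (k + 1)) F,
      Hb = (hb' : Matrix _ _ F) := ⟨_, rfl⟩
  obtain ⟨Hai, hHai⟩ : ∃ Hai : Matrix (Fin (k + 1) ⊕ Fin (k + 1)) (Fin (k + 1) ⊕ Fin (k + 1)) F,
      Hai = ((ha'⁻¹ : GL (Fin (k + 1) ⊕ Fin (k + 1)) F) : Matrix _ _ F) := ⟨_, rfl⟩
  rw [← hA, ← hHa] at ha1
  rw [← hB, ← hHb] at hb1
  rw [← hHa, ← hHb] at hK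
  rw [← hHb, ← hHai]
  have f1 : Hai * Ha = 1 := by
    rw [hHai, hHa, ← Units.val_mul, inv_mul_cancel, Units.val_one]
  have f2 : Ha * Hai = 1 := by
    rw [hHai, hHa, ← Units.val_mul, mul_inv_cancel, Units.val_one]
  -- the similarity `u`
  obtain ⟨L, hL⟩ : ∃ L : (Fin (k + 1) ⊕ Fin (k + 1) → F) →ₗ[F] (Fin (k + 1) ⊕ Fin (k + 1) → F),
      L = Matrix.toLin' (Hb * K' * Hai) := ⟨_, rfl⟩
  have hLQ : ∀ v, plusQ (k + 1) F (L v) = ((db⁻¹ * da : Fˣ) : F) * plusQ (k + 1) F v := by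
    intro v
    rw [hL, Matrix.toLin'_apply, ← Matrix.mulVec_mulVec, ← Matrix.mulVec_mulVec]
    have e1 := hK (Hai *ᵥ v)
    rw [Pf_apply, Pf_apply, Matrix.mulVec_mulVec v Ha Hai, f2, Matrix.one_mulVec] at e1
    rw [Units.val_mul, Units.val_inv_eq_inv_val]
    have hdb : (db : F) ≠ 0 := db.ne_zero
    field_simp
    linear_combination e1
  obtain ⟨u, hu⟩ : ∃ u : GO (k + 1) F, ∀ v,
      ((u : GL (Fin (k + 1) ⊕ Fin (k + 1)) F) : Matrix _ _ F) *ᵥ v = L v :=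
    exists_sim_mulVec (plusQ (k + 1) F) (sep_plusQ (F := F) (k + 1)) L (db⁻¹ * da) hLQ
  have huM : ((u : GL (Fin (k + 1) ⊕ Fin (k + 1)) F) : Matrix _ _ F) = Hb * K' * Hai := by
    apply matrix_ext_mulVec
    intro x
    rw [hu, hL, Matrix.toLin'_apply]
  -- the scalar `z`
  obtain ⟨c, hc⟩ : ∃ c : Fˣ, c = μa * μb⁻¹ := ⟨_, rfl⟩
  have hLz : ∀ v, plusQ (k + 1) F (((c : F) • (LinearMap.id :
      (Fin (k + 1) ⊕ Fin (k + 1) → F) →ₗ[F] (Fin (k + 1) ⊕ Fin (k + 1) → F))) v) =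
      ((c * c : Fˣ) : F) * plusQ (k + 1) F v := by
    intro v
    rw [LinearMap.smul_apply, LinearMap.id_apply, QuadraticMap.map_smul, Units.val_mul]
    rfl
  obtain ⟨z, hz⟩ : ∃ z : GO (k + 1) F, ∀ v,
      ((z : GL (Fin (k + 1) ⊕ Fin (k + 1)) F) : Matrix _ _ F) *ᵥ v =
        ((c : F) • (LinearMap.id :
          (Fin (k + 1) ⊕ Fin (k + 1) → F) →ₗ[F] (Fin (k + 1) ⊕ Fin (k + 1) → F))) v :=
    exists_sim_mulVec (plusQ (k + 1) F) (sep_plusQ (F := F) (k + 1)) _ (c * c) hLz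
  have hzM : ((z : GL (Fin (k + 1) ⊕ Fin (k + 1)) F) : Matrix _ _ F) =
      (c : F) • (1 : Matrix (Fin (k + 1) ⊕ Fin (k + 1)) (Fin (k + 1) ⊕ Fin (k + 1)) F) := by
    apply matrix_ext_mulVec
    intro x
    rw [hz, Matrix.smul_mulVec, Matrix.one_mulVec]
    rfl
  refine ⟨u, huM, z, ⟨(c : F), fun x => by rw [hz]; rfl⟩, ?_⟩
  -- the matrix identity
  have ha1' : (μa : F) • (A * Ha.map σ) = Ha := by
    rw [← Matrix.smul_mul]
    exact ha1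
  have hb1' : (μb : F) • (B * Hb.map σ) = Hb := by
    rw [← Matrix.smul_mul]
    exact hb1
  have g1 : Hai.map σ * Ha.map σ = 1 := by
    rw [← map_mul', f1, map_one']
  have g2 : ((μa : F) • (Hai * A)) * Ha.map σ = 1 := by
    rw [Matrix.smul_mul, Matrix.mul_assoc, ← Matrix.mul_smul, ha1', f1]
  have g3 : Hai.map σ = (μa : F) • (Hai * A) := by
    have g2' := mul_eq_one_comm.1 g2
    calc Hai.map σ = Hai.map σ * (Ha.map σ * ((μa : F) • (Hai * A))) := by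
          rw [g2', Matrix.mul_one]
      _ = (μa : F) • (Hai * A) := by rw [← Matrix.mul_assoc, g1, Matrix.one_mul]
  have g4 : B * Hb.map σ = ((μb : F)⁻¹) • Hb := by
    have h0 := congrArg (fun M : Matrix (Fin (k + 1) ⊕ Fin (k + 1)) (Fin (k + 1) ⊕ Fin (k + 1)) F =>
      ((μb : F)⁻¹) • M) hb1'
    simp only [smul_smul, inv_mul_cancel₀ μb.ne_zero, one_smul] at h0
    exact h0
  have key : ((z : GL (Fin (k + 1) ⊕ Fin (k + 1)) F) : Matrix _ _ F) *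
      (((u : GL (Fin (k + 1) ⊕ Fin (k + 1)) F) : Matrix _ _ F) * A) =
      B * (((u : GL (Fin (k + 1) ⊕ Fin (k + 1)) F) : Matrix _ _ F).map σ) := by
    rw [hzM, huM, map_mul', map_mul', hKσ, g3]
    calc (c : F) • (1 : Matrix (Fin (k + 1) ⊕ Fin (k + 1)) (Fin (k + 1) ⊕ Fin (k + 1)) F) *
          (Hb * K' * Hai * A)
        = (c : F) • (Hb * K' * Hai * A) := by rw [Matrix.smul_mul, Matrix.one_mul]
      _ = ((μb : F)⁻¹ • Hb) * K' * ((μa : F) • (Hai * A)) := by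
          rw [hc, Units.val_mul, Units.val_inv_eq_inv_val]
          simp only [Matrix.smul_mul, Matrix.mul_smul, Matrix.mul_assoc, smul_smul]
      _ = B * (Hb.map σ * K' * ((μa : F) • (Hai * A))) := by
          rw [← g4]
          simp only [Matrix.mul_assoc]
  have key2 : z * (u * a) = b * mapGO σ u := by
    apply Subtype.ext
    apply Units.ext
    rw [hA, hB] at key
    exact key
  rw [← mul_assoc, eq_mul_inv_iff_mul_eq]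
  exact key2.symm

end Build

section Assemble

open Cfsg.Agent.Lib.Helper44.OTyp1 Cfsg.Agent.Lib.Helper45.SingClass
  Cfsg.Agent.Lib.Helper44.MaxTS3 Cfsg.Agent.Lib.Helper45.PlusInndiag

/-- **twisted conjugacy**, from the pieces -/
theorem twisted_conj_of (hMa : ExistsForm.{u}) (hMb : ExistsDescent.{u}) (hC1 : EpsParity.{u})
    (hMc1 : HypParity.{u}) (hMc2 : EllParity.{u}) (hRM : ReflMap.{u}) : TwistedConj.{u} := by
  intro F _ _ m hm ε hε σ a b ha hb hab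
  obtain ⟨k, rfl⟩ : ∃ k, m = k + 1 := ⟨m - 1, by omega⟩
  obtain ⟨μa, da, ha', ha1, ha2⟩ := hMa F (k + 1) hm σ a ha
  obtain ⟨μb, db, hb', hb1, hb2⟩ := hMa F (k + 1) hm σ b hb
  have hSa : Sep (Pf (plusQ (k + 1) F) (da : F) (ha' : Matrix (Fin (k + 1) ⊕ Fin (k + 1)) (Fin (k + 1) ⊕ Fin (k + 1)) F)) :=
    sep_Pf (sep_plusQ (F := F) (k + 1)) da.ne_zero ha'
  have hSb : Sep (Pf (plusQ (k + 1) F) (db : F) (hb' : Matrix (Fin (k + 1) ⊕ Fin (k + 1)) (Fin (k + 1) ⊕ Fin (k + 1)) F)) :=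
    sep_Pf (sep_plusQ (F := F) (k + 1)) db.ne_zero hb'
  have hσa : ∀ v : Fin (k + 1) ⊕ Fin (k + 1) → F,
      Pf (plusQ (k + 1) F) (da : F) (ha' : Matrix (Fin (k + 1) ⊕ Fin (k + 1)) (Fin (k + 1) ⊕ Fin (k + 1)) F) (fun i => σ (v i)) =
        σ (Pf (plusQ (k + 1) F) (da : F) (ha' : Matrix (Fin (k + 1) ⊕ Fin (k + 1)) (Fin (k + 1) ⊕ Fin (k + 1)) F) v) := fun v => ha2 v
  have hσb : ∀ v : Fin (k + 1) ⊕ Fin (k + 1) → F,
      Pf (plusQ (k + 1) F) (db : F) (hb' : Matrix (Fin (k + 1) ⊕ Fin (k + 1)) (Fin (k + 1) ⊕ Fin (k + 1)) F) (fun i => σ (v i)) =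
        σ (Pf (plusQ (k + 1) F) (db : F) (hb' : Matrix (Fin (k + 1) ⊕ Fin (k + 1)) (Fin (k + 1) ⊕ Fin (k + 1)) F) v) := fun v => hb2 v
  obtain ⟨P₀a, hP₀a, hS₀a⟩ := hMb F (Fin (k + 1) ⊕ Fin (k + 1)) σ _ hσa
  obtain ⟨P₀b, hP₀b, hS₀b⟩ := hMb F (Fin (k + 1) ⊕ Fin (k + 1)) σ _ hσb
  have hta := type_iff hC1 hMc1 hMc2 k ε hε σ a μa da ha' ha1 hσa P₀a hP₀a (hS₀a hSa)
  have htb := type_iff hC1 hMc1 hMc2 k ε hε σ b μb db hb' hb1 hσb P₀b hP₀b (hS₀b hSb)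
  have hiff : (∃ e f : Fin (k + 1) → (Fin (k + 1) ⊕ Fin (k + 1) → ↥(fixF σ)), IsHyp P₀a e f) ↔
      (∃ e f : Fin (k + 1) → (Fin (k + 1) ⊕ Fin (k + 1) → ↥(fixF σ)), IsHyp P₀b e f) := by
    rw [hta, htb, hab]
  have : Fintype ↥(fixF σ) := Fintype.ofFinite _
  have hV₀ : finrank ↥(fixF σ) (Fin (k + 1) ⊕ Fin (k + 1) → ↥(fixF σ)) = 2 * (k + 1) := by
    rw [Module.finrank_fintype_fun_eq_card, Fintype.card_sum, Fintype.card_fin]
    ring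
  have hcard := card_eq_of_hyp_iff P₀a P₀b (hS₀a hSa) (hS₀b hSb) hV₀ hiff
  obtain ⟨j, hj⟩ := exists_iso P₀a P₀b (hS₀a hSa) (hS₀b hSb) hV₀ hV₀ hcard
  obtain ⟨K, hKσ, hK⟩ := lift_iso σ _ _ P₀a P₀b hP₀a hP₀b j hj
  -- a rational reflection
  obtain ⟨v₀, hv₀⟩ : ∃ v₀, P₀a v₀ ≠ 0 := exists_ne_zero (hS₀a hSa)
  obtain ⟨w₀, hw₀def⟩ : ∃ w₀ : Fin (k + 1) ⊕ Fin (k + 1) → F,
      w₀ = fun i => ((v₀ i : ↥(fixF σ)) : F) := ⟨_, rfl⟩
  have hw₀ : Pf (plusQ (k + 1) F) (da : F) (ha' : Matrix (Fin (k + 1) ⊕ Fin (k + 1)) (Fin (k + 1) ⊕ Fin (k + 1)) F) w₀ ≠ 0 := by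
    rw [hw₀def, ← hP₀a]
    intro h0
    exact hv₀ (Subtype.ext h0)
  obtain ⟨R, hRdef⟩ : ∃ R : Matrix (Fin (k + 1) ⊕ Fin (k + 1)) (Fin (k + 1) ⊕ Fin (k + 1)) F,
      R = Cfsg.reflectionMatrix (⇑(Pf (plusQ (k + 1) F) (da : F) (ha' : Matrix (Fin (k + 1) ⊕ Fin (k + 1)) (Fin (k + 1) ⊕ Fin (k + 1)) F))) w₀ :=
    ⟨_, rfl⟩
  have hRσ : R.map σ = R := by
    rw [hRdef]
    refine hRM F (Fin (k + 1) ⊕ Fin (k + 1)) σ _ hσa w₀ (fun i => ?_)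
    rw [hw₀def]
    exact (mem_fixF σ _).1 (v₀ i).2
  have hRP : ∀ v, Pf (plusQ (k + 1) F) (da : F) (ha' : Matrix (Fin (k + 1) ⊕ Fin (k + 1)) (Fin (k + 1) ⊕ Fin (k + 1)) F) (R *ᵥ v) =
      Pf (plusQ (k + 1) F) (da : F) (ha' : Matrix (Fin (k + 1) ⊕ Fin (k + 1)) (Fin (k + 1) ⊕ Fin (k + 1)) F) v := by
    intro v
    rw [hRdef, reflection_mulVec]
    exact reflE_mem _ w₀ v
  obtain ⟨u₀, hu₀, z₀, hz₀, e₀⟩ := build k σ a b μa da μb db ha' hb' ha1 hb1 K hKσ hK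
  by_cases hε0 : ε u₀ = 1
  · exact ⟨u₀, z₀, hε0, hz₀, e₀⟩
  · obtain ⟨u₁, hu₁, z₁, hz₁, e₁⟩ := build k σ a b μa da μb db ha' hb' ha1 hb1 (K * R)
      (by rw [map_mul', hKσ, hRσ]) (fun v => by rw [← Matrix.mulVec_mulVec, hK, hRP])
    refine ⟨u₁, z₁, ?_, hz₁, e₁⟩
    have hq : Cfsg.quadFormPlus (k + 1) F ((ha' : Matrix (Fin (k + 1) ⊕ Fin (k + 1)) (Fin (k + 1) ⊕ Fin (k + 1)) F) *ᵥ w₀) ≠ 0 := by
      intro h0
      apply hw₀
      rw [Pf_apply]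
      have h0' : plusQ (k + 1) F ((ha' : Matrix (Fin (k + 1) ⊕ Fin (k + 1)) (Fin (k + 1) ⊕ Fin (k + 1)) F) *ᵥ w₀) = 0 := h0
      rw [h0', mul_zero]
    have hconj := refl_conj k da ha' w₀
    rw [← hRdef] at hconj
    have hρ : (((u₀⁻¹ * u₁ : GO (k + 1) F) : GL (Fin (k + 1) ⊕ Fin (k + 1)) F) :
        Matrix (Fin (k + 1) ⊕ Fin (k + 1)) (Fin (k + 1) ⊕ Fin (k + 1)) F) =
        Cfsg.reflectionMatrix (Cfsg.quadFormPlus (k + 1) F) ((ha' : Matrix (Fin (k + 1) ⊕ Fin (k + 1)) (Fin (k + 1) ⊕ Fin (k + 1)) F) *ᵥ w₀) := by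
      have e3 : ((u₁ : GL (Fin (k + 1) ⊕ Fin (k + 1)) F) : Matrix (Fin (k + 1) ⊕ Fin (k + 1)) (Fin (k + 1) ⊕ Fin (k + 1)) F) =
          ((u₀ : GL (Fin (k + 1) ⊕ Fin (k + 1)) F) : Matrix (Fin (k + 1) ⊕ Fin (k + 1)) (Fin (k + 1) ⊕ Fin (k + 1)) F) *
            Cfsg.reflectionMatrix (Cfsg.quadFormPlus (k + 1) F) ((ha' : Matrix (Fin (k + 1) ⊕ Fin (k + 1)) (Fin (k + 1) ⊕ Fin (k + 1)) F) *ᵥ w₀) := by
        rw [hu₁, hu₀]
        have e4 : R * ((ha'⁻¹ : GL (Fin (k + 1) ⊕ Fin (k + 1)) F) : Matrix (Fin (k + 1) ⊕ Fin (k + 1)) (Fin (k + 1) ⊕ Fin (k + 1)) F) =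
            ((ha'⁻¹ : GL (Fin (k + 1) ⊕ Fin (k + 1)) F) : Matrix (Fin (k + 1) ⊕ Fin (k + 1)) (Fin (k + 1) ⊕ Fin (k + 1)) F) *
              Cfsg.reflectionMatrix (Cfsg.quadFormPlus (k + 1) F)
                ((ha' : Matrix (Fin (k + 1) ⊕ Fin (k + 1)) (Fin (k + 1) ⊕ Fin (k + 1)) F) *ᵥ w₀) := by
          have f1 : ((ha'⁻¹ : GL (Fin (k + 1) ⊕ Fin (k + 1)) F) : Matrix (Fin (k + 1) ⊕ Fin (k + 1)) (Fin (k + 1) ⊕ Fin (k + 1)) F) *
              (ha' : Matrix (Fin (k + 1) ⊕ Fin (k + 1)) (Fin (k + 1) ⊕ Fin (k + 1)) F) = 1 := by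
            rw [← Units.val_mul, inv_mul_cancel, Units.val_one]
          have f2 : (ha' : Matrix (Fin (k + 1) ⊕ Fin (k + 1)) (Fin (k + 1) ⊕ Fin (k + 1)) F) *
              ((ha'⁻¹ : GL (Fin (k + 1) ⊕ Fin (k + 1)) F) : Matrix (Fin (k + 1) ⊕ Fin (k + 1)) (Fin (k + 1) ⊕ Fin (k + 1)) F) = 1 := by
            rw [← Units.val_mul, mul_inv_cancel, Units.val_one]
          calc R * ((ha'⁻¹ : GL (Fin (k + 1) ⊕ Fin (k + 1)) F) : Matrix (Fin (k + 1) ⊕ Fin (k + 1)) (Fin (k + 1) ⊕ Fin (k + 1)) F)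
              = ((ha'⁻¹ : GL (Fin (k + 1) ⊕ Fin (k + 1)) F) : Matrix (Fin (k + 1) ⊕ Fin (k + 1)) (Fin (k + 1) ⊕ Fin (k + 1)) F) *
                  ((ha' : Matrix (Fin (k + 1) ⊕ Fin (k + 1)) (Fin (k + 1) ⊕ Fin (k + 1)) F) * R) *
                  ((ha'⁻¹ : GL (Fin (k + 1) ⊕ Fin (k + 1)) F) : Matrix (Fin (k + 1) ⊕ Fin (k + 1)) (Fin (k + 1) ⊕ Fin (k + 1)) F) := by
                rw [← Matrix.mul_assoc, f1, Matrix.one_mul]
            _ = _ := by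
                rw [hconj, Matrix.mul_assoc, Matrix.mul_assoc, f2, Matrix.mul_one]
        rw [Matrix.mul_assoc, Matrix.mul_assoc, e4]
        simp only [Matrix.mul_assoc]
      show (((u₀⁻¹ : GO (k + 1) F) : GL (Fin (k + 1) ⊕ Fin (k + 1)) F) : Matrix (Fin (k + 1) ⊕ Fin (k + 1)) (Fin (k + 1) ⊕ Fin (k + 1)) F) *
        ((u₁ : GL (Fin (k + 1) ⊕ Fin (k + 1)) F) : Matrix (Fin (k + 1) ⊕ Fin (k + 1)) (Fin (k + 1) ⊕ Fin (k + 1)) F) = _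
      rw [e3, ← Matrix.mul_assoc]
      have e5 : (((u₀⁻¹ : GO (k + 1) F) : GL (Fin (k + 1) ⊕ Fin (k + 1)) F) : Matrix (Fin (k + 1) ⊕ Fin (k + 1)) (Fin (k + 1) ⊕ Fin (k + 1)) F) *
          ((u₀ : GL (Fin (k + 1) ⊕ Fin (k + 1)) F) : Matrix (Fin (k + 1) ⊕ Fin (k + 1)) (Fin (k + 1) ⊕ Fin (k + 1)) F) = 1 := by
        show ((((u₀ : GL (Fin (k + 1) ⊕ Fin (k + 1)) F))⁻¹ :
          GL (Fin (k + 1) ⊕ Fin (k + 1)) F) : Matrix (Fin (k + 1) ⊕ Fin (k + 1)) (Fin (k + 1) ⊕ Fin (k + 1)) F) * _ = 1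
        rw [← Units.val_mul, inv_mul_cancel, Units.val_one]
      rw [e5, Matrix.one_mul]
    have hne := hε.refl _ hq (u₀⁻¹ * u₁) hρ
    have e6 : u₁ = u₀ * (u₀⁻¹ * u₁) := by group
    rw [e6, map_mul]
    exact z2_mul _ _ hε0 hne

end Assemble

end Cfsg.Agent.Lib.Helper44.OFldM
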