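import Mathlib
import Cfsg.Agent.Lib.Helper44.MFldStmt
import Cfsg.Agent.Lib.Helper44.OFldM

set_option autoImplicit false

/-! S2737: twisted conjugacy for the minus form, from the pieces (assembly). -/

namespace Cfsg.Agent.Lib.Helper44.MFldM

open Matrix Module QuadraticMap
open Cfsg.Agent.Lib.Helper45.OmegaAut Cfsg.Agent.Lib.Helper43.H90Fin
open Cfsg.Agent.Lib.Helper44.MFld0 Cfsg.Agent.Lib.Helper44.MaxTS
  Cfsg.Agent.Lib.Helper44.NegPairs Cfsg.Agent.Lib.Helper44.QSpace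
  Cfsg.Agent.Lib.Helper44.QClass Cfsg.Agent.Lib.Helper44.OFldStmt
  Cfsg.Agent.Lib.Helper44.MFldStmt Cfsg.Agent.Lib.Helper44.OFldM
  Cfsg.Agent.Lib.Helper44.OMat Cfsg.Agent.Lib.Helper44.OGroup
  Cfsg.Agent.Lib.Helper44.OTyp1 Cfsg.Agent.Lib.Helper45.PlusInndiag

universe u

/-- **twisted conjugacy for the minus form**, from the pieces -/
theorem twisted_conj_minus_of (hEF : ExistsFormQ.{u}) (hMb : ExistsDescent.{u})
    (hNH : NonHypMinus.{u}) (hS : SepMinus.{u}) (hRM : ReflMap.{u}) : TwistedConjMinus.{u} := by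
  intro F _ _ m a b hab σ hInv g hg
  have hSQ : Sep (minusQ m F a b) := hS F m a b hab
  have hne : ∃ v, minusQ m F a b v ≠ 0 := exists_ne_zero hSQ
  obtain ⟨μ, d, H, h1, h2⟩ := hEF F (MI m) (minusQ m F a b) hne σ hInv g hg
  have hσP : ∀ v : MI m → F, Pf (minusQ m F a b) (d : F) (H : Matrix (MI m) (MI m) F)
      (fun i => σ (v i)) = σ (Pf (minusQ m F a b) (d : F) (H : Matrix (MI m) (MI m) F) v) :=
    fun v => h2 v
  have hσQ : ∀ v : MI m → F, minusQ m F a b (fun i => σ (v i)) = σ (minusQ m F a b v) :=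
    fun v => hInv v
  obtain ⟨P₀, hP₀, hSP₀⟩ := hMb F (MI m) σ _ hσP
  obtain ⟨Q₀, hQ₀, hSQ₀⟩ := hMb F (MI m) σ _ hσQ
  have hSP : Sep (Pf (minusQ m F a b) (d : F) (H : Matrix (MI m) (MI m) F)) :=
    sep_Pf hSQ d.ne_zero H
  have nP := hNH F m a b hab σ d H P₀ (fun v => hP₀ v)
  have nQ := hNH F m a b hab σ 1 1 Q₀ (fun v => by
    rw [hQ₀ v, Units.val_one, one_mul, Units.val_one, Matrix.one_mulVec]
    rfl)
  have hiff : (∃ e f : Fin (m + 1) → (MI m → ↥(fixF σ)), IsHyp Q₀ e f) ↔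
      (∃ e f : Fin (m + 1) → (MI m → ↥(fixF σ)), IsHyp P₀ e f) :=
    ⟨fun h => absurd h nQ, fun h => absurd h nP⟩
  have : Fintype ↥(fixF σ) := Fintype.ofFinite _
  have hV₀ : finrank ↥(fixF σ) (MI m → ↥(fixF σ)) = 2 * (m + 1) := by
    rw [Module.finrank_fintype_fun_eq_card, Fintype.card_sum, Fintype.card_sum, Fintype.card_fin,
      Fintype.card_fin]
    ring
  have hcard := card_eq_of_hyp_iff Q₀ P₀ (hSQ₀ hSQ) (hSP₀ hSP) hV₀ hiff
  obtain ⟨j, hj⟩ := exists_iso Q₀ P₀ (hSQ₀ hSQ) (hSP₀ hSP) hV₀ hV₀ hcard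
  obtain ⟨K, hKσ, hK⟩ := lift_iso σ (minusQ m F a b)
    (Pf (minusQ m F a b) (d : F) (H : Matrix (MI m) (MI m) F)) Q₀ P₀ hQ₀ hP₀ j hj
  -- the similarity `u = H K`
  have hLQ : ∀ v : MI m → F, minusQ m F a b (Matrix.toLin' ((H : Matrix (MI m) (MI m) F) * K) v) =
      ((d⁻¹ : Fˣ) : F) * minusQ m F a b v := by
    intro v
    have e1 := hK v
    rw [Pf_apply] at e1
    rw [Matrix.toLin'_apply, ← Matrix.mulVec_mulVec, ← e1, Units.val_inv_eq_inv_val, ← mul_assoc,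
      inv_mul_cancel₀ d.ne_zero, one_mul]
  obtain ⟨u, hu⟩ : ∃ u : GOq (Cfsg.quadFormMinus m F a b), ∀ v,
      ((u : GL (MI m) F) : Matrix (MI m) (MI m) F) *ᵥ v =
        Matrix.toLin' ((H : Matrix (MI m) (MI m) F) * K) v :=
    exists_sim_mulVec (minusQ m F a b) hSQ _ d⁻¹ hLQ
  have huM : ((u : GL (MI m) F) : Matrix (MI m) (MI m) F) = (H : Matrix (MI m) (MI m) F) * K := by
    apply matrix_ext_mulVec
    intro x
    rw [hu, Matrix.toLin'_apply]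
  -- the scalar `z = μ⁻¹`
  have hLz : ∀ v : MI m → F, minusQ m F a b ((((μ : F)⁻¹) • (LinearMap.id :
      (MI m → F) →ₗ[F] (MI m → F))) v) = ((μ⁻¹ * μ⁻¹ : Fˣ) : F) * minusQ m F a b v := by
    intro v
    rw [LinearMap.smul_apply, LinearMap.id_apply, QuadraticMap.map_smul, Units.val_mul,
      Units.val_inv_eq_inv_val]
    rfl
  obtain ⟨z, hz⟩ : ∃ z : GOq (Cfsg.quadFormMinus m F a b), ∀ v,
      ((z : GL (MI m) F) : Matrix (MI m) (MI m) F) *ᵥ v =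
        (((μ : F)⁻¹) • (LinearMap.id : (MI m → F) →ₗ[F] (MI m → F))) v :=
    exists_sim_mulVec (minusQ m F a b) hSQ _ (μ⁻¹ * μ⁻¹) hLz
  have hzM : ((z : GL (MI m) F) : Matrix (MI m) (MI m) F) =
      ((μ : F)⁻¹) • (1 : Matrix (MI m) (MI m) F) := by
    apply matrix_ext_mulVec
    intro x
    rw [hz, Matrix.smul_mulVec, Matrix.one_mulVec]
    rfl
  -- a rational reflection
  obtain ⟨v₀, hv₀⟩ : ∃ v₀, Q₀ v₀ ≠ 0 := exists_ne_zero (hSQ₀ hSQ)
  obtain ⟨w₀, hw₀def⟩ : ∃ w₀ : MI m → F, w₀ = fun i => ((v₀ i : ↥(fixF σ)) : F) := ⟨_, rfl⟩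
  have hw₀ : minusQ m F a b w₀ ≠ 0 := by
    rw [hw₀def, ← hQ₀]
    intro h0
    exact hv₀ (Subtype.ext h0)
  obtain ⟨R, hRdef⟩ : ∃ R : Matrix (MI m) (MI m) F,
      R = Cfsg.reflectionMatrix (⇑(minusQ m F a b)) w₀ := ⟨_, rfl⟩
  have hRσ : R.map σ = R := by
    rw [hRdef]
    refine hRM F (MI m) σ _ hσQ w₀ (fun i => ?_)
    rw [hw₀def]
    exact (mem_fixF σ _).1 (v₀ i).2
  have hRQ : ∀ v : MI m → F, minusQ m F a b (Matrix.toLin' R v) =
      ((1 : Fˣ) : F) * minusQ m F a b v := by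
    intro v
    rw [Matrix.toLin'_apply, hRdef, reflection_mulVec, Units.val_one, one_mul]
    exact reflE_mem _ w₀ v
  obtain ⟨ρ, hρ⟩ : ∃ ρ : GOq (Cfsg.quadFormMinus m F a b), ∀ v,
      ((ρ : GL (MI m) F) : Matrix (MI m) (MI m) F) *ᵥ v = Matrix.toLin' R v :=
    exists_sim_mulVec (minusQ m F a b) hSQ _ 1 hRQ
  have hρM : ((ρ : GL (MI m) F) : Matrix (MI m) (MI m) F) = R := by
    apply matrix_ext_mulVec
    intro x
    rw [hρ, Matrix.toLin'_apply]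
  -- the key identity
  have e1 : ((g : GL (MI m) F) : Matrix (MI m) (MI m) F) *
      (H : Matrix (MI m) (MI m) F).map σ = ((μ : F)⁻¹) • (H : Matrix (MI m) (MI m) F) := by
    have h0 := congrArg (fun M : Matrix (MI m) (MI m) F => ((μ : F)⁻¹) • M) h1
    simp only [Matrix.smul_mul, smul_smul, inv_mul_cancel₀ μ.ne_zero, one_smul] at h0
    exact h0
  have key : ∀ (M : GOq (Cfsg.quadFormMinus m F a b)) (K' : Matrix (MI m) (MI m) F),
      K'.map σ = K' → ((M : GL (MI m) F) : Matrix (MI m) (MI m) F) =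
        (H : Matrix (MI m) (MI m) F) * K' →
      g = z * (M * (mapGOq _ σ hInv M)⁻¹) := by
    intro M K' hK' hM
    have e : g * mapGOq _ σ hInv M = z * M := by
      apply Subtype.ext
      apply Units.ext
      show ((g : GL (MI m) F) : Matrix (MI m) (MI m) F) *
        (((M : GL (MI m) F) : Matrix (MI m) (MI m) F).map σ) =
        ((z : GL (MI m) F) : Matrix (MI m) (MI m) F) *
          ((M : GL (MI m) F) : Matrix (MI m) (MI m) F)
      rw [hM, map_mul', hK', hzM, ← Matrix.mul_assoc, e1]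
      simp only [Matrix.smul_mul, Matrix.one_mul]
    rw [← mul_assoc, ← e, mul_inv_cancel_right]
  refine ⟨u, z, ρ, w₀, ⟨(μ : F)⁻¹, fun x => by rw [hz]; rfl⟩, hw₀, ?_, key u K hKσ huM, ?_⟩
  · rw [hρM, hRdef]
    rfl
  · refine key (u * ρ) (K * R) (by rw [map_mul', hKσ, hRσ]) ?_
    show ((u : GL (MI m) F) : Matrix (MI m) (MI m) F) *
      ((ρ : GL (MI m) F) : Matrix (MI m) (MI m) F) = _
    rw [huM, hρM, Matrix.mul_assoc]

end Cfsg.Agent.Lib.Helper44.MFldM
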