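import Mathlib
import Cfsg.Prelude.Def_Classical
import Cfsg.Prelude.Def_ClassicalGeometry
import Cfsg.Agent.Lib.Helper44.MaxTS2
import Cfsg.Agent.Lib.Helper44.ODet
import Cfsg.Agent.Lib.Helper44.NegPairs

set_option autoImplicit false

namespace Cfsg.Agent.Lib.Helper44.MaxTS3

open Module QuadraticMap Matrix
open Cfsg.Agent.Lib.Helper44.QSpace Cfsg.Agent.Lib.Helper44.OGroup Cfsg.Agent.Lib.Helper44.Spinor
open Cfsg.Agent.Lib.Helper44.CartanD Cfsg.Agent.Lib.Helper44.OMat Cfsg.Agent.Lib.Helper44.CD2a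
open Cfsg.Agent.Lib.Helper44.Omega2 Cfsg.Agent.Lib.Helper44.OMat2
open Cfsg.Agent.Lib.Helper44.MaxTS Cfsg.Agent.Lib.Helper44.MaxTS2
open Cfsg.Agent.Lib.Helper44.NegPairs

variable {F : Type*} [Field F] {ι : Type} [Fintype ι] [DecidableEq ι]

theorem mulVecLin_eq (Q : QuadraticForm F (ι → F)) (g : ↥(Cfsg.isometryGroup F ⇑Q)) :
    Matrix.mulVecLin ((g : GL ι F) : Matrix ι ι F)
      = (((isoEquiv Q g : ↥(O Q)) : (ι → F) ≃ₗ[F] (ι → F)) : (ι → F) →ₗ[F] (ι → F)) := by
  apply LinearMap.ext
  intro x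
  rfl

/-- Matrix form of the parity theorem: for an isometry written as a product of reflections, the
parity of the codimension of `U ⊓ gU` in a maximal totally singular subspace `U` is the parity of
the number of reflections. -/
theorem parity_iso {Q : QuadraticForm F (ι → F)} (hS : Sep Q) {m : ℕ}
    (hV : Fintype.card ι = 2 * m) {U : Submodule F (ι → F)} (hU : TS Q m U)
    (g : ↥(Cfsg.isometryGroup F ⇑Q)) (vs : List (ι → F)) (hvs : ∀ v ∈ vs, Q v ≠ 0)
    (hg : isoEquiv Q g = (vs.map (refl Q)).prod) :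
    (m - finrank F ↥(U ⊓ U.map (Matrix.mulVecLin ((g : GL ι F) : Matrix ι ι F)))) % 2
      = vs.length % 2 := by
  rw [mulVecLin_eq, hg, coe_prod_refl]
  exact parity_prod hS (by rw [Module.finrank_fintype_fun_eq_card]; exact hV) hU vs hvs

/-- The standard maximal totally singular subspace `y = 0` of the hyperbolic form. -/
theorem ts_std (m : ℕ) :
    TS (plusQ m F) m (LinearMap.ker (LinearMap.funLeft F F (Sum.inr : Fin m → Fin m ⊕ Fin m))) := by
  refine ⟨?_, ?_⟩
  · have h1 := LinearMap.finrank_range_add_finrank_ker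
      (LinearMap.funLeft F F (Sum.inr : Fin m → Fin m ⊕ Fin m))
    have h2 : LinearMap.range (LinearMap.funLeft F F (Sum.inr : Fin m → Fin m ⊕ Fin m)) = ⊤ :=
      LinearMap.range_eq_top.mpr
        (LinearMap.funLeft_surjective_of_injective F F _ Sum.inr_injective)
    rw [h2, finrank_top, Module.finrank_fintype_fun_eq_card, Module.finrank_fintype_fun_eq_card,
      Fintype.card_sum, Fintype.card_fin] at h1
    omega
  · intro u hu
    have h0 : ∀ i : Fin m, u (Sum.inr i) = 0 := by
      intro i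
      have := LinearMap.mem_ker.mp hu
      exact congrFun this i
    show Cfsg.quadFormPlus m F u = 0
    unfold Cfsg.quadFormPlus
    apply Finset.sum_eq_zero
    intro i _
    rw [h0 i, mul_zero]

end Cfsg.Agent.Lib.Helper44.MaxTS3
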