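import Mathlib
import Cfsg.Agent.Lib.Helper44.PGStmt

set_option autoImplicit false

/-! Piece GNEC1 of S2474: necessity for `r * s` at the level of Gram matrices. -/

namespace Cfsg.Agent.Lib.Helper44.PGGNEC1

open Matrix Polynomial
open Cfsg.Agent.Lib.Helper44.QSpace Cfsg.Agent.Lib.Helper44.OGroup Cfsg.Agent.Lib.Helper44.OMat
open Cfsg.Agent.Lib.Helper44.OExt Cfsg.Agent.Lib.Helper44.PGStmt

universe u

theorem isom_pow {F : Type u} [Field F] {ι : Type} [Fintype ι] [DecidableEq ι]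
    (G x : Matrix ι ι F) (h : xᵀ * G * x = G) (k : ℕ) : (x ^ k)ᵀ * G * x ^ k = G := by
  induction k with
  | zero => simp
  | succ k ih =>
    have e : (x ^ (k + 1))ᵀ * G * x ^ (k + 1) = xᵀ * ((x ^ k)ᵀ * G * x ^ k) * x := by
      rw [pow_succ, Matrix.transpose_mul]
      simp only [Matrix.mul_assoc]
    rw [e, ih, h]

theorem fix_pow {F : Type u} [Field F] {κ : Type} [Fintype κ] [DecidableEq κ]
    (A : Matrix κ κ F) (w : κ → F) (h : A *ᵥ w = w) (m : ℕ) : (A ^ m) *ᵥ w = w := by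
  induction m with
  | zero => simp
  | succ m ih => rw [pow_succ, ← Matrix.mulVec_mulVec, h, ih]

/-- a power prime to the order has the same fixed vectors -/
theorem fix_of_pow {F : Type u} [Field F] {κ : Type} [Fintype κ] [DecidableEq κ]
    (A : Matrix κ κ F) (a b : ℕ) (ha : a.Prime) (hab : Nat.Coprime b a) (hA : A ^ a = 1)
    (w : κ → F) (h : (A ^ b) *ᵥ w = w) : A *ᵥ w = w := by
  obtain ⟨m, -, hm⟩ := Nat.exists_mul_mod_eq_one_of_coprime hab ha.one_lt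
  have h1 := fix_pow (A ^ b) w h m
  rw [← pow_mul] at h1
  have h2 : A ^ (b * m) = A := by
    conv_lhs => rw [← Nat.div_add_mod (b * m) a, hm, pow_add, pow_mul, hA, one_pow, one_mul,
      pow_one]
  rw [h2] at h1
  exact h1

/-- one step: decompose with respect to `A`; either the first alternative, or `B` is trivial on the
fixed space of `A`. -/
theorem step (hGD : GDecomp.{u}) (hBD : Cfsg.Agent.Lib.Helper44.BCStmt.BlockDiag.{u})
    (hBF : Cfsg.Agent.Lib.Helper44.BCStmt.BlockFacts.{u}) (hGBF : GBlockFacts.{u})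
    (hPT : PrimeTor.{u}) (hTB : GTorBound.{u})
    (F : Type u) [Field F] [Fintype F] (p : ℕ) [Fact p.Prime] [CharP F p]
    (ι : Type) [Fintype ι] [DecidableEq ι] (G A B : Matrix ι ι F) (a b : ℕ)
    (hG : G.det ≠ 0) (hAG : Aᵀ * G * A = G) (hBG : Bᵀ * G * B = G) (ha : a.Prime) (hb : b.Prime)
    (ha2 : a ≠ 2) (hb2 : b ≠ 2) (hap : a ≠ p) (hbp : b ≠ p)
    (hApow : ∀ j : ℕ, A ^ j = 1 ↔ a ∣ j) (hBpow : ∀ j : ℕ, B ^ j = 1 ↔ b ∣ j)
    (hBA : B * A = A * B) :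
    (∃ k₁ k₂ : ℕ, 1 ≤ k₁ ∧ 1 ≤ k₂ ∧ 2 * (k₁ + k₂) ≤ Fintype.card ι ∧
      Tor (Fintype.card F) k₁ a ∧ Tor (Fintype.card F) k₂ b) ∨
    (∃ (k₁ k₂ : ℕ) (G₂ A₂ B₂ : Matrix (Fin k₂) (Fin k₂) F)
      (J : (Fin k₁ ⊕ Fin k₂ → F) ≃ₗ[F] (ι → F)),
      0 < k₂ ∧ k₂ ≤ Fintype.card ι ∧ G₂.det ≠ 0 ∧ A₂ᵀ * G₂ * A₂ = G₂ ∧ B₂ᵀ * G₂ * B₂ = G₂ ∧
      A₂ ^ a = 1 ∧ B₂ ^ b = 1 ∧ B₂ * A₂ = A₂ * B₂ ∧
      (∀ v : Fin k₂ → F, A₂ *ᵥ v = v → v = 0) ∧
      (∀ u : Fin k₁ ⊕ Fin k₂ → F,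
        A *ᵥ (J u) = J (Sum.elim (u ∘ Sum.inl) (A₂ *ᵥ (u ∘ Sum.inr)))) ∧
      (∀ u : Fin k₁ ⊕ Fin k₂ → F,
        B *ᵥ (J u) = J (Sum.elim (u ∘ Sum.inl) (B₂ *ᵥ (u ∘ Sum.inr))))) := by
  classical
  have hp : p.Prime := Fact.out
  have haF : ((a : ℕ) : F) ≠ 0 := by
    intro h0
    rw [CharP.cast_eq_zero_iff F p] at h0
    exact hap ((Nat.prime_dvd_prime_iff_eq hp ha).1 h0).symm
  have hAa : A ^ a = 1 := (hApow a).2 dvd_rfl
  obtain ⟨k₁, k₂, G₁, G₂, A₂, J, hG₁, hG₂, hA₂G, hA₂a, hA₂fix, hGJ, hAJ, -, -⟩ :=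
    hGD F ι G A a hG hAG ha.pos haF hAa
  have hk : k₁ + k₂ = Fintype.card ι := by
    have h3 := J.finrank_eq
    rw [Module.finrank_fintype_fun_eq_card, Module.finrank_fintype_fun_eq_card, Fintype.card_sum,
      Fintype.card_fin, Fintype.card_fin] at h3
    exact h3
  have hA1 : A ≠ 1 := by
    intro h1
    have h3 : A ^ 1 = 1 := by rw [pow_one, h1]
    rw [hApow] at h3
    exact ha.one_lt.ne' (Nat.dvd_one.1 h3)
  have hk₂pos : 0 < k₂ := by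
    rcases Nat.eq_zero_or_pos k₂ with h0 | h0
    · exfalso
      subst h0
      apply hA1
      apply matrix_ext_mulVec
      intro y
      obtain ⟨u, rfl⟩ := J.surjective y
      rw [hAJ, Matrix.one_mulVec]
      congr 1
      funext i
      rcases i with i | i
      · rfl
      · exact i.elim0
    · exact h0
  obtain ⟨B₁, B₂, hBJ, hB₂A₂⟩ := hBD F ι A B k₁ k₂ A₂ J hA₂fix hAJ hBA
  obtain ⟨hB₁G, hB₂G⟩ := hGBF F ι k₁ k₂ J G B G₁ B₁ G₂ B₂ hGJ hBJ hBG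
  obtain ⟨hBp, -, -⟩ := hBF F ι k₁ k₂ J B B₁ B₂ hBJ
  obtain ⟨hB₁b, hB₂b⟩ := (hBp b).1 ((hBpow b).2 dvd_rfl)
  by_cases hB₁ : B₁ = 1
  · right
    refine ⟨k₁, k₂, G₂, A₂, B₂, J, hk₂pos, by omega, hG₂, hA₂G, hB₂G, hA₂a, hB₂b, hB₂A₂, hA₂fix,
      hAJ, ?_⟩
    intro u
    rw [hBJ, hB₁, Matrix.one_mulVec]
  · left
    obtain ⟨k', hk'1, hk'2, hk'T⟩ := hPT F p (Fin k₁) G₁ B₁ b hG₁ hB₁G hb hb2 hbp hB₁b hB₁
    have ha3 : 2 < a := by
      have := ha.two_le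
      omega
    obtain ⟨k'', hk''1, hk''2, hk''T⟩ := hTB F (Fin k₂) G₂ A₂ a
      (by rw [Fintype.card_fin]; exact hk₂pos) hG₂ hA₂G ha3 hA₂a (by
        intro ℓ hℓ hℓa v hv
        have h1 : ℓ = a := (Nat.prime_dvd_prime_iff_eq hℓ ha).1 hℓa
        rw [h1, Nat.div_self ha.pos, pow_one] at hv
        exact hA₂fix v hv)
    rw [Fintype.card_fin] at hk'2 hk''2
    exact ⟨k'', k', hk''1, hk'1, by omega, hk''T, hk'T⟩

theorem main : GDecomp.{u} → Cfsg.Agent.Lib.Helper44.BCStmt.BlockDiag.{u} →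
    Cfsg.Agent.Lib.Helper44.BCStmt.BlockFacts.{u} → GBlockFacts.{u} → PrimeTor.{u} →
    GTorBound.{u} → GNecI.{u} := by
  intro hGD hBD hBF hGBF hPT hTB F _ _ p _ _ ι _ _ G x r s h2 hG hxG hr hs hrs hr2 hs2 hrp hsp hord
  classical
  have hp : p.Prime := Fact.out
  obtain ⟨T, hT⟩ : ∃ T : Matrix ι ι F, T = x ^ s := ⟨_, rfl⟩
  obtain ⟨Y, hY⟩ : ∃ Y : Matrix ι ι F, Y = x ^ r := ⟨_, rfl⟩
  have hTpow : ∀ j : ℕ, T ^ j = 1 ↔ r ∣ j := by
    intro j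
    rw [hT, ← pow_mul, hord, mul_comm r s]
    exact Nat.mul_dvd_mul_iff_left hs.pos
  have hYpow : ∀ j : ℕ, Y ^ j = 1 ↔ s ∣ j := by
    intro j
    rw [hY, ← pow_mul, hord]
    exact Nat.mul_dvd_mul_iff_left hr.pos
  have hTG : Tᵀ * G * T = G := by rw [hT]; exact isom_pow G x hxG s
  have hYG : Yᵀ * G * Y = G := by rw [hY]; exact isom_pow G x hxG r
  have hYT : Y * T = T * Y := by rw [hT, hY]; exact (Commute.pow_pow_self x _ _).eq
  rcases step hGD hBD hBF hGBF hPT hTB F p ι G T Y r s hG hTG hYG hr hs hr2 hs2 hrp hsp hTpow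
    hYpow hYT with h1 | ⟨k₁, k₂, G₂, T₂, Y₂, J, hk₂pos, hk₂le, hG₂, hT₂G, hY₂G, hT₂r, hY₂s, hY₂T₂,
      hT₂fix, hTJ, hYJ⟩
  · left; exact h1
  rcases step hGD hBD hBF hGBF hPT hTB F p ι G Y T s r hG hYG hTG hs hr hs2 hr2 hsp hrp hYpow
    hTpow hYT.symm with h1 | ⟨k₁', k₂', G₂', Y₂', T₂', J', -, -, -, -, -, -, -, -,
      hY₂'fix, hYJ', hTJ'⟩
  · left
    obtain ⟨a, b, ha, hb, hab, hTa, hTb⟩ := h1
    exact ⟨b, a, hb, ha, by omega, hTb, hTa⟩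
  right
  -- `Y₂` has no nonzero fixed vector
  have hY₂fix : ∀ w : Fin k₂ → F, Y₂ *ᵥ w = w → w = 0 := by
    intro w hw
    obtain ⟨v, hv⟩ : ∃ v : ι → F, v = J (Sum.elim 0 w) := ⟨_, rfl⟩
    have hYv : Y *ᵥ v = v := by
      rw [hv, hYJ]
      congr 1
      funext i
      rcases i with i | i
      · rfl
      · simp only [Sum.elim_inr]
        have : (Sum.elim (0 : Fin k₁ → F) w) ∘ Sum.inr = w := by funext j; rfl
        rw [this, hw]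
    obtain ⟨u', hu'⟩ := J'.surjective v
    have h3 : Y₂' *ᵥ (u' ∘ Sum.inr) = u' ∘ Sum.inr := by
      have h4 := hYJ' u'
      rw [hu', hYv, ← hu'] at h4
      have h5 := J'.injective h4
      funext i
      have h6 := congrFun h5 (Sum.inr i)
      simp only [Sum.elim_inr] at h6
      exact h6.symm
    have h4 : u' ∘ Sum.inr = 0 := hY₂'fix _ h3
    have hTv : T *ᵥ v = v := by
      rw [← hu', hTJ']
      congr 1
      funext i
      rcases i with i | i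
      · rfl
      · simp only [Sum.elim_inr]
        rw [h4, Matrix.mulVec_zero]
        exact (congrFun h4 i).symm
    have h5 := hTJ (Sum.elim 0 w)
    rw [← hv, hTv, hv] at h5
    have h6 := J.injective h5
    have h7 : T₂ *ᵥ w = w := by
      funext i
      have h8 := congrFun h6 (Sum.inr i)
      simp only [Sum.elim_inr] at h8
      have : (Sum.elim (0 : Fin k₁ → F) w) ∘ Sum.inr = w := by funext j; rfl
      rw [this] at h8
      exact h8.symm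
    exact hT₂fix w h7
  have hcm : Commute T₂ Y₂ := hY₂T₂.symm
  have hZG : (T₂ * Y₂)ᵀ * G₂ * (T₂ * Y₂) = G₂ := by
    have e : (T₂ * Y₂)ᵀ * G₂ * (T₂ * Y₂) = Y₂ᵀ * (T₂ᵀ * G₂ * T₂) * Y₂ := by
      rw [Matrix.transpose_mul]
      simp only [Matrix.mul_assoc]
    rw [e, hT₂G, hY₂G]
  have hZpow : ∀ k : ℕ, (T₂ * Y₂) ^ k = T₂ ^ k * Y₂ ^ k := fun k => hcm.mul_pow k
  have hr3 : 3 ≤ r := by
    have := hr.two_le
    omega
  have hs3 : 3 ≤ s := by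
    have := hs.two_le
    omega
  have hcop : Nat.Coprime r s := (Nat.coprime_primes hr hs).2 hrs
  obtain ⟨k, hk1, hk2, hkT⟩ := hTB F (Fin k₂) G₂ (T₂ * Y₂) (r * s)
    (by rw [Fintype.card_fin]; exact hk₂pos) hG₂ hZG (by nlinarith)
    (by rw [hZpow, pow_mul, hT₂r, one_pow, one_mul, mul_comm r s, pow_mul, hY₂s, one_pow]) (by
      intro ℓ hℓ hℓd v hv
      rcases (Nat.Prime.dvd_mul hℓ).1 hℓd with h1 | h1
      · have h3 : ℓ = r := (Nat.prime_dvd_prime_iff_eq hℓ hr).1 h1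
        rw [h3, Nat.mul_div_cancel_left s hr.pos, hZpow, hY₂s, Matrix.mul_one] at hv
        exact hT₂fix v (fix_of_pow T₂ r s hr hcop.symm hT₂r v hv)
      · have h3 : ℓ = s := (Nat.prime_dvd_prime_iff_eq hℓ hs).1 h1
        rw [h3, Nat.mul_div_cancel r hs.pos, hZpow, hT₂r, Matrix.one_mul] at hv
        exact hY₂fix v (fix_of_pow Y₂ s r hs hcop hY₂s v hv))
  rw [Fintype.card_fin] at hk2
  exact ⟨k, hk1, by omega, hkT⟩

end Cfsg.Agent.Lib.Helper44.PGGNEC1
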