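import Mathlib
import Cfsg.Agent.Lib.Helper44.SPStmt

set_option autoImplicit false

/-! Piece BLKB of S2720. -/

namespace Cfsg.Agent.Lib.Helper44.SPBLKB

open Matrix Polynomial
open Cfsg.Agent.Lib.Helper44.QSpace Cfsg.Agent.Lib.Helper44.OGroup Cfsg.Agent.Lib.Helper44.OMat
open Cfsg.Agent.Lib.Helper45.OmegaAut Cfsg.Agent.Lib.Helper45.OmegaAutPsi
open Cfsg.Agent.Lib.Helper45.OmegaAutMain Cfsg.Agent.Lib.Helper45.OmegaInndiag
open Cfsg.Agent.Lib.Helper44.SMStmt Cfsg.Agent.Lib.Helper44.SPStmt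

universe u

theorem comm_lemma {G : Type*} [Group G] (g d s : G) (h1 : g * s = s⁻¹ * g)
    (h2 : d * s = s * d) : (g * d * g⁻¹ * d⁻¹) * s = s * (g * d * g⁻¹ * d⁻¹) := by
  have hc : Commute d s := h2
  have h4 : d⁻¹ * s = s * d⁻¹ := hc.inv_left.eq
  have h6 : d * s⁻¹ = s⁻¹ * d := hc.inv_right.eq
  have hs : SemiconjBy g s s⁻¹ := h1
  have h7 : g * s⁻¹ = s * g := by
    have := hs.inv_right
    rw [inv_inv] at this
    exact this
  have h5 : g⁻¹ * s = s⁻¹ * g⁻¹ := by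
    have h8 : SemiconjBy g s⁻¹ s := h7
    exact h8.inv_symm_left
  calc (g * d * g⁻¹ * d⁻¹) * s = g * d * g⁻¹ * (d⁻¹ * s) := by group
    _ = g * d * (g⁻¹ * s) * d⁻¹ := by rw [h4]; group
    _ = g * (d * s⁻¹) * g⁻¹ * d⁻¹ := by rw [h5]; group
    _ = (g * s⁻¹) * d * g⁻¹ * d⁻¹ := by rw [h6]; group
    _ = s * (g * d * g⁻¹ * d⁻¹) := by rw [h7]; group

theorem main : InvEx.{u} → InvDet.{u} → SimEx.{u} → Comm.{u} → CommList.{u} → BlockOdd.{u} := by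
  intro hInv hInvDet hSim hComm hCL F _ _ ι _ _ Q h2 hS S r hodd hr0 hSr hSQ hfix k₁ hcard hk₁
  classical
  have hrpos : 0 < r := hodd.pos
  have hS1 : S * S ^ (r - 1) = 1 := by rw [← pow_succ', Nat.sub_add_cancel hrpos, hSr]
  have hS2 : S ^ (r - 1) * S = 1 := by rw [← pow_succ, Nat.sub_add_cancel hrpos, hSr]
  obtain ⟨s, hs⟩ : ∃ s : ↥(Cfsg.isometryGroup F ⇑Q), ((s : GL ι F) : Matrix ι ι F) = S :=
    ⟨⟨⟨S, S ^ (r - 1), hS1, hS2⟩, fun u _ => hSQ u⟩, rfl⟩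
  have hsr : s ^ r = 1 := by
    apply Subtype.ext
    apply Units.ext
    rw [Subgroup.coe_pow, Units.val_pow_eq_pow_val, hs, hSr]
    rfl
  obtain ⟨g, hgs⟩ := hInv F ι Q hS s r hodd hr0 hsr
  have hdet : ((g : GL ι F) : Matrix ι ι F).det = -1 := by
    have h := hInvDet F ι Q h2 hS k₁ hcard s g r hodd hsr (by rw [hs]; exact hfix) hgs
    rw [h, hk₁.neg_one_pow]
  have hk1 : 1 ≤ k₁ := hk₁.pos
  obtain ⟨g₀, hg₀⟩ := hSim F ι Q h2 hS (k₁ - 1) (by rw [hcard]; omega)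
  have : Nontrivial (ι → F) := by
    have : Nonempty ι := by
      apply Fintype.card_pos_iff.mp
      rw [hcard]
      omega
    infer_instance
  obtain ⟨v₀, hv₀⟩ := exists_ne_zero hS
  obtain ⟨s', hs'⟩ : ∃ s' : ↥(Cfsg.Geo.quadSimilarityGroup (F := F) ⇑Q),
      (s' : GL ι F) = (s : GL ι F) := ⟨⟨(s : GL ι F), iso_le_GO ⇑Q s.2⟩, rfl⟩
  have hs'r : s' ^ r = 1 := by
    apply Subtype.ext
    rw [Subgroup.coe_pow, hs', ← Subgroup.coe_pow, hsr]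
    rfl
  obtain ⟨δ, hδs, hδμ⟩ := hComm F ι Q hS v₀ hv₀ s' g₀ (by rw [hs']; exact s.2) r hodd hr0 hs'r
  obtain ⟨vs, hvs1, hvs2, hvs3, hvs4⟩ := hCL F ι Q h2 hS g δ hdet (by rw [hδμ]; exact hg₀)
  refine ⟨vs, hvs1, hvs2, hvs3, ?_⟩
  -- the commutator in `GL`
  have h1 : (g : GL ι F) * (s : GL ι F) = (s : GL ι F)⁻¹ * (g : GL ι F) := by
    have := congrArg (fun t : ↥(Cfsg.isometryGroup F ⇑Q) => (t : GL ι F)) hgs
    simpa using this
  have h2' : (δ : GL ι F) * (s : GL ι F) = (s : GL ι F) * (δ : GL ι F) := by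
    have := congrArg (fun t : ↥(Cfsg.Geo.quadSimilarityGroup (F := F) ⇑Q) => (t : GL ι F)) hδs
    simpa [hs'] using this
  have hcomm := comm_lemma (g : GL ι F) (δ : GL ι F) (s : GL ι F) h1 h2'
  have hcm : (((g : GL ι F) * (δ : GL ι F) * (g : GL ι F)⁻¹ * (δ : GL ι F)⁻¹ : GL ι F) :
      Matrix ι ι F) * S = S * (((g : GL ι F) * (δ : GL ι F) * (g : GL ι F)⁻¹ * (δ : GL ι F)⁻¹ :
        GL ι F) : Matrix ι ι F) := by
    have := congrArg (fun t : GL ι F => (t : Matrix ι ι F)) hcomm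
    simp only [Units.val_mul, hs] at this
    simp only [Units.val_mul]
    exact this
  have hprod : ∀ x : ι → F, (vs.map (reflE Q)).prod x
      = (((g : GL ι F) * (δ : GL ι F) * (g : GL ι F)⁻¹ * (δ : GL ι F)⁻¹ : GL ι F) :
        Matrix ι ι F) *ᵥ x := by
    intro x
    rw [hvs4 x]
    simp only [Subgroup.coe_inv, Units.val_mul, mulVec_mulVec, Matrix.mul_assoc]
  intro x
  rw [hprod, hprod, mulVec_mulVec, mulVec_mulVec, hcm]
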