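import Mathlib
import Cfsg.Agent.Lib.Helper44.SPStmt

set_option autoImplicit false

/-! Piece BLOCK of S2720. -/

namespace Cfsg.Agent.Lib.Helper44.SPBLOCK

open Matrix Polynomial
open Cfsg.Agent.Lib.Helper44.QSpace Cfsg.Agent.Lib.Helper44.OExt
open Cfsg.Agent.Lib.Helper40.RecipPoly
open Cfsg.Agent.Lib.Helper44.SPStmt

universe u

theorem main : NoFixIff.{u} → EvenCard.{u} → BlockOdd.{u} → BlockEven.{u} → SelfRec.{u} →
    BlockElt.{u} := by
  intro hNF hEven hBO hBE hSR F _ _ p _ _ h2 r hr hr2 hrp P hPirr hPm hPr hP1 ι₁ _ _ s₁ N₁ hc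
    hr1 hi hd
  classical
  have hpp : p.Prime := Fact.out
  have hrF : ((r : ℕ) : F) ≠ 0 := by
    intro h0
    have h3 := (CharP.cast_eq_zero_iff F p r).mp h0
    exact hrp ((Nat.prime_dvd_prime_iff_eq hpp hr).mp h3).symm
  have hodd : Odd r := hr.odd_of_ne_two hr2
  have hXr0 : (X ^ r - C (1 : F)).coeff 0 ≠ 0 := by
    rw [coeff_sub, coeff_X_pow, coeff_C_zero, if_neg hr.ne_zero.symm, zero_sub]
    exact neg_ne_zero.mpr one_ne_zero
  have hP0 : P.coeff 0 ≠ 0 := coeff0_of_dvd hPr hXr0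
  have hLirr : Irreducible (X - C (1 : F)) := irreducible_X_sub_C 1
  have hnd : ∀ R : F[X], Irreducible R → R.Monic → (X - C (1 : F)) ∣ R → R = X - C 1 := by
    intro R hR hRm hdvd
    have hass := hLirr.associated_of_dvd hR hdvd
    exact (eq_of_monic_of_associated (monic_X_sub_C 1) hRm hass).symm
  have hL : ¬ (X - C (1 : F)) ∣ cW P := by
    unfold cW
    by_cases hs : rstar (RingHom.id F) P = P
    · rw [if_pos hs]
      intro hdvd
      exact hP1 (hnd P hPirr hPm hdvd)
    · rw [if_neg hs]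
      intro hdvd
      rcases hLirr.prime.dvd_or_dvd hdvd with h | h
      · exact hP1 (hnd P hPirr hPm h)
      · have h3 := hnd _ (rstar_irreducible (RingHom.id F) (fun x => rfl) P hPirr hPm hP0)
          (rstar_monic (RingHom.id F) P hP0) h
        have h4 := rstar_star (RingHom.id F) (fun x => rfl) P hPm hP0
        rw [h3, rstar_X_sub_one] at h4
        exact hP1 h4.symm
  have hfix : ∀ v : ι₁ → F, s₁ *ᵥ v = v → v = 0 :=
    (hNF F ι₁ s₁).mpr (by rw [hc]; exact hL)
  obtain ⟨k₁, hk₁⟩ := hEven F ι₁ s₁ N₁ h2 hi hd r hodd hr1 hfix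
  have hcard : Fintype.card ι₁ = 2 * k₁ := by omega
  rcases Nat.even_or_odd k₁ with hke | hko
  · have hs : rstar (RingHom.id F) P = P := by
      by_contra hs
      have h1 : (cW P).natDegree = 2 * P.natDegree := by
        unfold cW
        rw [if_neg hs, (hPm.natDegree_mul (rstar_monic (RingHom.id F) P hP0)),
          rstar_natDegree (RingHom.id F) P hP0]
        omega
      have h2' : (cW P).natDegree = Fintype.card ι₁ := by
        rw [← hc, Matrix.charpoly_natDegree_eq_dim]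
      have h3 : P.natDegree = k₁ := by omega
      exact hs (hSR F p r hr hrp P hPirr hPm hPr hP1 (h3 ▸ hke))
    have hc' : s₁.charpoly = P := by
      rw [hc]
      unfold cW
      rw [if_pos hs]
    exact hBE F p h2 r hr hr2 hrp P hPirr hPm hPr hP1 ι₁ s₁ N₁ hc' hr1 hi hd k₁ hcard hke
  · exact hBO F ι₁ (qN N₁) h2 (sep_qN hd) s₁ r hodd hrF hr1 (qN_isom hi) hfix k₁ hcard hko
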