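import Mathlib
import Cfsg.Agent.Lib.Helper44.SPStmt
import Cfsg.Agent.Lib.Helper44.OCls1

set_option autoImplicit false

/-! Piece CONJ of S2720. -/

namespace Cfsg.Agent.Lib.Helper44.SPCONJ

open Matrix Polynomial
open Cfsg.Agent.Lib.Helper44.QSpace Cfsg.Agent.Lib.Helper44.OMat
open Cfsg.Agent.Lib.Helper44.SPStmt

universe u

theorem main : ConjIso.{u} := by
  intro F _ _ ι _ _ Q hS S r hodd hr0 hSr hSQ ι' _ _ S' j hS'r hjQ hcp
  classical
  have hrpos : 0 < r := hodd.pos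
  have hS1 : S * S ^ (r - 1) = 1 := by rw [← pow_succ', Nat.sub_add_cancel hrpos, hSr]
  have hS2 : S ^ (r - 1) * S = 1 := by rw [← pow_succ, Nat.sub_add_cancel hrpos, hSr]
  obtain ⟨A, hA⟩ : ∃ A : ↥(Cfsg.isometryGroup F ⇑Q), ((A : GL ι F) : Matrix ι ι F) = S :=
    ⟨⟨⟨S, S ^ (r - 1), hS1, hS2⟩, fun u _ => hSQ u⟩, rfl⟩
  obtain ⟨T, hT⟩ : ∃ T : Matrix ι ι F,
      T = LinearMap.toMatrix' (j.conj (Matrix.toLin' S')) := ⟨_, rfl⟩
  have hTv : ∀ w, T *ᵥ w = j (S' *ᵥ (j.symm w)) := by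
    intro w
    rw [hT, ← Matrix.toLin'_apply, Matrix.toLin'_toMatrix', LinearEquiv.conj_apply]
    rfl
  have hTpow : ∀ n : ℕ, ∀ w, (T ^ n) *ᵥ w = j ((S' ^ n) *ᵥ (j.symm w)) := by
    intro n
    induction n with
    | zero => intro w; simp
    | succ n ih =>
      intro w
      rw [pow_succ, ← mulVec_mulVec, hTv, ih, LinearEquiv.symm_apply_apply, mulVec_mulVec,
        ← pow_succ]
  have hTr : T ^ r = 1 := by
    apply matrix_ext_mulVec
    intro w
    rw [hTpow, hS'r, one_mulVec, one_mulVec, LinearEquiv.apply_symm_apply]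
  have hTQ : ∀ w, Q (T *ᵥ w) = Q w := by
    intro w
    rw [hTv, hjQ, LinearEquiv.apply_symm_apply]
  have hT1 : T * T ^ (r - 1) = 1 := by rw [← pow_succ', Nat.sub_add_cancel hrpos, hTr]
  have hT2 : T ^ (r - 1) * T = 1 := by rw [← pow_succ, Nat.sub_add_cancel hrpos, hTr]
  obtain ⟨B, hB⟩ : ∃ B : ↥(Cfsg.isometryGroup F ⇑Q), ((B : GL ι F) : Matrix ι ι F) = T :=
    ⟨⟨⟨T, T ^ (r - 1), hT1, hT2⟩, fun u _ => hTQ u⟩, rfl⟩
  have hTc : T.charpoly = S'.charpoly := by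
    have h1 : T.charpoly = (j.conj (Matrix.toLin' S')).charpoly := by
      rw [hT, ← LinearMap.toMatrix_eq_toMatrix', LinearMap.charpoly_toMatrix]
    have h2 : (Matrix.toLin' S').charpoly = S'.charpoly := by
      rw [← LinearMap.charpoly_toMatrix (Matrix.toLin' S') (Pi.basisFun F ι'),
        LinearMap.toMatrix_eq_toMatrix', LinearMap.toMatrix'_toLin']
    rw [h1, LinearEquiv.charpoly_conj, h2]
  have hpowm : ∀ C : ↥(Cfsg.isometryGroup F ⇑Q), ((C : GL ι F) : Matrix ι ι F) ^ r = 1 →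
      C ^ r = 1 := by
    intro C hC
    apply Subtype.ext
    apply Units.ext
    rw [Subgroup.coe_pow, Units.val_pow_eq_pow_val, hC]
    rfl
  have hAr : A ^ r = 1 := hpowm A (by rw [hA, hSr])
  have hBr : B ^ r = 1 := hpowm B (by rw [hB, hTr])
  have hconj := Cfsg.Agent.Lib.Helper44.OCls1.conj_of_charpoly Q hS B A r hodd hr0 hBr hAr
    (by rw [hB, hA, hTc, hcp])
  obtain ⟨c, hc⟩ := isConj_iff.mp hconj
  have hcm : ((c : GL ι F) : Matrix ι ι F) * T = S * ((c : GL ι F) : Matrix ι ι F) := by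
    have h1 : c * B = A * c := by rw [← hc]; group
    have h2 := congrArg (fun g : ↥(Cfsg.isometryGroup F ⇑Q) => ((g : GL ι F) : Matrix ι ι F)) h1
    simp only [Subgroup.coe_mul, Units.val_mul, hA, hB] at h2
    exact h2
  refine ⟨j.trans (glEquiv (c : GL ι F)), fun u => ?_, fun u => ?_⟩
  · have h1 : (j.trans (glEquiv (c : GL ι F))) u = ((c : GL ι F) : Matrix ι ι F) *ᵥ (j u) := rfl
    rw [h1]
    exact c.2 (j u) (j u)
  · have h1 : ∀ w, (j.trans (glEquiv (c : GL ι F))) w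
        = ((c : GL ι F) : Matrix ι ι F) *ᵥ (j w) := fun w => rfl
    rw [h1, h1]
    have h3 := hTv (j u)
    rw [LinearEquiv.symm_apply_apply] at h3
    rw [← h3, mulVec_mulVec, hcm, ← mulVec_mulVec]
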