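import Mathlib
import Cfsg.Agent.Lib.Helper44.SPStmt
import Cfsg.Agent.Lib.Helper44.OCls1

set_option autoImplicit false

/-! Piece INV of S2720. -/

namespace Cfsg.Agent.Lib.Helper44.SPINV

open Matrix Polynomial
open Cfsg.Agent.Lib.Helper44.QSpace Cfsg.Agent.Lib.Helper44.OCls1
open Cfsg.Agent.Lib.Helper44.SPStmt

universe u

theorem main : InvEx.{u} := by
  intro F _ _ ι _ _ Q hS s r hodd hr0 hsr
  classical
  have hinv : s⁻¹ ^ r = 1 := by rw [inv_pow, hsr, inv_one]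
  have h1 : ((s : GL ι F) : Matrix ι ι F) * (((s⁻¹ : ↥(Cfsg.isometryGroup F ⇑Q)) : GL ι F) :
      Matrix ι ι F) = 1 := by
    rw [← Units.val_mul, ← Subgroup.coe_mul, mul_inv_cancel]
    rfl
  have hcp : ((s : GL ι F) : Matrix ι ι F).charpoly
      = (((s⁻¹ : ↥(Cfsg.isometryGroup F ⇑Q)) : GL ι F) : Matrix ι ι F).charpoly := by
    rw [← rstar_charpoly_inv _ _ h1]
    exact (rstar_charpoly_iso hS _ _ h1 (fun u => s.2 u u)).symm
  have hconj := conj_of_charpoly Q hS s s⁻¹ r hodd hr0 hsr hinv hcp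
  obtain ⟨c, hc⟩ := isConj_iff.mp hconj
  exact ⟨c, by rw [← hc]; group⟩
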