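import Mathlib
import Cfsg.Agent.Lib.Helper44.SPStmt
import Cfsg.Agent.Lib.Helper44.OTyp3

set_option autoImplicit false

/-! Piece ISO of S2720. -/

namespace Cfsg.Agent.Lib.Helper44.SPISO

open Matrix Polynomial
open Cfsg.Agent.Lib.Helper44.QSpace Cfsg.Agent.Lib.Helper44.OExt
open Cfsg.Agent.Lib.Helper44.OTyp1 Cfsg.Agent.Lib.Helper44.OTyp3
open Cfsg.Agent.Lib.Helper44.SPStmt

universe u

theorem main : IsoEx.{u} := by
  intro F _ _ p _ _ ι _ _ Q hS k hcard S r hr hr2 hrp hSr hSQ hSL ι₁ _ _ s₁ N₁ ι₂ _ _ s₂ N₂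
    h1r h1N h1d h2r h2N h2d hch
  classical
  have hpp : p.Prime := Fact.out
  obtain ⟨N, hNdef⟩ : ∃ N : Matrix (ι₁ ⊕ ι₂) (ι₁ ⊕ ι₂) F, N = fromBlocks N₁ 0 0 N₂ := ⟨_, rfl⟩
  obtain ⟨s, hsdef⟩ : ∃ s : Matrix (ι₁ ⊕ ι₂) (ι₁ ⊕ ι₂) F, s = fromBlocks s₁ 0 0 s₂ := ⟨_, rfl⟩
  have hN : (N + Nᵀ).det ≠ 0 := by
    rw [hNdef, fromBlocks_transpose, fromBlocks_add]
    simp only [transpose_zero, add_zero]
    rw [Matrix.det_fromBlocks_zero₁₂]
    exact mul_ne_zero h1d h2d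
  have hsr : s ^ r = 1 := by rw [hsdef, Cfsg.Agent.Lib.Helper44.OCls2.fromBlocks_diag_pow, h1r, h2r, fromBlocks_one]
  have hsN : sᵀ * N * s = N := by
    rw [hsdef, hNdef, fromBlocks_transpose, fromBlocks_multiply, fromBlocks_multiply]
    simp [h1N, h2N]
  have hsc : s.charpoly = S.charpoly := by
    rw [hsdef, Matrix.charpoly_fromBlocks_zero₁₂, hch]
  have hc : Fintype.card (ι₁ ⊕ ι₂) = Fintype.card ι := by
    have h1 := Matrix.charpoly_natDegree_eq_dim s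
    have h2 := Matrix.charpoly_natDegree_eq_dim S
    rw [hsc] at h1
    omega
  have hq0 : ((Fintype.card F : ℕ) : ZMod r) ≠ 0 := by
    intro h0
    obtain ⟨n, hn⟩ := FiniteField.card F p
    rw [ZMod.natCast_eq_zero_iff, hn.2] at h0
    exact hrp ((Nat.prime_dvd_prime_iff_eq hr hpp).mp (hr.dvd_of_dvd_pow h0))
  obtain ⟨i, hi⟩ : ∃ i, i = orderOf ((Fintype.card F : ℕ) : ZMod r) := ⟨_, rfl⟩
  have : Fact r.Prime := ⟨hr⟩
  have hdvd : i ∣ r - 1 := by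
    rw [hi]
    exact orderOf_dvd_of_pow_eq_one (ZMod.pow_card_sub_one_eq_one hq0)
  obtain ⟨t, ht⟩ := hdvd
  have ht' : t * i = r - 1 := by rw [ht, mul_comm]
  have hL' : ¬ (X - C (1 : F)) ∣ s.charpoly := by rw [hsc]; exact hSL
  obtain ⟨a1, a2⟩ := obs_matrix (p := p) Q hS hcard r i t hr hr2 hrp hi ht' S hSr hSQ hSL
  obtain ⟨b1, b2⟩ := obs_matrix (p := p) (qN N) (sep_qN hN) (hc.trans hcard) r i t hr hr2 hrp hi
    ht' s hsr (qN_isom hsN) hL'
  have hceq : Nat.card {v : ι₁ ⊕ ι₂ → F // qN N v = 0} = Nat.card {v : ι → F // Q v = 0} := by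
    apply Nat.eq_of_mul_eq_mul_right (Fintype.card_pos (α := F))
    by_cases hT : (Odd i ∨ Even (2 * (k + 1) / i))
    · rw [a1 hT, b1 hT]
    · rw [a2 hT, b2 hT]
  obtain ⟨j, hj⟩ := exists_iso (qN N) Q (sep_qN hN) hS
    (by rw [Module.finrank_fintype_fun_eq_card, hc, hcard])
    (by rw [Module.finrank_fintype_fun_eq_card, hcard]) hceq
  have hpol : ∀ x y, QuadraticMap.polar (⇑Q) (j x) (j y) = QuadraticMap.polar (⇑(qN N)) x y := by
    intro x y
    unfold QuadraticMap.polar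
    rw [← map_add, hj, hj, hj]
  have hinj : Function.Injective j := by
    rw [← LinearMap.ker_eq_bot, LinearMap.ker_eq_bot']
    intro v hv
    apply sep_qN hN v
    intro y
    rw [← hpol, hv]
    simp [QuadraticMap.polar]
  have hfr : Module.finrank F (ι₁ ⊕ ι₂ → F) = Module.finrank F (ι → F) := by
    rw [Module.finrank_fintype_fun_eq_card, Module.finrank_fintype_fun_eq_card, hc]
  refine ⟨LinearEquiv.ofInjectiveOfFinrankEq j hinj hfr, fun u => ?_⟩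
  have h1 : LinearEquiv.ofInjectiveOfFinrankEq j hinj hfr u = j u := rfl
  rw [h1, hj u, qN_apply, qN_apply, qN_apply, hNdef]
  conv_lhs => rw [← Sum.elim_comp_inl_inr u]
  rw [fromBlocks_mulVec, sumElim_dotProduct_sumElim]
  simp
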