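import Mathlib
import Cfsg.Agent.Lib.Helper44.SPStmt
import Cfsg.Agent.Lib.Helper44.OCls3

set_option autoImplicit false

/-! Piece MODA of S2720. -/

namespace Cfsg.Agent.Lib.Helper44.SPMODA

open Matrix Polynomial UniqueFactorizationMonoid
open Cfsg.Agent.Lib.Helper44.QSpace Cfsg.Agent.Lib.Helper44.OCls2
open Cfsg.Agent.Lib.Helper40.RecipPoly
open Cfsg.Agent.Lib.Helper44.SPStmt

universe u

theorem main : NoFixIff.{u} → CharFacts.{u} → ModA.{u} := by
  intro hNF hCF F _ _ p _ _ ι _ _ Q hS hpos S r hr hr2 hrp hSr hSQ hfix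
  classical
  have hpp : p.Prime := Fact.out
  obtain ⟨hself, hfac⟩ := hCF F ι Q hS S r hr.pos hSr hSQ
  have hL : ¬ (X - C (1 : F)) ∣ S.charpoly := (hNF F ι S).mp hfix
  have hq0 : ((Fintype.card F : ℕ) : ZMod r) ≠ 0 := by
    intro h0
    obtain ⟨n, hn⟩ := FiniteField.card F p
    rw [ZMod.natCast_eq_zero_iff, hn.2] at h0
    exact hrp ((Nat.prime_dvd_prime_iff_eq hr hpp).mp (hr.dvd_of_dvd_pow h0))
  obtain ⟨i, hi⟩ : ∃ i, i = orderOf ((Fintype.card F : ℕ) : ZMod r) := ⟨_, rfl⟩
  have : Fact r.Prime := ⟨hr⟩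
  have hdvd : i ∣ r - 1 := by
    rw [hi]
    exact orderOf_dvd_of_pow_eq_one (ZMod.pow_card_sub_one_eq_one hq0)
  obtain ⟨t, ht⟩ := hdvd
  have ht' : t * i = r - 1 := by rw [ht, mul_comm]
  obtain ⟨S₀, hLS, hS₀, hS₀dvd, -, hreal⟩ :=
    Cfsg.Agent.Lib.Helper44.OCls3.setup (F := F) (p := p) r i t hr hr2 hrp hi ht'
  have hcm : S.charpoly.Monic := Matrix.charpoly_monic S
  have hc0 : S.charpoly.coeff 0 ≠ 0 := by
    intro h0
    have hX : (X : F[X]) ∣ S.charpoly := Polynomial.X_dvd_iff.mpr h0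
    have hX2 := hfac X Polynomial.irreducible_X hX
    have h3 := Polynomial.X_dvd_iff.mp hX2
    rw [coeff_sub, coeff_X_pow, coeff_C_zero, if_neg hr.ne_zero.symm, zero_sub] at h3
    exact one_ne_zero (neg_eq_zero.mp h3)
  have real_of : ∀ g : F[X], g.Monic → rstar (RingHom.id F) g = g → g ∣ S.charpoly →
      Real r g := by
    intro g hgm hgs hgd
    have hgD : g ∈ Cfsg.Agent.Lib.Helper44.OCls3.D S₀ g.natDegree := by
      refine ⟨hgm, rfl, ?_, hgs⟩
      intro P hP
      have hPirr := irreducible_of_normalized_factor P hP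
      have hPm : P.Monic := by
        have h1 := normalize_normalized_factor P hP
        rw [← h1]
        exact Polynomial.monic_normalize hPirr.ne_zero
      have hPd : P ∣ g := dvd_of_mem_normalizedFactors hP
      exact (hS₀dvd P hPirr hPm).mp (hfac P hPirr (hPd.trans hgd))
    obtain ⟨c'', hc1, -, -, hR, -⟩ := hreal g.natDegree g hgD
    have he : g.natDegree - c''.natDegree = 0 := by
      by_contra hne
      apply hL
      have h3 : (X - C (1 : F)) ∣ (X - C (1 : F)) ^ (g.natDegree - c''.natDegree) * c'' :=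
        Dvd.dvd.mul_right (dvd_pow_self _ hne) _
      rw [← hc1] at h3
      exact h3.trans hgd
    rw [he, pow_zero, one_mul] at hc1
    rw [hc1]
    exact hR
  have hnu : ¬ IsUnit S.charpoly := by
    intro hu
    have h1 := Polynomial.natDegree_eq_zero_of_isUnit hu
    rw [Matrix.charpoly_natDegree_eq_dim] at h1
    omega
  obtain ⟨P, hPm, hPirr, hPd⟩ := Polynomial.exists_monic_irreducible_factor S.charpoly hnu
  have hP1 : P ≠ X - C 1 := by
    rintro rfl
    exact hL hPd
  have hPr : P ∣ X ^ r - C 1 := hfac P hPirr hPd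
  have hP0 : P.coeff 0 ≠ 0 := coeff0_of_dvd hPd hc0
  have hcW : cW P ∣ S.charpoly ∧ (cW P).Monic ∧ rstar (RingHom.id F) (cW P) = cW P := by
    unfold cW
    by_cases hs : rstar (RingHom.id F) P = P
    · rw [if_pos hs]
      exact ⟨hPd, hPm, hs⟩
    · rw [if_neg hs]
      have hP' := rstar_irreducible (RingHom.id F) (fun x => rfl) P hPirr hPm hP0
      have hP'm := rstar_monic (RingHom.id F) P hP0
      have hP'd : rstar (RingHom.id F) P ∣ S.charpoly := by
        obtain ⟨e, he⟩ := hPd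
        have h1 : rstar (RingHom.id F) P ∣ rstar (RingHom.id F) S.charpoly := by
          rw [he, rstar_mul]
          exact dvd_mul_right _ _
        rw [hself] at h1
        exact h1
      have hcop : IsCoprime P (rstar (RingHom.id F) P) := by
        apply (Irreducible.coprime_iff_not_dvd hPirr).mpr
        intro hdvd
        have hass := hPirr.associated_of_dvd hP' hdvd
        exact hs (eq_of_monic_of_associated hP'm hPm hass.symm)
      refine ⟨hcop.mul_dvd hPd hP'd, hPm.mul hP'm, ?_⟩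
      rw [rstar_mul, rstar_star (RingHom.id F) (fun x => rfl) P hPm hP0, mul_comm]
  obtain ⟨hW1, hW2, hW3⟩ := hcW
  obtain ⟨c', hc'⟩ := hW1
  have hc'm : c'.Monic := by
    have h1 := hcm
    rw [hc'] at h1
    exact hW2.of_mul_monic_left h1
  have hc's : rstar (RingHom.id F) c' = c' := by
    have h1 := hself
    rw [hc', rstar_mul, hW3] at h1
    exact mul_left_cancel₀ hW2.ne_zero h1
  exact ⟨P, c', hPirr, hPm, hPr, hP1, hc', real_of (cW P) hW2 hW3 ⟨c', hc'⟩,
    real_of c' hc'm hc's ⟨cW P, by rw [hc', mul_comm]⟩⟩
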