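import Mathlib
import Cfsg.Agent.Lib.Helper44.SPStmt

set_option autoImplicit false

/-! Piece MODEL of S2720. -/

namespace Cfsg.Agent.Lib.Helper44.SPMODEL

open Matrix Polynomial
open Cfsg.Agent.Lib.Helper44.QSpace Cfsg.Agent.Lib.Helper44.OExt Cfsg.Agent.Lib.Helper44.OCls2
open Cfsg.Agent.Lib.Helper44.SPStmt

universe u

theorem main : NoFixIff.{u} → ModA.{u} → IsoEx.{u} → ConjIso.{u} → ModelIso.{u} := by
  intro hNF hMA hIso hConj F _ _ p _ _ ι _ _ Q h2 hS k hcard S r hr hr2 hrp hSr hSQ hfix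
  classical
  have hpp : p.Prime := Fact.out
  have hpos : 0 < Fintype.card ι := by rw [hcard]; omega
  obtain ⟨P, c', hPirr, hPm, hPr, hP1, hch, hR1, hR2⟩ :=
    hMA F p ι Q hS hpos S r hr hr2 hrp hSr hSQ hfix
  obtain ⟨ι₁, _, _, s₁, N₁, hc₁, hr₁, hi₁, hd₁⟩ := hR1
  obtain ⟨ι₂, _, _, s₂, N₂, hc₂, hr₂, hi₂, hd₂⟩ := hR2
  have hL : ¬ (X - C (1 : F)) ∣ S.charpoly := (hNF F ι S).mp hfix
  obtain ⟨j, hj⟩ := hIso F p ι Q hS k hcard S r hr hr2 hrp hSr hSQ hL ι₁ s₁ N₁ ι₂ s₂ N₂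
    hr₁ hi₁ hd₁ hr₂ hi₂ hd₂ (by rw [hch, hc₁, hc₂])
  obtain ⟨S', hS'⟩ : ∃ S' : Matrix (ι₁ ⊕ ι₂) (ι₁ ⊕ ι₂) F, S' = fromBlocks s₁ 0 0 s₂ := ⟨_, rfl⟩
  have hS'v : ∀ u : ι₁ ⊕ ι₂ → F,
      S' *ᵥ u = Sum.elim (s₁ *ᵥ (u ∘ Sum.inl)) (s₂ *ᵥ (u ∘ Sum.inr)) := by
    intro u
    conv_lhs => rw [← Sum.elim_comp_inl_inr u]
    rw [hS', fromBlocks_mulVec]
    simp
  have hS'r : S' ^ r = 1 := by rw [hS', fromBlocks_diag_pow, hr₁, hr₂, fromBlocks_one]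
  have hrF : ((r : ℕ) : F) ≠ 0 := by
    intro h0
    have h3 := (CharP.cast_eq_zero_iff F p r).mp h0
    exact hrp ((Nat.prime_dvd_prime_iff_eq hpp hr).mp h3).symm
  have hodd : Odd r := hr.odd_of_ne_two hr2
  have hjQ : ∀ u, Q (j (S' *ᵥ u)) = Q (j u) := by
    intro u
    rw [hj, hj, hS'v]
    simp only [Sum.elim_comp_inl, Sum.elim_comp_inr]
    rw [qN_isom hi₁, qN_isom hi₂]
  have hS'c : S'.charpoly = S.charpoly := by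
    rw [hS', Matrix.charpoly_fromBlocks_zero₁₂, hc₁, hc₂, hch]
  obtain ⟨J, hJ1, hJ2⟩ := hConj F ι Q hS S r hodd hrF hSr hSQ (ι₁ ⊕ ι₂) S' j hS'r hjQ hS'c
  refine ⟨P, ι₁, inferInstance, inferInstance, s₁, N₁, ι₂, inferInstance, inferInstance, s₂, N₂,
    J, hPirr, hPm, hPr, hP1, hc₁, hr₁, hi₁, hd₁, ?_, ?_⟩
  · intro u
    rw [hJ1, hj]
  · intro u
    rw [← hS'v, hJ2]
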