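import Mathlib
import Cfsg.Agent.Lib.Helper44.SPStmt
import Cfsg.Agent.Lib.Helper44.OTyp1
import Cfsg.Agent.Lib.Helper45.OmegaAutSim

set_option autoImplicit false

/-! Piece SIMEX of S2720. -/

namespace Cfsg.Agent.Lib.Helper44.SPSIMEX

open Matrix Polynomial
open Cfsg.Agent.Lib.Helper44.QSpace Cfsg.Agent.Lib.Helper44.OTyp1
open Cfsg.Agent.Lib.Helper45.OmegaAutSim Cfsg.Agent.Lib.Helper45.OmegaAutPsi
open Cfsg.Agent.Lib.Helper44.SPStmt

universe u

theorem main : SimEx.{u} := by
  intro F _ _ ι _ _ Q h2 hS k hcard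
  classical
  obtain ⟨ν, hν, -⟩ := exists_nonsquare_unit (F := F) h2
  have : Nontrivial (ι → F) := by
    have : Nonempty ι := by
      apply Fintype.card_pos_iff.mp
      rw [hcard]
      omega
    infer_instance
  obtain ⟨v₀, hv₀⟩ := exists_ne_zero hS
  obtain ⟨Q', hQ'⟩ : ∃ Q' : QuadraticForm F (ι → F), ∀ v, Q' v = (ν : F) * Q v :=
    ⟨(ν : F) • Q, fun v => by simp [smul_eq_mul]⟩
  have hS' : Sep Q' := by
    intro x hx
    apply hS x
    intro y
    have h := hx y
    unfold QuadraticMap.polar at h ⊢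
    rw [hQ', hQ', hQ'] at h
    have h3 : (ν : F) * (Q (x + y) - Q x - Q y) = 0 := by rw [← h]; ring
    exact (mul_eq_zero.mp h3).resolve_left ν.ne_zero
  have hc : Nat.card {v : ι → F // Q' v = 0} = Nat.card {v : ι → F // Q v = 0} := by
    apply Nat.card_congr
    apply Equiv.subtypeEquivRight
    intro v
    rw [hQ']
    constructor
    · intro h
      exact (mul_eq_zero.mp h).resolve_left ν.ne_zero
    · intro h
      rw [h, mul_zero]
  obtain ⟨j, hj⟩ := exists_iso Q' Q hS' hS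
    (by rw [Module.finrank_fintype_fun_eq_card, hcard])
    (by rw [Module.finrank_fintype_fun_eq_card, hcard]) hc
  obtain ⟨g, hg⟩ := exists_sim_of_linear Q hS hv₀ j ν (fun v => by rw [hj, hQ'])
  exact ⟨g, by rw [hg]; exact hν⟩
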