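import Mathlib
import Cfsg.Agent.Lib.Helper44.Inv7
import Cfsg.Agent.Lib.Helper44.TSTrans
import Cfsg.Agent.Lib.Helper44.QCount
import Cfsg.Agent.Lib.Helper44.Eichler

set_option autoImplicit false

namespace Cfsg.Agent.Lib.Helper44.Syl1

open Module QuadraticMap
open Cfsg.Agent.Lib.Helper44.QSpace Cfsg.Agent.Lib.Helper44.OGroup Cfsg.Agent.Lib.Helper44.CD2a
open Cfsg.Agent.Lib.Helper44.TSTrans Cfsg.Agent.Lib.Helper44.Inv7

section basic

variable {F : Type*} [Field F] [Fintype F]

theorem two_cases (hF : Fintype.card F = 2) (c : F) : c = 0 ∨ c = 1 := by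
  classical
  by_contra h
  push Not at h
  have h3 : ({0, 1, c} : Finset F).card = 3 := by
    rw [Finset.card_insert_of_notMem, Finset.card_insert_of_notMem, Finset.card_singleton]
    · simp only [Finset.mem_singleton]
      exact fun h1 => h.2 h1.symm
    · simp only [Finset.mem_insert, Finset.mem_singleton, not_or]
      exact ⟨zero_ne_one, fun h0 => h.1 h0.symm⟩
  have h2 := Finset.card_le_univ ({0, 1, c} : Finset F)
  rw [h3, hF] at h2
  omega

theorem two_eq_zero_of_card (hF : Fintype.card F = 2) : (2 : F) = 0 := by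
  have := FiniteField.cast_card_eq_zero F
  rw [hF] at this
  exact_mod_cast this

theorem eq_one_of_ne_zero (hF : Fintype.card F = 2) {c : F} (hc : c ≠ 0) : c = 1 :=
  (two_cases hF c).resolve_left hc

end basic

section count

variable {F : Type*} [Field F] [Fintype F] {V : Type*} [AddCommGroup V] [Module F V]
  [FiniteDimensional F V]
variable {Q : QuadraticForm F V}

/-- The orthogonal complement of a subspace with respect to the polar form. -/
def perp (Q : QuadraticForm F V) (U : Submodule F V) : Submodule F V :=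
  LinearMap.BilinForm.orthogonal (polarBilin Q) U

omit [Fintype F] [FiniteDimensional F V] in
theorem mem_perp {U : Submodule F V} {v : V} : v ∈ perp Q U ↔ ∀ u ∈ U, polar Q u v = 0 :=
  Iff.rfl

omit [Fintype F] in
theorem finrank_perp (hS : Sep Q) (U : Submodule F V) :
    finrank F (perp Q U) + finrank F U = finrank F V := by
  have h1 := LinearMap.BilinForm.finrank_orthogonal (nondegenerate_of_sep hS) U
  have h2 := Submodule.finrank_le U
  unfold perp
  omega

theorem card_sub (hF : Fintype.card F = 2) (U : Submodule F V) :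
    Nat.card U = 2 ^ finrank F U := by
  have : Finite V := Module.finite_of_finite F
  have := Fintype.ofFinite U
  rw [Nat.card_eq_fintype_card, Module.card_eq_pow_finrank (K := F), hF]

theorem card_perp (hS : Sep Q) (hF : Fintype.card F = 2) (U : Submodule F V) :
    Nat.card (perp Q U) * 2 ^ finrank F U = 2 ^ finrank F V := by
  rw [card_sub hF, ← pow_add, finrank_perp hS]

omit [Fintype F] [AddCommGroup V] [Module F V] [FiniteDimensional F V] in
theorem ncard_filter (p : V → Prop) [DecidablePred p] [Fintype V] :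
    Nat.card {v : V // p v} = (Finset.univ.filter p).card := by
  rw [Nat.card_eq_fintype_card, Fintype.card_subtype]

/-- Number of singular vectors in the orthogonal complement of a totally singular subspace of
dimension `k`, over the field with two elements. -/
theorem count_sing (hF : Fintype.card F = 2) (hS : Sep Q) {m : ℕ}
    (hV : finrank F V = 2 * m + 2)
    (h0 : Nat.card {v : V // Q v = 0} = 2 ^ m + 2 ^ (2 * m + 1)) :
    ∀ (k : ℕ) (U : Submodule F V), (∀ u ∈ U, Q u = 0) → finrank F U = k →
      Nat.card {v : V // v ∈ perp Q U ∧ Q v = 0} * 2 ^ k = 2 ^ (m + k) + 2 ^ (2 * m + 1) := by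
  classical
  have : Finite V := Module.finite_of_finite F
  have := Fintype.ofFinite V
  intro k
  induction k with
  | zero =>
    intro U hU hk
    have hbot : U = ⊥ := Submodule.finrank_eq_zero.mp hk
    subst hbot
    have e : {v : V // v ∈ perp Q (⊥ : Submodule F V) ∧ Q v = 0} ≃ {v : V // Q v = 0} :=
      Equiv.subtypeEquivRight (fun v => by
        constructor
        · exact fun h => h.2
        · intro h
          refine ⟨?_, h⟩
          rw [mem_perp]
          intro u hu
          rw [(Submodule.mem_bot F).mp hu]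
          simp)
    rw [Nat.card_congr e, h0]
    simp
  | succ k ih =>
    intro U hU hk
    obtain ⟨U₁, hle, hfin⟩ := exists_le_finrank_eq (W := U) (k := k) (by omega)
    have hlt : U₁ < U := by
      apply lt_of_le_of_ne hle
      rintro rfl
      omega
    obtain ⟨u, huU, huU₁⟩ := SetLike.exists_of_lt hlt
    have hQu : Q u = 0 := hU u huU
    have huu : polar Q u u = 0 := by rw [polar_self', hQu, mul_zero]
    have hU₁ : ∀ x ∈ U₁, Q x = 0 := fun x hx => hU x (hle hx)
    have hsup : U₁ ⊔ Submodule.span F {u} = U := by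
      apply Submodule.eq_of_le_of_finrank_le
      · apply sup_le hle
        rw [Submodule.span_singleton_le_iff_mem]
        exact huU
      · have hlt' : U₁ < U₁ ⊔ Submodule.span F {u} := by
          apply lt_of_le_of_ne le_sup_left
          intro h
          apply huU₁
          rw [h]
          exact Submodule.mem_sup_right (Submodule.mem_span_singleton_self u)
        have := Submodule.finrank_lt_finrank_of_lt hlt'
        omega
    have hup : u ∈ perp Q U₁ := by
      rw [mem_perp]
      intro x hx
      exact polar_of_sing hU (hle hx) huU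
    have hperp : ∀ v, v ∈ perp Q U ↔ v ∈ perp Q U₁ ∧ polar Q u v = 0 := by
      intro v
      constructor
      · intro h
        exact ⟨fun x hx => h x (hle hx), h u huU⟩
      · rintro ⟨h1, h2⟩
        rw [mem_perp]
        intro x hx
        rw [← hsup] at hx
        obtain ⟨x₁, hx₁, y, hy, rfl⟩ := Submodule.mem_sup.mp hx
        obtain ⟨c, rfl⟩ := Submodule.mem_span_singleton.mp hy
        rw [polar_add_left, polar_smul_l, h2, mul_zero, add_zero]
        exact h1 x₁ hx₁
    have ea := ih U₁ hU₁ hfin
    rw [ncard_filter] at ea ⊢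
    have eP1 := card_perp hS hF U₁
    have eP := card_perp hS hF U
    rw [hfin, hV] at eP1
    rw [hk, hV] at eP
    have eP1' : Nat.card (perp Q U₁) = (Finset.univ.filter (fun v : V => v ∈ perp Q U₁)).card :=
      ncard_filter _
    have eP' : Nat.card (perp Q U) = (Finset.univ.filter (fun v : V => v ∈ perp Q U)).card :=
      ncard_filter _
    rw [eP1'] at eP1
    rw [eP'] at eP
    set a := (Finset.univ.filter (fun v : V => v ∈ perp Q U₁ ∧ Q v = 0)).card with ha
    set b := (Finset.univ.filter (fun v : V => v ∈ perp Q U ∧ Q v = 0)).card with hb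
    set c := (Finset.univ.filter
      (fun v : V => v ∈ perp Q U₁ ∧ Q v = 0 ∧ polar Q u v ≠ 0)).card with hc
    set d := (Finset.univ.filter
      (fun v : V => v ∈ perp Q U₁ ∧ Q v ≠ 0 ∧ polar Q u v ≠ 0)).card with hd
    set P1 := (Finset.univ.filter (fun v : V => v ∈ perp Q U₁)).card with hP1
    set P := (Finset.univ.filter (fun v : V => v ∈ perp Q U)).card with hP
    -- a = b + c
    have hab : a = b + c := by
      rw [ha, hb, hc, ← Finset.card_filter_add_card_filter_not
        (s := Finset.univ.filter (fun v : V => v ∈ perp Q U₁ ∧ Q v = 0))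
        (p := fun v => polar Q u v = 0)]
      congr 1
      · congr 1
        ext v
        simp only [Finset.mem_filter, Finset.mem_univ, true_and]
        rw [hperp]
        tauto
      · congr 1
        ext v
        simp only [Finset.mem_filter, Finset.mem_univ, true_and]
        tauto
    -- P1 = P + c + d
    have hPP : P1 = P + (c + d) := by
      rw [hP1, hP, hc, hd, ← Finset.card_filter_add_card_filter_not
        (s := Finset.univ.filter (fun v : V => v ∈ perp Q U₁))
        (p := fun v => polar Q u v = 0)]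
      congr 1
      · congr 1
        ext v
        simp only [Finset.mem_filter, Finset.mem_univ, true_and]
        rw [hperp]
      · rw [← Finset.card_filter_add_card_filter_not
          (s := Finset.filter (fun v => ¬ polar Q u v = 0)
            (Finset.univ.filter (fun v : V => v ∈ perp Q U₁)))
          (p := fun v => Q v = 0)]
        congr 1
        · congr 1
          ext v
          simp only [Finset.mem_filter, Finset.mem_univ, true_and]
          tauto
        · congr 1
          ext v
          simp only [Finset.mem_filter, Finset.mem_univ, true_and]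
          tauto
    -- c = d
    have hcd : c = d := by
      rw [hc, hd]
      apply Finset.card_bij (fun v _ => v + u)
      · intro v hv
        simp only [Finset.mem_filter, Finset.mem_univ, true_and] at hv ⊢
        obtain ⟨h1, h2, h3⟩ := hv
        refine ⟨(perp Q U₁).add_mem h1 hup, ?_, ?_⟩
        · rw [q_add, h2, hQu, polar_comm]
          simpa using h3
        · rw [polar_add_right, huu, add_zero]
          exact h3
      · intro v₁ _ v₂ _ h
        exact add_right_cancel h
      · intro w hw
        simp only [Finset.mem_filter, Finset.mem_univ, true_and] at hw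
        obtain ⟨h1, h2, h3⟩ := hw
        refine ⟨w - u, ?_, by simp⟩
        simp only [Finset.mem_filter, Finset.mem_univ, true_and]
        have e3 : polar Q u (w - u) = polar Q u w := by
          rw [polar_sub_right, huu, sub_zero]
        refine ⟨(perp Q U₁).sub_mem h1 hup, ?_, ?_⟩
        · have e1 : Q w = Q (w - u) + Q u + polar Q (w - u) u := by
            rw [← q_add, sub_add_cancel]
          rw [hQu, polar_comm, e3, eq_one_of_ne_zero hF h2, eq_one_of_ne_zero hF h3] at e1
          linear_combination -e1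
        · rw [e3]
          exact h3
    have e1 : (b + c) * 2 ^ k = 2 ^ (m + k) + 2 ^ (2 * m + 1) := by rw [← hab]; exact ea
    have e2 : (P + (c + c)) * 2 ^ k = 2 ^ (2 * m + 2) := by
      rw [hPP, ← hcd] at eP1
      exact eP1
    rw [pow_succ] at eP
    rw [pow_succ 2 (2 * m + 1)] at e2 eP
    rw [pow_succ, show m + (k + 1) = (m + k) + 1 by ring, pow_succ]
    nlinarith [e1, e2, eP]

end count

section ext

variable {F : Type*} [Field F] [Fintype F] {V : Type*} [AddCommGroup V] [Module F V]
  [FiniteDimensional F V]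
variable {Q : QuadraticForm F V} {G : Type*} [Group G]

/-- The totally singular subspaces of dimension `k + 1` containing `U`. -/
def Ext (Q : QuadraticForm F V) (U : Submodule F V) (k : ℕ) : Type _ :=
  {W : Submodule F V // U ≤ W ∧ finrank F W = k + 1 ∧ ∀ u ∈ W, Q u = 0}

/-- The action of a subgroup stabilising `U` on the extensions of `U`. -/
@[instance_reducible]
def extAction (ρ : G →* (V ≃ₗ[F] V)) (hρ : ∀ g, ρ g ∈ O Q) (P : Subgroup G) (U : Submodule F V)
    (hinv : ∀ g ∈ P, ∀ u ∈ U, ρ g u ∈ U) (k : ℕ) : MulAction ↥P (Ext Q U k) where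
  smul g W := ⟨W.1.map ((ρ g : V ≃ₗ[F] V) : V →ₗ[F] V), by
    refine ⟨?_, ?_, ?_⟩
    · intro u hu
      refine ⟨ρ (g : G)⁻¹ u, W.2.1 (hinv _ (P.inv_mem g.2) u hu), ?_⟩
      show ρ (g : G) (ρ (g : G)⁻¹ u) = u
      rw [← LinearEquiv.mul_apply, ← map_mul, mul_inv_cancel, map_one]
      rfl
    · rw [LinearEquiv.finrank_map_eq]
      exact W.2.2.1
    · rintro _ ⟨w, hw, rfl⟩
      show Q (ρ (g : G) w) = 0
      rw [hρ (g : G) w]
      exact W.2.2.2 w hw⟩
  one_smul W := by
    apply Subtype.ext
    show W.1.map ((ρ ((1 : ↥P) : G) : V ≃ₗ[F] V) : V →ₗ[F] V) = W.1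
    rw [Subgroup.coe_one, map_one]
    ext x
    simp only [Submodule.mem_map]
    constructor
    · rintro ⟨y, hy, rfl⟩
      exact hy
    · intro hx
      exact ⟨x, hx, rfl⟩
  mul_smul g h W := by
    apply Subtype.ext
    show W.1.map ((ρ ((g * h : ↥P) : G) : V ≃ₗ[F] V) : V →ₗ[F] V)
      = (W.1.map ((ρ (h : G) : V ≃ₗ[F] V) : V →ₗ[F] V)).map
          ((ρ (g : G) : V ≃ₗ[F] V) : V →ₗ[F] V)
    rw [Subgroup.coe_mul, map_mul, map_mul_eq]

omit [Fintype F] [FiniteDimensional F V] in
theorem smul_ext_coe (ρ : G →* (V ≃ₗ[F] V)) (hρ : ∀ g, ρ g ∈ O Q) (P : Subgroup G)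
    (U : Submodule F V) (hinv : ∀ g ∈ P, ∀ u ∈ U, ρ g u ∈ U) (k : ℕ) (g : ↥P) (W : Ext Q U k) :
    ((extAction ρ hρ P U hinv k).smul g W).1
      = W.1.map ((ρ (g : G) : V ≃ₗ[F] V) : V →ₗ[F] V) := rfl

/-- The number of extensions is odd. -/
theorem card_ext_odd (hF : Fintype.card F = 2) (hS : Sep Q) {m : ℕ}
    (hV : finrank F V = 2 * m + 2)
    (h0 : Nat.card {v : V // Q v = 0} = 2 ^ m + 2 ^ (2 * m + 1))
    {U : Submodule F V} (hU : ∀ u ∈ U, Q u = 0) {k : ℕ} (hk : finrank F U = k)
    (hkm : k + 1 ≤ m) : ¬ 2 ∣ Nat.card (Ext Q U k) := by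
  classical
  have : Finite V := Module.finite_of_finite F
  have := Fintype.ofFinite V
  have : Finite (Submodule F V) :=
    Finite.of_injective (fun W : Submodule F V => (W : Set V)) SetLike.coe_injective
  have := Fintype.ofFinite (Submodule F V)
  have hcount := count_sing hF hS hV h0 k U hU hk
  rw [ncard_filter] at hcount
  have hcardU : (Finset.univ.filter (fun v : V => v ∈ U)).card = 2 ^ k := by
    rw [← ncard_filter, ← hk]
    exact card_sub hF U
  set t := Finset.univ.filter
    (fun W : Submodule F V => U ≤ W ∧ finrank F W = k + 1 ∧ ∀ u ∈ W, Q u = 0) with ht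
  have hcardt : Nat.card (Ext Q U k) = t.card := by
    unfold Ext
    rw [Nat.card_eq_fintype_card, Fintype.card_subtype]
  set S := Finset.univ.filter (fun v : V => (v ∈ perp Q U ∧ Q v = 0) ∧ v ∉ U) with hSdef
  -- the singular vectors of the perp: those in `U` and the others
  have h1 : (Finset.univ.filter (fun v : V => v ∈ perp Q U ∧ Q v = 0)).card = 2 ^ k + S.card := by
    rw [← Finset.card_filter_add_card_filter_not
      (s := Finset.univ.filter (fun v : V => v ∈ perp Q U ∧ Q v = 0)) (p := fun v => v ∈ U)]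
    congr 1
    · rw [← hcardU]
      congr 1
      ext v
      simp only [Finset.mem_filter, Finset.mem_univ, true_and]
      constructor
      · exact fun h => h.2
      · intro h
        exact ⟨⟨fun u hu => polar_of_sing hU hu h, hU v h⟩, h⟩
    · rw [hSdef, Finset.filter_filter]
  -- fibres
  have hfib : ∀ W ∈ t, (S.filter (fun v => U ⊔ Submodule.span F {v} = W)).card = 2 ^ k := by
    intro W hW
    rw [ht, Finset.mem_filter] at hW
    obtain ⟨-, hUW, hWk, hWts⟩ := hW
    have e : S.filter (fun v => U ⊔ Submodule.span F {v} = W)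
        = (Finset.univ.filter (fun v : V => v ∈ W)).filter (fun v => v ∉ U) := by
      ext v
      simp only [hSdef, Finset.mem_filter, Finset.mem_univ, true_and]
      constructor
      · rintro ⟨⟨-, hvU⟩, hsup⟩
        refine ⟨?_, hvU⟩
        rw [← hsup]
        exact Submodule.mem_sup_right (Submodule.mem_span_singleton_self v)
      · rintro ⟨hvW, hvU⟩
        refine ⟨⟨⟨fun u hu => polar_of_sing hWts (hUW hu) hvW, hWts v hvW⟩, hvU⟩, ?_⟩
        apply Submodule.eq_of_le_of_finrank_le
        · apply sup_le hUW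
          rw [Submodule.span_singleton_le_iff_mem]
          exact hvW
        · have hlt' : U < U ⊔ Submodule.span F {v} := by
            apply lt_of_le_of_ne le_sup_left
            intro h
            apply hvU
            rw [h]
            exact Submodule.mem_sup_right (Submodule.mem_span_singleton_self v)
          have := Submodule.finrank_lt_finrank_of_lt hlt'
          omega
    rw [e]
    have e2 := Finset.card_filter_add_card_filter_not
      (s := Finset.univ.filter (fun v : V => v ∈ W)) (p := fun v => v ∈ U)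
    have e3 : ((Finset.univ.filter (fun v : V => v ∈ W)).filter (fun v => v ∈ U))
        = Finset.univ.filter (fun v : V => v ∈ U) := by
      ext v
      simp only [Finset.mem_filter, Finset.mem_univ, true_and]
      constructor
      · exact fun h => h.2
      · exact fun h => ⟨hUW h, h⟩
    have e4 : (Finset.univ.filter (fun v : V => v ∈ W)).card = 2 ^ (k + 1) := by
      rw [← ncard_filter, ← hWk]
      exact card_sub hF W
    rw [e3, hcardU, e4, pow_succ] at e2
    omega
  have hmaps : ∀ v ∈ S, U ⊔ Submodule.span F {v} ∈ t := by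
    intro v hv
    simp only [hSdef, Finset.mem_filter, Finset.mem_univ, true_and] at hv
    obtain ⟨⟨hvp, hvQ⟩, hvU⟩ := hv
    rw [ht, Finset.mem_filter]
    refine ⟨Finset.mem_univ _, le_sup_left, ?_, ?_⟩
    · have hlt' : U < U ⊔ Submodule.span F {v} := by
        apply lt_of_le_of_ne le_sup_left
        intro h
        apply hvU
        rw [h]
        exact Submodule.mem_sup_right (Submodule.mem_span_singleton_self v)
      have h1 := Submodule.finrank_lt_finrank_of_lt hlt'
      have h2 := Submodule.finrank_add_le_finrank_add_finrank U (Submodule.span F {v})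
      have hv0 : v ≠ 0 := by
        rintro rfl
        exact hvU U.zero_mem
      have h3 : finrank F (Submodule.span F {v}) = 1 := finrank_span_singleton hv0
      omega
    · intro x hx
      obtain ⟨u, hu, y, hy, rfl⟩ := Submodule.mem_sup.mp hx
      obtain ⟨c, rfl⟩ := Submodule.mem_span_singleton.mp hy
      rw [q_add, hU u hu, q_smul, hvQ, polar_smul_r, mem_perp.mp hvp u hu]
      ring
  have h2 : S.card = t.card * 2 ^ k := by
    rw [Finset.card_eq_sum_card_fiberwise hmaps, Finset.sum_congr rfl hfib, Finset.sum_const,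
      smul_eq_mul]
  rw [h1, h2] at hcount
  rw [hcardt]
  intro hdvd
  obtain ⟨j, hj⟩ := hdvd
  rw [hj] at hcount
  obtain ⟨e, rfl⟩ : ∃ e, m = k + 1 + e := ⟨m - (k + 1), by omega⟩
  have e1 : 2 ^ (k + 1 + e + k) = 2 ^ k * 2 ^ k * (2 * 2 ^ e) := by ring
  have e2 : 2 ^ (2 * (k + 1 + e) + 1) = 2 ^ k * 2 ^ k * (2 * 2 ^ (2 * e + 2)) := by ring
  rw [e1, e2] at hcount
  have hpos : 0 < 2 ^ k * 2 ^ k := by positivity
  have e3 : (2 ^ k + 2 * j * 2 ^ k) * 2 ^ k = 2 ^ k * 2 ^ k * (1 + 2 * j) := by ring
  rw [e3, ← mul_add] at hcount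
  have := Nat.eq_of_mul_eq_mul_left hpos hcount
  omega

/-- A `2`-group stabilising a totally singular subspace of dimension at most `m - 1` (in a
space of dimension `2m + 2` of plus type) stabilises a totally singular subspace of one more
dimension containing it. -/
theorem ext_step (hF : Fintype.card F = 2) (hS : Sep Q) {m : ℕ}
    (hV : finrank F V = 2 * m + 2)
    (h0 : Nat.card {v : V // Q v = 0} = 2 ^ m + 2 ^ (2 * m + 1))
    (ρ : G →* (V ≃ₗ[F] V)) (hρ : ∀ g, ρ g ∈ O Q) {P : Subgroup G} (hP : IsPGroup 2 P)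
    {U : Submodule F V} (hU : ∀ u ∈ U, Q u = 0) (hinv : ∀ g ∈ P, ∀ u ∈ U, ρ g u ∈ U) {k : ℕ}
    (hk : finrank F U = k) (hkm : k + 1 ≤ m) :
    ∃ U' : Submodule F V, U ≤ U' ∧ (∀ u ∈ U', Q u = 0) ∧ (∀ g ∈ P, ∀ u ∈ U', ρ g u ∈ U') ∧
      finrank F U' = k + 1 := by
  classical
  let _ := extAction ρ hρ P U hinv k
  have : Fact (Nat.Prime 2) := ⟨Nat.prime_two⟩
  obtain ⟨W, hW⟩ := hP.nonempty_fixed_point_of_prime_not_dvd_card (Ext Q U k)
    (card_ext_odd hF hS hV h0 hU hk hkm)
  rw [MulAction.mem_fixedPoints] at hW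
  refine ⟨W.1, W.2.1, W.2.2.2, ?_, W.2.2.1⟩
  intro g hg u hu
  have h1 := congrArg Subtype.val (hW ⟨g, hg⟩)
  have h2 : W.1.map ((ρ g : V ≃ₗ[F] V) : V →ₗ[F] V) = W.1 := h1
  rw [← h2]
  exact ⟨u, hu, rfl⟩

end ext

section top

variable {F : Type*} [Field F] [Fintype F] {V : Type*} [AddCommGroup V] [Module F V]
  [FiniteDimensional F V]
variable {Q : QuadraticForm F V} {G : Type*} [Group G]

/-- A `2`-subgroup stabilises a totally singular subspace of dimension `m` (in dimension
`2m + 2`, plus type). -/
theorem exists_inv_ts (hF : Fintype.card F = 2) (hS : Sep Q) {m : ℕ}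
    (hV : finrank F V = 2 * m + 2)
    (h0 : Nat.card {v : V // Q v = 0} = 2 ^ m + 2 ^ (2 * m + 1))
    (ρ : G →* (V ≃ₗ[F] V)) (hρ : ∀ g, ρ g ∈ O Q) {P : Subgroup G} (hP : IsPGroup 2 P) :
    ∀ k, k ≤ m → ∃ T : Submodule F V, (∀ u ∈ T, Q u = 0) ∧ (∀ g ∈ P, ∀ u ∈ T, ρ g u ∈ T) ∧
      finrank F T = k := by
  intro k
  induction k with
  | zero =>
    intro _
    refine ⟨⊥, ?_, ?_, finrank_bot F V⟩
    · intro u hu
      rw [(Submodule.mem_bot F).mp hu]
      exact QuadraticMap.map_zero Q
    · intro g _ u hu
      rw [(Submodule.mem_bot F).mp hu, map_zero]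
      exact Submodule.zero_mem _
  | succ k ih =>
    intro hk
    obtain ⟨U, hU, hinv, hfin⟩ := ih (by omega)
    obtain ⟨U', -, hU', hinv', hfin'⟩ := ext_step hF hS hV h0 ρ hρ hP hU hinv hfin (by omega)
    exact ⟨U', hU', hinv', hfin'⟩

/-- The non-singular vectors of the orthogonal complement of a totally singular subspace of
dimension `m` form a single coset. -/
theorem unc (hF : Fintype.card F = 2) (hS : Sep Q) {m : ℕ}
    (hV : finrank F V = 2 * m + 2)
    (h0 : Nat.card {v : V // Q v = 0} = 2 ^ m + 2 ^ (2 * m + 1))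
    {T : Submodule F V} (hT : ∀ u ∈ T, Q u = 0) (hfin : finrank F T = m) {z z' : V}
    (hz : z ∈ perp Q T) (hQz : Q z ≠ 0) (hz' : z' ∈ perp Q T) (hQz' : Q z' ≠ 0) :
    z' - z ∈ T := by
  classical
  have : Finite V := Module.finite_of_finite F
  have := Fintype.ofFinite V
  have hcount := count_sing hF hS hV h0 m T hT hfin
  have hperp := card_perp hS hF T
  rw [ncard_filter] at hcount
  rw [ncard_filter, hfin, hV] at hperp
  have hcardT : (Finset.univ.filter (fun v : V => v ∈ T)).card = 2 ^ m := by
    rw [← ncard_filter, ← hfin]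
    exact card_sub hF T
  set D := Finset.univ.filter (fun v : V => v ∈ perp Q T ∧ Q v ≠ 0) with hD
  have hsplit := Finset.card_filter_add_card_filter_not
    (s := Finset.univ.filter (fun v : V => v ∈ perp Q T)) (p := fun v => Q v = 0)
  rw [Finset.filter_filter, Finset.filter_filter] at hsplit
  have hDcard : D.card = 2 ^ m := by
    have e1 : (2 : ℕ) ^ (m + m) = 2 ^ m * 2 ^ m := by ring
    have e2 : (2 : ℕ) ^ (2 * m + 1) = 2 * 2 ^ m * 2 ^ m := by ring
    have e3 : (2 : ℕ) ^ (2 * m + 2) = 4 * 2 ^ m * 2 ^ m := by ring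
    rw [e1, e2] at hcount
    rw [e3] at hperp
    have hpos : 0 < 2 ^ m := by positivity
    have e4 : (Finset.univ.filter (fun v : V => v ∈ perp Q T ∧ Q v = 0)).card = 3 * 2 ^ m := by
      apply Nat.eq_of_mul_eq_mul_right hpos
      rw [hcount]
      ring
    have e5 : (Finset.univ.filter (fun v : V => v ∈ perp Q T)).card = 4 * 2 ^ m := by
      apply Nat.eq_of_mul_eq_mul_right hpos
      rw [hperp]
    rw [e4, e5] at hsplit
    have e6 : (Finset.univ.filter (fun v : V => v ∈ perp Q T ∧ ¬ Q v = 0)).card = 2 ^ m := by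
      omega
    exact e6
  have himg : (Finset.univ.filter (fun v : V => v ∈ T)).image (fun u => z + u) = D := by
    apply Finset.eq_of_subset_of_card_le
    · intro v hv
      rw [Finset.mem_image] at hv
      obtain ⟨u, hu, rfl⟩ := hv
      simp only [Finset.mem_filter, Finset.mem_univ, true_and] at hu
      simp only [hD, Finset.mem_filter, Finset.mem_univ, true_and]
      refine ⟨(perp Q T).add_mem hz (fun x hx => polar_of_sing hT hx hu), ?_⟩
      rw [q_add, hT u hu, polar_comm, mem_perp.mp hz u hu, add_zero, add_zero]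
      exact hQz
    · rw [Finset.card_image_of_injective _ (add_right_injective z), hcardT, hDcard]
  have hz'D : z' ∈ D := by
    simp only [hD, Finset.mem_filter, Finset.mem_univ, true_and]
    exact ⟨hz', hQz'⟩
  rw [← himg, Finset.mem_image] at hz'D
  obtain ⟨u, hu, rfl⟩ := hz'D
  simp only [Finset.mem_filter, Finset.mem_univ, true_and] at hu
  rw [add_sub_cancel_left]
  exact hu

/-- There is a non-singular vector orthogonal to a totally singular subspace of dimension
`m`. -/
theorem exists_nonsing_perp (hF : Fintype.card F = 2) (hS : Sep Q) {m : ℕ}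
    (hV : finrank F V = 2 * m + 2)
    (h0 : Nat.card {v : V // Q v = 0} = 2 ^ m + 2 ^ (2 * m + 1))
    {T : Submodule F V} (hT : ∀ u ∈ T, Q u = 0) (hfin : finrank F T = m) :
    ∃ z, z ∈ perp Q T ∧ Q z ≠ 0 := by
  classical
  have : Finite V := Module.finite_of_finite F
  have := Fintype.ofFinite V
  by_contra hcon
  push Not at hcon
  have hcount := count_sing hF hS hV h0 m T hT hfin
  have hperp := card_perp hS hF T
  rw [hfin, hV] at hperp
  have e : {v : V // v ∈ perp Q T ∧ Q v = 0} ≃ ↥(perp Q T) :=
    Equiv.subtypeEquivRight (fun v => ⟨fun h => h.1, fun h => ⟨h, hcon v h⟩⟩)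
  rw [Nat.card_congr e, hperp] at hcount
  have e1 : (2 : ℕ) ^ (m + m) = 2 ^ m * 2 ^ m := by ring
  have e2 : (2 : ℕ) ^ (2 * m + 1) = 2 * (2 ^ m * 2 ^ m) := by ring
  have e3 : (2 : ℕ) ^ (2 * m + 2) = 4 * (2 ^ m * 2 ^ m) := by ring
  rw [e1, e2, e3] at hcount
  have hpos : 0 < 2 ^ m * 2 ^ m := by positivity
  omega

/-- An isometry fixing pointwise a totally singular subspace of dimension `m` has order
dividing four. -/
theorem pow_four_of_fix (hF : Fintype.card F = 2) (hS : Sep Q) {m : ℕ}
    (hV : finrank F V = 2 * m + 2)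
    (h0 : Nat.card {v : V // Q v = 0} = 2 ^ m + 2 ^ (2 * m + 1))
    {T : Submodule F V} (hT : ∀ u ∈ T, Q u = 0) (hfin : finrank F T = m) {g : V ≃ₗ[F] V}
    (hg : g ∈ O Q) (hfix : ∀ u ∈ T, g u = u) : g ^ 4 = 1 := by
  have h20 := two_eq_zero_of_card hF
  have h2v : ∀ x : V, x + x = 0 := by
    intro x
    rw [← two_smul F x, h20, zero_smul]
  obtain ⟨z, hz, hQz⟩ := exists_nonsing_perp hF hS hV h0 hT hfin
  -- `g` preserves the perp
  have hgp : ∀ y ∈ perp Q T, g y ∈ perp Q T := by
    intro y hy
    rw [mem_perp]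
    intro u hu
    have := polar_of_mem_O hg u y
    rw [hfix u hu] at this
    rw [this]
    exact mem_perp.mp hy u hu
  have hgz : g z - z ∈ T := unc hF hS hV h0 hT hfin hz hQz (hgp z hz) (by rw [hg z]; exact hQz)
  -- step 1
  have s1 : ∀ v, g v - v ∈ perp Q T := by
    intro v
    rw [mem_perp]
    intro u hu
    have := polar_of_mem_O hg u v
    rw [hfix u hu] at this
    rw [polar_sub_right, this, sub_self]
  -- step 2
  have s2 : ∀ y ∈ perp Q T, polar Q z (g y - y) = 0 := by
    intro y hy
    have e1 := polar_of_mem_O hg z y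
    have e2 : polar Q (g z - z) (g y) = 0 := mem_perp.mp (hgp y hy) _ hgz
    rw [polar_sub_left] at e2
    rw [polar_sub_right]
    linear_combination e1 - e2
  -- step 3
  have s3 : ∀ y ∈ perp Q T, polar Q z y = 0 → g y - y ∈ T := by
    intro y hy hzy
    by_cases hQy : Q y = 0
    · have h1 : Q (y + z) ≠ 0 := by
        rw [q_add, hQy, polar_comm, hzy, zero_add, add_zero]
        exact hQz
      have h2 := unc hF hS hV h0 hT hfin hz hQz ((perp Q T).add_mem hy hz) h1
      rw [add_sub_cancel_right] at h2
      rw [hfix y h2, sub_self]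
      exact T.zero_mem
    · have h2 := unc hF hS hV h0 hT hfin hz hQz hy hQy
      have h3 := hfix _ h2
      have h4 : g y - y = g z - z := by
        rw [map_sub] at h3
        have : g y - y = (g y - g z - (y - z)) + (g z - z) := by abel
        rw [this, h3, sub_self, zero_add]
      rw [h4]
      exact hgz
  -- the square of `g - 1`
  have hn2 : ∀ v, g (g v - v) - (g v - v) = g (g v) - v := by
    intro v
    have : g (g v - v) - (g v - v) = g (g v) - v - ((g v + g v) - (v + v)) := by
      rw [map_sub]
      abel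
    rw [this, h2v, h2v, sub_zero, sub_zero]
  apply LinearEquiv.ext
  intro v
  have a1 := s1 v
  have a2 := s1 (g v - v)
  have a3 := s2 (g v - v) a1
  rw [hn2] at a2 a3
  have a4 := s3 (g (g v) - v) a2 a3
  have a5 := hfix _ a4
  have a6 := hn2 (g (g v) - v)
  rw [a5, sub_self, map_sub, map_sub] at a6
  have a7 : g (g (g (g v))) = v := by
    have e1 : g (g (g (g v))) = (g (g (g (g v))) - g (g v) - (g (g v) - v))
        + (g (g v) + g (g v)) - (v + v) + v := by abel
    rw [e1, ← a6, h2v (g (g v)), h2v v]
    abel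
  have hp : g ^ 4 = g * g * g * g := by
    rw [show (4 : ℕ) = 1 + 1 + 1 + 1 from rfl, pow_add, pow_add, pow_add, pow_one]
  rw [hp, LinearEquiv.mul_apply, LinearEquiv.mul_apply, LinearEquiv.mul_apply]
  exact a7

end top

end Cfsg.Agent.Lib.Helper44.Syl1
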