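import Mathlib
import Cfsg.Agent.Lib.Helper44.Syl1
import Cfsg.Agent.Lib.Helper44.OMat
import Cfsg.Agent.Lib.Helper44.NegPairs

set_option autoImplicit false

namespace Cfsg.Agent.Lib.Helper44.Syl2

open Module QuadraticMap
open scoped Pointwise
open Cfsg.Agent.Lib.Helper44.QSpace Cfsg.Agent.Lib.Helper44.OGroup Cfsg.Agent.Lib.Helper44.CD2a
open Cfsg.Agent.Lib.Helper44.TSTrans Cfsg.Agent.Lib.Helper44.Inv7 Cfsg.Agent.Lib.Helper44.Syl1
open Cfsg.Agent.Lib.Helper44.Eichler

section abs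

variable {F : Type*} [Field F] [Fintype F] {V : Type*} [AddCommGroup V] [Module F V]
  [FiniteDimensional F V]
variable {Q : QuadraticForm F V} {G : Type*} [Group G]

omit [Fintype F] [FiniteDimensional F V] in
theorem rho_inv_apply (ρ : G →* (V ≃ₗ[F] V)) (g : G) (u : V) : ρ g⁻¹ (ρ g u) = u := by
  rw [← LinearEquiv.mul_apply, ← map_mul, inv_mul_cancel, map_one]
  rfl

omit [Fintype F] [FiniteDimensional F V] in
theorem rho_apply_inv (ρ : G →* (V ≃ₗ[F] V)) (g : G) (u : V) : ρ g (ρ g⁻¹ u) = u := by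
  rw [← LinearEquiv.mul_apply, ← map_mul, mul_inv_cancel, map_one]
  rfl

/-- The elements acting trivially on a subspace. -/
def fixer (ρ : G →* (V ≃ₗ[F] V)) (T : Submodule F V) : Subgroup G where
  carrier := {g | ∀ u ∈ T, ρ g u = u}
  mul_mem' := by
    intro a b ha hb u hu
    rw [map_mul, LinearEquiv.mul_apply, hb u hu, ha u hu]
  one_mem' := by
    intro u _
    rw [map_one]
    rfl
  inv_mem' := by
    intro a ha u hu
    have h1 := ha u hu
    conv_lhs => rw [← h1]
    exact rho_inv_apply ρ a u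

omit [Fintype F] [FiniteDimensional F V] in
theorem mem_fixer {ρ : G →* (V ≃ₗ[F] V)} {T : Submodule F V} {g : G} :
    g ∈ fixer ρ T ↔ ∀ u ∈ T, ρ g u = u := Iff.rfl

theorem fixer_isPGroup (hF : Fintype.card F = 2) (hS : Sep Q) {m : ℕ}
    (hV : finrank F V = 2 * m + 2)
    (h0 : Nat.card {v : V // Q v = 0} = 2 ^ m + 2 ^ (2 * m + 1))
    (ρ : G →* (V ≃ₗ[F] V)) (hρ : ∀ g, ρ g ∈ O Q) (hinj : Function.Injective ρ)
    {T : Submodule F V} (hT : ∀ u ∈ T, Q u = 0) (hfin : finrank F T = m) :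
    IsPGroup 2 (fixer ρ T) := by
  intro g
  refine ⟨2, ?_⟩
  apply Subtype.ext
  apply hinj
  rw [Subgroup.coe_pow, map_pow, Subgroup.coe_one, map_one]
  exact pow_four_of_fix hF hS hV h0 hT hfin (hρ g) g.2

/-- The fixer of an invariant totally singular subspace of dimension `m` is contained in the
Sylow `2`-subgroup. -/
theorem fixer_le_sylow (hF : Fintype.card F = 2) (hS : Sep Q) {m : ℕ}
    (hV : finrank F V = 2 * m + 2)
    (h0 : Nat.card {v : V // Q v = 0} = 2 ^ m + 2 ^ (2 * m + 1))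
    (ρ : G →* (V ≃ₗ[F] V)) (hρ : ∀ g, ρ g ∈ O Q) (hinj : Function.Injective ρ)
    (H : Sylow 2 G) {T : Submodule F V} (hT : ∀ u ∈ T, Q u = 0) (hfin : finrank F T = m)
    (hinv : ∀ g ∈ (H : Subgroup G), ∀ u ∈ T, ρ g u ∈ T) : fixer ρ T ≤ (H : Subgroup G) := by
  have hK := fixer_isPGroup hF hS hV h0 ρ hρ hinj hT hfin
  have hnorm : (H : Subgroup G) ≤ Subgroup.normalizer (fixer ρ T : Set G) := by
    intro h hh
    rw [Subgroup.mem_normalizer_iff]
    intro k
    constructor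
    · intro hk u hu
      have hk' : ∀ u ∈ T, ρ k u = u := hk
      rw [map_mul, map_mul, LinearEquiv.mul_apply, LinearEquiv.mul_apply,
        hk' _ (hinv h⁻¹ (inv_mem hh) u hu)]
      exact rho_apply_inv ρ h u
    · intro hk u hu
      have hk' : ∀ u ∈ T, ρ (h * k * h⁻¹) u = u := hk
      have h1 := hk' (ρ h u) (hinv h hh u hu)
      rw [map_mul, map_mul, LinearEquiv.mul_apply, LinearEquiv.mul_apply, rho_inv_apply] at h1
      exact (ρ h).injective h1
  have hsup := IsPGroup.to_sup_of_normal_right' H.isPGroup' hK hnorm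
  have := H.is_maximal' hsup le_sup_left
  rw [← this]
  exact le_sup_right

omit [Fintype F] in
/-- A non-trivial isometry fixing two subspaces of dimension `m` pointwise. -/
theorem exists_fix_two (hS : Sep Q) {m : ℕ} (hV : finrank F V = 2 * m + 2)
    {T T' : Submodule F V} (hfin : finrank F T = m) (hfin' : finrank F T' = m) :
    ∃ t : V ≃ₗ[F] V, t ∈ O Q ∧ t ≠ 1 ∧ (∀ u ∈ T, t u = u) ∧ (∀ u ∈ T', t u = u) := by
  have hX := finrank_perp hS (T ⊔ T')
  have hW := Submodule.finrank_add_le_finrank_add_finrank T T'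
  have hX2 : 2 ≤ finrank F (perp Q (T ⊔ T')) := by omega
  by_cases h : ∃ v ∈ perp Q (T ⊔ T'), Q v ≠ 0
  · obtain ⟨v, hv, hQv⟩ := h
    have hv0 : v ≠ 0 := ne_zero_of_q_ne_zero hQv
    have hfix : ∀ y ∈ T ⊔ T', reflE Q v y = y := by
      intro y hy
      rw [reflE_apply, mem_perp.mp hv y hy, mul_zero, zero_smul, sub_zero]
    refine ⟨reflE Q v, reflE_mem Q v, ?_, fun u hu => hfix u (Submodule.mem_sup_left hu),
      fun u hu => hfix u (Submodule.mem_sup_right hu)⟩
    intro h1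
    obtain ⟨y, hy⟩ : ∃ y, polar Q v y ≠ 0 := by
      by_contra hcon
      push Not at hcon
      exact hv0 (hS v hcon)
    have h2 : reflE Q v y = y := by rw [h1]; rfl
    rw [reflE_apply, sub_eq_self] at h2
    rcases smul_eq_zero.mp h2 with h3 | h3
    · rw [polar_comm] at hy
      exact mul_ne_zero (inv_ne_zero hQv) hy h3
    · exact hv0 h3
  · push Not at h
    have hne : perp Q (T ⊔ T') ≠ ⊥ := by
      intro h0
      rw [h0, finrank_bot] at hX2
      omega
    obtain ⟨u, hu, hu0⟩ := Submodule.exists_mem_ne_zero_of_ne_bot hne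
    have hlt : Submodule.span F {u} < perp Q (T ⊔ T') := by
      apply lt_of_le_of_ne
      · rw [Submodule.span_singleton_le_iff_mem]
        exact hu
      · intro h0
        rw [← h0, finrank_span_singleton hu0] at hX2
        omega
    obtain ⟨w, hw, hwu⟩ := SetLike.exists_of_lt hlt
    have hQu : Q u = 0 := h u hu
    have hQw : Q w = 0 := h w hw
    have huw : polar Q u w = 0 := polar_of_sing h hu hw
    have hfix : ∀ y ∈ T ⊔ T', eichE Q hQu huw y = y := by
      intro y hy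
      have e1 : polar Q u y = 0 := by rw [polar_comm]; exact mem_perp.mp hu y hy
      have e2 : polar Q w y = 0 := by rw [polar_comm]; exact mem_perp.mp hw y hy
      rw [eichE_apply, e1, e2]
      simp
    refine ⟨eichE Q hQu huw, eichE_mem Q hQu huw, ?_, fun u hu => hfix u (Submodule.mem_sup_left hu),
      fun u hu => hfix u (Submodule.mem_sup_right hu)⟩
    intro h1
    obtain ⟨y, hy⟩ : ∃ y, polar Q u y ≠ 0 := by
      by_contra hcon
      push Not at hcon
      exact hu0 (hS u hcon)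
    have h2 : eichE Q hQu huw y = y := by rw [h1]; rfl
    rw [eichE_apply, hQw, zero_mul, zero_smul, sub_zero] at h2
    apply hwu
    rw [Submodule.mem_span_singleton]
    refine ⟨(polar Q u y)⁻¹ * polar Q w y, ?_⟩
    have h3 : polar Q u y • w = polar Q w y • u := by
      have : y + polar Q u y • w - polar Q w y • u - y = 0 := by rw [h2, sub_self]
      have h4 : polar Q u y • w - polar Q w y • u = 0 := by
        rw [← this]
        abel
      exact sub_eq_zero.mp h4
    rw [mul_smul, ← h3, smul_smul, inv_mul_cancel₀ hy, one_smul]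

/-- Two Sylow `2`-subgroups of the orthogonal group of a plus-type space over the field with two
elements intersect non-trivially. -/
theorem sylow_inter (hF : Fintype.card F = 2) (hS : Sep Q) {m : ℕ}
    (hV : finrank F V = 2 * m + 2)
    (h0 : Nat.card {v : V // Q v = 0} = 2 ^ m + 2 ^ (2 * m + 1))
    (ρ : G →* (V ≃ₗ[F] V)) (hρ : ∀ g, ρ g ∈ O Q) (hinj : Function.Injective ρ)
    (hsurj : ∀ t ∈ O Q, ∃ g, ρ g = t) (H : Sylow 2 G) (x : G) :
    (H : Subgroup G) ⊓ MulAut.conj x • (H : Subgroup G) ≠ ⊥ := by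
  obtain ⟨T, hT, hinv, hfin⟩ := exists_inv_ts hF hS hV h0 ρ hρ H.isPGroup' m le_rfl
  have hK := fixer_le_sylow hF hS hV h0 ρ hρ hinj H hT hfin hinv
  have hfin' : finrank F (T.map ((ρ x : V ≃ₗ[F] V) : V →ₗ[F] V)) = m := by
    rw [LinearEquiv.finrank_map_eq]
    exact hfin
  obtain ⟨t, htO, ht1, htT, htT'⟩ := exists_fix_two hS hV hfin hfin'
  obtain ⟨g, hg⟩ := hsurj t htO
  have hgK : g ∈ fixer ρ T := fun u hu => by rw [hg]; exact htT u hu
  have hgK' : x⁻¹ * g * x ∈ fixer ρ T := by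
    intro u hu
    have h1 : t (ρ x u) = ρ x u := htT' (ρ x u) ⟨u, hu, rfl⟩
    rw [map_mul, map_mul, LinearEquiv.mul_apply, LinearEquiv.mul_apply, hg, h1]
    exact rho_inv_apply ρ x u
  intro hbot
  have hmem : g ∈ (H : Subgroup G) ⊓ MulAut.conj x • (H : Subgroup G) := by
    refine Subgroup.mem_inf.mpr ⟨hK hgK, ?_⟩
    refine (Subgroup.mem_smul_pointwise_iff_exists _ _ _).mpr ⟨x⁻¹ * g * x, hK hgK', ?_⟩
    rw [MulAut.smul_def, MulAut.conj_apply]
    group
  rw [hbot, Subgroup.mem_bot] at hmem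
  apply ht1
  rw [← hg, hmem, map_one]

end abs

section conc

open Cfsg.Agent.Lib.Helper44.NegPairs Cfsg.Agent.Lib.Helper44.OMat
  Cfsg.Agent.Lib.Helper44.QCount

variable {F : Type*} [Field F] [Fintype F]

/-- Any two Sylow `2`-subgroups of `O⁺(2m, 2)` intersect non-trivially. -/
theorem plus_sylow (hF : Fintype.card F = 2) {m : ℕ} (hm : 1 ≤ m)
    (H : Sylow 2 (Cfsg.isometryGroup F (Cfsg.quadFormPlus m F)))
    (x : Cfsg.isometryGroup F (Cfsg.quadFormPlus m F)) :
    (H : Subgroup (Cfsg.isometryGroup F (Cfsg.quadFormPlus m F)))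
      ⊓ MulAut.conj x • (H : Subgroup _) ≠ ⊥ := by
  classical
  obtain ⟨n, rfl⟩ : ∃ n, m = n + 1 := ⟨m - 1, by omega⟩
  have hS := sep_plusQ (F := F) (n + 1)
  have hV : finrank F (Fin (n + 1) ⊕ Fin (n + 1) → F) = 2 * n + 2 := by
    rw [Module.finrank_fintype_fun_eq_card, Fintype.card_sum, Fintype.card_fin]
    omega
  have h0 : Nat.card {v : Fin (n + 1) ⊕ Fin (n + 1) → F // plusQ (n + 1) F v = 0}
      = 2 ^ n + 2 ^ (2 * n + 1) := by
    have h1 := card_plusForm_mul (F := F) (κ := Fin (n + 1)) (0 : F)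
    rw [if_pos rfl, hF, Fintype.card_fin] at h1
    have h2 : Nat.card {v : Fin (n + 1) ⊕ Fin (n + 1) → F // plusQ (n + 1) F v = 0}
        = Nat.card {v : Fin (n + 1) ⊕ Fin (n + 1) → F // plusForm v = 0} := rfl
    rw [h2]
    have e1 : (2 : ℕ) ^ (n + 1 + 1) = 4 * 2 ^ n := by ring
    have e2 : (2 : ℕ) ^ (n + 1) = 2 * 2 ^ n := by ring
    have e3 : (2 : ℕ) ^ (2 * n + 1) = 2 * (2 ^ n * 2 ^ n) := by ring
    rw [e1, e2] at h1
    rw [e3]
    have hpos : 0 < 2 ^ n := by positivity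
    obtain ⟨A, hA⟩ : ∃ A, 2 ^ n = A + 1 := ⟨2 ^ n - 1, by omega⟩
    rw [hA] at h1 ⊢
    have e4 : 2 * (A + 1) - 1 = 2 * A + 1 := by omega
    rw [e4] at h1
    nlinarith [h1]
  exact sylow_inter hF hS hV h0
    ((O (plusQ (n + 1) F)).subtype.comp (isoEquiv (plusQ (n + 1) F)).toMonoidHom)
    (fun g => (isoEquiv (plusQ (n + 1) F) g).2)
    (Subtype.val_injective.comp (isoEquiv (plusQ (n + 1) F)).injective)
    (fun t ht => ⟨(isoEquiv (plusQ (n + 1) F)).symm ⟨t, ht⟩, by
      show ((isoEquiv (plusQ (n + 1) F)) ((isoEquiv (plusQ (n + 1) F)).symm ⟨t, ht⟩)).1 = t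
      rw [MulEquiv.apply_symm_apply]⟩) H x

end conc

end Cfsg.Agent.Lib.Helper44.Syl2
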