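import Mathlib

set_option autoImplicit false

/-!
Abstract group theory for "squares lie in the derived subgroup" of kernels of a
homomorphism `δ` (a determinant), closed under wreath products by a group of order two
and under direct products.
-/

namespace Cfsg.Agent.Lib.Helper44.SylE1

open scoped commutatorElement

section defs

variable {S : Type*} [Group S] {Z : Type*} [CommGroup Z]

/-- squares of kernel elements lie in the derived subgroup of the kernel -/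
def P1 (δ : S →* Z) : Prop := ∀ x ∈ δ.ker, x ^ 2 ∈ ⁅δ.ker, δ.ker⁆

/-- the image of `δ` is cyclic -/
def R1 (δ : S →* Z) : Prop := ∃ g : S, ∀ x : S, ∃ i : ℤ, δ x = δ g ^ i

/-- squares of kernel elements lie in the derived subgroup of the whole group -/
def R2 (δ : S →* Z) : Prop := ∀ x ∈ δ.ker, x ^ 2 ∈ commutator S

/-- the image of `δ` is `{1, ε}` and `ε` is the image of an element of square one -/
def P2 (δ : S →* Z) (ε : Z) : Prop :=
  ∃ d : S, d ^ 2 = 1 ∧ δ d = ε ∧ ∀ x : S, δ x = 1 ∨ δ x = ε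

theorem P1.r2 {δ : S →* Z} (h : P1 δ) : R2 δ := fun x hx => by
  have h1 := h x hx
  rw [commutator_def]
  exact Subgroup.commutator_mono le_top le_top h1

theorem P2.r1 {δ : S →* Z} {ε : Z} (h : P2 δ ε) : R1 δ := by
  obtain ⟨d, hd, hε, hx⟩ := h
  refine ⟨d, fun x => ?_⟩
  rcases hx x with h1 | h1
  · exact ⟨0, by rw [h1, zpow_zero]⟩
  · exact ⟨1, by rw [h1, hε, zpow_one]⟩

theorem mem_comm_iff (x : S) : x ∈ commutator S ↔ Abelianization.of x = 1 := by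
  rw [← Abelianization.ker_of, MonoidHom.mem_ker]

theorem sq_mul_sq_mem (a b : S) (h : (a * b) ^ 2 ∈ commutator S) : a ^ 2 * b ^ 2 ∈ commutator S := by
  rw [mem_comm_iff] at h ⊢
  rw [map_pow, map_mul] at h
  rw [map_mul, map_pow, map_pow, ← mul_pow]
  exact h

theorem mul_mul_mem (a b : S) (h : (a * b) ^ 2 ∈ commutator S) : (a * b) * (b * a) ∈ commutator S := by
  rw [mem_comm_iff] at h ⊢
  rw [map_pow, map_mul] at h
  rw [map_mul, map_mul, map_mul, mul_comm (Abelianization.of b) (Abelianization.of a), ← sq]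
  exact h

end defs

section wreath

variable {S : Type*} [Group S] {Z : Type*} [CommGroup Z] {W : Type*} [Group W]

theorem wreath_P1 (i₁ i₂ : S →* W) (τ : W)
    (h1 : ∀ a b, i₁ a * i₂ b = i₂ b * i₁ a) (h2 : τ * τ = 1)
    (h3 : ∀ a, τ * i₁ a * τ⁻¹ = i₂ a)
    (h4 : ∀ w, ∃ a b, w = i₁ a * i₂ b ∨ w = i₁ a * i₂ b * τ)
    (δ : S →* Z) (δ₁ : W →* Z) (h5 : ∀ a, δ₁ (i₁ a) = δ a) (h5' : ∀ a, δ₁ (i₂ a) = δ a)
    (h6 : δ₁ τ = 1) (hR1 : R1 δ) (hR2 : R2 δ) : P1 δ₁ := by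
  have hτinv : τ⁻¹ = τ := inv_eq_of_mul_eq_one_left h2
  have h3' : ∀ a, τ * i₂ a * τ⁻¹ = i₁ a := by
    intro a
    rw [← h3 a, hτinv]
    calc τ * (τ * i₁ a * τ) * τ = (τ * τ) * i₁ a * (τ * τ) := by group
      _ = i₁ a := by rw [h2, one_mul, mul_one]
  have hCn : (⁅δ₁.ker, δ₁.ker⁆ : Subgroup W).Normal := inferInstance
  let j : S × S →* W := MonoidHom.noncommCoprod i₁ i₂ (fun a b => h1 a b)
  have hj : ∀ a b, j (a, b) = i₁ a * i₂ b := fun a b => rfl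
  have hjK : ∀ a b, δ a * δ b = 1 → j (a, b) ∈ δ₁.ker := by
    intro a b hab
    rw [MonoidHom.mem_ker, hj, map_mul, h5, h5', hab]
  have hτK : τ ∈ δ₁.ker := by rw [MonoidHom.mem_ker, h6]
  have hτj : ∀ x y, τ * j (x, y) * τ⁻¹ = j (y, x) := by
    intro x y
    rw [hj, hj, h1 y x, ← h3 x, ← h3' y]
    group
  obtain ⟨g, hg⟩ := hR1
  have step1 : ∀ c ∈ commutator S, i₂ c ∈ (⁅δ₁.ker, δ₁.ker⁆ : Subgroup W) := by
    have hle : commutator S ≤ (⁅δ₁.ker, δ₁.ker⁆ : Subgroup W).comap i₂ := by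
      rw [commutator_def, Subgroup.commutator_le]
      intro x _ y _
      obtain ⟨i, hi⟩ := hg x
      obtain ⟨k, hk⟩ := hg y
      rw [Subgroup.mem_comap]
      have hX : j ((g ^ i)⁻¹, x) ∈ δ₁.ker :=
        hjK _ _ (by rw [map_inv, map_zpow, hi, inv_mul_cancel])
      have hY : j ((g ^ k)⁻¹, y) ∈ δ₁.ker :=
        hjK _ _ (by rw [map_inv, map_zpow, hk, inv_mul_cancel])
      have hc := Subgroup.commutator_mem_commutator hX hY
      have e : ⁅j ((g ^ i)⁻¹, x), j ((g ^ k)⁻¹, y)⁆ = i₂ ⁅x, y⁆ := by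
        rw [← map_commutatorElement]
        have h7 : ⁅(((g ^ i)⁻¹, x) : S × S), ((g ^ k)⁻¹, y)⁆ = (1, ⁅x, y⁆) := by
          have h8 : Commute ((g ^ i)⁻¹) ((g ^ k)⁻¹) :=
            ((Commute.refl g).zpow_zpow i k).inv_inv
          have h9 : ⁅(g ^ i)⁻¹, (g ^ k)⁻¹⁆ = 1 := commutatorElement_eq_one_iff_commute.mpr h8
          rw [← h9]
          rfl
        rw [h7, hj, map_one, one_mul]
      rw [← e]
      exact hc
    exact fun c hc => hle hc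
  have step2 : ∀ a : S, i₁ (a ^ 2) * (i₂ (a ^ 2))⁻¹ ∈ (⁅δ₁.ker, δ₁.ker⁆ : Subgroup W) := by
    intro a
    have hY : j (a⁻¹, a) ∈ δ₁.ker := hjK _ _ (by rw [map_inv, inv_mul_cancel])
    have hc := Subgroup.commutator_mem_commutator hτK hY
    have e : ⁅τ, j (a⁻¹, a)⁆ = i₁ (a ^ 2) * (i₂ (a ^ 2))⁻¹ := by
      rw [commutatorElement_def, hτj, ← map_inv, ← map_mul, ← map_inv, ← hj]
      congr 1
      ext
      · simp [sq]
      · simp [sq]
    rw [← e]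
    exact hc
  have step3 : ∀ s ∈ δ.ker, i₁ s * (i₂ s)⁻¹ ∈ (⁅δ₁.ker, δ₁.ker⁆ : Subgroup W) := by
    intro s hs
    have hY : i₂ s ∈ δ₁.ker := by
      rw [MonoidHom.mem_ker, h5']
      exact hs
    have hc := Subgroup.commutator_mem_commutator hτK hY
    have e : ⁅τ, i₂ s⁆ = i₁ s * (i₂ s)⁻¹ := by
      rw [commutatorElement_def, h3']
    rw [← e]
    exact hc
  intro w hw
  obtain ⟨a, b, hwab | hwab⟩ := h4 w
  · have hab : δ a * δ b = 1 := by
      have h7 := hw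
      rw [MonoidHom.mem_ker, hwab, map_mul, h5, h5'] at h7
      exact h7
    have habk : a * b ∈ δ.ker := by rw [MonoidHom.mem_ker, map_mul, hab]
    have e : w ^ 2 = (i₁ (a ^ 2) * (i₂ (a ^ 2))⁻¹) * i₂ (a ^ 2 * b ^ 2) := by
      rw [hwab, ← hj, ← map_pow, map_mul i₂, ← mul_assoc, inv_mul_cancel_right, ← hj]
      rfl
    rw [e]
    exact Subgroup.mul_mem _ (step2 a) (step1 _ (sq_mul_sq_mem a b (hR2 _ habk)))
  · have hab : δ a * δ b = 1 := by
      have h7 := hw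
      rw [MonoidHom.mem_ker, hwab, map_mul, map_mul, h5, h5', h6, mul_one] at h7
      exact h7
    have habk : a * b ∈ δ.ker := by rw [MonoidHom.mem_ker, map_mul, hab]
    have e : w ^ 2 = (i₁ (a * b) * (i₂ (a * b))⁻¹) * i₂ ((a * b) * (b * a)) := by
      rw [map_mul i₂ (a * b), ← mul_assoc, inv_mul_cancel_right, hwab, ← hj, sq]
      have h8 : j (a, b) * τ * (j (a, b) * τ) = j (a, b) * (τ * j (a, b) * τ⁻¹) * (τ * τ) := by
        group
      rw [h8, hτj, h2, mul_one, ← map_mul, ← hj]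
      rfl
    rw [e]
    exact Subgroup.mul_mem _ (step3 _ habk) (step1 _ (mul_mul_mem a b (hR2 _ habk)))

theorem wreath_R1 (i₁ i₂ : S →* W) (τ : W)
    (h4 : ∀ w, ∃ a b, w = i₁ a * i₂ b ∨ w = i₁ a * i₂ b * τ)
    (δ : S →* Z) (δ₁ : W →* Z) (h5 : ∀ a, δ₁ (i₁ a) = δ a) (h5' : ∀ a, δ₁ (i₂ a) = δ a)
    (h6 : δ₁ τ = 1) (hR1 : R1 δ) : R1 δ₁ := by
  obtain ⟨g, hg⟩ := hR1
  refine ⟨i₁ g, fun w => ?_⟩
  obtain ⟨a, b, hwab | hwab⟩ := h4 w
  · obtain ⟨i, hi⟩ := hg a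
    obtain ⟨k, hk⟩ := hg b
    exact ⟨i + k, by rw [hwab, map_mul, h5, h5', h5, hi, hk, zpow_add]⟩
  · obtain ⟨i, hi⟩ := hg a
    obtain ⟨k, hk⟩ := hg b
    exact ⟨i + k, by rw [hwab, map_mul, map_mul, h5, h5', h6, mul_one, h5, hi, hk, zpow_add]⟩

theorem wreath_P2 (i₁ i₂ : S →* W) (τ : W)
    (h4 : ∀ w, ∃ a b, w = i₁ a * i₂ b ∨ w = i₁ a * i₂ b * τ)
    (δ : S →* Z) (δ₁ : W →* Z) (h5 : ∀ a, δ₁ (i₁ a) = δ a) (h5' : ∀ a, δ₁ (i₂ a) = δ a)
    (h6 : δ₁ τ = 1) (ε : Z) (hε : ε * ε = 1) (hP2 : P2 δ ε) : P2 δ₁ ε := by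
  obtain ⟨d, hd, hdε, hx⟩ := hP2
  refine ⟨i₁ d, by rw [← map_pow, hd, map_one], by rw [h5, hdε], fun w => ?_⟩
  have key : ∀ a b : S, δ a * δ b = 1 ∨ δ a * δ b = ε := by
    intro a b
    rcases hx a with ha | ha <;> rcases hx b with hb | hb <;> rw [ha, hb]
    · left; rw [mul_one]
    · right; rw [one_mul]
    · right; rw [mul_one]
    · left; exact hε
  obtain ⟨a, b, hwab | hwab⟩ := h4 w
  · rw [hwab, map_mul, h5, h5']
    exact key a b
  · rw [hwab, map_mul, map_mul, h5, h5', h6, mul_one]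
    exact key a b

end wreath

section prod

variable {S₁ S₂ : Type*} [Group S₁] [Group S₂] {Z : Type*} [CommGroup Z] {W : Type*} [Group W]

theorem prod_P1 (i₁ : S₁ →* W) (i₂ : S₂ →* W)
    (h1 : ∀ a b, i₁ a * i₂ b = i₂ b * i₁ a)
    (h4 : ∀ w, ∃ a b, w = i₁ a * i₂ b)
    (δ₁ : S₁ →* Z) (δ₂ : S₂ →* Z) (δ : W →* Z) (h5 : ∀ a, δ (i₁ a) = δ₁ a)
    (h5' : ∀ a, δ (i₂ a) = δ₂ a) (ε : Z) (hε : ε * ε = 1)
    (hA1 : P1 δ₁) (hA2 : P1 δ₂) (hB1 : P2 δ₁ ε) (hB2 : P2 δ₂ ε) : P1 δ := by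
  have hCn : (⁅δ.ker, δ.ker⁆ : Subgroup W).Normal := inferInstance
  let j : S₁ × S₂ →* W := MonoidHom.noncommCoprod i₁ i₂ (fun a b => h1 a b)
  have hj : ∀ a b, j (a, b) = i₁ a * i₂ b := fun a b => rfl
  have hjK : ∀ a b, δ₁ a * δ₂ b = 1 → j (a, b) ∈ δ.ker := by
    intro a b hab
    rw [MonoidHom.mem_ker, hj, map_mul, h5, h5', hab]
  have hi1 : ∀ c ∈ (⁅δ₁.ker, δ₁.ker⁆ : Subgroup S₁), i₁ c ∈ (⁅δ.ker, δ.ker⁆ : Subgroup W) := by
    have hle : (⁅δ₁.ker, δ₁.ker⁆ : Subgroup S₁) ≤ (⁅δ.ker, δ.ker⁆ : Subgroup W).comap i₁ := by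
      rw [Subgroup.commutator_le]
      intro x hx y hy
      rw [Subgroup.mem_comap, map_commutatorElement]
      refine Subgroup.commutator_mem_commutator ?_ ?_
      · rw [MonoidHom.mem_ker, h5]; exact hx
      · rw [MonoidHom.mem_ker, h5]; exact hy
    exact fun c hc => hle hc
  have hi2 : ∀ c ∈ (⁅δ₂.ker, δ₂.ker⁆ : Subgroup S₂), i₂ c ∈ (⁅δ.ker, δ.ker⁆ : Subgroup W) := by
    have hle : (⁅δ₂.ker, δ₂.ker⁆ : Subgroup S₂) ≤ (⁅δ.ker, δ.ker⁆ : Subgroup W).comap i₂ := by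
      rw [Subgroup.commutator_le]
      intro x hx y hy
      rw [Subgroup.mem_comap, map_commutatorElement]
      refine Subgroup.commutator_mem_commutator ?_ ?_
      · rw [MonoidHom.mem_ker, h5']; exact hx
      · rw [MonoidHom.mem_ker, h5']; exact hy
    exact fun c hc => hle hc
  obtain ⟨d₁, hd₁, hd₁ε, hx₁⟩ := hB1
  obtain ⟨d₂, hd₂, hd₂ε, hx₂⟩ := hB2
  have hD : j (d₁, d₂) ∈ δ.ker := hjK _ _ (by rw [hd₁ε, hd₂ε, hε])
  have hd₁inv : d₁⁻¹ = d₁ := inv_eq_of_mul_eq_one_left (by rw [← sq, hd₁])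
  have hd₂inv : d₂⁻¹ = d₂ := inv_eq_of_mul_eq_one_left (by rw [← sq, hd₂])
  -- squares of elements with `δ₁ a = ε`
  have sq1 : ∀ a : S₁, δ₁ a = ε → i₁ (a ^ 2) ∈ (⁅δ.ker, δ.ker⁆ : Subgroup W) := by
    intro a ha
    have hk : a * d₁ ∈ δ₁.ker := by rw [MonoidHom.mem_ker, map_mul, ha, hd₁ε, hε]
    have e : a ^ 2 = (a * d₁) ^ 2 * ⁅(a * d₁)⁻¹, d₁⁆ := by
      rw [commutatorElement_def, hd₁inv, sq, sq]
      have : d₁ * d₁ = 1 := by rw [← sq, hd₁]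
      calc a * a = a * (d₁ * d₁) * a * (d₁ * d₁) := by rw [this, mul_one, mul_one]
        _ = a * d₁ * (a * d₁) * ((a * d₁)⁻¹ * d₁ * (a * d₁)⁻¹⁻¹ * d₁) := by group
    rw [e, map_mul]
    refine Subgroup.mul_mem _ (hi1 _ (hA1 _ hk)) ?_
    have hk' : j ((a * d₁)⁻¹, 1) ∈ δ.ker := hjK _ _ (by
      rw [map_one, mul_one, map_inv]
      rw [MonoidHom.mem_ker] at hk
      rw [hk, inv_one])
    have hc := Subgroup.commutator_mem_commutator hk' hD
    have e2 : ⁅j ((a * d₁)⁻¹, 1), j (d₁, d₂)⁆ = i₁ ⁅(a * d₁)⁻¹, d₁⁆ := by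
      rw [← map_commutatorElement]
      have h7 : ⁅(((a * d₁)⁻¹, 1) : S₁ × S₂), (d₁, d₂)⁆ = (⁅(a * d₁)⁻¹, d₁⁆, 1) := by
        ext
        · rfl
        · simp [commutatorElement_def]
      rw [h7, hj, map_one, mul_one]
    rw [← e2]
    exact hc
  have sq2 : ∀ b : S₂, δ₂ b = ε → i₂ (b ^ 2) ∈ (⁅δ.ker, δ.ker⁆ : Subgroup W) := by
    intro b hb
    have hk : b * d₂ ∈ δ₂.ker := by rw [MonoidHom.mem_ker, map_mul, hb, hd₂ε, hε]
    have e : b ^ 2 = (b * d₂) ^ 2 * ⁅(b * d₂)⁻¹, d₂⁆ := by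
      rw [commutatorElement_def, hd₂inv, sq, sq]
      have : d₂ * d₂ = 1 := by rw [← sq, hd₂]
      calc b * b = b * (d₂ * d₂) * b * (d₂ * d₂) := by rw [this, mul_one, mul_one]
        _ = b * d₂ * (b * d₂) * ((b * d₂)⁻¹ * d₂ * (b * d₂)⁻¹⁻¹ * d₂) := by group
    rw [e, map_mul]
    refine Subgroup.mul_mem _ (hi2 _ (hA2 _ hk)) ?_
    have hk' : j (1, (b * d₂)⁻¹) ∈ δ.ker := hjK _ _ (by
      rw [map_one, one_mul, map_inv]
      rw [MonoidHom.mem_ker] at hk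
      rw [hk, inv_one])
    have hc := Subgroup.commutator_mem_commutator hk' hD
    have e2 : ⁅j (1, (b * d₂)⁻¹), j (d₁, d₂)⁆ = i₂ ⁅(b * d₂)⁻¹, d₂⁆ := by
      rw [← map_commutatorElement]
      have h7 : ⁅((1, (b * d₂)⁻¹) : S₁ × S₂), (d₁, d₂)⁆ = (1, ⁅(b * d₂)⁻¹, d₂⁆) := by
        ext
        · simp [commutatorElement_def]
        · rfl
      rw [h7, hj, map_one, one_mul]
    rw [← e2]
    exact hc
  intro w hw
  obtain ⟨a, b, rfl⟩ := h4 w
  have hab : δ₁ a * δ₂ b = 1 := by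
    have h7 := hw
    rw [MonoidHom.mem_ker, map_mul, h5, h5'] at h7
    exact h7
  have e : (i₁ a * i₂ b) ^ 2 = i₁ (a ^ 2) * i₂ (b ^ 2) := by
    rw [← hj, ← map_pow, ← hj]
    rfl
  rw [e]
  rcases hx₁ a with ha | ha
  · have hb : δ₂ b = 1 := by rw [ha, one_mul] at hab; exact hab
    exact Subgroup.mul_mem _ (hi1 _ (hA1 _ ha)) (hi2 _ (hA2 _ hb))
  · have hb : δ₂ b = ε := by
      rw [ha] at hab
      calc δ₂ b = (ε * ε) * δ₂ b := by rw [hε, one_mul]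
        _ = ε * (ε * δ₂ b) := by rw [mul_assoc]
        _ = ε := by rw [hab, mul_one]
    exact Subgroup.mul_mem _ (sq1 a ha) (sq2 b hb)

theorem prod_P2 (i₁ : S₁ →* W) (i₂ : S₂ →* W)
    (h4 : ∀ w, ∃ a b, w = i₁ a * i₂ b)
    (δ₁ : S₁ →* Z) (δ₂ : S₂ →* Z) (δ : W →* Z) (h5 : ∀ a, δ (i₁ a) = δ₁ a)
    (h5' : ∀ a, δ (i₂ a) = δ₂ a) (ε : Z) (hε : ε * ε = 1)
    (hB1 : P2 δ₁ ε) (hB2 : P2 δ₂ ε) : P2 δ ε := by
  obtain ⟨d₁, hd₁, hd₁ε, hx₁⟩ := hB1
  obtain ⟨d₂, hd₂, hd₂ε, hx₂⟩ := hB2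
  refine ⟨i₁ d₁, by rw [← map_pow, hd₁, map_one], by rw [h5, hd₁ε], fun w => ?_⟩
  obtain ⟨a, b, rfl⟩ := h4 w
  rw [map_mul, h5, h5']
  rcases hx₁ a with ha | ha <;> rcases hx₂ b with hb | hb <;> rw [ha, hb]
  · left; rw [mul_one]
  · right; rw [one_mul]
  · right; rw [mul_one]
  · left; exact hε

end prod

section dic

/-- A group with a subgroup `A` of index at most two, inverted by `u`, in which `u ^ 2` is a
square: all squares are commutators. -/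
theorem dic_sq {P : Type*} [Group P] (A : Subgroup P) (u : P)
    (ha : ∀ x : P, x ∈ A ∨ x * u⁻¹ ∈ A) (hb : ∀ t ∈ A, u * t * u⁻¹ = t⁻¹)
    (hc : ∃ w ∈ A, w ^ 2 = u ^ 2) : ∀ x : P, x ^ 2 ∈ commutator P := by
  have hA : ∀ t ∈ A, t ^ 2 ∈ commutator P := by
    intro t ht
    have h1 : ⁅u, t⁆ ∈ commutator P := by
      rw [commutator_def]
      exact Subgroup.commutator_mem_commutator (Subgroup.mem_top _) (Subgroup.mem_top _)
    have h2 : ⁅u, t⁆ = (t ^ 2)⁻¹ := by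
      rw [commutatorElement_def, hb t ht, sq, mul_inv_rev]
    rw [h2] at h1
    exact (Subgroup.inv_mem_iff _).mp h1
  intro x
  rcases ha x with hx | hx
  · exact hA x hx
  · obtain ⟨w, hw, hwu⟩ := hc
    have e : x ^ 2 = u ^ 2 := by
      have h3 := hb _ hx
      have h4 : x * u⁻¹ * (u * (x * u⁻¹) * u⁻¹) = 1 := by rw [h3, mul_inv_cancel]
      have h5 : x * x = u * u := by
        calc x * x = (x * u⁻¹ * (u * (x * u⁻¹) * u⁻¹)) * (u * u) := by group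
          _ = u * u := by rw [h4, one_mul]
      rw [sq, sq, h5]
    rw [e, ← hwu]
    exact hA w hw

end dic

section transport

/-- If a group `S` of the order of a Sylow 2-subgroup of `G` embeds in `G` and squares are
commutators in `S`, the same holds in every Sylow 2-subgroup of `G`. -/
theorem sylow_of_hom {G : Type*} [Group G] [Finite G] {S : Type*} [Group S] (f : S →* G)
    (hf : Function.Injective f)
    (hcard : Nat.card S = 2 ^ (Nat.card G).factorization 2)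
    (hS : ∀ y : S, y ^ 2 ∈ commutator S) (P : Sylow 2 G) :
    ∀ x : ↥(P : Subgroup G), x ^ 2 ∈ commutator ↥(P : Subgroup G) := by
  haveI : Fact (Nat.Prime 2) := ⟨Nat.prime_two⟩
  have hR : Nat.card f.range = 2 ^ (Nat.card G).factorization 2 := by
    rw [← hcard]
    exact (Nat.card_congr (MonoidHom.ofInjective hf).toEquiv).symm
  obtain ⟨g, hg⟩ := MulAction.exists_smul_eq G (Sylow.ofCard f.range hR) P
  have hP : ∀ x : G, x ∈ (P : Subgroup G) ↔ g⁻¹ * x * g ∈ f.range := by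
    intro x
    rw [← hg, Sylow.coe_subgroup_smul, Subgroup.mem_pointwise_smul_iff_inv_smul_mem]
    simp [MulAut.smul_def]
  have hmem : ∀ s : S, g * f s * g⁻¹ ∈ (P : Subgroup G) := by
    intro s
    rw [hP]
    refine ⟨s, ?_⟩
    group
  let ψ : S →* ↥(P : Subgroup G) :=
    { toFun := fun s => ⟨g * f s * g⁻¹, hmem s⟩
      map_one' := by
        apply Subtype.ext
        simp
      map_mul' := by
        intro a b
        apply Subtype.ext
        simp only [map_mul, Subgroup.coe_mul]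
        group }
  have hsurj : Function.Surjective ψ := by
    intro x
    obtain ⟨s, hs⟩ := (hP x).mp x.2
    refine ⟨s, ?_⟩
    apply Subtype.ext
    show g * f s * g⁻¹ = x
    rw [hs]
    group
  have hmap : (commutator S).map ψ = commutator ↥(P : Subgroup G) := by
    rw [commutator_def, Subgroup.map_commutator, ← MonoidHom.range_eq_map,
      MonoidHom.range_eq_top.mpr hsurj, commutator_def]
  intro x
  obtain ⟨s, rfl⟩ := hsurj x
  rw [← map_pow, ← hmap]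
  exact Subgroup.mem_map_of_mem _ (hS s)

end transport

end Cfsg.Agent.Lib.Helper44.SylE1
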