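import Mathlib
import Cfsg.Agent.Lib.Helper44.SylE1
import Cfsg.Agent.Lib.Helper44.FinSq
import Cfsg.Agent.Lib.Helper5.SL2Card

set_option autoImplicit false

/-!
Sylow 2-subgroups of `SL₂(q)`, `q` odd: squares are commutators.
-/

namespace Cfsg.Agent.Lib.Helper44.SylE2

open Matrix
open scoped commutatorElement

section ent

variable {F : Type*} [Field F]

/-- entries -/
def ent (g : Matrix.SpecialLinearGroup (Fin 2) F) (i j : Fin 2) : F :=
  (g : Matrix (Fin 2) (Fin 2) F) i j

theorem ent_mul (g h : Matrix.SpecialLinearGroup (Fin 2) F) (i j : Fin 2) :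
    ent (g * h) i j = ent g i 0 * ent h 0 j + ent g i 1 * ent h 1 j := by
  show ((g * h : Matrix.SpecialLinearGroup (Fin 2) F) : Matrix (Fin 2) (Fin 2) F) i j = _
  rw [Matrix.SpecialLinearGroup.coe_mul, Matrix.mul_apply, Fin.sum_univ_two]
  rfl

theorem ent_inv (g : Matrix.SpecialLinearGroup (Fin 2) F) :
    ent g⁻¹ 0 0 = ent g 1 1 ∧ ent g⁻¹ 0 1 = - ent g 0 1 ∧ ent g⁻¹ 1 0 = - ent g 1 0 ∧
      ent g⁻¹ 1 1 = ent g 0 0 := by
  have h : ((g⁻¹ : Matrix.SpecialLinearGroup (Fin 2) F) : Matrix (Fin 2) (Fin 2) F) =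
      !![(g : Matrix (Fin 2) (Fin 2) F) 1 1, -(g : Matrix (Fin 2) (Fin 2) F) 0 1;
        -(g : Matrix (Fin 2) (Fin 2) F) 1 0, (g : Matrix (Fin 2) (Fin 2) F) 0 0] := by
    rw [Matrix.SpecialLinearGroup.coe_inv, Matrix.adjugate_fin_two]
  refine ⟨?_, ?_, ?_, ?_⟩
  · show ((g⁻¹ : Matrix.SpecialLinearGroup (Fin 2) F) : Matrix (Fin 2) (Fin 2) F) 0 0 = _
    rw [h]; rfl
  · show ((g⁻¹ : Matrix.SpecialLinearGroup (Fin 2) F) : Matrix (Fin 2) (Fin 2) F) 0 1 = _
    rw [h]; rfl
  · show ((g⁻¹ : Matrix.SpecialLinearGroup (Fin 2) F) : Matrix (Fin 2) (Fin 2) F) 1 0 = _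
    rw [h]; rfl
  · show ((g⁻¹ : Matrix.SpecialLinearGroup (Fin 2) F) : Matrix (Fin 2) (Fin 2) F) 1 1 = _
    rw [h]; rfl

theorem mul00 (g h : Matrix.SpecialLinearGroup (Fin 2) F) :
    ent (g * h) 0 0 = ent g 0 0 * ent h 0 0 + ent g 0 1 * ent h 1 0 := ent_mul g h 0 0

theorem mul01 (g h : Matrix.SpecialLinearGroup (Fin 2) F) :
    ent (g * h) 0 1 = ent g 0 0 * ent h 0 1 + ent g 0 1 * ent h 1 1 := ent_mul g h 0 1

theorem mul10 (g h : Matrix.SpecialLinearGroup (Fin 2) F) :
    ent (g * h) 1 0 = ent g 1 0 * ent h 0 0 + ent g 1 1 * ent h 1 0 := ent_mul g h 1 0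

theorem mul11 (g h : Matrix.SpecialLinearGroup (Fin 2) F) :
    ent (g * h) 1 1 = ent g 1 0 * ent h 0 1 + ent g 1 1 * ent h 1 1 := ent_mul g h 1 1

theorem inv00 (g : Matrix.SpecialLinearGroup (Fin 2) F) : ent g⁻¹ 0 0 = ent g 1 1 := (ent_inv g).1

theorem inv01 (g : Matrix.SpecialLinearGroup (Fin 2) F) : ent g⁻¹ 0 1 = - ent g 0 1 := (ent_inv g).2.1

theorem inv10 (g : Matrix.SpecialLinearGroup (Fin 2) F) : ent g⁻¹ 1 0 = - ent g 1 0 := (ent_inv g).2.2.1

theorem inv11 (g : Matrix.SpecialLinearGroup (Fin 2) F) : ent g⁻¹ 1 1 = ent g 0 0 := (ent_inv g).2.2.2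

theorem det_eq (g : Matrix.SpecialLinearGroup (Fin 2) F) :
    ent g 0 0 * ent g 1 1 - ent g 0 1 * ent g 1 0 = 1 := by
  have h := g.det_coe
  rw [Matrix.det_fin_two] at h
  exact h

theorem sl_ext (g h : Matrix.SpecialLinearGroup (Fin 2) F) (h00 : ent g 0 0 = ent h 0 0)
    (h01 : ent g 0 1 = ent h 0 1) (h10 : ent g 1 0 = ent h 1 0) (h11 : ent g 1 1 = ent h 1 1) : g = h := by
  apply Matrix.SpecialLinearGroup.ext
  intro i j
  fin_cases i <;> fin_cases j <;> assumption

/-- torus type -/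
def IsT (g : Matrix.SpecialLinearGroup (Fin 2) F) : Prop := ent g 0 0 = ent g 1 1 ∧ ent g 0 1 = - ent g 1 0

/-- reflection type -/
def IsU (g : Matrix.SpecialLinearGroup (Fin 2) F) : Prop := ent g 0 0 = - ent g 1 1 ∧ ent g 0 1 = ent g 1 0

theorem isT_one : IsT (1 : Matrix.SpecialLinearGroup (Fin 2) F) := by
  constructor <;> simp [ent]

theorem IsT.mul {g h : Matrix.SpecialLinearGroup (Fin 2) F} (hg : IsT g) (hh : IsT h) : IsT (g * h) := by
  obtain ⟨g1, g2⟩ := hg
  obtain ⟨h1, h2⟩ := hh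
  constructor
  · rw [mul00, mul11, g1, g2, h1, h2]; ring
  · rw [mul01, mul10, g1, g2, h1, h2]; ring

theorem IsT.inv {g : Matrix.SpecialLinearGroup (Fin 2) F} (hg : IsT g) : IsT g⁻¹ := by
  obtain ⟨g1, g2⟩ := hg
  constructor
  · rw [inv00, inv11, g1]
  · rw [inv01, inv10, g2]

theorem IsU.inv {g : Matrix.SpecialLinearGroup (Fin 2) F} (hg : IsU g) : IsU g⁻¹ := by
  obtain ⟨g1, g2⟩ := hg
  constructor
  · rw [inv00, inv11, g1, neg_neg]
  · rw [inv01, inv10, g2]

theorem IsT.mulU {g h : Matrix.SpecialLinearGroup (Fin 2) F} (hg : IsT g) (hh : IsU h) : IsU (g * h) := by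
  obtain ⟨g1, g2⟩ := hg
  obtain ⟨h1, h2⟩ := hh
  constructor
  · rw [mul00, mul11, g1, g2, h1, h2]; ring
  · rw [mul01, mul10, g1, g2, h1, h2]; ring

theorem IsU.mulT {g h : Matrix.SpecialLinearGroup (Fin 2) F} (hg : IsU g) (hh : IsT h) : IsU (g * h) := by
  obtain ⟨g1, g2⟩ := hg
  obtain ⟨h1, h2⟩ := hh
  constructor
  · rw [mul00, mul11, g1, g2, h1, h2]; ring
  · rw [mul01, mul10, g1, g2, h1, h2]; ring

theorem IsU.mul {g h : Matrix.SpecialLinearGroup (Fin 2) F} (hg : IsU g) (hh : IsU h) : IsT (g * h) := by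
  obtain ⟨g1, g2⟩ := hg
  obtain ⟨h1, h2⟩ := hh
  constructor
  · rw [mul00, mul11, g1, g2, h1, h2]; ring
  · rw [mul01, mul10, g1, g2, h1, h2]; ring

theorem not_T_and_U (h2 : (2 : F) ≠ 0) (g : Matrix.SpecialLinearGroup (Fin 2) F) (hT : IsT g)
    (hU : IsU g) : False := by
  obtain ⟨t1, t2⟩ := hT
  obtain ⟨u1, u2⟩ := hU
  have hd := det_eq g
  have e1 : ent g 1 1 = 0 := by
    have : (2 : F) * ent g 1 1 = 0 := by linear_combination u1 - t1
    rcases mul_eq_zero.mp this with h | h
    · exact absurd h h2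
    · exact h
  have e2 : ent g 1 0 = 0 := by
    have : (2 : F) * ent g 1 0 = 0 := by linear_combination t2 - u2
    rcases mul_eq_zero.mp this with h | h
    · exact absurd h h2
    · exact h
  rw [e1, e2] at hd
  simp at hd

/-- the torus -/
def T (F : Type*) [Field F] : Subgroup (Matrix.SpecialLinearGroup (Fin 2) F) where
  carrier := {g | IsT g}
  mul_mem' := fun hg hh => IsT.mul hg hh
  one_mem' := isT_one
  inv_mem' := fun hg => IsT.inv hg

/-- the normaliser of the torus -/
def N (F : Type*) [Field F] : Subgroup (Matrix.SpecialLinearGroup (Fin 2) F) where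
  carrier := {g | IsT g ∨ IsU g}
  mul_mem' := by
    rintro g h (hg | hg) (hh | hh)
    · exact Or.inl (hg.mul hh)
    · exact Or.inr (hg.mulU hh)
    · exact Or.inr (hg.mulT hh)
    · exact Or.inl (hg.mul hh)
  one_mem' := Or.inl isT_one
  inv_mem' := by
    rintro g (hg | hg)
    · exact Or.inl hg.inv
    · exact Or.inr hg.inv

theorem mem_T (g : Matrix.SpecialLinearGroup (Fin 2) F) : g ∈ T F ↔ IsT g := Iff.rfl

theorem mem_N (g : Matrix.SpecialLinearGroup (Fin 2) F) : g ∈ N F ↔ IsT g ∨ IsU g := Iff.rfl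

theorem T_le_N : T F ≤ N F := fun _ hg => Or.inl hg

/-- a reflection inverts the torus -/
theorem U_conj_T {u t : Matrix.SpecialLinearGroup (Fin 2) F} (hu : IsU u) (ht : IsT t) :
    u * t * u⁻¹ = t⁻¹ := by
  rw [mul_inv_eq_iff_eq_mul]
  obtain ⟨u1, u2⟩ := hu
  obtain ⟨t1, t2⟩ := ht
  apply sl_ext <;>
    simp only [mul00, mul01, mul10, mul11, inv00, inv01, inv10, inv11, u1, u2, t1, t2] <;> ring

/-- the element of order four in the torus -/
def w₀ (F : Type*) [Field F] : Matrix.SpecialLinearGroup (Fin 2) F :=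
  ⟨!![0, -1; 1, 0], by rw [Matrix.det_fin_two]; simp⟩

theorem w₀_T : IsT (w₀ F) := by
  constructor <;> simp [w₀, ent]

/-- minus the identity -/
def negOne (F : Type*) [Field F] : Matrix.SpecialLinearGroup (Fin 2) F :=
  ⟨!![-1, 0; 0, -1], by rw [Matrix.det_fin_two]; simp⟩

theorem negOne_mul : negOne F * negOne F = 1 := by
  apply sl_ext
  · rw [mul00]; simp [ent, negOne]
  · rw [mul01]; simp [ent, negOne]
  · rw [mul10]; simp [ent, negOne]
  · rw [mul11]; simp [ent, negOne]

theorem w₀_sq : (w₀ F) * (w₀ F) = negOne F := by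
  apply sl_ext
  · rw [mul00]; simp [w₀, ent, negOne]
  · rw [mul01]; simp [w₀, ent, negOne]
  · rw [mul10]; simp [w₀, ent, negOne]
  · rw [mul11]; simp [w₀, ent, negOne]

theorem U_sq {u : Matrix.SpecialLinearGroup (Fin 2) F} (hu : IsU u) :
    u * u = negOne F := by
  obtain ⟨u1, u2⟩ := hu
  have hd := det_eq u
  apply sl_ext
  · rw [mul00]
    have e : ent (negOne F) 0 0 = -1 := rfl
    rw [e, u1, u2] at *
    linear_combination -hd
  · rw [mul01]
    have e : ent (negOne F) 0 1 = 0 := rfl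
    rw [e, u1, u2]; ring
  · rw [mul10]
    have e : ent (negOne F) 1 0 = 0 := rfl
    rw [e, u1]; ring
  · rw [mul11]
    have e : ent (negOne F) 1 1 = -1 := rfl
    rw [e, u1, u2] at *
    linear_combination -hd

end ent

section count

variable {F : Type*} [Field F] [Fintype F] [DecidableEq F]

/-- the conic `x² + y² = 1` -/
def conic (F : Type*) [Field F] [Fintype F] [DecidableEq F] : Finset (F × F) :=
  Finset.univ.filter (fun p : F × F => p.1 ^ 2 + p.2 ^ 2 = 1)

theorem card_conic (h2 : (2 : F) ≠ 0) :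
    (conic F).card = 1 + (Finset.univ.filter (fun m : F => m ^ 2 + 1 ≠ 0)).card := by
  rw [← Finset.card_filter_add_card_filter_not (s := conic F) (fun p : F × F => p.1 = 1)]
  congr 1
  · rw [Finset.card_eq_one]
    refine ⟨(1, 0), ?_⟩
    ext p
    simp only [conic, Finset.mem_filter, Finset.mem_univ, true_and, Finset.mem_singleton]
    constructor
    · rintro ⟨hp, h1⟩
      rw [h1] at hp
      have : p.2 ^ 2 = 0 := by linear_combination hp
      have h0 : p.2 = 0 := pow_eq_zero_iff (two_ne_zero) |>.mp this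
      exact Prod.ext h1 h0
    · rintro rfl
      simp
  · refine Finset.card_nbij' (fun p => p.2 / (p.1 - 1))
      (fun m => ((m ^ 2 - 1) / (m ^ 2 + 1), -2 * m / (m ^ 2 + 1))) ?_ ?_ ?_ ?_
    · intro p hp
      simp only [conic, Finset.coe_filter, Finset.mem_filter, Finset.mem_univ, true_and,
        Set.mem_setOf_eq] at hp ⊢
      obtain ⟨hc, h1⟩ := hp
      have hd : p.1 - 1 ≠ 0 := sub_ne_zero.mpr h1
      intro h0
      rw [div_pow, div_add_one (pow_ne_zero 2 hd), div_eq_zero_iff] at h0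
      rcases h0 with h0 | h0
      · have : (2 : F) * (p.1 - 1) = 0 := by linear_combination hc - h0
        rcases mul_eq_zero.mp this with h | h
        · exact h2 h
        · exact hd h
      · exact pow_ne_zero 2 hd h0
    · intro m hm
      simp only [conic, Finset.coe_filter, Finset.mem_filter, Finset.mem_univ, true_and,
        Set.mem_setOf_eq] at hm ⊢
      constructor
      · field_simp
        ring
      · intro h
        rw [div_eq_one_iff_eq hm] at h
        apply h2
        linear_combination -h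
    · intro p hp
      simp only [conic, Finset.coe_filter, Finset.mem_filter, Finset.mem_univ, true_and,
        Set.mem_setOf_eq] at hp
      obtain ⟨hc, h1⟩ := hp
      have hd : p.1 - 1 ≠ 0 := sub_ne_zero.mpr h1
      have hm1 : (p.2 / (p.1 - 1)) ^ 2 + 1 = -2 / (p.1 - 1) := by
        field_simp
        linear_combination hc
      have hm2 : (p.2 / (p.1 - 1)) ^ 2 - 1 = -2 * p.1 / (p.1 - 1) := by
        field_simp
        linear_combination hc
      apply Prod.ext
      · show ((p.2 / (p.1 - 1)) ^ 2 - 1) / ((p.2 / (p.1 - 1)) ^ 2 + 1) = p.1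
        rw [hm1, hm2]
        field_simp
      · show -2 * (p.2 / (p.1 - 1)) / ((p.2 / (p.1 - 1)) ^ 2 + 1) = p.2
        rw [hm1]
        field_simp
    · intro m hm
      simp only [Finset.coe_filter, Finset.mem_filter, Finset.mem_univ, true_and,
        Set.mem_setOf_eq] at hm
      show -2 * m / (m ^ 2 + 1) / ((m ^ 2 - 1) / (m ^ 2 + 1) - 1) = m
      have hx1 : (m ^ 2 - 1) / (m ^ 2 + 1) - 1 = -2 / (m ^ 2 + 1) := by
        field_simp
        ring
      rw [hx1]
      field_simp

theorem card_roots_three (h3 : Fintype.card F % 4 = 3) :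
    (Finset.univ.filter (fun m : F => m ^ 2 + 1 = 0)).card = 0 := by
  rw [Finset.card_eq_zero, Finset.filter_eq_empty_iff]
  intro m _ hm
  have hs : IsSquare (-1 : F) := ⟨m, by linear_combination -hm⟩
  rw [FiniteField.isSquare_neg_one_iff] at hs
  exact hs h3

theorem card_roots_one (h2 : (2 : F) ≠ 0) (h1 : Fintype.card F % 4 = 1) :
    (Finset.univ.filter (fun m : F => m ^ 2 + 1 = 0)).card = 2 := by
  have hs : IsSquare (-1 : F) := by
    rw [FiniteField.isSquare_neg_one_iff]
    omega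
  obtain ⟨i, hi⟩ := hs
  have hi0 : i ≠ 0 := by
    rintro rfl
    simp at hi
  have hne : i ≠ -i := by
    intro h
    have : (2 : F) * i = 0 := by linear_combination h
    rcases mul_eq_zero.mp this with h | h
    · exact h2 h
    · exact hi0 h
  have e : (Finset.univ.filter (fun m : F => m ^ 2 + 1 = 0)) = {i, -i} := by
    ext m
    simp only [Finset.mem_filter, Finset.mem_univ, true_and, Finset.mem_insert,
      Finset.mem_singleton]
    constructor
    · intro hm
      have : (m - i) * (m + i) = 0 := by linear_combination hm + hi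
      rcases mul_eq_zero.mp this with h | h
      · left; linear_combination h
      · right; linear_combination h
    · rintro (rfl | rfl)
      · linear_combination -hi
      · linear_combination -hi
  rw [e, Finset.card_pair hne]

theorem card_nonroots :
    (Finset.univ.filter (fun m : F => m ^ 2 + 1 ≠ 0)).card +
      (Finset.univ.filter (fun m : F => m ^ 2 + 1 = 0)).card = Fintype.card F := by
  rw [add_comm]
  exact Finset.card_filter_add_card_filter_not (s := Finset.univ)
    (fun m : F => m ^ 2 + 1 = 0)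

/-- the torus is in bijection with the conic -/
theorem card_T : Nat.card (T F) = (conic F).card := by
  rw [← Nat.card_eq_finsetCard]
  refine Nat.card_congr
    { toFun := fun g => ⟨(ent g.1 0 0, ent g.1 1 0), ?_⟩
      invFun := fun p => ⟨⟨!![p.1.1, -p.1.2; p.1.2, p.1.1], ?_⟩, ?_⟩
      left_inv := ?_
      right_inv := ?_ }
  · obtain ⟨t1, t2⟩ := g.2
    have hd := det_eq g.1
    simp only [conic, Finset.mem_filter, Finset.mem_univ, true_and]
    rw [t2, ← t1] at hd
    linear_combination hd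
  · have hp := p.2
    simp only [conic, Finset.mem_filter, Finset.mem_univ, true_and] at hp
    rw [Matrix.det_fin_two]
    simp only [Matrix.of_apply, Matrix.cons_val', Matrix.cons_val_zero, Matrix.empty_val',
      Matrix.cons_val_fin_one, Matrix.cons_val_one]
    linear_combination hp
  · constructor <;> simp [ent]
  · intro g
    obtain ⟨t1, t2⟩ := g.2
    apply Subtype.ext
    apply sl_ext
    · rfl
    · show -ent g.1 1 0 = ent g.1 0 1
      rw [t2]
    · rfl
    · show ent g.1 0 0 = ent g.1 1 1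
      exact t1
  · intro p
    apply Subtype.ext
    rfl

end count

section main

variable {F : Type*} [Field F] [Fintype F]

theorem val2 (n : ℕ) (h : n % 4 = 2) : padicValNat 2 n = 1 := by
  obtain ⟨k, rfl⟩ : 2 ∣ n := by omega
  have hk : ¬ 2 ∣ k := by omega
  have hk0 : k ≠ 0 := by omega
  rw [padicValNat.mul (by norm_num) hk0, padicValNat_self, padicValNat.eq_zero_of_not_dvd hk]

theorem exists_U : ∃ u : Matrix.SpecialLinearGroup (Fin 2) F, IsU u := by
  obtain ⟨p, hp⟩ := CharP.exists F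
  haveI := hp
  haveI : NeZero p := ⟨CharP.char_ne_zero_of_finite F p⟩
  obtain ⟨a, b, hab⟩ := CharP.sq_add_sq F p (-1)
  have hab' : (a : F) ^ 2 + (b : F) ^ 2 = -1 := by
    rw [hab]
    simp
  refine ⟨⟨!![(a : F), (b : F); (b : F), -(a : F)], ?_⟩, ?_⟩
  · rw [Matrix.det_fin_two]
    simp only [Matrix.of_apply, Matrix.cons_val', Matrix.cons_val_zero, Matrix.empty_val',
      Matrix.cons_val_fin_one, Matrix.cons_val_one]
    linear_combination -hab'
  · constructor <;> simp [ent]

theorem card_N (h2 : (2 : F) ≠ 0) : Nat.card (N F) = Nat.card (T F) * 2 := by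
  have hrel : (T F).relIndex (N F) = 2 := by
    rw [Subgroup.relIndex_eq_two_iff]
    obtain ⟨u, hu⟩ := exists_U (F := F)
    refine ⟨u, Or.inr hu, fun b hb => ?_⟩
    rcases hb with hb | hb
    · right
      refine ⟨hb, fun hbu => ?_⟩
      have h3 : IsT (b⁻¹ * (b * u)) := hb.inv.mul hbu
      rw [inv_mul_cancel_left] at h3
      exact not_T_and_U h2 u h3 hu
    · left
      exact ⟨hb.mul hu, fun hbT => not_T_and_U h2 b hbT hb⟩
  have h1 := Subgroup.card_mul_index ((T F).subgroupOf (N F))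
  have h3 : ((T F).subgroupOf (N F)).index = 2 := hrel
  rw [h3, Nat.card_congr (Subgroup.subgroupOfEquivOfLe (T_le_N (F := F))).toEquiv] at h1
  exact h1.symm

theorem card_N_fact (hF : Odd (Fintype.card F)) :
    (Nat.card (N F)).factorization 2 =
        (Nat.card (Matrix.SpecialLinearGroup (Fin 2) F)).factorization 2 ∧
      (Nat.card (N F)).factorization 2 = (Nat.card (T F)).factorization 2 + 1 := by
  classical
  have h2 : (2 : F) ≠ 0 := Cfsg.Agent.Lib.Helper44.FinSq.two_ne_zero_of_odd_card hF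
  have hN := card_N h2
  have hT := card_T (F := F)
  have hc := card_conic (F := F) h2
  have hnr := card_nonroots (F := F)
  have hSL := Cfsg.Agent.Lib.Helper5.SL2Card.card_SL_two (F := F) (q := Fintype.card F) rfl
  have hq1 : 1 < Fintype.card F := Fintype.one_lt_card
  set q := Fintype.card F with hq
  have hqodd : q % 2 = 1 := Nat.odd_iff.mp hF
  have hq2 : ¬ 2 ∣ q := by omega
  have hsq : q ^ 2 - 1 = (q - 1) * (q + 1) := by
    obtain ⟨k, hk⟩ : ∃ k, q = k + 1 := ⟨q - 1, by omega⟩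
    rw [hk, Nat.add_sub_cancel]
    have : (k + 1) ^ 2 = k * (k + 1 + 1) + 1 := by ring
    rw [this, Nat.add_sub_cancel]
  have hvq : padicValNat 2 q = 0 := padicValNat.eq_zero_of_not_dvd hq2
  have hTpos : Nat.card (T F) ≠ 0 := Nat.card_pos.ne'
  have hvSL : padicValNat 2 (q * (q ^ 2 - 1)) = padicValNat 2 (q - 1) + padicValNat 2 (q + 1) := by
    rw [hsq, padicValNat.mul (by omega) (Nat.mul_ne_zero (by omega) (by omega)),
      padicValNat.mul (by omega) (by omega), hvq, zero_add]
  have hvN : padicValNat 2 (Nat.card (T F) * 2) = padicValNat 2 (Nat.card (T F)) + 1 := by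
    rw [padicValNat.mul hTpos (by norm_num), padicValNat_self]
  rw [Nat.factorization_def _ Nat.prime_two, Nat.factorization_def _ Nat.prime_two,
    Nat.factorization_def _ Nat.prime_two, hN, hSL, hvSL, hvN]
  refine ⟨?_, rfl⟩
  have hq4 : q % 4 = 1 ∨ q % 4 = 3 := by omega
  rcases hq4 with h4 | h4
  · have hr := card_roots_one (F := F) h2 h4
    have hTq : Nat.card (T F) = q - 1 := by rw [hT, hc]; omega
    rw [hTq, val2 (q + 1) (by omega)]
  · have hr := card_roots_three (F := F) h4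
    have hTq : Nat.card (T F) = q + 1 := by rw [hT, hc]; omega
    rw [hTq, val2 (q - 1) (by omega)]
    ring

/-- In a Sylow 2-subgroup of `SL₂(q)`, `q` odd, every square is a commutator product. -/
theorem sl2_sq (hF : Odd (Fintype.card F))
    (P : Sylow 2 (Matrix.SpecialLinearGroup (Fin 2) F)) :
    ∀ x : ↥(P : Subgroup (Matrix.SpecialLinearGroup (Fin 2) F)),
      x ^ 2 ∈ commutator ↥(P : Subgroup (Matrix.SpecialLinearGroup (Fin 2) F)) := by
  classical
  haveI : Fact (Nat.Prime 2) := ⟨Nat.prime_two⟩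
  have h2 : (2 : F) ≠ 0 := Cfsg.Agent.Lib.Helper44.FinSq.two_ne_zero_of_odd_card hF
  obtain ⟨hfact1, hfact2⟩ := card_N_fact hF
  let w : ↥(N F) := ⟨w₀ F, T_le_N w₀_T⟩
  have hw4 : w ^ 4 = 1 := by
    apply Subtype.ext
    show (w₀ F) ^ 4 = 1
    have : (w₀ F) ^ 4 = (w₀ F * w₀ F) * (w₀ F * w₀ F) := by
      rw [pow_succ, pow_succ, pow_succ, pow_one, mul_assoc (w₀ F * w₀ F)]
    rw [this, w₀_sq, negOne_mul]
  have hZ : IsPGroup 2 (Subgroup.zpowers w) := by
    rintro ⟨g, hg⟩
    obtain ⟨n, rfl⟩ := Subgroup.mem_zpowers_iff.mp hg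
    refine ⟨2, ?_⟩
    apply Subtype.ext
    show (w ^ n) ^ (2 ^ 2) = 1
    rw [← zpow_natCast, ← _root_.zpow_mul, mul_comm, _root_.zpow_mul, zpow_natCast]
    norm_num
    rw [hw4, _root_.one_zpow]
  obtain ⟨Q, hQ⟩ := hZ.exists_le_sylow
  have hwQ : w ∈ (Q : Subgroup ↥(N F)) := hQ (Subgroup.mem_zpowers w)
  let φ : ↥(Q : Subgroup ↥(N F)) →* Matrix.SpecialLinearGroup (Fin 2) F :=
    (N F).subtype.comp (Q : Subgroup ↥(N F)).subtype
  have hφ : Function.Injective φ :=
    Subtype.val_injective.comp Subtype.val_injective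
  have hφN : ∀ x, IsT (φ x) ∨ IsU (φ x) := fun x => x.1.2
  have hcardQ : Nat.card ↥(Q : Subgroup ↥(N F)) = 2 ^ (Nat.card ↥(N F)).factorization 2 :=
    Sylow.card_eq_multiplicity Q
  refine Cfsg.Agent.Lib.Helper44.SylE1.sylow_of_hom φ hφ (by rw [hcardQ, hfact1]) ?_ P
  -- an element outside the torus
  have hu : ∃ u, ¬ IsT (φ u) := by
    by_contra hcon
    push Not at hcon
    let ψ : ↥(Q : Subgroup ↥(N F)) →* ↥(T F) := φ.codRestrict (T F) hcon
    have hψ : Function.Injective ψ := by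
      intro a b hab
      have h3 : ((ψ a : ↥(T F)) : Matrix.SpecialLinearGroup (Fin 2) F) = (ψ b : ↥(T F)) :=
        congrArg (fun z : ↥(T F) => (z : Matrix.SpecialLinearGroup (Fin 2) F)) hab
      exact hφ h3
    have hdvd := Subgroup.card_dvd_of_injective ψ hψ
    rw [hcardQ, hfact2] at hdvd
    exact Nat.pow_succ_factorization_not_dvd Nat.card_pos.ne' Nat.prime_two hdvd
  obtain ⟨u, huT⟩ := hu
  have huU : IsU (φ u) := (hφN u).resolve_left huT
  refine Cfsg.Agent.Lib.Helper44.SylE1.dic_sq ((T F).comap φ) u ?_ ?_ ?_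
  · intro x
    rcases hφN x with hx | hx
    · exact Or.inl hx
    · right
      rw [Subgroup.mem_comap, map_mul, map_inv]
      exact hx.mul huU.inv
  · intro t ht
    apply hφ
    rw [map_mul, map_mul, map_inv, map_inv]
    exact U_conj_T huU ht
  · refine ⟨⟨w, hwQ⟩, w₀_T, ?_⟩
    apply hφ
    rw [map_pow, map_pow, sq, sq]
    show w₀ F * w₀ F = φ u * φ u
    rw [w₀_sq, U_sq huU]

end main

end Cfsg.Agent.Lib.Helper44.SylE2
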