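import Mathlib

set_option autoImplicit false

/-!
The 2-part of the order of `GL_n(q)`, `q` odd, for even `n`.
-/

namespace Cfsg.Agent.Lib.Helper44.SylE3

open Matrix

section arith

/-- geometric sum -/
def G (q : ℕ) (n : ℕ) : ℕ := ∑ j ∈ Finset.range n, q ^ j

theorem G_spec (q : ℕ) (hq : 1 ≤ q) (n : ℕ) : (q - 1) * G q n + 1 = q ^ n := by
  induction n with
  | zero => simp [G]
  | succ n ih =>
    have h1 : G q (n + 1) = G q n + q ^ n := by
      unfold G
      rw [Finset.sum_range_succ]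
    rw [h1, Nat.mul_add, add_right_comm, ih, pow_succ]
    obtain ⟨k, rfl⟩ : ∃ k, q = k + 1 := ⟨q - 1, by omega⟩
    rw [Nat.add_sub_cancel]
    ring

theorem G_parity (q : ℕ) (hq : q % 2 = 1) (n : ℕ) : G q n % 2 = n % 2 := by
  induction n with
  | zero => simp [G]
  | succ n ih =>
    have h1 : G q (n + 1) = G q n + q ^ n := by
      unfold G
      rw [Finset.sum_range_succ]
    have h2 : q ^ n % 2 = 1 := by
      rw [Nat.pow_mod, hq, one_pow]
      rfl
    rw [h1]
    omega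

theorem val_odd (q : ℕ) (hq : q % 2 = 1) (hq1 : 1 < q) (t : ℕ) :
    padicValNat 2 (q ^ (2 * t + 1) - 1) = padicValNat 2 (q - 1) := by
  have h1 := G_spec q (by omega) (2 * t + 1)
  have h2 := G_parity q hq (2 * t + 1)
  have h3 : q ^ (2 * t + 1) - 1 = (q - 1) * G q (2 * t + 1) := by omega
  have h4 : ¬ 2 ∣ G q (2 * t + 1) := by omega
  have h5 : G q (2 * t + 1) ≠ 0 := by omega
  rw [h3, padicValNat.mul (by omega) h5, padicValNat.eq_zero_of_not_dvd h4, add_zero]

theorem val_even (q : ℕ) (hq : q % 2 = 1) (hq1 : 1 < q) (t : ℕ) :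
    padicValNat 2 (q ^ (2 * t + 2) - 1) =
      padicValNat 2 (q + 1) + padicValNat 2 (q - 1) + padicValNat 2 (t + 1) := by
  have h1 := padicValNat.pow_two_sub_one hq1 (by omega : ¬ 2 ∣ q) (n := 2 * (t + 1)) (by omega)
    (even_two_mul (t + 1))
  have h2 : padicValNat 2 (2 * (t + 1)) = 1 + padicValNat 2 (t + 1) := by
    rw [padicValNat.mul (by norm_num) (by omega), padicValNat_self]
  have h3 : 2 * (t + 1) = 2 * t + 2 := by ring
  rw [h3] at h1 h2
  omega

/-- the sum of the valuations of `q^j - 1`, `1 ≤ j ≤ n` -/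
def V (q : ℕ) (n : ℕ) : ℕ := ∑ j ∈ Finset.range n, padicValNat 2 (q ^ (j + 1) - 1)

/-- the constant `c` -/
def c (q : ℕ) : ℕ := 2 * padicValNat 2 (q - 1) + padicValNat 2 (q + 1)

theorem val_fact (m : ℕ) :
    padicValNat 2 (m + 1).factorial = padicValNat 2 (m + 1) + padicValNat 2 m.factorial := by
  rw [Nat.factorial_succ, padicValNat.mul (by omega) (Nat.factorial_ne_zero m)]

theorem V_even (q : ℕ) (hq : q % 2 = 1) (hq1 : 1 < q) (m : ℕ) :
    V q (2 * m) = m * c q + padicValNat 2 m.factorial := by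
  induction m with
  | zero => simp [V]
  | succ m ih =>
    have h1 : V q (2 * (m + 1)) = V q (2 * m) + padicValNat 2 (q ^ (2 * m + 1) - 1) +
        padicValNat 2 (q ^ (2 * m + 2) - 1) := by
      unfold V
      rw [show 2 * (m + 1) = 2 * m + 1 + 1 by ring, Finset.sum_range_succ, Finset.sum_range_succ]
    rw [h1, ih, val_odd q hq hq1, val_even q hq hq1, val_fact, c]
    ring

theorem val_shift (k j : ℕ) (hj : 0 < j) (hjk : j < 2 ^ k) :
    padicValNat 2 (2 ^ k + j) = padicValNat 2 j := by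
  have hj0 : j ≠ 0 := by omega
  set e := padicValNat 2 j with he
  have h1 : 2 ^ e ∣ j := pow_padicValNat_dvd
  have h2 : ¬ 2 ^ (e + 1) ∣ j := pow_succ_padicValNat_not_dvd hj0
  have hek : e < k := by
    by_contra hcon
    push Not at hcon
    have h3 : 2 ^ k ∣ j := dvd_trans (pow_dvd_pow 2 hcon) h1
    have := Nat.le_of_dvd hj h3
    omega
  have h4 : 2 ^ e ∣ 2 ^ k + j := dvd_add (pow_dvd_pow 2 hek.le) h1
  have h5 : ¬ 2 ^ (e + 1) ∣ 2 ^ k + j := by
    intro h
    have h6 : 2 ^ (e + 1) ∣ 2 ^ k := pow_dvd_pow 2 hek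
    exact h2 ((Nat.dvd_add_right h6).mp h)
  have hne : 2 ^ k + j ≠ 0 := by positivity
  have h7 : e ≤ padicValNat 2 (2 ^ k + j) := (padicValNat_dvd_iff_le hne).mp h4
  have h8 : ¬ (e + 1 ≤ padicValNat 2 (2 ^ k + j)) := fun h => h5 ((padicValNat_dvd_iff_le hne).mpr h)
  omega

theorem val_fact_add (k b : ℕ) (hb : b < 2 ^ k) :
    padicValNat 2 (2 ^ k + b).factorial =
      padicValNat 2 (2 ^ k).factorial + padicValNat 2 b.factorial := by
  induction b with
  | zero => simp
  | succ b ih =>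
    rw [← add_assoc, val_fact, val_fact, ih (by omega), add_assoc (2 ^ k), val_shift k (b + 1) (by omega) hb]
    ring

theorem val_fact_double (k : ℕ) :
    padicValNat 2 (2 ^ k + 2 ^ k).factorial = 2 * padicValNat 2 (2 ^ k).factorial + 1 := by
  have hpos : 0 < 2 ^ k := by positivity
  obtain ⟨b, hb⟩ : ∃ b, 2 ^ k = b + 1 := ⟨2 ^ k - 1, by omega⟩
  have h1 := val_fact_add k b (by omega)
  have h2 : padicValNat 2 (2 ^ k + 2 ^ k).factorial =
      padicValNat 2 (2 ^ k + 2 ^ k) + padicValNat 2 (2 ^ k + b).factorial := by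
    conv_lhs => rw [show 2 ^ k + 2 ^ k = (2 ^ k + b) + 1 by omega]
    rw [val_fact]
    congr 2
    omega
  have h3 : padicValNat 2 (2 ^ k).factorial = padicValNat 2 (2 ^ k) + padicValNat 2 b.factorial := by
    conv_lhs => rw [hb]
    rw [val_fact, ← hb]
  have h4 : padicValNat 2 (2 ^ k + 2 ^ k) = k + 1 := by
    rw [← two_mul, ← pow_succ', padicValNat.prime_pow]
  have h5 : padicValNat 2 (2 ^ k) = k := padicValNat.prime_pow k
  omega

theorem V_wreath (q : ℕ) (hq : q % 2 = 1) (hq1 : 1 < q) (k : ℕ) :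
    V q (2 * 2 ^ k + 2 * 2 ^ k) = 2 * V q (2 * 2 ^ k) + 1 := by
  rw [show 2 * 2 ^ k + 2 * 2 ^ k = 2 * (2 ^ k + 2 ^ k) by ring, V_even q hq hq1, V_even q hq hq1,
    val_fact_double]
  ring

theorem V_prod (q : ℕ) (hq : q % 2 = 1) (hq1 : 1 < q) (k b : ℕ) (hb : b < 2 ^ k) :
    V q (2 * 2 ^ k + 2 * b) = V q (2 * 2 ^ k) + V q (2 * b) := by
  rw [show 2 * 2 ^ k + 2 * b = 2 * (2 ^ k + b) by ring, V_even q hq hq1, V_even q hq hq1,
    V_even q hq hq1, val_fact_add k b hb]
  ring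

end arith

section gl

variable {F : Type*} [Field F] [Fintype F]

theorem card_GL_fact (hF : Odd (Fintype.card F)) (n : ℕ) :
    (Nat.card (GL (Fin n) F)).factorization 2 = V (Fintype.card F) n := by
  have hq1 : 1 < Fintype.card F := Fintype.one_lt_card
  set q := Fintype.card F with hq
  have hqodd : q % 2 = 1 := Nat.odd_iff.mp hF
  have hq2 : ¬ 2 ∣ q := by omega
  have hterm : ∀ i : Fin n, q ^ n - q ^ (i : ℕ) = q ^ (i : ℕ) * (q ^ (n - (i : ℕ)) - 1) := by
    intro i
    rw [Nat.mul_sub, mul_one, ← pow_add, Nat.add_sub_cancel' i.2.le]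
  have hpos : ∀ j : ℕ, j ≠ 0 → q ^ j - 1 ≠ 0 := by
    intro j hj
    have : 1 < q ^ j := Nat.one_lt_pow hj hq1
    omega
  have hne : ∀ i : Fin n, q ^ n - q ^ (i : ℕ) ≠ 0 := by
    intro i
    rw [hterm]
    exact Nat.mul_ne_zero (pow_ne_zero _ (by omega)) (hpos _ (by have := i.2; omega))
  rw [Matrix.card_GL_field, Nat.factorization_prod (fun i _ => hne i)]
  simp only [Finsupp.coe_finsetSum, Finset.sum_apply]
  have hval : ∀ i : Fin n, (q ^ n - q ^ (i : ℕ)).factorization 2 =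
      padicValNat 2 (q ^ (n - 1 - (i : ℕ) + 1) - 1) := by
    intro i
    rw [hterm, Nat.factorization_mul (pow_ne_zero _ (by omega)) (hpos _ (by have := i.2; omega)),
      Nat.factorization_pow]
    simp only [Finsupp.coe_add, Finsupp.coe_smul, Pi.add_apply, Pi.smul_apply, smul_eq_mul]
    rw [Nat.factorization_eq_zero_of_not_dvd hq2, mul_zero, zero_add,
      Nat.factorization_def _ Nat.prime_two]
    congr 3
    have := i.2
    omega
  rw [Finset.sum_congr rfl (fun i _ => hval i)]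
  rw [Fin.sum_univ_eq_sum_range (fun i => padicValNat 2 (q ^ (n - 1 - i + 1) - 1)) n]
  exact Finset.sum_range_reflect (fun j => padicValNat 2 (q ^ (j + 1) - 1)) n

end gl

end Cfsg.Agent.Lib.Helper44.SylE3
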