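import Mathlib
import Cfsg.Agent.Lib.Helper44.SylE1
import Cfsg.Agent.Lib.Helper44.SylE3

set_option autoImplicit false

/-!
Towers of 2-subgroups of `GL_n(q)` with determinant tracking: wreath and product steps.
-/

namespace Cfsg.Agent.Lib.Helper44.SylE4

open Matrix
open Cfsg.Agent.Lib.Helper44.SylE1

universe u

section blk

variable (F : Type u) [Field F] (a b : ℕ)

/-- block diagonal matrices -/
def blkM : Matrix (Fin a) (Fin a) F × Matrix (Fin b) (Fin b) F →*
    Matrix (Fin (a + b)) (Fin (a + b)) F where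
  toFun p := Matrix.reindex finSumFinEquiv finSumFinEquiv (Matrix.fromBlocks p.1 0 0 p.2)
  map_one' := by
    simp [Matrix.fromBlocks_one]
  map_mul' p q := by
    simp [Matrix.fromBlocks_multiply, Matrix.submatrix_mul_equiv]

/-- block diagonal embedding -/
def blk : GL (Fin a) F × GL (Fin b) F →* GL (Fin (a + b)) F :=
  (Units.map (blkM F a b)).comp
    (MulEquiv.prodUnits (M := Matrix (Fin a) (Fin a) F) (N := Matrix (Fin b) (Fin b) F)).symm.toMonoidHom

variable {F a b}

theorem blk_coe (g : GL (Fin a) F) (h : GL (Fin b) F) :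
    ((blk F a b (g, h) : GL (Fin (a + b)) F) : Matrix (Fin (a + b)) (Fin (a + b)) F) =
      Matrix.reindex finSumFinEquiv finSumFinEquiv
        (Matrix.fromBlocks (g : Matrix (Fin a) (Fin a) F) 0 0 (h : Matrix (Fin b) (Fin b) F)) :=
  rfl

theorem blk_injective : Function.Injective (blk F a b) := by
  rintro ⟨g, h⟩ ⟨g', h'⟩ heq
  have h1 := congrArg (fun x : GL (Fin (a + b)) F => (x : Matrix (Fin (a + b)) (Fin (a + b)) F)) heq
  simp only [blk_coe] at h1
  have h2 := (Matrix.reindex finSumFinEquiv finSumFinEquiv).injective h1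
  rw [Matrix.fromBlocks_inj] at h2
  exact Prod.ext (Units.ext h2.1) (Units.ext h2.2.2.2)

theorem blk_det (g : GL (Fin a) F) (h : GL (Fin b) F) :
    Matrix.GeneralLinearGroup.det (blk F a b (g, h)) =
      Matrix.GeneralLinearGroup.det g * Matrix.GeneralLinearGroup.det h := by
  apply Units.ext
  rw [Matrix.GeneralLinearGroup.val_det_apply, blk_coe, Matrix.det_reindex_self,
    Matrix.det_fromBlocks_zero₁₂, Units.val_mul, Matrix.GeneralLinearGroup.val_det_apply,
    Matrix.GeneralLinearGroup.val_det_apply]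

end blk

section sw

variable (F : Type u) [Field F] (n : ℕ)

/-- the block swap matrix -/
def swM : Matrix (Fin (n + n)) (Fin (n + n)) F :=
  Matrix.reindex finSumFinEquiv finSumFinEquiv
    (Matrix.fromBlocks (0 : Matrix (Fin n) (Fin n) F) 1 1 0)

theorem swM_mul : swM F n * swM F n = 1 := by
  simp [swM, Matrix.fromBlocks_multiply, Matrix.submatrix_mul_equiv, Matrix.fromBlocks_one]

/-- the block swap -/
def sw : GL (Fin (n + n)) F := ⟨swM F n, swM F n, swM_mul F n, swM_mul F n⟩

variable {F n}

theorem sw_conj (g h : GL (Fin n) F) :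
    sw F n * blk F n n (g, h) * (sw F n)⁻¹ = blk F n n (h, g) := by
  rw [mul_inv_eq_iff_eq_mul]
  apply Units.ext
  rw [Units.val_mul, Units.val_mul, blk_coe, blk_coe]
  show swM F n * _ = _ * swM F n
  simp [swM, Matrix.fromBlocks_multiply, Matrix.submatrix_mul_equiv]

theorem sw_det (hn : Even n) : Matrix.GeneralLinearGroup.det (sw F n) = 1 := by
  apply Units.ext
  rw [Matrix.GeneralLinearGroup.val_det_apply]
  show (swM F n).det = 1
  rw [swM, Matrix.det_reindex_self]
  have h1 : (Matrix.fromBlocks (0 : Matrix (Fin n) (Fin n) F) (1 : Matrix (Fin n) (Fin n) F)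
      (1 : Matrix (Fin n) (Fin n) F) (0 : Matrix (Fin n) (Fin n) F)) *
      Matrix.fromBlocks (1 : Matrix (Fin n) (Fin n) F) (0 : Matrix (Fin n) (Fin n) F)
        (1 : Matrix (Fin n) (Fin n) F) (1 : Matrix (Fin n) (Fin n) F) =
      Matrix.fromBlocks (1 : Matrix (Fin n) (Fin n) F) (1 : Matrix (Fin n) (Fin n) F)
        (1 : Matrix (Fin n) (Fin n) F) (0 : Matrix (Fin n) (Fin n) F) := by
    simp [Matrix.fromBlocks_multiply]
  have h2 := congrArg Matrix.det h1
  rw [Matrix.det_mul, Matrix.det_fromBlocks_zero₁₂, Matrix.det_fromBlocks_one₁₁, Matrix.det_one,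
    mul_one, mul_one] at h2
  rw [h2]
  have h3 : (0 : Matrix (Fin n) (Fin n) F) - 1 * 1 = -1 := by simp
  rw [h3, Matrix.det_neg, Matrix.det_one, mul_one, Fintype.card_fin]
  exact hn.neg_one_pow

theorem sw_ne_blk (hn : 0 < n) (g h : GL (Fin n) F) : sw F n ≠ blk F n n (g, h) := by
  intro heq
  have h1 := congrArg (fun x : GL (Fin (n + n)) F => (x : Matrix (Fin (n + n)) (Fin (n + n)) F)) heq
  simp only [blk_coe] at h1
  have h2 : swM F n = _ := h1
  rw [swM] at h2
  have h3 := (Matrix.reindex finSumFinEquiv finSumFinEquiv).injective h2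
  rw [Matrix.fromBlocks_inj] at h3
  have h4 := congrFun (congrFun h3.2.1 ⟨0, hn⟩) ⟨0, hn⟩
  simp at h4

end sw

section wr

variable (S : Type u) [Group S]

/-- the swap action -/
def phi : ℤˣ →* MulAut (S × S) where
  toFun u := if u = 1 then 1 else MulEquiv.prodComm
  map_one' := by simp
  map_mul' := by
    intro x y
    rcases Int.units_eq_one_or x with rfl | rfl <;> rcases Int.units_eq_one_or y with rfl | rfl
    · simp
    · simp
    · simp
    · have h1 : ((-1 : ℤˣ) = 1) = False := by decide
      simp only [h1, if_false]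
      have h2 : (-1 : ℤˣ) * -1 = 1 := by decide
      rw [h2, if_pos rfl]
      ext x <;> rfl

theorem phi_neg (x : S × S) : phi S (-1) x = (x.2, x.1) := by
  have h1 : ((-1 : ℤˣ) = 1) = False := by decide
  show (if (-1 : ℤˣ) = 1 then (1 : MulAut (S × S)) else MulEquiv.prodComm) x = _
  simp only [h1, if_false]
  rfl

variable (F : Type u) [Field F] (n : ℕ)

/-- the swap as a homomorphism from the group of order two -/
def tHom : ℤˣ →* GL (Fin (n + n)) F where
  toFun u := if u = 1 then 1 else sw F n
  map_one' := by simp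
  map_mul' := by
    intro x y
    rcases Int.units_eq_one_or x with rfl | rfl <;> rcases Int.units_eq_one_or y with rfl | rfl
    · simp
    · simp
    · simp
    · have h1 : ((-1 : ℤˣ) = 1) = False := by decide
      simp only [h1, if_false]
      have h2 : (-1 : ℤˣ) * -1 = 1 := by decide
      rw [h2, if_pos rfl]
      apply Units.ext
      exact (swM_mul F n).symm

theorem tHom_neg : tHom F n (-1) = sw F n := by
  have h1 : ((-1 : ℤˣ) = 1) = False := by decide
  show (if (-1 : ℤˣ) = 1 then (1 : GL (Fin (n + n)) F) else sw F n) = _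
  simp only [h1, if_false]

variable {S F n}

/-- the wreath product embedding -/
def wrHom (f : S →* GL (Fin n) F) : (S × S) ⋊[phi S] ℤˣ →* GL (Fin (n + n)) F :=
  SemidirectProduct.lift ((blk F n n).comp (f.prodMap f)) (tHom F n) (by
    intro u
    rcases Int.units_eq_one_or u with rfl | rfl
    · refine MonoidHom.ext fun x => ?_
      simp
    · refine MonoidHom.ext fun x => ?_
      obtain ⟨a, b⟩ := x
      show blk F n n (f.prodMap f (phi S (-1) (a, b))) =
        tHom F n (-1) * blk F n n (f.prodMap f (a, b)) * (tHom F n (-1))⁻¹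
      rw [phi_neg, tHom_neg]
      exact (sw_conj (f a) (f b)).symm)

theorem wrHom_inl (f : S →* GL (Fin n) F) (a b : S) :
    wrHom f (SemidirectProduct.inl (a, b)) = blk F n n (f a, f b) := by
  rw [wrHom, SemidirectProduct.lift_inl]
  rfl

theorem wrHom_inr (f : S →* GL (Fin n) F) :
    wrHom f (SemidirectProduct.inr (-1)) = sw F n := by
  rw [wrHom, SemidirectProduct.lift_inr, tHom_neg]

theorem wrHom_injective (hn : 0 < n) (f : S →* GL (Fin n) F) (hf : Function.Injective f) :
    Function.Injective (wrHom f) := by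
  rw [injective_iff_map_eq_one]
  intro w hw
  have hw' : w = SemidirectProduct.inl w.left * SemidirectProduct.inr w.right :=
    (SemidirectProduct.inl_left_mul_inr_right w).symm
  rw [hw', map_mul] at hw
  rcases hwl : w.left with ⟨a, b⟩
  rw [hwl] at hw hw'
  rcases Int.units_eq_one_or w.right with hr | hr
  · rw [hr, map_one, map_one, mul_one, wrHom_inl] at hw
    have h1 : blk F n n (f a, f b) = blk F n n (1, 1) := by
      rw [hw]
      exact (map_one (blk F n n)).symm
    have h2 := blk_injective h1
    have ha : a = 1 := hf (by rw [map_one]; exact congrArg Prod.fst h2)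
    have hb : b = 1 := hf (by rw [map_one]; exact congrArg Prod.snd h2)
    rw [hw', hr, ha, hb, map_one, mul_one]
    rfl
  · exfalso
    rw [hr, wrHom_inl, wrHom_inr] at hw
    have h1 : sw F n = blk F n n ((f a)⁻¹, (f b)⁻¹) := by
      have h2 : blk F n n ((f a)⁻¹, (f b)⁻¹) = (blk F n n (f a, f b))⁻¹ :=
        (map_inv (blk F n n) (f a, f b)).symm
      rw [h2]
      exact eq_inv_of_mul_eq_one_right hw
    exact sw_ne_blk hn _ _ h1

end wr

end Cfsg.Agent.Lib.Helper44.SylE4
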