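import Mathlib
import Cfsg.Agent.Lib.Helper44.SylE1
import Cfsg.Agent.Lib.Helper44.SylE2
import Cfsg.Agent.Lib.Helper44.SylE3
import Cfsg.Agent.Lib.Helper44.SylE4
import Cfsg.Agent.Lib.Helper44.FinSq
import Cfsg.Agent.Lib.Helper64.Sylow

set_option autoImplicit false

/-!
Towers of Sylow 2-subgroups of `GL_n(q)` and the Sylow 2-subgroups of `SL_n(q)`.
-/

namespace Cfsg.Agent.Lib.Helper44.SylE5

open Matrix
open scoped commutatorElement
open Cfsg.Agent.Lib.Helper44.SylE1 Cfsg.Agent.Lib.Helper44.SylE3 Cfsg.Agent.Lib.Helper44.SylE4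

universe u

section tow

variable (F : Type u) [Field F] [Fintype F]

/-- the determinant homomorphism -/
abbrev detH (n : ℕ) : GL (Fin n) F →* Fˣ := Matrix.GeneralLinearGroup.det

/-- a group of the order of a Sylow 2-subgroup of `GL_n` embedded in `GL_n`, with good
determinant kernel -/
def Tow (n : ℕ) (e : Prop) : Prop :=
  ∃ (S : Type u) (_ : Group S) (f : S →* GL (Fin n) F), Function.Injective f ∧
    Nat.card S = 2 ^ (Nat.card (GL (Fin n) F)).factorization 2 ∧
    P1 ((detH F n).comp f) ∧ R1 ((detH F n).comp f) ∧ (e → P2 ((detH F n).comp f) (-1))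

variable {F}

theorem tow_wreath (n : ℕ) (hn : Even n) (hn0 : 0 < n)
    (harith : (Nat.card (GL (Fin (n + n)) F)).factorization 2 =
      2 * (Nat.card (GL (Fin n) F)).factorization 2 + 1)
    (e : Prop) (h : Tow F n e) : Tow F (n + n) e := by
  obtain ⟨S, _, f, hf, hcard, hP1, hR1, hP2⟩ := h
  refine ⟨(S × S) ⋊[phi S] ℤˣ, inferInstance, wrHom f, wrHom_injective hn0 f hf, ?_, ?_⟩
  · rw [SemidirectProduct.card, Nat.card_prod, hcard, harith, Nat.card_eq_fintype_card (α := ℤˣ),
      Fintype.card_units_int]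
    ring
  let i₁ : S →* (S × S) ⋊[phi S] ℤˣ := SemidirectProduct.inl.comp (MonoidHom.inl S S)
  let i₂ : S →* (S × S) ⋊[phi S] ℤˣ := SemidirectProduct.inl.comp (MonoidHom.inr S S)
  let τ : (S × S) ⋊[phi S] ℤˣ := SemidirectProduct.inr (-1)
  have hi₁ : ∀ a, i₁ a = SemidirectProduct.inl (a, 1) := fun a => rfl
  have hi₂ : ∀ a, i₂ a = SemidirectProduct.inl (1, a) := fun a => rfl
  have hmul : ∀ a b, i₁ a * i₂ b = SemidirectProduct.inl (a, b) := by
    intro a b
    rw [hi₁, hi₂, ← map_mul]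
    congr 1
    ext <;> simp
  have h1 : ∀ a b, i₁ a * i₂ b = i₂ b * i₁ a := by
    intro a b
    rw [hmul, hi₁, hi₂, ← map_mul]
    congr 1
    ext <;> simp
  have h2 : τ * τ = 1 := by
    show SemidirectProduct.inr (-1) * SemidirectProduct.inr (-1) = (1 : (S × S) ⋊[phi S] ℤˣ)
    rw [← map_mul]
    have : (-1 : ℤˣ) * -1 = 1 := by decide
    rw [this, map_one]
  have h3 : ∀ a, τ * i₁ a * τ⁻¹ = i₂ a := by
    intro a
    have h7 := SemidirectProduct.inl_aut (φ := phi S) (-1) ((a, 1) : S × S)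
    rw [phi_neg] at h7
    rw [hi₁, hi₂]
    show SemidirectProduct.inr (-1) * SemidirectProduct.inl (a, 1) *
      (SemidirectProduct.inr (-1))⁻¹ = SemidirectProduct.inl (1, a)
    rw [← map_inv]
    exact h7.symm
  have h4 : ∀ w, ∃ a b, w = i₁ a * i₂ b ∨ w = i₁ a * i₂ b * τ := by
    intro w
    have hw' : w = SemidirectProduct.inl w.left * SemidirectProduct.inr w.right :=
      (SemidirectProduct.inl_left_mul_inr_right w).symm
    rcases hwl : w.left with ⟨a, b⟩
    refine ⟨a, b, ?_⟩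
    rw [hwl] at hw'
    rw [hmul]
    rcases Int.units_eq_one_or w.right with hr | hr
    · left
      rw [hw', hr, map_one, mul_one]
    · right
      rw [hw', hr]
  have h5 : ∀ a, ((detH F (n + n)).comp (wrHom f)) (i₁ a) = ((detH F n).comp f) a := by
    intro a
    show detH F (n + n) (wrHom f (SemidirectProduct.inl (a, 1))) = detH F n (f a)
    rw [wrHom_inl, blk_det, map_one, map_one, mul_one]
  have h5' : ∀ a, ((detH F (n + n)).comp (wrHom f)) (i₂ a) = ((detH F n).comp f) a := by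
    intro a
    show detH F (n + n) (wrHom f (SemidirectProduct.inl (1, a))) = detH F n (f a)
    rw [wrHom_inl, blk_det, map_one, map_one, one_mul]
  have h6 : ((detH F (n + n)).comp (wrHom f)) τ = 1 := by
    show detH F (n + n) (wrHom f (SemidirectProduct.inr (-1))) = 1
    rw [wrHom_inr]
    exact sw_det hn
  exact ⟨wreath_P1 i₁ i₂ τ h1 h2 h3 h4 _ _ h5 h5' h6 hR1 hP1.r2,
    wreath_R1 i₁ i₂ τ h4 _ _ h5 h5' h6 hR1,
    fun he => wreath_P2 i₁ i₂ τ h4 _ _ h5 h5' h6 (-1) (by simp) (hP2 he)⟩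

theorem tow_prod (a b : ℕ)
    (harith : (Nat.card (GL (Fin (a + b)) F)).factorization 2 =
      (Nat.card (GL (Fin a) F)).factorization 2 + (Nat.card (GL (Fin b) F)).factorization 2)
    (h₁ : Tow F a True) (h₂ : Tow F b True) : Tow F (a + b) True := by
  obtain ⟨S₁, _, f₁, hf₁, hc₁, hA1, -, hB1⟩ := h₁
  obtain ⟨S₂, _, f₂, hf₂, hc₂, hA2, -, hB2⟩ := h₂
  refine ⟨S₁ × S₂, inferInstance, (blk F a b).comp (f₁.prodMap f₂), ?_, ?_, ?_⟩
  · exact blk_injective.comp (Prod.map_injective.mpr ⟨hf₁, hf₂⟩)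
  · rw [Nat.card_prod, hc₁, hc₂, harith, pow_add]
  · have h4 : ∀ w : S₁ × S₂, ∃ x y, w = MonoidHom.inl S₁ S₂ x * MonoidHom.inr S₁ S₂ y :=
      fun w => ⟨w.1, w.2, by ext <;> simp⟩
    have h1 : ∀ x y, MonoidHom.inl S₁ S₂ x * MonoidHom.inr S₁ S₂ y =
        MonoidHom.inr S₁ S₂ y * MonoidHom.inl S₁ S₂ x := by
      intro x y
      ext <;> simp
    have h5 : ∀ x, ((detH F (a + b)).comp ((blk F a b).comp (f₁.prodMap f₂)))
        (MonoidHom.inl S₁ S₂ x) = ((detH F a).comp f₁) x := by
      intro x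
      show detH F (a + b) (blk F a b (f₁ x, f₂ 1)) = detH F a (f₁ x)
      rw [blk_det, map_one, map_one, mul_one]
    have h5' : ∀ y, ((detH F (a + b)).comp ((blk F a b).comp (f₁.prodMap f₂)))
        (MonoidHom.inr S₁ S₂ y) = ((detH F b).comp f₂) y := by
      intro y
      show detH F (a + b) (blk F a b (f₁ 1, f₂ y)) = detH F b (f₂ y)
      rw [blk_det, map_one, map_one, one_mul]
    have hP2 := prod_P2 _ _ h4 _ _ _ h5 h5' (-1) (by simp) (hB1 trivial) (hB2 trivial)
    exact ⟨prod_P1 _ _ h1 h4 _ _ _ h5 h5' (-1) (by simp) hA1 hA2 (hB1 trivial) (hB2 trivial),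
      hP2.r1, fun _ => hP2⟩

end tow

section transport

variable {F : Type u} [Field F] [Fintype F]

/-- the inclusion of `SL_n` in `GL_n` -/
abbrev toGLn (F : Type u) [Field F] (n : ℕ) :
    Matrix.SpecialLinearGroup (Fin n) F →* GL (Fin n) F :=
  Matrix.SpecialLinearGroup.toGL

omit [Fintype F] in
theorem mem_range_iff (n : ℕ) (x : GL (Fin n) F) :
    x ∈ (toGLn F n).range ↔ detH F n x = 1 := by
  rw [MonoidHom.mem_range]
  constructor
  · rintro ⟨s, rfl⟩
    exact Matrix.SpecialLinearGroup.coeToGL_det s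
  · intro hx
    have hdet : (x : Matrix (Fin n) (Fin n) F).det = 1 := by
      have h1 := congrArg Units.val hx
      rw [Matrix.GeneralLinearGroup.val_det_apply] at h1
      exact h1
    exact ⟨⟨(x : Matrix (Fin n) (Fin n) F), hdet⟩, Units.ext rfl⟩

omit [Fintype F] in
theorem range_normal (n : ℕ) : ((toGLn F n).range).Normal := by
  have h : (toGLn F n).range = (detH F n).ker := by
    ext x
    rw [mem_range_iff, MonoidHom.mem_ker]
  rw [h]
  infer_instance

omit [Fintype F] in
theorem toGLn_injective (n : ℕ) : Function.Injective (toGLn F n) :=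
  Matrix.SpecialLinearGroup.toGL_injective

/-- from the Sylow 2-subgroups of `SL_n` to the determinant kernel on a Sylow 2-subgroup of
`GL_n` -/
theorem P1_of_sl (n : ℕ)
    (hsl : ∀ P : Sylow 2 (Matrix.SpecialLinearGroup (Fin n) F),
      ∀ x : ↥(P : Subgroup (Matrix.SpecialLinearGroup (Fin n) F)),
        x ^ 2 ∈ commutator ↥(P : Subgroup (Matrix.SpecialLinearGroup (Fin n) F)))
    (R : Sylow 2 (GL (Fin n) F)) :
    P1 ((detH F n).comp (R : Subgroup (GL (Fin n) F)).subtype) := by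
  classical
  haveI : Fact (Nat.Prime 2) := ⟨Nat.prime_two⟩
  have hinj := toGLn_injective (F := F) n
  haveI hnorm := range_normal (F := F) n
  obtain ⟨Q, hQ⟩ := Cfsg.Agent.Lib.Helper64.Sylow.exists_sylow_subgroupOf_normal R
    (toGLn F n).range
  have hQsq : ∀ y : ↥(Q : Subgroup ↥(toGLn F n).range),
      y ^ 2 ∈ commutator ↥(Q : Subgroup ↥(toGLn F n).range) := by
    obtain ⟨P⟩ : Nonempty (Sylow 2 (Matrix.SpecialLinearGroup (Fin n) F)) := inferInstance
    refine sylow_of_hom ((MonoidHom.ofInjective hinj).toMonoidHom.comp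
      (P : Subgroup (Matrix.SpecialLinearGroup (Fin n) F)).subtype) ?_ ?_ (hsl P) Q
    · exact (MonoidHom.ofInjective hinj).injective.comp Subtype.val_injective
    · rw [Sylow.card_eq_multiplicity, Nat.card_congr (MonoidHom.ofInjective hinj).toEquiv]
  have hmemR : ∀ y : ↥(Q : Subgroup ↥(toGLn F n).range),
      ((toGLn F n).range.subtype.comp (Q : Subgroup ↥(toGLn F n).range).subtype) y ∈
        (R : Subgroup (GL (Fin n) F)) := by
    intro y
    have h1 : (y : ↥(toGLn F n).range) ∈ (Q : Subgroup ↥(toGLn F n).range) := y.2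
    have h2 := (SetLike.ext_iff.mp hQ (y : ↥(toGLn F n).range)).mp h1
    exact Subgroup.mem_subgroupOf.mp h2
  let ψ : ↥(Q : Subgroup ↥(toGLn F n).range) →* ↥(R : Subgroup (GL (Fin n) F)) :=
    ((toGLn F n).range.subtype.comp (Q : Subgroup ↥(toGLn F n).range).subtype).codRestrict
      (R : Subgroup (GL (Fin n) F)) hmemR
  have hrange : ψ.range = ((detH F n).comp (R : Subgroup (GL (Fin n) F)).subtype).ker := by
    ext x
    constructor
    · rintro ⟨y, rfl⟩
      rw [MonoidHom.mem_ker]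
      show detH F n ((y : ↥(toGLn F n).range) : GL (Fin n) F) = 1
      exact (mem_range_iff n _).mp (y : ↥(toGLn F n).range).2
    · intro hx
      rw [MonoidHom.mem_ker] at hx
      have hxN : (x : GL (Fin n) F) ∈ (toGLn F n).range := (mem_range_iff n _).mpr hx
      have hxQ : (⟨(x : GL (Fin n) F), hxN⟩ : ↥(toGLn F n).range) ∈
          (Q : Subgroup ↥(toGLn F n).range) := by
        rw [hQ, Subgroup.mem_subgroupOf]
        exact x.2
      exact ⟨⟨⟨(x : GL (Fin n) F), hxN⟩, hxQ⟩, Subtype.ext rfl⟩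
  have hmap : (commutator ↥(Q : Subgroup ↥(toGLn F n).range)).map ψ = ⁅ψ.range, ψ.range⁆ := by
    rw [commutator_def, Subgroup.map_commutator, ← MonoidHom.range_eq_map]
  intro x hx
  rw [← hrange] at hx ⊢
  obtain ⟨y, rfl⟩ := hx
  rw [← map_pow, ← hmap]
  exact Subgroup.mem_map_of_mem _ (hQsq y)

/-- from a tower to the Sylow 2-subgroups of `SL_n` -/
theorem sl_of_tow (n : ℕ) (e : Prop) (h : Tow F n e)
    (P : Sylow 2 (Matrix.SpecialLinearGroup (Fin n) F)) :
    ∀ x : ↥(P : Subgroup (Matrix.SpecialLinearGroup (Fin n) F)),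
      x ^ 2 ∈ commutator ↥(P : Subgroup (Matrix.SpecialLinearGroup (Fin n) F)) := by
  classical
  obtain ⟨S, _, f, hf, hcard, hP1, -, -⟩ := h
  haveI : Fact (Nat.Prime 2) := ⟨Nat.prime_two⟩
  have hinj := toGLn_injective (F := F) n
  haveI hnorm := range_normal (F := F) n
  have hR : Nat.card f.range = 2 ^ (Nat.card (GL (Fin n) F)).factorization 2 := by
    rw [← hcard]
    exact (Nat.card_congr (MonoidHom.ofInjective hf).toEquiv).symm
  obtain ⟨Q, hQ⟩ := Cfsg.Agent.Lib.Helper64.Sylow.exists_sylow_subgroupOf_normal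
    (Sylow.ofCard f.range hR) (toGLn F n).range
  rw [Sylow.coe_ofCard] at hQ
  have hmemN : ∀ s : ↥((detH F n).comp f).ker, f s.1 ∈ (toGLn F n).range := by
    intro s
    exact (mem_range_iff n _).mpr s.2
  have hmemQ : ∀ s : ↥((detH F n).comp f).ker,
      (⟨f s.1, hmemN s⟩ : ↥(toGLn F n).range) ∈ (Q : Subgroup ↥(toGLn F n).range) := by
    intro s
    rw [hQ, Subgroup.mem_subgroupOf]
    exact ⟨s.1, rfl⟩
  let θ : ↥((detH F n).comp f).ker →* ↥(Q : Subgroup ↥(toGLn F n).range) :=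
    { toFun := fun s => ⟨⟨f s.1, hmemN s⟩, hmemQ s⟩
      map_one' := by
        apply Subtype.ext
        apply Subtype.ext
        show f (1 : S) = 1
        rw [map_one]
      map_mul' := by
        intro a b
        apply Subtype.ext
        apply Subtype.ext
        show f (a.1 * b.1) = f a.1 * f b.1
        rw [map_mul] }
  have hθsurj : Function.Surjective θ := by
    intro y
    have h1 : (y : ↥(toGLn F n).range) ∈ (Q : Subgroup ↥(toGLn F n).range) := y.2
    have h2 := (SetLike.ext_iff.mp hQ (y : ↥(toGLn F n).range)).mp h1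
    obtain ⟨s, hs⟩ := Subgroup.mem_subgroupOf.mp h2
    have hsK : s ∈ ((detH F n).comp f).ker := by
      rw [MonoidHom.mem_ker]
      show detH F n (f s) = 1
      rw [hs]
      exact (mem_range_iff n _).mp (y : ↥(toGLn F n).range).2
    exact ⟨⟨s, hsK⟩, Subtype.ext (Subtype.ext hs)⟩
  have hK : ∀ s : ↥((detH F n).comp f).ker, s ^ 2 ∈ commutator ↥((detH F n).comp f).ker := by
    intro s
    have h1 := hP1 s.1 s.2
    rw [← Subgroup.map_subtype_commutator] at h1
    obtain ⟨c, hc, hcs⟩ := h1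
    have h2 : c = s ^ 2 := Subtype.ext hcs
    rw [← h2]
    exact hc
  have hQsq : ∀ y : ↥(Q : Subgroup ↥(toGLn F n).range),
      y ^ 2 ∈ commutator ↥(Q : Subgroup ↥(toGLn F n).range) := by
    intro y
    obtain ⟨s, rfl⟩ := hθsurj y
    have hmap : (commutator ↥((detH F n).comp f).ker).map θ =
        commutator ↥(Q : Subgroup ↥(toGLn F n).range) := by
      rw [commutator_def, Subgroup.map_commutator, ← MonoidHom.range_eq_map,
        MonoidHom.range_eq_top.mpr hθsurj, commutator_def]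
    rw [← map_pow, ← hmap]
    exact Subgroup.mem_map_of_mem _ (hK s)
  refine sylow_of_hom ((MonoidHom.ofInjective hinj).symm.toMonoidHom.comp
    (Q : Subgroup ↥(toGLn F n).range).subtype) ?_ ?_ hQsq P
  · exact (MonoidHom.ofInjective hinj).symm.injective.comp Subtype.val_injective
  · rw [Sylow.card_eq_multiplicity, ← Nat.card_congr (MonoidHom.ofInjective hinj).toEquiv]

end transport

end Cfsg.Agent.Lib.Helper44.SylE5
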