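import Mathlib
import Cfsg.Agent.Lib.Helper44.SylE1
import Cfsg.Agent.Lib.Helper44.SylE2
import Cfsg.Agent.Lib.Helper44.SylE3
import Cfsg.Agent.Lib.Helper44.SylE4
import Cfsg.Agent.Lib.Helper44.SylE5

set_option autoImplicit false

/-!
The towers for all even degrees, and the Sylow 2-subgroups of `SL_{2m}(q)`.
-/

namespace Cfsg.Agent.Lib.Helper44.SylE6

open Matrix
open scoped commutatorElement
open Cfsg.Agent.Lib.Helper44.SylE1 Cfsg.Agent.Lib.Helper44.SylE3 Cfsg.Agent.Lib.Helper44.SylE4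
open Cfsg.Agent.Lib.Helper44.SylE5

universe u

section base

variable (F : Type u) [Field F]

/-- the diagonal reflection -/
def dM : Matrix (Fin 2) (Fin 2) F := !![1, 0; 0, -1]

theorem dM_mul : dM F * dM F = 1 := by
  ext i j
  fin_cases i <;> fin_cases j <;> simp [dM, Matrix.mul_apply, Fin.sum_univ_two]

/-- the diagonal reflection in the general linear group -/
def dG : GL (Fin 2) F := ⟨dM F, dM F, dM_mul F, dM_mul F⟩

theorem dG_sq : dG F ^ 2 = 1 := by
  apply Units.ext
  rw [sq]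
  exact dM_mul F

theorem dG_det : detH F 2 (dG F) = -1 := by
  apply Units.ext
  rw [Matrix.GeneralLinearGroup.val_det_apply]
  show (dM F).det = ((-1 : Fˣ) : F)
  simp [dM, Matrix.det_fin_two]

end base

section towers

variable {F : Type u} [Field F] [Fintype F]

theorem Tow.imp {n : ℕ} {e e' : Prop} (h : Tow F n e) (he : e' → e) : Tow F n e' := by
  obtain ⟨S, i, f, hf, hcard, hP1, hR1, hP2⟩ := h
  exact ⟨S, i, f, hf, hcard, hP1, hR1, fun h' => hP2 (he h')⟩

theorem tow_base (hF : Odd (Fintype.card F)) : Tow F 2 (Fintype.card F % 4 = 3) := by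
  classical
  haveI : Fact (Nat.Prime 2) := ⟨Nat.prime_two⟩
  have hpg : IsPGroup 2 ↥(Subgroup.zpowers (dG F)) := by
    intro g
    obtain ⟨g, hg⟩ := g
    obtain ⟨i, rfl⟩ := Subgroup.mem_zpowers_iff.mp hg
    refine ⟨1, Subtype.ext ?_⟩
    show (dG F ^ i) ^ 2 ^ 1 = 1
    rw [pow_one, ← zpow_natCast, ← _root_.zpow_mul, mul_comm, _root_.zpow_mul, zpow_natCast]
    simp [dG_sq]
  obtain ⟨R, hR⟩ := hpg.exists_le_sylow
  have hdR : dG F ∈ (R : Subgroup (GL (Fin 2) F)) := hR (Subgroup.mem_zpowers _)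
  refine ⟨↥(R : Subgroup (GL (Fin 2) F)), inferInstance, (R : Subgroup (GL (Fin 2) F)).subtype,
    Subtype.val_injective, Sylow.card_eq_multiplicity R,
    P1_of_sl 2 (fun P => Cfsg.Agent.Lib.Helper44.SylE2.sl2_sq hF P) R, ?_, ?_⟩
  · -- cyclic image
    obtain ⟨g, hg⟩ := IsCyclic.exists_generator
      (α := ↥((detH F 2).comp (R : Subgroup (GL (Fin 2) F)).subtype).range)
    obtain ⟨g, g₀, rfl⟩ := g
    refine ⟨g₀, fun x => ?_⟩
    have h1 := hg ⟨((detH F 2).comp (R : Subgroup (GL (Fin 2) F)).subtype) x, ⟨x, rfl⟩⟩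
    obtain ⟨i, hi⟩ := Subgroup.mem_zpowers_iff.mp h1
    refine ⟨i, ?_⟩
    have h2 := congrArg Subtype.val hi
    rw [Subgroup.coe_zpow] at h2
    exact h2.symm
  · intro h3
    refine ⟨⟨dG F, hdR⟩, Subtype.ext (dG_sq F), dG_det F, fun x => ?_⟩
    obtain ⟨k, hk⟩ := R.isPGroup' x
    have h1 : (((detH F 2).comp (R : Subgroup (GL (Fin 2) F)).subtype) x) ^ 2 ^ k = 1 := by
      rw [← map_pow, hk, map_one]
    have h2 : (((detH F 2).comp (R : Subgroup (GL (Fin 2) F)).subtype) x) ^
        (Fintype.card F - 1) = 1 := by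
      rw [← Fintype.card_units]
      exact pow_card_eq_one
    set z := ((detH F 2).comp (R : Subgroup (GL (Fin 2) F)).subtype) x with hz
    have h4 : orderOf z ∣ 2 ^ k := orderOf_dvd_of_pow_eq_one h1
    have h5 : orderOf z ∣ Fintype.card F - 1 := orderOf_dvd_of_pow_eq_one h2
    obtain ⟨j, hj, hj2⟩ := (Nat.dvd_prime_pow Nat.prime_two).mp h4
    have hj1 : j ≤ 1 := by
      by_contra hcon
      have h6 : 2 ^ 2 ∣ orderOf z := by
        rw [hj2]
        exact pow_dvd_pow 2 (by omega)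
      have h7 := h6.trans h5
      omega
    have h8 : z ^ 2 = 1 := by
      apply orderOf_dvd_iff_pow_eq_one.mp
      rw [hj2]
      interval_cases j <;> simp
    have h9 : ((z : Fˣ) : F) * ((z : Fˣ) : F) = 1 := by
      have := congrArg Units.val h8
      rw [sq, Units.val_mul, Units.val_one] at this
      exact this
    rcases mul_self_eq_one_iff.mp h9 with h10 | h10
    · left
      exact Units.ext h10
    · right
      apply Units.ext
      rw [h10]
      simp

theorem tow_pow (hF : Odd (Fintype.card F)) (j : ℕ) :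
    Tow F (2 * 2 ^ j) (Fintype.card F % 4 = 3) := by
  have hq : Fintype.card F % 2 = 1 := Nat.odd_iff.mp hF
  have hq1 : 1 < Fintype.card F := Fintype.one_lt_card
  induction j with
  | zero =>
    have e : 2 * 2 ^ 0 = 2 := rfl
    rw [e]
    exact tow_base hF
  | succ j ih =>
    have e : 2 * 2 ^ (j + 1) = 2 * 2 ^ j + 2 * 2 ^ j := by ring
    rw [e]
    refine tow_wreath (2 * 2 ^ j) (even_two_mul _) (by positivity) ?_ _ ih
    rw [card_GL_fact hF, card_GL_fact hF, V_wreath _ hq hq1 j]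

theorem tow_three (hF : Odd (Fintype.card F)) (h3 : Fintype.card F % 4 = 3) :
    ∀ m : ℕ, 1 ≤ m → Tow F (2 * m) True := by
  have hq : Fintype.card F % 2 = 1 := Nat.odd_iff.mp hF
  have hq1 : 1 < Fintype.card F := Fintype.one_lt_card
  intro m
  induction m using Nat.strong_induction_on with
  | _ m ih =>
    intro hm
    have hk1 : 2 ^ Nat.log 2 m ≤ m := Nat.pow_log_le_self 2 (by omega)
    have hk2 : m < 2 ^ (Nat.log 2 m + 1) := Nat.lt_pow_succ_log_self (by norm_num) m
    generalize Nat.log 2 m = k at hk1 hk2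
    rcases Nat.eq_or_lt_of_le hk1 with h | h
    · rw [← h]
      exact Tow.imp (tow_pow hF k) (fun _ => h3)
    · have hb : m - 2 ^ k < 2 ^ k := by
        rw [pow_succ] at hk2
        omega
      have hb0 : 1 ≤ m - 2 ^ k := by omega
      have hblt : m - 2 ^ k < m := by
        have : 0 < 2 ^ k := pow_pos (by norm_num) k
        omega
      have e : 2 * m = 2 * 2 ^ k + 2 * (m - 2 ^ k) := by omega
      rw [e]
      refine tow_prod (2 * 2 ^ k) (2 * (m - 2 ^ k)) ?_ (Tow.imp (tow_pow hF k) (fun _ => h3))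
        (ih _ hblt hb0)
      rw [card_GL_fact hF, card_GL_fact hF, card_GL_fact hF, V_prod _ hq hq1 k _ hb]

/-- The Sylow 2-subgroups of `SL_{2m}(q)`: squares lie in the derived subgroup, if `q ≡ 3 mod 4`,
or `m` is a power of two. -/
theorem sl_even (hF : Odd (Fintype.card F)) (m : ℕ) (hm : 1 ≤ m)
    (hq : Fintype.card F % 4 = 3 ∨ ∃ j : ℕ, m = 2 ^ j)
    (P : Sylow 2 (Matrix.SpecialLinearGroup (Fin (2 * m)) F)) :
    ∀ x : ↥(P : Subgroup (Matrix.SpecialLinearGroup (Fin (2 * m)) F)),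
      x ^ 2 ∈ commutator ↥(P : Subgroup (Matrix.SpecialLinearGroup (Fin (2 * m)) F)) := by
  rcases hq with h | ⟨j, rfl⟩
  · exact sl_of_tow (2 * m) True (tow_three hF h m hm) P
  · exact sl_of_tow (2 * 2 ^ j) _ (tow_pow hF j) P

end towers

end Cfsg.Agent.Lib.Helper44.SylE6
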