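import Mathlib
import Cfsg.Agent.Lib.Helper44.SylE1
import Cfsg.Agent.Lib.Helper64.Sylow

set_option autoImplicit false

/-!
Abstract group theory for "squares lie in the derived subgroup" of kernels of a homomorphism `δ`
with values of exponent two (determinant and spinor norm), closed under wreath products by a group
of order two and under direct products.
-/

namespace Cfsg.Agent.Lib.Helper44.SylO1

open scoped commutatorElement
open Cfsg.Agent.Lib.Helper44.SylE1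

section defs

variable {S : Type*} [Group S] {Z : Type*} [CommGroup Z]

/-- squares of kernel elements lie in the commutator of the kernel with the whole group -/
def PW (δ : S →* Z) : Prop := ∀ x ∈ δ.ker, x ^ 2 ∈ ⁅δ.ker, (⊤ : Subgroup S)⁆

/-- every value of `δ` is attained at an element of square one -/
def II (δ : S →* Z) : Prop := ∀ x : S, ∃ d : S, d * d = 1 ∧ δ d = δ x

/-- every value of `δ` is a product of two values at elements of square one -/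
def II' (δ : S →* Z) : Prop :=
  ∀ x : S, ∃ d₁ d₂ : S, d₁ * d₁ = 1 ∧ d₂ * d₂ = 1 ∧ δ x = δ d₁ * δ d₂

/-- any two values of `δ` are attained at commuting elements -/
def CC (δ : S →* Z) : Prop := ∀ x y : S, ∃ a b : S, a * b = b * a ∧ δ a = δ x ∧ δ b = δ y

/-- the values of `δ` have square one -/
def X2 (δ : S →* Z) : Prop := ∀ x : S, δ x * δ x = 1

/-- squares lie in the derived subgroup -/
def EE (S : Type*) [Group S] : Prop := ∀ x : S, x ^ 2 ∈ commutator S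

theorem P1.pw {δ : S →* Z} (h : P1 δ) : PW δ := fun x hx =>
  Subgroup.commutator_mono le_rfl le_top (h x hx)

theorem II.ii' {δ : S →* Z} (h : II δ) : II' δ := fun x => by
  obtain ⟨d, hd, hx⟩ := h x
  exact ⟨d, 1, hd, one_mul 1, by rw [map_one, mul_one, hx]⟩

theorem ee_of (δ : S →* Z) (hX : X2 δ) (hP : P1 δ) (hI : II δ) : EE S := by
  intro x
  obtain ⟨d, hd, hdx⟩ := hI x
  have hdinv : d⁻¹ = d := inv_eq_of_mul_eq_one_left hd
  have hk : d * x ∈ δ.ker := by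
    rw [MonoidHom.mem_ker, map_mul, hdx]
    exact hX x
  have e : x ^ 2 = ⁅d, d * x⁆ * (d * x) ^ 2 := by
    rw [commutatorElement_def, hdinv, sq, sq]
    have h1 : d * (d * x) * d * (d * x)⁻¹ * (d * x * (d * x)) = (d * d) * x * (d * d) * x := by
      group
    rw [h1, hd, one_mul, mul_one]
  rw [e]
  refine Subgroup.mul_mem _ ?_ ?_
  · rw [commutator_def]
    exact Subgroup.commutator_mem_commutator (Subgroup.mem_top _) (Subgroup.mem_top _)
  · rw [commutator_def]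
    exact Subgroup.commutator_mono le_top le_top (hP _ hk)

end defs

section wreath

variable {S : Type*} [Group S] {Z : Type*} [CommGroup Z] {W : Type*} [Group W]

theorem wreath_P1' (i₁ i₂ : S →* W) (τ : W)
    (h1 : ∀ a b, i₁ a * i₂ b = i₂ b * i₁ a) (h2 : τ * τ = 1)
    (h3 : ∀ a, τ * i₁ a * τ⁻¹ = i₂ a)
    (h4 : ∀ w, ∃ a b, w = i₁ a * i₂ b ∨ w = i₁ a * i₂ b * τ)
    (δ : S →* Z) (δ₁ : W →* Z) (h5 : ∀ a, δ₁ (i₁ a) = δ a) (h5' : ∀ a, δ₁ (i₂ a) = δ a)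
    (h6 : δ₁ τ = 1) (hX : X2 δ) (hPW : PW δ) : P1 δ₁ := by
  have hτinv : τ⁻¹ = τ := inv_eq_of_mul_eq_one_left h2
  have h3' : ∀ a, τ * i₂ a * τ⁻¹ = i₁ a := by
    intro a
    rw [← h3 a, hτinv]
    calc τ * (τ * i₁ a * τ) * τ = (τ * τ) * i₁ a * (τ * τ) := by group
      _ = i₁ a := by rw [h2, one_mul, mul_one]
  have hCn : (⁅δ₁.ker, δ₁.ker⁆ : Subgroup W).Normal := inferInstance
  let j : S × S →* W := MonoidHom.noncommCoprod i₁ i₂ (fun a b => h1 a b)
  have hj : ∀ a b, j (a, b) = i₁ a * i₂ b := fun a b => rfl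
  have hjK : ∀ a b, δ a * δ b = 1 → j (a, b) ∈ δ₁.ker := by
    intro a b hab
    rw [MonoidHom.mem_ker, hj, map_mul, h5, h5', hab]
  have hτK : τ ∈ δ₁.ker := by rw [MonoidHom.mem_ker, h6]
  have hτj : ∀ x y, τ * j (x, y) * τ⁻¹ = j (y, x) := by
    intro x y
    rw [hj, hj, h1 y x, ← h3 x, ← h3' y]
    group
  have hi2K : ∀ k ∈ δ.ker, i₂ k ∈ δ₁.ker := by
    intro k hk
    rw [MonoidHom.mem_ker, h5']
    exact hk
  -- commutators of kernel elements with arbitrary elements, in the second coordinate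
  have F1 : ∀ k ∈ δ.ker, ∀ s : S, i₂ ⁅k, s⁆ ∈ (⁅δ₁.ker, δ₁.ker⁆ : Subgroup W) := by
    intro k hk s
    have hX1 : j (1, k) ∈ δ₁.ker := hjK _ _ (by rw [map_one, one_mul]; exact hk)
    have hY1 : j (s, s) ∈ δ₁.ker := hjK _ _ (hX s)
    have hc := Subgroup.commutator_mem_commutator hX1 hY1
    have e : ⁅j (1, k), j (s, s)⁆ = i₂ ⁅k, s⁆ := by
      rw [← map_commutatorElement]
      have h7 : ⁅((1, k) : S × S), (s, s)⁆ = (1, ⁅k, s⁆) := by
        apply Prod.ext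
        · show ⁅(1 : S), s⁆ = 1
          exact commutatorElement_one_left s
        · rfl
      rw [h7, hj, map_one, one_mul]
    rw [← e]
    exact hc
  have F2 : ∀ k ∈ δ.ker, i₂ (k ^ 2) ∈ (⁅δ₁.ker, δ₁.ker⁆ : Subgroup W) := by
    have hle : (⁅δ.ker, (⊤ : Subgroup S)⁆ : Subgroup S) ≤
        (⁅δ₁.ker, δ₁.ker⁆ : Subgroup W).comap i₂ := by
      rw [Subgroup.commutator_le]
      intro x hx y _
      exact F1 x hx y
    exact fun k hk => hle (hPW k hk)
  have step2 : ∀ a : S, i₁ (a ^ 2) * (i₂ (a ^ 2))⁻¹ ∈ (⁅δ₁.ker, δ₁.ker⁆ : Subgroup W) := by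
    intro a
    have hY : j (a⁻¹, a) ∈ δ₁.ker := hjK _ _ (by rw [map_inv, inv_mul_cancel])
    have hc := Subgroup.commutator_mem_commutator hτK hY
    have e : ⁅τ, j (a⁻¹, a)⁆ = i₁ (a ^ 2) * (i₂ (a ^ 2))⁻¹ := by
      rw [commutatorElement_def, hτj, ← map_inv, ← map_mul, ← map_inv, ← hj]
      congr 1
      ext
      · simp [sq]
      · simp [sq]
    rw [← e]
    exact hc
  have step3 : ∀ s ∈ δ.ker, i₁ s * (i₂ s)⁻¹ ∈ (⁅δ₁.ker, δ₁.ker⁆ : Subgroup W) := by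
    intro s hs
    have hc := Subgroup.commutator_mem_commutator hτK (hi2K s hs)
    have e : ⁅τ, i₂ s⁆ = i₁ s * (i₂ s)⁻¹ := by
      rw [commutatorElement_def, h3']
    rw [← e]
    exact hc
  have hsqK : ∀ a : S, a ^ 2 ∈ δ.ker := by
    intro a
    rw [MonoidHom.mem_ker, sq, map_mul]
    exact hX a
  intro w hw
  obtain ⟨a, b, hwab | hwab⟩ := h4 w
  · have hab : δ a * δ b = 1 := by
      have h7 := hw
      rw [MonoidHom.mem_ker, hwab, map_mul, h5, h5'] at h7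
      exact h7
    have hk : a⁻¹ * b ∈ δ.ker := by
      rw [MonoidHom.mem_ker, map_mul, map_inv, inv_mul_eq_one]
      have h8 := hX a
      rw [← hab] at h8
      exact mul_left_cancel h8
    have e : w ^ 2 = (i₁ (a ^ 2) * (i₂ (a ^ 2))⁻¹) * i₂ (a ^ 2 * b ^ 2) := by
      rw [hwab, ← hj, ← map_pow, map_mul i₂, ← mul_assoc, inv_mul_cancel_right, ← hj]
      rfl
    have e2 : a ^ 2 * b ^ 2 = (a ^ 2) ^ 2 * ⁅a⁻¹ * b, a⁻¹⁆⁻¹ * (a⁻¹ * b) ^ 2 := by
      simp only [commutatorElement_def, sq, mul_assoc, mul_inv_rev, inv_inv, inv_mul_cancel_left,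
        mul_inv_cancel_left]
    rw [e, e2, map_mul i₂, map_mul i₂, map_inv]
    exact Subgroup.mul_mem _ (step2 a) (Subgroup.mul_mem _ (Subgroup.mul_mem _ (F2 _ (hsqK a))
      (Subgroup.inv_mem _ (F1 _ hk _))) (F2 _ hk))
  · have hab : δ a * δ b = 1 := by
      have h7 := hw
      rw [MonoidHom.mem_ker, hwab, map_mul, map_mul, h5, h5', h6, mul_one] at h7
      exact h7
    have habk : a * b ∈ δ.ker := by rw [MonoidHom.mem_ker, map_mul, hab]
    have e : w ^ 2 = (i₁ (a * b) * (i₂ (a * b))⁻¹) * i₂ ((a * b) * (b * a)) := by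
      rw [map_mul i₂ (a * b), ← mul_assoc, inv_mul_cancel_right, hwab, ← hj, sq]
      have h8 : j (a, b) * τ * (j (a, b) * τ) = j (a, b) * (τ * j (a, b) * τ⁻¹) * (τ * τ) := by
        group
      rw [h8, hτj, h2, mul_one, ← map_mul, ← hj]
      rfl
    have e3 : (a * b) * (b * a) = (a * b) ^ 2 * ⁅(a * b)⁻¹, a⁻¹⁆ := by
      simp only [commutatorElement_def, sq, mul_assoc, mul_inv_rev, inv_inv, inv_mul_cancel_left,
        mul_inv_cancel_left]
    rw [e, e3, map_mul i₂ ((a * b) ^ 2)]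
    exact Subgroup.mul_mem _ (step3 _ habk) (Subgroup.mul_mem _ (F2 _ habk)
      (F1 _ (Subgroup.inv_mem _ habk) _))

theorem wreath_II (i₁ i₂ : S →* W) (τ : W)
    (h1 : ∀ a b, i₁ a * i₂ b = i₂ b * i₁ a)
    (h4 : ∀ w, ∃ a b, w = i₁ a * i₂ b ∨ w = i₁ a * i₂ b * τ)
    (δ : S →* Z) (δ₁ : W →* Z) (h5 : ∀ a, δ₁ (i₁ a) = δ a) (h5' : ∀ a, δ₁ (i₂ a) = δ a)
    (h6 : δ₁ τ = 1) (hI : II' δ) : II δ₁ := by
  have key : ∀ a b : S, ∃ d : W, d * d = 1 ∧ δ₁ d = δ a * δ b := by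
    intro a b
    obtain ⟨d₁, d₂, hd₁, hd₂, hd⟩ := hI (a * b)
    refine ⟨i₁ d₁ * i₂ d₂, ?_, ?_⟩
    · calc i₁ d₁ * i₂ d₂ * (i₁ d₁ * i₂ d₂) = i₁ d₁ * (i₂ d₂ * i₁ d₁) * i₂ d₂ := by group
        _ = i₁ d₁ * (i₁ d₁ * i₂ d₂) * i₂ d₂ := by rw [h1]
        _ = i₁ (d₁ * d₁) * i₂ (d₂ * d₂) := by rw [map_mul, map_mul]; group
        _ = 1 := by rw [hd₁, hd₂, map_one, map_one, one_mul]
    · rw [map_mul, h5, h5', ← hd, map_mul]
  intro w
  obtain ⟨a, b, hwab | hwab⟩ := h4 w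
  · obtain ⟨d, hd, hdw⟩ := key a b
    exact ⟨d, hd, by rw [hdw, hwab, map_mul, h5, h5']⟩
  · obtain ⟨d, hd, hdw⟩ := key a b
    exact ⟨d, hd, by rw [hdw, hwab, map_mul, map_mul, h5, h5', h6, mul_one]⟩

theorem wreath_CC (i₁ i₂ : S →* W) (τ : W)
    (h1 : ∀ a b, i₁ a * i₂ b = i₂ b * i₁ a)
    (h4 : ∀ w, ∃ a b, w = i₁ a * i₂ b ∨ w = i₁ a * i₂ b * τ)
    (δ : S →* Z) (δ₁ : W →* Z) (h5 : ∀ a, δ₁ (i₁ a) = δ a) (h5' : ∀ a, δ₁ (i₂ a) = δ a)
    (h6 : δ₁ τ = 1) : CC δ₁ := by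
  have key : ∀ w : W, ∃ c : S, δ₁ w = δ c := by
    intro w
    obtain ⟨a, b, hwab | hwab⟩ := h4 w
    · exact ⟨a * b, by rw [hwab, map_mul, h5, h5', map_mul]⟩
    · exact ⟨a * b, by rw [hwab, map_mul, map_mul, h5, h5', h6, mul_one, map_mul]⟩
  intro w w'
  obtain ⟨c, hc⟩ := key w
  obtain ⟨c', hc'⟩ := key w'
  exact ⟨i₁ c, i₂ c', h1 c c', by rw [h5, hc], by rw [h5', hc']⟩

end wreath

section prod

variable {S₁ S₂ : Type*} [Group S₁] [Group S₂] {Z : Type*} [CommGroup Z] {W : Type*} [Group W]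

theorem prod_P1' (i₁ : S₁ →* W) (i₂ : S₂ →* W)
    (h1 : ∀ a b, i₁ a * i₂ b = i₂ b * i₁ a)
    (h4 : ∀ w, ∃ a b, w = i₁ a * i₂ b)
    (δ₁ : S₁ →* Z) (δ₂ : S₂ →* Z) (δ : W →* Z) (h5 : ∀ a, δ (i₁ a) = δ₁ a)
    (h5' : ∀ a, δ (i₂ a) = δ₂ a) (hX : X2 δ)
    (hP : P1 δ₁) (hI : II δ₁) (hC : CC δ₁) (hcov : ∀ b : S₂, ∃ a : S₁, δ₁ a = δ₂ b)
    (hE : EE S₂) : P1 δ := by
  have hCn : (⁅δ.ker, δ.ker⁆ : Subgroup W).Normal := inferInstance
  let j : S₁ × S₂ →* W := MonoidHom.noncommCoprod i₁ i₂ (fun a b => h1 a b)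
  have hj : ∀ a b, j (a, b) = i₁ a * i₂ b := fun a b => rfl
  have hjK : ∀ a b, δ₁ a * δ₂ b = 1 → j (a, b) ∈ δ.ker := by
    intro a b hab
    rw [MonoidHom.mem_ker, hj, map_mul, h5, h5', hab]
  have hX₁ : ∀ a, δ₁ a * δ₁ a = 1 := fun a => by rw [← h5]; exact hX _
  have hX₂ : ∀ b, δ₂ b * δ₂ b = 1 := fun b => by rw [← h5']; exact hX _
  have hi1K : ∀ k ∈ δ₁.ker, i₁ k ∈ δ.ker := by
    intro k hk
    rw [MonoidHom.mem_ker, h5]
    exact hk
  have G2 : ∀ c ∈ (⁅δ₁.ker, δ₁.ker⁆ : Subgroup S₁), i₁ c ∈ (⁅δ.ker, δ.ker⁆ : Subgroup W) := by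
    have hle : (⁅δ₁.ker, δ₁.ker⁆ : Subgroup S₁) ≤ (⁅δ.ker, δ.ker⁆ : Subgroup W).comap i₁ := by
      rw [Subgroup.commutator_le]
      intro x hx y hy
      rw [Subgroup.mem_comap, map_commutatorElement]
      exact Subgroup.commutator_mem_commutator (hi1K x hx) (hi1K y hy)
    exact fun c hc => hle hc
  have G4 : ∀ c ∈ commutator S₂, i₂ c ∈ (⁅δ.ker, δ.ker⁆ : Subgroup W) := by
    have hle : commutator S₂ ≤ (⁅δ.ker, δ.ker⁆ : Subgroup W).comap i₂ := by
      rw [commutator_def, Subgroup.commutator_le]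
      intro u _ v _
      rw [Subgroup.mem_comap]
      obtain ⟨au, hau⟩ := hcov u
      obtain ⟨av, hav⟩ := hcov v
      obtain ⟨a, a', haa, ha, ha'⟩ := hC au av
      have hXk : j (a, u) ∈ δ.ker := hjK _ _ (by rw [ha, hau]; exact hX₂ u)
      have hYk : j (a', v) ∈ δ.ker := hjK _ _ (by rw [ha', hav]; exact hX₂ v)
      have hc := Subgroup.commutator_mem_commutator hXk hYk
      have e : ⁅j (a, u), j (a', v)⁆ = i₂ ⁅u, v⁆ := by
        rw [← map_commutatorElement]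
        have h7 : ⁅((a, u) : S₁ × S₂), (a', v)⁆ = (1, ⁅u, v⁆) := by
          apply Prod.ext
          · show ⁅a, a'⁆ = 1
            exact commutatorElement_eq_one_iff_commute.mpr haa
          · rfl
        rw [h7, hj, map_one, one_mul]
      rw [← e]
      exact hc
    exact fun c hc => hle hc
  intro w hw
  obtain ⟨x₁, x₂, rfl⟩ := h4 w
  have hab : δ₁ x₁ * δ₂ x₂ = 1 := by
    have h7 := hw
    rw [MonoidHom.mem_ker, map_mul, h5, h5'] at h7
    exact h7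
  obtain ⟨d, hd, hdx⟩ := hI x₁
  have hdinv : d⁻¹ = d := inv_eq_of_mul_eq_one_left hd
  have hk : d * x₁ ∈ δ₁.ker := by
    rw [MonoidHom.mem_ker, map_mul, hdx]
    exact hX₁ x₁
  have e1 : x₁ ^ 2 = ⁅d, d * x₁⁆ * (d * x₁) ^ 2 := by
    rw [commutatorElement_def, hdinv, sq, sq]
    have h8 : d * (d * x₁) * d * (d * x₁)⁻¹ * (d * x₁ * (d * x₁)) = (d * d) * x₁ * (d * d) * x₁ := by
      group
    rw [h8, hd, one_mul, mul_one]
  have e : (i₁ x₁ * i₂ x₂) ^ 2 = i₁ ⁅d, d * x₁⁆ * i₁ ((d * x₁) ^ 2) * i₂ (x₂ ^ 2) := by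
    rw [← map_mul, ← e1, ← hj, ← map_pow, ← hj]
    rfl
  have e4 : i₁ ⁅d, d * x₁⁆ = ⁅j (d, x₂), j (d * x₁, 1)⁆ := by
    rw [← map_commutatorElement]
    have h7 : ⁅((d, x₂) : S₁ × S₂), ((d * x₁, 1) : S₁ × S₂)⁆ = (⁅d, d * x₁⁆, 1) := by
      apply Prod.ext
      · rfl
      · show ⁅x₂, (1 : S₂)⁆ = 1
        exact commutatorElement_one_right x₂
    rw [h7, hj, map_one, mul_one]
  rw [e, e4]
  refine Subgroup.mul_mem _ (Subgroup.mul_mem _ ?_ (G2 _ (hP _ hk))) (G4 _ (hE x₂))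
  refine Subgroup.commutator_mem_commutator (hjK _ _ (by rw [hdx]; exact hab)) (hjK _ _ ?_)
  rw [map_one, mul_one]
  exact hk

theorem prod_II (i₁ : S₁ →* W) (i₂ : S₂ →* W)
    (h4 : ∀ w, ∃ a b, w = i₁ a * i₂ b)
    (δ₁ : S₁ →* Z) (δ₂ : S₂ →* Z) (δ : W →* Z) (h5 : ∀ a, δ (i₁ a) = δ₁ a)
    (h5' : ∀ a, δ (i₂ a) = δ₂ a)
    (hI : II δ₁) (hcov : ∀ b : S₂, ∃ a : S₁, δ₁ a = δ₂ b) : II δ := by
  intro w
  obtain ⟨x₁, x₂, rfl⟩ := h4 w
  obtain ⟨a, ha⟩ := hcov x₂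
  obtain ⟨d, hd, hdx⟩ := hI (x₁ * a)
  exact ⟨i₁ d, by rw [← map_mul, hd, map_one], by rw [h5, hdx, map_mul, map_mul, h5, h5', ha]⟩

theorem prod_CC (i₁ : S₁ →* W) (i₂ : S₂ →* W)
    (h4 : ∀ w, ∃ a b, w = i₁ a * i₂ b)
    (δ₁ : S₁ →* Z) (δ₂ : S₂ →* Z) (δ : W →* Z) (h5 : ∀ a, δ (i₁ a) = δ₁ a)
    (h5' : ∀ a, δ (i₂ a) = δ₂ a)
    (hC : CC δ₁) (hcov : ∀ b : S₂, ∃ a : S₁, δ₁ a = δ₂ b) : CC δ := by
  have key : ∀ w : W, ∃ c : S₁, δ w = δ₁ c := by
    intro w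
    obtain ⟨x₁, x₂, rfl⟩ := h4 w
    obtain ⟨a, ha⟩ := hcov x₂
    exact ⟨x₁ * a, by rw [map_mul, map_mul, h5, h5', ha]⟩
  intro w w'
  obtain ⟨c, hc⟩ := key w
  obtain ⟨c', hc'⟩ := key w'
  obtain ⟨a, b, hab, ha, hb⟩ := hC c c'
  exact ⟨i₁ a, i₁ b, by rw [← map_mul, hab, map_mul], by rw [h5, ha, hc], by rw [h5, hb, hc']⟩

theorem prod_EE (i₁ : S₁ →* W) (i₂ : S₂ →* W)
    (h1 : ∀ a b, i₁ a * i₂ b = i₂ b * i₁ a)
    (h4 : ∀ w, ∃ a b, w = i₁ a * i₂ b) (hE₁ : EE S₁) (hE₂ : EE S₂) : EE W := by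
  have m1 : ∀ c ∈ commutator S₁, i₁ c ∈ commutator W := by
    have hle : commutator S₁ ≤ (commutator W).comap i₁ := by
      rw [commutator_def, Subgroup.commutator_le]
      intro x _ y _
      rw [Subgroup.mem_comap, map_commutatorElement, commutator_def]
      exact Subgroup.commutator_mem_commutator (Subgroup.mem_top _) (Subgroup.mem_top _)
    exact fun c hc => hle hc
  have m2 : ∀ c ∈ commutator S₂, i₂ c ∈ commutator W := by
    have hle : commutator S₂ ≤ (commutator W).comap i₂ := by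
      rw [commutator_def, Subgroup.commutator_le]
      intro x _ y _
      rw [Subgroup.mem_comap, map_commutatorElement, commutator_def]
      exact Subgroup.commutator_mem_commutator (Subgroup.mem_top _) (Subgroup.mem_top _)
    exact fun c hc => hle hc
  intro w
  obtain ⟨a, b, rfl⟩ := h4 w
  have e : (i₁ a * i₂ b) ^ 2 = i₁ (a ^ 2) * i₂ (b ^ 2) := by
    rw [sq, sq, sq, map_mul, map_mul]
    calc i₁ a * i₂ b * (i₁ a * i₂ b) = i₁ a * (i₂ b * i₁ a) * i₂ b := by group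
      _ = i₁ a * (i₁ a * i₂ b) * i₂ b := by rw [h1]
      _ = i₁ a * i₁ a * (i₂ b * i₂ b) := by group
  rw [e]
  exact Subgroup.mul_mem _ (m1 _ (hE₁ a)) (m2 _ (hE₂ b))

end prod

section base

variable {D : Type*} [Group D] {Z : Type*} [CommGroup Z] {Y : Type*} [CommGroup Y]

/-- the dihedral base: the elements outside the kernel of `κ` are involutions -/
theorem base_props (δ : D →* Z) (κ : D →* Y) (hX : X2 δ) (hle : δ.ker ≤ κ.ker) (s : D)
    (hs : κ s ≠ 1) (hκ : ∀ g, κ g = 1 ∨ κ g = κ s)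
    (hinv : ∀ g, κ g ≠ 1 → g * g = 1) : EE D ∧ PW δ ∧ II' δ := by
  have hss : s * s = 1 := hinv s hs
  have hsinv : s⁻¹ = s := inv_eq_of_mul_eq_one_left hss
  have key : ∀ k : D, κ k = 1 → k ^ 2 = ⁅k, s⁆ := by
    intro k hk
    have h1 : κ (s * k) ≠ 1 := by rw [map_mul, hk, mul_one]; exact hs
    have h2 := hinv _ h1
    rw [commutatorElement_def, hsinv, sq]
    have h3 : k⁻¹ = s * k * s := by
      apply inv_eq_of_mul_eq_one_left
      calc s * k * s * k = s * k * (s * k) := by group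
        _ = 1 := h2
    rw [mul_assoc, mul_assoc, ← mul_assoc s, h3]
    have h4 : s * (s * k * s) * s = (s * s) * k * (s * s) := by group
    rw [h4, hss, one_mul, mul_one]
  refine ⟨?_, ?_, ?_⟩
  · intro x
    rcases hκ x with h | h
    · rw [key x h, commutator_def]
      exact Subgroup.commutator_mem_commutator (Subgroup.mem_top _) (Subgroup.mem_top _)
    · have h1 : κ x ≠ 1 := by rw [h]; exact hs
      rw [sq, hinv x h1]
      exact Subgroup.one_mem _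
  · intro k hk
    rw [key k (hle hk)]
    exact Subgroup.commutator_mem_commutator hk (Subgroup.mem_top _)
  · intro x
    rcases hκ x with h | h
    · have h1 : κ (x * s) ≠ 1 := by rw [map_mul, h, one_mul]; exact hs
      refine ⟨x * s, s, hinv _ h1, hss, ?_⟩
      rw [map_mul, mul_assoc, hX s, mul_one]
    · have h1 : κ x ≠ 1 := by rw [h]; exact hs
      exact ⟨x, 1, hinv x h1, one_mul 1, by rw [map_one, mul_one]⟩

end base

section transport

variable {Z : Type*} [CommGroup Z]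

/-- From a subgroup of Sylow order with good kernel to the Sylow 2-subgroups of the kernel. -/
theorem kernel_sylow {G : Type*} [Group G] [Finite G] (δ : G →* Z) {S : Type*} [Group S]
    (f : S →* G) (hf : Function.Injective f)
    (hcard : Nat.card S = 2 ^ (Nat.card G).factorization 2) (hP1 : P1 (δ.comp f)) :
    ∀ P : Sylow 2 ↥δ.ker, ∀ x : ↥(P : Subgroup ↥δ.ker),
      x ^ 2 ∈ commutator ↥(P : Subgroup ↥δ.ker) := by
  classical
  haveI : Fact (Nat.Prime 2) := ⟨Nat.prime_two⟩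
  have hR : Nat.card f.range = 2 ^ (Nat.card G).factorization 2 := by
    rw [← hcard]
    exact (Nat.card_congr (MonoidHom.ofInjective hf).toEquiv).symm
  obtain ⟨Q, hQ⟩ := Cfsg.Agent.Lib.Helper64.Sylow.exists_sylow_subgroupOf_normal
    (Sylow.ofCard f.range hR) δ.ker
  rw [Sylow.coe_ofCard] at hQ
  have hmemQ : ∀ s : ↥(δ.comp f).ker,
      (⟨f s.1, s.2⟩ : ↥δ.ker) ∈ (Q : Subgroup ↥δ.ker) := by
    intro s
    rw [hQ, Subgroup.mem_subgroupOf]
    exact ⟨s.1, rfl⟩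
  let θ : ↥(δ.comp f).ker →* ↥(Q : Subgroup ↥δ.ker) :=
    { toFun := fun s => ⟨⟨f s.1, s.2⟩, hmemQ s⟩
      map_one' := by
        apply Subtype.ext
        apply Subtype.ext
        show f (1 : S) = 1
        rw [map_one]
      map_mul' := by
        intro a b
        apply Subtype.ext
        apply Subtype.ext
        show f (a.1 * b.1) = f a.1 * f b.1
        rw [map_mul] }
  have hθsurj : Function.Surjective θ := by
    intro y
    have h1 : (y : ↥δ.ker) ∈ (Q : Subgroup ↥δ.ker) := y.2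
    have h2 := (SetLike.ext_iff.mp hQ (y : ↥δ.ker)).mp h1
    obtain ⟨s, hs⟩ := Subgroup.mem_subgroupOf.mp h2
    have hsK : s ∈ (δ.comp f).ker := by
      rw [MonoidHom.mem_ker]
      show δ (f s) = 1
      rw [hs]
      exact (y : ↥δ.ker).2
    exact ⟨⟨s, hsK⟩, Subtype.ext (Subtype.ext hs)⟩
  have hK : ∀ s : ↥(δ.comp f).ker, s ^ 2 ∈ commutator ↥(δ.comp f).ker := by
    intro s
    have h1 := hP1 s.1 s.2
    rw [← Subgroup.map_subtype_commutator] at h1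
    obtain ⟨c, hc, hcs⟩ := h1
    have h2 : c = s ^ 2 := Subtype.ext hcs
    rw [← h2]
    exact hc
  have hQsq : ∀ y : ↥(Q : Subgroup ↥δ.ker), y ^ 2 ∈ commutator ↥(Q : Subgroup ↥δ.ker) := by
    intro y
    obtain ⟨s, rfl⟩ := hθsurj y
    have hmap : (commutator ↥(δ.comp f).ker).map θ = commutator ↥(Q : Subgroup ↥δ.ker) := by
      rw [commutator_def, Subgroup.map_commutator, ← MonoidHom.range_eq_map,
        MonoidHom.range_eq_top.mpr hθsurj, commutator_def]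
    rw [← map_pow, ← hmap]
    exact Subgroup.mem_map_of_mem _ (hK s)
  intro P
  exact sylow_of_hom (Q : Subgroup ↥δ.ker).subtype Subtype.val_injective
    (Sylow.card_eq_multiplicity Q) hQsq P

/-- The property is invariant under isomorphism of the ambient groups. -/
theorem sylow_sq_of_equiv {G G' : Type*} [Group G] [Group G'] [Finite G'] (e : G ≃* G')
    (h : ∀ P : Sylow 2 ↥(commutator G), ∀ x : ↥(P : Subgroup ↥(commutator G)),
      x ^ 2 ∈ commutator ↥(P : Subgroup ↥(commutator G))) :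
    ∀ P' : Sylow 2 ↥(commutator G'), ∀ x : ↥(P' : Subgroup ↥(commutator G')),
      x ^ 2 ∈ commutator ↥(P' : Subgroup ↥(commutator G')) := by
  classical
  haveI : Fact (Nat.Prime 2) := ⟨Nat.prime_two⟩
  haveI : Finite G := Finite.of_equiv G' e.symm.toEquiv
  have hmap : (commutator G).map e.toMonoidHom = commutator G' := by
    rw [commutator_def, Subgroup.map_commutator, ← MonoidHom.range_eq_map,
      MonoidHom.range_eq_top.mpr e.surjective, commutator_def]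
  let e' : ↥(commutator G) ≃* ↥(commutator G') :=
    (e.subgroupMap (commutator G)).trans (MulEquiv.subgroupCongr hmap)
  obtain ⟨P⟩ : Nonempty (Sylow 2 ↥(commutator G)) := inferInstance
  intro P'
  refine sylow_of_hom (e'.toMonoidHom.comp (P : Subgroup ↥(commutator G)).subtype) ?_ ?_ (h P) P'
  · exact e'.injective.comp Subtype.val_injective
  · rw [Sylow.card_eq_multiplicity, Nat.card_congr e'.toEquiv]

end transport

end Cfsg.Agent.Lib.Helper44.SylO1
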