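import Mathlib
import Cfsg.Agent.Lib.Helper44.Spinor
import Cfsg.Agent.Lib.Helper14.OrthIndex
import Cfsg.Agent.Lib.Helper44.SylO1

set_option autoImplicit false

/-!
The character `(det, spinor norm)` of the abstract orthogonal group `O Q` over a finite field of
odd order, its kernel, and its behaviour on orthogonal sums.
-/

namespace Cfsg.Agent.Lib.Helper44.SylO2

open Module QuadraticMap
open scoped commutatorElement
open Cfsg.Agent.Lib.Helper44.QSpace Cfsg.Agent.Lib.Helper44.OGroup Cfsg.Agent.Lib.Helper44.Spinor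
open Cfsg.Agent.Lib.Helper44.FinSq Cfsg.Agent.Lib.Helper44.QClass
open Cfsg.Agent.Lib.Helper14.OrthIndex

universe u

section chi

variable {F : Type*} [Field F]

open Classical in
/-- the quadratic character with values in the units -/
noncomputable def chi (x : F) : Fˣ := if IsSquare x then 1 else -1

theorem chi_of_sq {x : F} (h : IsSquare x) : chi x = 1 := if_pos h

theorem chi_of_not {x : F} (h : ¬ IsSquare x) : chi x = -1 := if_neg h

theorem chi_one : chi (1 : F) = 1 := chi_of_sq ⟨1, (one_mul 1).symm⟩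

theorem chi_cases (x : F) : chi x = 1 ∨ chi x = -1 := by
  by_cases h : IsSquare x
  · left; exact chi_of_sq h
  · right; exact chi_of_not h

theorem neg_one_ne_one (h2 : (2 : F) ≠ 0) : (-1 : Fˣ) ≠ 1 := by
  intro h
  have h3 := congrArg Units.val h
  simp only [Units.val_neg, Units.val_one] at h3
  apply h2
  linear_combination -h3

theorem chi_eq_one_iff (h2 : (2 : F) ≠ 0) (x : F) : chi x = 1 ↔ IsSquare x := by
  constructor
  · intro h
    by_contra hn
    rw [chi_of_not hn] at h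
    exact neg_one_ne_one h2 h
  · exact chi_of_sq

theorem chi_mul [Fintype F] {x y : F} (hx : x ≠ 0) (hy : y ≠ 0) : chi (x * y) = chi x * chi y := by
  by_cases h1 : IsSquare x <;> by_cases h3 : IsSquare y
  · rw [chi_of_sq h1, chi_of_sq h3, chi_of_sq (h1.mul h3), one_mul]
  · have h4 : ¬ IsSquare (x * y) := by
      rw [isSquare_mul_nonsquare_iff hx h3]
      exact not_not.mpr h1
    rw [chi_of_sq h1, chi_of_not h3, chi_of_not h4, one_mul]
  · have h4 : ¬ IsSquare (x * y) := by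
      rw [mul_comm, isSquare_mul_nonsquare_iff hy h1]
      exact not_not.mpr h3
    rw [chi_of_not h1, chi_of_sq h3, chi_of_not h4, mul_one]
  · rw [chi_of_not h1, chi_of_not h3, chi_of_sq (isSquare_mul_of_not_of_not h1 h3)]
    simp

end chi

section spin

variable {F : Type*} [Field F] {V : Type u} [AddCommGroup V] [Module F V]

/-- a character taking the value `(-1, χ(Q v))` on the reflection in `v` -/
def IsSpin (Q : QuadraticForm F V) (δ : O Q →* Fˣ × Fˣ) : Prop :=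
  ∀ v, Q v ≠ 0 → δ (refl Q v) = (-1, chi (Q v))

theorem detHom_refl [FiniteDimensional F V] (Q : QuadraticForm F V) {v : V} (hv : Q v ≠ 0) :
    detHom Q (refl Q v) = -1 := det_reflE Q hv

theorem exists_spin [Fintype F] [FiniteDimensional F V] (h2 : (2 : F) ≠ 0)
    {Q : QuadraticForm F V} (hS : Sep Q) (hd : 2 ≤ finrank F V) : ∃ δ, IsSpin Q δ := by
  obtain ⟨θ₀, hθ⟩ := exists_char h2 hS (by omega)
  obtain ⟨u₀, hu₀⟩ := exists_q_eq hS hd (1 : F)
  have hu0 : Q u₀ ≠ 0 := by rw [hu₀]; exact one_ne_zero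
  let cast : ℤˣ →* Fˣ := Units.map (Int.castRingHom F).toMonoidHom
  have hc1 : cast 1 = 1 := map_one cast
  have hcn : cast (-1) = -1 := by
    apply Units.ext
    simp [cast]
  have hsq : ∀ v, Q v ≠ 0 → IsSquare (Q v) → θ₀ (refl Q v) = θ₀ (refl Q u₀) := by
    intro v hv hsq
    exact hom_refl_eq h2 θ₀ hv hu0 (by rw [hu₀, mul_one]; exact hsq)
  have hnsq : ∀ v, Q v ≠ 0 → ¬ IsSquare (Q v) → θ₀ (refl Q v) ≠ θ₀ (refl Q u₀) := by
    intro v hv hsq
    exact hθ v u₀ hv hu0 (by rw [hu₀, mul_one]; exact hsq)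
  rcases Int.units_eq_one_or (θ₀ (refl Q u₀)) with hα | hα
  · refine ⟨(detHom Q).prod (cast.comp θ₀), ?_⟩
    intro v hv
    rw [MonoidHom.prod_apply, detHom_refl Q hv, MonoidHom.comp_apply]
    congr 1
    by_cases hsqv : IsSquare (Q v)
    · rw [hsq v hv hsqv, hα, hc1, chi_of_sq hsqv]
    · have h3 := hnsq v hv hsqv
      rw [hα] at h3
      rcases Int.units_eq_one_or (θ₀ (refl Q v)) with h4 | h4
      · exact absurd h4 h3
      · rw [h4, hcn, chi_of_not hsqv]
  · refine ⟨(detHom Q).prod ((cast.comp θ₀) * detHom Q), ?_⟩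
    intro v hv
    rw [MonoidHom.prod_apply, MonoidHom.mul_apply, detHom_refl Q hv, MonoidHom.comp_apply]
    congr 1
    by_cases hsqv : IsSquare (Q v)
    · rw [hsq v hv hsqv, hα, hcn, chi_of_sq hsqv]
      simp
    · have h3 := hnsq v hv hsqv
      rw [hα] at h3
      rcases Int.units_eq_one_or (θ₀ (refl Q v)) with h4 | h4
      · rw [h4, hc1, chi_of_not hsqv, one_mul]
      · exact absurd h4 h3

open Classical in
/-- the character `(det, spinor norm)` -/
noncomputable def spin (Q : QuadraticForm F V) : O Q →* Fˣ × Fˣ :=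
  if h : ∃ δ, IsSpin Q δ then h.choose else 1

theorem spin_refl [Fintype F] [FiniteDimensional F V] (h2 : (2 : F) ≠ 0)
    {Q : QuadraticForm F V} (hS : Sep Q) (hd : 2 ≤ finrank F V) {v : V} (hv : Q v ≠ 0) :
    spin Q (refl Q v) = (-1, chi (Q v)) := by
  have h := exists_spin h2 hS hd
  unfold spin
  rw [dif_pos h]
  exact h.choose_spec v hv

theorem spin_prod [Fintype F] [FiniteDimensional F V] (h2 : (2 : F) ≠ 0)
    {Q : QuadraticForm F V} (hS : Sep Q) (hd : 2 ≤ finrank F V) (vs : List V)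
    (hvs : ∀ v ∈ vs, Q v ≠ 0) :
    (vs.map (fun v => Q v)).prod ≠ 0 ∧
      spin Q ((vs.map (refl Q)).prod) = ((-1) ^ vs.length, chi (vs.map (fun v => Q v)).prod) := by
  induction vs with
  | nil =>
    refine ⟨by simp, ?_⟩
    simp only [List.map_nil, List.prod_nil, map_one, List.length_nil, pow_zero]
    rw [chi_one]
    rfl
  | cons w ws ih =>
    obtain ⟨ih1, ih2⟩ := ih (fun v hv => hvs v (List.mem_cons_of_mem _ hv))
    have hw : Q w ≠ 0 := hvs w List.mem_cons_self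
    refine ⟨by rw [List.map_cons, List.prod_cons]; exact mul_ne_zero hw ih1, ?_⟩
    rw [List.map_cons, List.prod_cons, map_mul, ih2, spin_refl h2 hS hd hw, List.map_cons,
      List.prod_cons, chi_mul hw ih1, List.length_cons, pow_succ']
    rfl

theorem spin_fst [Fintype F] [FiniteDimensional F V] (h2 : (2 : F) ≠ 0)
    {Q : QuadraticForm F V} (hS : Sep Q) (hd : 2 ≤ finrank F V) (g : O Q) :
    (spin Q g).1 = detHom Q g := by
  obtain ⟨vs, hvs, rfl⟩ := exists_prod_refl h2 hS g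
  rw [(spin_prod h2 hS hd vs hvs).2, detHom_prod Q vs hvs]

theorem ker_spin [Fintype F] [FiniteDimensional F V] (h2 : (2 : F) ≠ 0)
    {Q : QuadraticForm F V} (hS : Sep Q) (hd : 2 ≤ finrank F V) (g : O Q) :
    spin Q g = 1 ↔ g ∈ commutator (O Q) := by
  obtain ⟨vs, hvs, rfl⟩ := exists_prod_refl h2 hS g
  rw [mem_commutator_iff h2 hS hd vs hvs, (spin_prod h2 hS hd vs hvs).2, Prod.mk_eq_one,
    neg_one_pow_eq_one_iff_even (neg_one_ne_one h2), chi_eq_one_iff h2]

theorem ker_spin_eq [Fintype F] [FiniteDimensional F V] (h2 : (2 : F) ≠ 0)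
    {Q : QuadraticForm F V} (hS : Sep Q) (hd : 2 ≤ finrank F V) :
    (spin Q).ker = commutator (O Q) := by
  ext g
  rw [MonoidHom.mem_ker]
  exact ker_spin h2 hS hd g

theorem spin_sq [Fintype F] [FiniteDimensional F V] (h2 : (2 : F) ≠ 0)
    {Q : QuadraticForm F V} (hS : Sep Q) (hd : 2 ≤ finrank F V) (g : O Q) :
    spin Q g * spin Q g = 1 := by
  rw [← map_mul]
  exact (ker_spin h2 hS hd _).mpr (sq_mem_commutator h2 hS hd g)

theorem spin_values [Fintype F] [FiniteDimensional F V] (h2 : (2 : F) ≠ 0)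
    {Q : QuadraticForm F V} (hS : Sep Q) (hd : 2 ≤ finrank F V) (g : O Q) :
    ((spin Q g).1 = 1 ∨ (spin Q g).1 = -1) ∧ ((spin Q g).2 = 1 ∨ (spin Q g).2 = -1) := by
  obtain ⟨vs, hvs, rfl⟩ := exists_prod_refl h2 hS g
  rw [(spin_prod h2 hS hd vs hvs).2]
  exact ⟨neg_one_pow_eq_or _ _, chi_cases _⟩

theorem spin_attain [Fintype F] [FiniteDimensional F V] (h2 : (2 : F) ≠ 0)
    {Q : QuadraticForm F V} (hS : Sep Q) (hd : 2 ≤ finrank F V) (a b : Fˣ)
    (ha : a = 1 ∨ a = -1) (hb : b = 1 ∨ b = -1) : ∃ g : O Q, spin Q g = (a, b) := by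
  obtain ⟨u₀, hu₀⟩ := exists_q_eq hS hd (1 : F)
  obtain ⟨ζ, hζ⟩ := FiniteField.exists_nonsquare (ringChar_ne_two_of_two_ne_zero h2)
  obtain ⟨w₀, hw₀⟩ := exists_q_eq hS hd ζ
  have hw₀' : ¬ IsSquare (Q w₀) := by rw [hw₀]; exact hζ
  have hw0 : Q w₀ ≠ 0 := fun h => hw₀' (h ▸ IsSquare.zero)
  have hu0 : Q u₀ ≠ 0 := by rw [hu₀]; exact one_ne_zero
  have e1 : spin Q (refl Q u₀) = (-1, 1) := by
    rw [spin_refl h2 hS hd hu0, hu₀, chi_one]
  have e2 : spin Q (refl Q w₀) = (-1, -1) := by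
    rw [spin_refl h2 hS hd hw0, chi_of_not hw₀']
  rcases ha with rfl | rfl <;> rcases hb with rfl | rfl
  · exact ⟨1, map_one _⟩
  · refine ⟨refl Q u₀ * refl Q w₀, ?_⟩
    rw [map_mul, e1, e2]
    ext <;> simp
  · exact ⟨refl Q u₀, e1⟩
  · exact ⟨refl Q w₀, e2⟩

/-- the values of the character on a second space are attained on the first -/
theorem spin_cover [Fintype F] [FiniteDimensional F V] (h2 : (2 : F) ≠ 0)
    {Q : QuadraticForm F V} (hS : Sep Q) (hd : 2 ≤ finrank F V)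
    {V' : Type u} [AddCommGroup V'] [Module F V'] [FiniteDimensional F V']
    {Q' : QuadraticForm F V'} (hS' : Sep Q') (hd' : 2 ≤ finrank F V') (g : O Q') :
    ∃ g₁ : O Q, spin Q g₁ = spin Q' g := by
  obtain ⟨h1, h3⟩ := spin_values h2 hS' hd' g
  exact spin_attain h2 hS hd _ _ h1 h3

theorem finite_O [Finite F] [FiniteDimensional F V] (Q : QuadraticForm F V) : Finite (O Q) := by
  haveI : Finite V := Module.finite_of_finite F
  haveI : Finite (V ≃ₗ[F] V) :=
    Finite.of_injective (fun e : V ≃ₗ[F] V => (e : V → V)) DFunLike.coe_injective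
  infer_instance

/-- a Sylow 2-subgroup attains all values of the character -/
theorem sylow_cover [Fintype F] [FiniteDimensional F V] (h2 : (2 : F) ≠ 0)
    {Q : QuadraticForm F V} (hS : Sep Q) (hd : 2 ≤ finrank F V) (D : Sylow 2 (O Q)) (g : O Q) :
    ∃ x ∈ (D : Subgroup (O Q)), spin Q x = spin Q g := by
  haveI : Fact (Nat.Prime 2) := ⟨Nat.prime_two⟩
  haveI := finite_O Q
  have h4 : (commutator (O Q)).index = 4 := index_commutator h2 hS hd
  have hH1 : ((D : Subgroup (O Q)) ⊔ commutator (O Q)).index ∣ (D : Subgroup (O Q)).index :=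
    Subgroup.index_dvd_of_le le_sup_left
  have hH2 : ((D : Subgroup (O Q)) ⊔ commutator (O Q)).index ∣ 4 := by
    rw [← h4]
    exact Subgroup.index_dvd_of_le le_sup_right
  have hodd : ¬ 2 ∣ (D : Subgroup (O Q)).index := D.not_dvd_index
  have hH3 : ¬ 2 ∣ ((D : Subgroup (O Q)) ⊔ commutator (O Q)).index :=
    fun h => hodd (h.trans hH1)
  have hH4 : ((D : Subgroup (O Q)) ⊔ commutator (O Q)).index = 1 := by
    have hle : ((D : Subgroup (O Q)) ⊔ commutator (O Q)).index ≤ 4 := Nat.le_of_dvd (by norm_num) hH2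
    generalize ((D : Subgroup (O Q)) ⊔ commutator (O Q)).index = n at hH2 hH3 hle
    interval_cases n <;> omega
  have htop : (D : Subgroup (O Q)) ⊔ commutator (O Q) = ⊤ := Subgroup.index_eq_one.mp hH4
  have hg : g ∈ ((D : Subgroup (O Q)) ⊔ commutator (O Q) : Subgroup (O Q)) := by
    rw [htop]
    exact Subgroup.mem_top g
  rw [← SetLike.mem_coe, Subgroup.mul_normal, Set.mem_mul] at hg
  obtain ⟨d, hd', n, hn, rfl⟩ := hg
  refine ⟨d, hd', ?_⟩
  rw [map_mul, (ker_spin h2 hS hd n).mpr hn, mul_one]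

end spin

section sums

variable {F : Type*} [Field F] {V₁ V₂ : Type u} [AddCommGroup V₁] [Module F V₁]
  [AddCommGroup V₂] [Module F V₂]

theorem sep_prod' {Q₁ : QuadraticForm F V₁} {Q₂ : QuadraticForm F V₂} (hS₁ : Sep Q₁)
    (hS₂ : Sep Q₂) : Sep (Q₁.prod Q₂) := by
  intro x hx
  have h1 : x.1 = 0 := by
    apply hS₁
    intro y
    have := hx (y, 0)
    rw [polar_prod] at this
    simpa using this
  have h2 : x.2 = 0 := by
    apply hS₂
    intro y
    have := hx (0, y)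
    rw [polar_prod] at this
    simpa using this
  exact Prod.ext h1 h2

/-- `g ↦ g × 1` -/
def inlO (Q₁ : QuadraticForm F V₁) (Q₂ : QuadraticForm F V₂) : O Q₁ →* O (Q₁.prod Q₂) where
  toFun g := ⟨LinearEquiv.prodCongr g.1 (LinearEquiv.refl F V₂), fun x => by
    show Q₁ (g.1 x.1) + Q₂ x.2 = Q₁ x.1 + Q₂ x.2
    rw [g.2 x.1]⟩
  map_one' := by
    apply Subtype.ext
    ext x <;> rfl
  map_mul' g h := by
    apply Subtype.ext
    ext x <;> rfl

/-- `g ↦ 1 × g` -/
def inrO (Q₁ : QuadraticForm F V₁) (Q₂ : QuadraticForm F V₂) : O Q₂ →* O (Q₁.prod Q₂) where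
  toFun g := ⟨LinearEquiv.prodCongr (LinearEquiv.refl F V₁) g.1, fun x => by
    show Q₁ x.1 + Q₂ (g.1 x.2) = Q₁ x.1 + Q₂ x.2
    rw [g.2 x.2]⟩
  map_one' := by
    apply Subtype.ext
    ext x <;> rfl
  map_mul' g h := by
    apply Subtype.ext
    ext x <;> rfl

theorem inlO_apply (Q₁ : QuadraticForm F V₁) (Q₂ : QuadraticForm F V₂) (g : O Q₁) (x : V₁ × V₂) :
    (inlO Q₁ Q₂ g).1 x = (g.1 x.1, x.2) := rfl

theorem inrO_apply (Q₁ : QuadraticForm F V₁) (Q₂ : QuadraticForm F V₂) (g : O Q₂) (x : V₁ × V₂) :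
    (inrO Q₁ Q₂ g).1 x = (x.1, g.1 x.2) := rfl

theorem inlO_injective (Q₁ : QuadraticForm F V₁) (Q₂ : QuadraticForm F V₂) :
    Function.Injective (inlO Q₁ Q₂) := by
  intro g h hgh
  apply Subtype.ext
  apply LinearEquiv.ext
  intro x
  have h1 := congrArg (fun k : O (Q₁.prod Q₂) => (k.1 (x, 0)).1) hgh
  exact h1

theorem inrO_injective (Q₁ : QuadraticForm F V₁) (Q₂ : QuadraticForm F V₂) :
    Function.Injective (inrO Q₁ Q₂) := by
  intro g h hgh
  apply Subtype.ext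
  apply LinearEquiv.ext
  intro x
  have h1 := congrArg (fun k : O (Q₁.prod Q₂) => (k.1 (0, x)).2) hgh
  exact h1

theorem inl_inr_comm (Q₁ : QuadraticForm F V₁) (Q₂ : QuadraticForm F V₂) (g : O Q₁) (h : O Q₂) :
    inlO Q₁ Q₂ g * inrO Q₁ Q₂ h = inrO Q₁ Q₂ h * inlO Q₁ Q₂ g := by
  apply Subtype.ext
  apply LinearEquiv.ext
  intro x
  rfl

theorem inl_inr_eq (Q₁ : QuadraticForm F V₁) (Q₂ : QuadraticForm F V₂) (g g' : O Q₁)
    (h h' : O Q₂) (e : inlO Q₁ Q₂ g * inrO Q₁ Q₂ h = inlO Q₁ Q₂ g' * inrO Q₁ Q₂ h') :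
    g = g' ∧ h = h' := by
  constructor
  · apply Subtype.ext
    apply LinearEquiv.ext
    intro x
    have h1 := congrArg (fun k : O (Q₁.prod Q₂) => (k.1 (x, 0)).1) e
    exact h1
  · apply Subtype.ext
    apply LinearEquiv.ext
    intro x
    have h1 := congrArg (fun k : O (Q₁.prod Q₂) => (k.1 (0, x)).2) e
    exact h1

theorem inlO_refl (Q₁ : QuadraticForm F V₁) (Q₂ : QuadraticForm F V₂) (u : V₁) :
    inlO Q₁ Q₂ (refl Q₁ u) = refl (Q₁.prod Q₂) (u, 0) := by
  apply Subtype.ext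
  apply LinearEquiv.ext
  intro x
  show (reflE Q₁ u x.1, x.2) = reflE (Q₁.prod Q₂) (u, 0) x
  rw [reflE_apply, reflE_apply, polar_prod]
  have e1 : (Q₁.prod Q₂) (u, 0) = Q₁ u := by
    show Q₁ u + Q₂ 0 = Q₁ u
    rw [map_zero, add_zero]
  rw [e1]
  ext
  · simp
  · simp

theorem inrO_refl (Q₁ : QuadraticForm F V₁) (Q₂ : QuadraticForm F V₂) (u : V₂) :
    inrO Q₁ Q₂ (refl Q₂ u) = refl (Q₁.prod Q₂) (0, u) := by
  apply Subtype.ext
  apply LinearEquiv.ext
  intro x
  show (x.1, reflE Q₂ u x.2) = reflE (Q₁.prod Q₂) (0, u) x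
  rw [reflE_apply, reflE_apply, polar_prod]
  have e1 : (Q₁.prod Q₂) (0, u) = Q₂ u := by
    show Q₁ 0 + Q₂ u = Q₂ u
    rw [map_zero, zero_add]
  rw [e1]
  ext
  · simp
  · simp

theorem spin_inlO [Fintype F] [FiniteDimensional F V₁] [FiniteDimensional F V₂]
    (h2 : (2 : F) ≠ 0) {Q₁ : QuadraticForm F V₁} {Q₂ : QuadraticForm F V₂} (hS₁ : Sep Q₁)
    (hS₂ : Sep Q₂) (hd₁ : 2 ≤ finrank F V₁) (g : O Q₁) :
    spin (Q₁.prod Q₂) (inlO Q₁ Q₂ g) = spin Q₁ g := by
  have hd : 2 ≤ finrank F (V₁ × V₂) := by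
    rw [Module.finrank_prod]
    omega
  obtain ⟨vs, hvs, rfl⟩ := exists_prod_refl h2 hS₁ g
  have e1 : inlO Q₁ Q₂ ((vs.map (refl Q₁)).prod) =
      ((vs.map (fun v => ((v, 0) : V₁ × V₂))).map (refl (Q₁.prod Q₂))).prod := by
    rw [map_list_prod, List.map_map, List.map_map]
    congr 1
    apply List.map_congr_left
    intro v _
    exact inlO_refl Q₁ Q₂ v
  have e2 : ∀ v : V₁, (Q₁.prod Q₂) (v, 0) = Q₁ v := by
    intro v
    show Q₁ v + Q₂ 0 = Q₁ v
    rw [map_zero, add_zero]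
  have hvs' : ∀ v ∈ vs.map (fun v => ((v, 0) : V₁ × V₂)), (Q₁.prod Q₂) v ≠ 0 := by
    intro v hv
    obtain ⟨v', hv', rfl⟩ := List.mem_map.mp hv
    rw [e2]
    exact hvs v' hv'
  rw [e1, (spin_prod h2 (sep_prod' hS₁ hS₂) hd _ hvs').2, (spin_prod h2 hS₁ hd₁ vs hvs).2,
    List.length_map, List.map_map]
  congr 3
  apply List.map_congr_left
  intro v _
  exact e2 v

theorem spin_inrO [Fintype F] [FiniteDimensional F V₁] [FiniteDimensional F V₂]
    (h2 : (2 : F) ≠ 0) {Q₁ : QuadraticForm F V₁} {Q₂ : QuadraticForm F V₂} (hS₁ : Sep Q₁)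
    (hS₂ : Sep Q₂) (hd₂ : 2 ≤ finrank F V₂) (g : O Q₂) :
    spin (Q₁.prod Q₂) (inrO Q₁ Q₂ g) = spin Q₂ g := by
  have hd : 2 ≤ finrank F (V₁ × V₂) := by
    rw [Module.finrank_prod]
    omega
  obtain ⟨vs, hvs, rfl⟩ := exists_prod_refl h2 hS₂ g
  have e1 : inrO Q₁ Q₂ ((vs.map (refl Q₂)).prod) =
      ((vs.map (fun v => ((0, v) : V₁ × V₂))).map (refl (Q₁.prod Q₂))).prod := by
    rw [map_list_prod, List.map_map, List.map_map]
    congr 1
    apply List.map_congr_left
    intro v _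
    exact inrO_refl Q₁ Q₂ v
  have e2 : ∀ v : V₂, (Q₁.prod Q₂) (0, v) = Q₂ v := by
    intro v
    show Q₁ 0 + Q₂ v = Q₂ v
    rw [map_zero, zero_add]
  have hvs' : ∀ v ∈ vs.map (fun v => ((0, v) : V₁ × V₂)), (Q₁.prod Q₂) v ≠ 0 := by
    intro v hv
    obtain ⟨v', hv', rfl⟩ := List.mem_map.mp hv
    rw [e2]
    exact hvs v' hv'
  rw [e1, (spin_prod h2 (sep_prod' hS₁ hS₂) hd _ hvs').2, (spin_prod h2 hS₂ hd₂ vs hvs).2,
    List.length_map, List.map_map]
  congr 3
  apply List.map_congr_left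
  intro v _
  exact e2 v

end sums

section swap

variable {F : Type*} [Field F] {V : Type u} [AddCommGroup V] [Module F V]

/-- the swap of the two summands -/
def swapO (Q : QuadraticForm F V) : O (Q.prod Q) :=
  ⟨LinearEquiv.prodComm F V V, fun x => by
    show Q x.2 + Q x.1 = Q x.1 + Q x.2
    rw [add_comm]⟩

theorem swapO_apply (Q : QuadraticForm F V) (x : V × V) : (swapO Q).1 x = (x.2, x.1) := rfl

theorem swapO_mul_self (Q : QuadraticForm F V) : swapO Q * swapO Q = 1 := by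
  apply Subtype.ext
  apply LinearEquiv.ext
  intro x
  rfl

theorem swapO_conj (Q : QuadraticForm F V) (g : O Q) :
    swapO Q * inlO Q Q g * (swapO Q)⁻¹ = inrO Q Q g := by
  have hinv : (swapO Q)⁻¹ = swapO Q := inv_eq_of_mul_eq_one_left (swapO_mul_self Q)
  rw [hinv]
  apply Subtype.ext
  apply LinearEquiv.ext
  intro x
  rfl

/-- the transposition of the first and third of four summands -/
def swap13 (Q : QuadraticForm F V) : O ((Q.prod Q).prod (Q.prod Q)) :=
  ⟨{ toFun := fun p => ((p.2.1, p.1.2), (p.1.1, p.2.2))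
     map_add' := fun _ _ => rfl
     map_smul' := fun _ _ => rfl
     invFun := fun p => ((p.2.1, p.1.2), (p.1.1, p.2.2))
     left_inv := fun _ => rfl
     right_inv := fun _ => rfl }, fun x => by
    show (Q x.2.1 + Q x.1.2) + (Q x.1.1 + Q x.2.2) = (Q x.1.1 + Q x.1.2) + (Q x.2.1 + Q x.2.2)
    abel⟩

/-- the swap of `(U × U) × (U × U)` is a commutator of isometries -/
theorem swapO_mem_commutator (Q : QuadraticForm F V) :
    swapO (Q.prod Q) ∈ commutator (O ((Q.prod Q).prod (Q.prod Q))) := by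
  set g : O ((Q.prod Q).prod (Q.prod Q)) :=
    inlO (Q.prod Q) (Q.prod Q) (swapO Q) * inrO (Q.prod Q) (Q.prod Q) (swapO Q) with hg
  have e : swapO (Q.prod Q) * g * swap13 Q = swap13 Q * g := by
    apply Subtype.ext
    apply LinearEquiv.ext
    intro x
    rfl
  have e' : swapO (Q.prod Q) = ⁅swap13 Q, g⁆ := by
    rw [commutatorElement_def, ← e]
    group
  rw [e', commutator_def]
  exact Subgroup.commutator_mem_commutator (Subgroup.mem_top _) (Subgroup.mem_top _)

end swap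

end Cfsg.Agent.Lib.Helper44.SylO2
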