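import Mathlib
import Cfsg.Agent.Lib.Helper44.SylE4
import Cfsg.Agent.Lib.Helper44.SylO1
import Cfsg.Agent.Lib.Helper44.SylO2

set_option autoImplicit false

/-!
2-subgroups of the abstract orthogonal groups `O Q`: closure under wreath products and orthogonal
sums, and the base case of the plane `x² + y²`.
-/

namespace Cfsg.Agent.Lib.Helper44.SylO3

open Module QuadraticMap
open scoped commutatorElement
open Cfsg.Agent.Lib.Helper44.QSpace Cfsg.Agent.Lib.Helper44.OGroup Cfsg.Agent.Lib.Helper44.Spinor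
open Cfsg.Agent.Lib.Helper44.SylE1 Cfsg.Agent.Lib.Helper44.SylE4 Cfsg.Agent.Lib.Helper44.SylO1
open Cfsg.Agent.Lib.Helper44.SylO2

universe u

section wr

variable {S : Type u} [Group S] {G : Type*} [Group G]

/-- the homomorphism from the group of order two given by an involution -/
def tH (t : G) (ht : t * t = 1) : ℤˣ →* G where
  toFun u := if u = 1 then 1 else t
  map_one' := by simp
  map_mul' := by
    intro x y
    rcases Int.units_eq_one_or x with rfl | rfl <;> rcases Int.units_eq_one_or y with rfl | rfl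
    · simp
    · simp
    · simp
    · have h1 : ((-1 : ℤˣ) = 1) = False := by decide
      simp only [h1, if_false]
      have h2 : (-1 : ℤˣ) * -1 = 1 := by decide
      rw [h2, if_pos rfl]
      exact ht.symm

theorem tH_neg (t : G) (ht : t * t = 1) : tH t ht (-1) = t := by
  have h1 : ((-1 : ℤˣ) = 1) = False := by decide
  show (if (-1 : ℤˣ) = 1 then (1 : G) else t) = _
  simp only [h1, if_false]

/-- the wreath product homomorphism -/
def wrG (j₁ j₂ : S →* G) (hc : ∀ a b, j₁ a * j₂ b = j₂ b * j₁ a) (t : G) (ht : t * t = 1)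
    (hconj : ∀ a, t * j₁ a * t⁻¹ = j₂ a) : (S × S) ⋊[phi S] ℤˣ →* G :=
  SemidirectProduct.lift (MonoidHom.noncommCoprod j₁ j₂ (fun a b => hc a b)) (tH t ht) (by
    intro u
    rcases Int.units_eq_one_or u with rfl | rfl
    · refine MonoidHom.ext fun x => ?_
      simp
    · refine MonoidHom.ext fun x => ?_
      obtain ⟨a, b⟩ := x
      have htinv : t⁻¹ = t := inv_eq_of_mul_eq_one_left ht
      have hconj' : t * j₂ b * t⁻¹ = j₁ b := by
        rw [← hconj b, htinv]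
        calc t * (t * j₁ b * t) * t = (t * t) * j₁ b * (t * t) := by group
          _ = j₁ b := by rw [ht, one_mul, mul_one]
      show MonoidHom.noncommCoprod j₁ j₂ (fun a b => hc a b) (phi S (-1) (a, b)) =
        tH t ht (-1) * MonoidHom.noncommCoprod j₁ j₂ (fun a b => hc a b) (a, b) * (tH t ht (-1))⁻¹
      rw [phi_neg, tH_neg]
      show j₁ b * j₂ a = t * (j₁ a * j₂ b) * t⁻¹
      rw [hc, ← hconj a, ← hconj']
      group)

theorem wrG_inl (j₁ j₂ : S →* G) (hc : ∀ a b, j₁ a * j₂ b = j₂ b * j₁ a) (t : G) (ht : t * t = 1)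
    (hconj : ∀ a, t * j₁ a * t⁻¹ = j₂ a) (a b : S) :
    wrG j₁ j₂ hc t ht hconj (SemidirectProduct.inl (a, b)) = j₁ a * j₂ b := by
  rw [wrG, SemidirectProduct.lift_inl]
  rfl

theorem wrG_inr (j₁ j₂ : S →* G) (hc : ∀ a b, j₁ a * j₂ b = j₂ b * j₁ a) (t : G) (ht : t * t = 1)
    (hconj : ∀ a, t * j₁ a * t⁻¹ = j₂ a) :
    wrG j₁ j₂ hc t ht hconj (SemidirectProduct.inr (-1)) = t := by
  rw [wrG, SemidirectProduct.lift_inr, tH_neg]

theorem wrG_injective (j₁ j₂ : S →* G) (hc : ∀ a b, j₁ a * j₂ b = j₂ b * j₁ a) (t : G)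
    (ht : t * t = 1) (hconj : ∀ a, t * j₁ a * t⁻¹ = j₂ a)
    (hinj : ∀ a b, j₁ a * j₂ b = 1 → a = 1 ∧ b = 1) (hne : ∀ a b, j₁ a * j₂ b ≠ t) :
    Function.Injective (wrG j₁ j₂ hc t ht hconj) := by
  rw [injective_iff_map_eq_one]
  intro w hw
  have hw' : w = SemidirectProduct.inl w.left * SemidirectProduct.inr w.right :=
    (SemidirectProduct.inl_left_mul_inr_right w).symm
  rw [hw', map_mul] at hw
  rcases hwl : w.left with ⟨a, b⟩
  rw [hwl] at hw hw'
  rcases Int.units_eq_one_or w.right with hr | hr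
  · rw [hr, map_one, map_one, mul_one, wrG_inl] at hw
    obtain ⟨ha, hb⟩ := hinj a b hw
    rw [hw', hr, ha, hb, map_one, mul_one]
    rfl
  · exfalso
    rw [hr, wrG_inl, wrG_inr] at hw
    have htinv : t⁻¹ = t := inv_eq_of_mul_eq_one_left ht
    have h1 : j₁ a * j₂ b = t := by
      rw [← htinv]
      exact eq_inv_of_mul_eq_one_left hw
    exact hne a b h1

theorem wr_struct (S : Type u) [Group S] :
    ∃ (i₁ i₂ : S →* (S × S) ⋊[phi S] ℤˣ) (τ : (S × S) ⋊[phi S] ℤˣ),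
      (∀ a, i₁ a = SemidirectProduct.inl (a, 1)) ∧ (∀ a, i₂ a = SemidirectProduct.inl (1, a)) ∧
      τ = SemidirectProduct.inr (-1) ∧
      (∀ a b, i₁ a * i₂ b = i₂ b * i₁ a) ∧ τ * τ = 1 ∧ (∀ a, τ * i₁ a * τ⁻¹ = i₂ a) ∧
      (∀ w, ∃ a b, w = i₁ a * i₂ b ∨ w = i₁ a * i₂ b * τ) := by
  let i₁ : S →* (S × S) ⋊[phi S] ℤˣ := SemidirectProduct.inl.comp (MonoidHom.inl S S)
  let i₂ : S →* (S × S) ⋊[phi S] ℤˣ := SemidirectProduct.inl.comp (MonoidHom.inr S S)
  let τ : (S × S) ⋊[phi S] ℤˣ := SemidirectProduct.inr (-1)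
  have hi₁ : ∀ a, i₁ a = SemidirectProduct.inl (a, 1) := fun a => rfl
  have hi₂ : ∀ a, i₂ a = SemidirectProduct.inl (1, a) := fun a => rfl
  have hmul : ∀ a b, i₁ a * i₂ b = SemidirectProduct.inl (a, b) := by
    intro a b
    rw [hi₁, hi₂, ← map_mul]
    congr 1
    ext <;> simp
  have h1 : ∀ a b, i₁ a * i₂ b = i₂ b * i₁ a := by
    intro a b
    rw [hmul, hi₁, hi₂, ← map_mul]
    congr 1
    ext <;> simp
  have h2 : τ * τ = 1 := by
    show SemidirectProduct.inr (-1) * SemidirectProduct.inr (-1) = (1 : (S × S) ⋊[phi S] ℤˣ)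
    rw [← map_mul]
    have : (-1 : ℤˣ) * -1 = 1 := by decide
    rw [this, map_one]
  have h3 : ∀ a, τ * i₁ a * τ⁻¹ = i₂ a := by
    intro a
    have h7 := SemidirectProduct.inl_aut (φ := phi S) (-1) ((a, 1) : S × S)
    rw [phi_neg] at h7
    rw [hi₁, hi₂]
    show SemidirectProduct.inr (-1) * SemidirectProduct.inl (a, 1) *
      (SemidirectProduct.inr (-1))⁻¹ = SemidirectProduct.inl (1, a)
    rw [← map_inv]
    exact h7.symm
  have h4 : ∀ w, ∃ a b, w = i₁ a * i₂ b ∨ w = i₁ a * i₂ b * τ := by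
    intro w
    have hw' : w = SemidirectProduct.inl w.left * SemidirectProduct.inr w.right :=
      (SemidirectProduct.inl_left_mul_inr_right w).symm
    rcases hwl : w.left with ⟨a, b⟩
    refine ⟨a, b, ?_⟩
    rw [hwl] at hw'
    rw [hmul]
    rcases Int.units_eq_one_or w.right with hr | hr
    · left
      rw [hw', hr, map_one, mul_one]
    · right
      rw [hw', hr]
  exact ⟨i₁, i₂, τ, hi₁, hi₂, rfl, h1, h2, h3, h4⟩

end wr

section towers

variable {F : Type u} [Field F] [Fintype F]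

/-- a 2-subgroup of `O Q` of order `2^s` with the strong properties -/
def GG {V : Type u} [AddCommGroup V] [Module F V] (Q : QuadraticForm F V) (s : ℕ) : Prop :=
  ∃ (S : Type u) (_ : Group S) (f : S →* O Q), Function.Injective f ∧ Nat.card S = 2 ^ s ∧
    P1 ((spin Q).comp f) ∧ II ((spin Q).comp f) ∧ CC ((spin Q).comp f) ∧
    ∀ g : O Q, ∃ x : S, spin Q (f x) = spin Q g

/-- a 2-subgroup of `O Q` of order `2^s` with the weak properties -/
def BB {V : Type u} [AddCommGroup V] [Module F V] (Q : QuadraticForm F V) (s : ℕ) : Prop :=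
  ∃ (S : Type u) (_ : Group S) (f : S →* O Q), Function.Injective f ∧ Nat.card S = 2 ^ s ∧
    EE S ∧ PW ((spin Q).comp f) ∧ II' ((spin Q).comp f) ∧
    ∀ g : O Q, ∃ x : S, spin Q (f x) = spin Q g

/-- a 2-subgroup of `O Q` of order `2^s` with squares in the derived subgroup -/
def ET {V : Type u} [AddCommGroup V] [Module F V] (Q : QuadraticForm F V) (s : ℕ) : Prop :=
  ∃ (S : Type u) (_ : Group S) (f : S →* O Q), Function.Injective f ∧ Nat.card S = 2 ^ s ∧ EE S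

variable {V : Type u} [AddCommGroup V] [Module F V] [FiniteDimensional F V]

theorem GG.bb (h2 : (2 : F) ≠ 0) {Q : QuadraticForm F V} (hS : Sep Q) (hd : 2 ≤ finrank F V)
    {s : ℕ} (h : GG Q s) : BB Q s := by
  obtain ⟨S, _, f, hf, hcard, hP1, hII, hCC, hcov⟩ := h
  have hX : X2 ((spin Q).comp f) := fun x => spin_sq h2 hS hd (f x)
  exact ⟨S, _, f, hf, hcard, ee_of _ hX hP1 hII, P1.pw hP1, II.ii' hII, hcov⟩

omit [Fintype F] [FiniteDimensional F V] in
theorem BB.et {Q : QuadraticForm F V} {s : ℕ} (h : BB Q s) : ET Q s := by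
  obtain ⟨S, _, f, hf, hcard, hE, -, -, -⟩ := h
  exact ⟨S, _, f, hf, hcard, hE⟩

/-- the wreath product step -/
theorem wreath_GG (h2 : (2 : F) ≠ 0) {Q : QuadraticForm F V} (hS : Sep Q) (hd : 2 ≤ finrank F V)
    (hsw : swapO Q ∈ commutator (O (Q.prod Q))) {s : ℕ} (h : BB Q s) :
    GG (Q.prod Q) (2 * s + 1) := by
  obtain ⟨S, _, f, hf, hcard, hE, hPW, hII', hcov⟩ := h
  have hSS : Sep (Q.prod Q) := sep_prod' hS hS
  have hdd : 2 ≤ finrank F (V × V) := by
    rw [Module.finrank_prod]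
    omega
  have hV : Nontrivial V := Module.nontrivial_of_finrank_pos (R := F) (by omega)
  have hc : ∀ a b, ((inlO Q Q).comp f) a * ((inrO Q Q).comp f) b =
      ((inrO Q Q).comp f) b * ((inlO Q Q).comp f) a := fun a b => inl_inr_comm Q Q (f a) (f b)
  have hconj : ∀ a, swapO Q * ((inlO Q Q).comp f) a * (swapO Q)⁻¹ = ((inrO Q Q).comp f) a :=
    fun a => swapO_conj Q (f a)
  have hinj : ∀ a b, ((inlO Q Q).comp f) a * ((inrO Q Q).comp f) b = 1 → a = 1 ∧ b = 1 := by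
    intro a b hab
    have h3 : inlO Q Q (f a) * inrO Q Q (f b) = inlO Q Q 1 * inrO Q Q 1 := by
      rw [map_one, map_one, mul_one]
      exact hab
    obtain ⟨h4, h5⟩ := inl_inr_eq Q Q _ _ _ _ h3
    exact ⟨hf (by rw [h4, map_one]), hf (by rw [h5, map_one])⟩
  have hne : ∀ a b, ((inlO Q Q).comp f) a * ((inrO Q Q).comp f) b ≠ swapO Q := by
    intro a b hab
    obtain ⟨v, hv⟩ := exists_ne (0 : V)
    have h3 := congrArg (fun k : O (Q.prod Q) => (k.1 (v, 0)).2) hab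
    have h4 : (f b).1 0 = v := h3
    rw [map_zero] at h4
    exact hv h4.symm
  refine ⟨(S × S) ⋊[phi S] ℤˣ, inferInstance,
    wrG _ _ hc (swapO Q) (swapO_mul_self Q) hconj,
    wrG_injective _ _ hc _ _ hconj hinj hne, ?_, ?_⟩
  · rw [SemidirectProduct.card, Nat.card_prod, hcard, Nat.card_eq_fintype_card (α := ℤˣ),
      Fintype.card_units_int]
    ring
  obtain ⟨i₁, i₂, τ, hi₁, hi₂, hτ, h1, h2', h3, h4⟩ := wr_struct S
  have h5 : ∀ a, ((spin (Q.prod Q)).comp (wrG _ _ hc (swapO Q) (swapO_mul_self Q) hconj)) (i₁ a) =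
      ((spin Q).comp f) a := by
    intro a
    show spin (Q.prod Q) (wrG _ _ hc (swapO Q) (swapO_mul_self Q) hconj (i₁ a)) = spin Q (f a)
    rw [hi₁, wrG_inl, map_one, mul_one]
    exact spin_inlO h2 hS hS hd (f a)
  have h5' : ∀ a, ((spin (Q.prod Q)).comp (wrG _ _ hc (swapO Q) (swapO_mul_self Q) hconj)) (i₂ a) =
      ((spin Q).comp f) a := by
    intro a
    show spin (Q.prod Q) (wrG _ _ hc (swapO Q) (swapO_mul_self Q) hconj (i₂ a)) = spin Q (f a)
    rw [hi₂, wrG_inl, map_one, one_mul]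
    exact spin_inrO h2 hS hS hd (f a)
  have h6 : ((spin (Q.prod Q)).comp (wrG _ _ hc (swapO Q) (swapO_mul_self Q) hconj)) τ = 1 := by
    show spin (Q.prod Q) (wrG _ _ hc (swapO Q) (swapO_mul_self Q) hconj τ) = 1
    rw [hτ, wrG_inr]
    exact (ker_spin h2 hSS hdd _).mpr hsw
  have hX : X2 ((spin Q).comp f) := fun x => spin_sq h2 hS hd (f x)
  refine ⟨wreath_P1' i₁ i₂ τ h1 h2' h3 h4 _ _ h5 h5' h6 hX hPW,
    wreath_II i₁ i₂ τ h1 h4 _ _ h5 h5' h6 hII', wreath_CC i₁ i₂ τ h1 h4 _ _ h5 h5' h6, ?_⟩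
  intro g
  obtain ⟨g₁, hg₁⟩ := spin_cover h2 hS hd hSS hdd g
  obtain ⟨x, hx⟩ := hcov g₁
  refine ⟨i₁ x, ?_⟩
  rw [← hg₁, ← hx]
  exact h5 x

variable {V₂ : Type u} [AddCommGroup V₂] [Module F V₂] [FiniteDimensional F V₂]

/-- the orthogonal sum step -/
theorem prod_GG (h2 : (2 : F) ≠ 0) {Q₁ : QuadraticForm F V} {Q₂ : QuadraticForm F V₂}
    (hS₁ : Sep Q₁) (hS₂ : Sep Q₂) (hd : 2 ≤ finrank F V) {s₁ s₂ : ℕ} (h₁ : GG Q₁ s₁)
    (h₂ : ET Q₂ s₂) : GG (Q₁.prod Q₂) (s₁ + s₂) := by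
  obtain ⟨S₁, _, f₁, hf₁, hc₁, hP1, hII, hCC, hcov⟩ := h₁
  obtain ⟨S₂, _, f₂, hf₂, hc₂, hE⟩ := h₂
  have hSS : Sep (Q₁.prod Q₂) := sep_prod' hS₁ hS₂
  have hdd : 2 ≤ finrank F (V × V₂) := by
    rw [Module.finrank_prod]
    omega
  have hc : ∀ a b, ((inlO Q₁ Q₂).comp f₁) a * ((inrO Q₁ Q₂).comp f₂) b =
      ((inrO Q₁ Q₂).comp f₂) b * ((inlO Q₁ Q₂).comp f₁) a :=
    fun a b => inl_inr_comm Q₁ Q₂ (f₁ a) (f₂ b)
  let j : S₁ × S₂ →* O (Q₁.prod Q₂) :=
    MonoidHom.noncommCoprod ((inlO Q₁ Q₂).comp f₁) ((inrO Q₁ Q₂).comp f₂) (fun a b => hc a b)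
  have hj : ∀ a b, j (a, b) = inlO Q₁ Q₂ (f₁ a) * inrO Q₁ Q₂ (f₂ b) := fun a b => rfl
  have hjinj : Function.Injective j := by
    rintro ⟨a, b⟩ ⟨a', b'⟩ hab
    rw [hj, hj] at hab
    obtain ⟨h4, h5⟩ := inl_inr_eq Q₁ Q₂ _ _ _ _ hab
    rw [hf₁ h4, hf₂ h5]
  refine ⟨S₁ × S₂, inferInstance, j, hjinj, ?_, ?_⟩
  · rw [Nat.card_prod, hc₁, hc₂, pow_add]
  have h4 : ∀ w : S₁ × S₂, ∃ x y, w = MonoidHom.inl S₁ S₂ x * MonoidHom.inr S₁ S₂ y :=
    fun w => ⟨w.1, w.2, by ext <;> simp⟩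
  have h1 : ∀ x y, MonoidHom.inl S₁ S₂ x * MonoidHom.inr S₁ S₂ y =
      MonoidHom.inr S₁ S₂ y * MonoidHom.inl S₁ S₂ x := by
    intro x y
    ext <;> simp
  have h5 : ∀ x, ((spin (Q₁.prod Q₂)).comp j) (MonoidHom.inl S₁ S₂ x) =
      ((spin Q₁).comp f₁) x := by
    intro x
    show spin (Q₁.prod Q₂) (j (x, 1)) = spin Q₁ (f₁ x)
    rw [hj, map_one, map_one, mul_one]
    exact spin_inlO h2 hS₁ hS₂ hd (f₁ x)
  have h5' : ∀ y, ((spin (Q₁.prod Q₂)).comp j) (MonoidHom.inr S₁ S₂ y) =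
      ((spin (Q₁.prod Q₂)).comp ((inrO Q₁ Q₂).comp f₂)) y := by
    intro y
    show spin (Q₁.prod Q₂) (j (1, y)) = spin (Q₁.prod Q₂) (inrO Q₁ Q₂ (f₂ y))
    rw [hj, map_one, map_one, one_mul]
  have hX : X2 ((spin (Q₁.prod Q₂)).comp j) := fun x => spin_sq h2 hSS hdd (j x)
  have hcov' : ∀ g : O (Q₁.prod Q₂), ∃ a : S₁, ((spin Q₁).comp f₁) a = spin (Q₁.prod Q₂) g := by
    intro g
    obtain ⟨g₁, hg₁⟩ := spin_cover h2 hS₁ hd hSS hdd g
    obtain ⟨x, hx⟩ := hcov g₁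
    exact ⟨x, by rw [← hg₁, ← hx]; rfl⟩
  have hcov₂ : ∀ b : S₂, ∃ a : S₁, ((spin Q₁).comp f₁) a =
      ((spin (Q₁.prod Q₂)).comp ((inrO Q₁ Q₂).comp f₂)) b := fun b => hcov' _
  refine ⟨prod_P1' _ _ h1 h4 _ _ _ h5 h5' hX hP1 hII hCC hcov₂ hE,
    prod_II _ _ h4 _ _ _ h5 h5' hII hcov₂, prod_CC _ _ h4 _ _ _ h5 h5' hCC hcov₂, ?_⟩
  intro g
  obtain ⟨a, ha⟩ := hcov' g
  exact ⟨MonoidHom.inl S₁ S₂ a, by rw [← ha]; exact h5 a⟩

omit [Fintype F] [FiniteDimensional F V] [FiniteDimensional F V₂] in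
theorem prod_ET {Q₁ : QuadraticForm F V} {Q₂ : QuadraticForm F V₂} {s₁ s₂ : ℕ} (h₁ : ET Q₁ s₁)
    (h₂ : ET Q₂ s₂) : ET (Q₁.prod Q₂) (s₁ + s₂) := by
  obtain ⟨S₁, _, f₁, hf₁, hc₁, hE₁⟩ := h₁
  obtain ⟨S₂, _, f₂, hf₂, hc₂, hE₂⟩ := h₂
  have hc : ∀ a b, ((inlO Q₁ Q₂).comp f₁) a * ((inrO Q₁ Q₂).comp f₂) b =
      ((inrO Q₁ Q₂).comp f₂) b * ((inlO Q₁ Q₂).comp f₁) a :=
    fun a b => inl_inr_comm Q₁ Q₂ (f₁ a) (f₂ b)
  let j : S₁ × S₂ →* O (Q₁.prod Q₂) :=
    MonoidHom.noncommCoprod ((inlO Q₁ Q₂).comp f₁) ((inrO Q₁ Q₂).comp f₂) (fun a b => hc a b)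
  have hj : ∀ a b, j (a, b) = inlO Q₁ Q₂ (f₁ a) * inrO Q₁ Q₂ (f₂ b) := fun a b => rfl
  have hjinj : Function.Injective j := by
    rintro ⟨a, b⟩ ⟨a', b'⟩ hab
    rw [hj, hj] at hab
    obtain ⟨h4, h5⟩ := inl_inr_eq Q₁ Q₂ _ _ _ _ hab
    rw [hf₁ h4, hf₂ h5]
  refine ⟨S₁ × S₂, inferInstance, j, hjinj, ?_, ?_⟩
  · rw [Nat.card_prod, hc₁, hc₂, pow_add]
  have h4 : ∀ w : S₁ × S₂, ∃ x y, w = MonoidHom.inl S₁ S₂ x * MonoidHom.inr S₁ S₂ y :=
    fun w => ⟨w.1, w.2, by ext <;> simp⟩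
  have h1 : ∀ x y, MonoidHom.inl S₁ S₂ x * MonoidHom.inr S₁ S₂ y =
      MonoidHom.inr S₁ S₂ y * MonoidHom.inl S₁ S₂ x := by
    intro x y
    ext <;> simp
  exact prod_EE _ _ h1 h4 hE₁ hE₂

/-- minus the identity -/
def negO (Q : QuadraticForm F V) : O Q :=
  ⟨LinearEquiv.neg F, fun x => by
    show Q (-x) = Q x
    exact QuadraticMap.map_neg Q x⟩

omit [Fintype F] [FiniteDimensional F V] in
theorem et_one (h2 : (2 : F) ≠ 0) [Nontrivial V] (Q : QuadraticForm F V) : ET Q 1 := by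
  haveI : Fact (Nat.Prime 2) := ⟨Nat.prime_two⟩
  have hsq : negO Q * negO Q = 1 := by
    apply Subtype.ext
    apply LinearEquiv.ext
    intro x
    show -(-x) = x
    rw [neg_neg]
  have hne : negO Q ≠ 1 := by
    intro h
    obtain ⟨v, hv⟩ := exists_ne (0 : V)
    have h3 := congrArg (fun k : O Q => k.1 v) h
    have h4 : -v = v := h3
    have h5 : (2 : F) • v = 0 := by
      rw [two_smul]
      nth_rewrite 1 [← h4]
      exact neg_add_cancel v
    rcases smul_eq_zero.mp h5 with h6 | h6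
    · exact h2 h6
    · exact hv h6
  have hord : orderOf (negO Q) = 2 := orderOf_eq_prime (by rw [pow_two]; exact hsq) hne
  refine ⟨↥(Subgroup.zpowers (negO Q)), inferInstance, (Subgroup.zpowers (negO Q)).subtype,
    Subtype.val_injective, ?_, ?_⟩
  · rw [Nat.card_zpowers, hord, pow_one]
  · intro x
    obtain ⟨x, hx⟩ := x
    obtain ⟨i, rfl⟩ := Subgroup.mem_zpowers_iff.mp hx
    have h1 : (⟨negO Q ^ i, hx⟩ : ↥(Subgroup.zpowers (negO Q))) ^ 2 = 1 := by
      apply Subtype.ext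
      show (negO Q ^ i) ^ 2 = 1
      rw [← zpow_natCast, ← zpow_mul, mul_comm, zpow_mul, zpow_natCast, pow_two, hsq, one_zpow]
    rw [h1]
    exact Subgroup.one_mem _

end towers

section base

variable (F : Type u) [Field F]

/-- the form `x ↦ x * x` on the line -/
abbrev sqF : QuadraticForm F F := QuadraticMap.sq

variable {F}

theorem sqF_apply (x : F) : sqF F x = x * x := rfl

theorem sep_smul_sq (h2 : (2 : F) ≠ 0) {d : F} (hd : d ≠ 0) : Sep (d • sqF F) := by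
  intro x hx
  have h1 := hx 1
  have h3 : polar (⇑(d • sqF F)) x 1 = d * (2 * x) := by
    show d • ((x + 1) * (x + 1)) - d • (x * x) - d • ((1 : F) * 1) = d * (2 * x)
    simp only [smul_eq_mul]
    ring
  rw [h3] at h1
  rcases mul_eq_zero.mp h1 with h | h
  · exact absurd h hd
  · rcases mul_eq_zero.mp h with h | h
    · exact absurd h h2
    · exact h

theorem sep_sq (h2 : (2 : F) ≠ 0) : Sep (sqF F) := by
  have h := sep_smul_sq h2 (one_ne_zero : (1 : F) ≠ 0)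
  rw [one_smul] at h
  exact h

theorem plane_apply (x : F × F) : ((sqF F).prod (sqF F)) x = x.1 * x.1 + x.2 * x.2 := rfl

/-- in the plane `x² + y²` the isometries of determinant `-1` are involutions -/
theorem det_neg_involution (h2 : (2 : F) ≠ 0) (g : O ((sqF F).prod (sqF F)))
    (hdet : detHom ((sqF F).prod (sqF F)) g = -1) : g * g = 1 := by
  set a := (g.1 (1, 0)).1 with ha
  set b := (g.1 (1, 0)).2 with hb
  set c := (g.1 (0, 1)).1 with hc
  set d := (g.1 (0, 1)).2 with hd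
  have h1 : a * a + b * b = 1 := by
    have h := g.2 (1, 0)
    rw [plane_apply, plane_apply] at h
    simpa using h
  have h3 : c * c + d * d = 1 := by
    have h := g.2 (0, 1)
    rw [plane_apply, plane_apply] at h
    simpa using h
  have hg : ∀ x : F × F, g.1 x = (x.1 * a + x.2 * c, x.1 * b + x.2 * d) := by
    intro x
    have e : x = x.1 • ((1, 0) : F × F) + x.2 • ((0, 1) : F × F) := by
      ext <;> simp
    conv_lhs => rw [e]
    rw [map_add, map_smul, map_smul]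
    ext <;> simp [ha, hb, hc, hd]
  have h4 : a * c + b * d = 0 := by
    have h := g.2 (1, 1)
    rw [plane_apply, plane_apply, hg] at h
    simp only [one_mul] at h
    have h5 : 2 * (a * c + b * d) = 0 := by linear_combination h - h1 - h3
    rcases mul_eq_zero.mp h5 with h6 | h6
    · exact absurd h6 h2
    · exact h6
  have h6 : a * d - c * b = -1 := by
    have h5 := congrArg Units.val hdet
    have h7 : ((detHom ((sqF F).prod (sqF F)) g : Fˣ) : F) =
        LinearMap.det ((g.1 : (F × F) ≃ₗ[F] (F × F)) : (F × F) →ₗ[F] (F × F)) :=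
      LinearEquiv.coe_det g.1
    rw [h7] at h5
    have h8 : LinearMap.det ((g.1 : (F × F) ≃ₗ[F] (F × F)) : (F × F) →ₗ[F] (F × F)) =
        a * d - c * b := by
      rw [← LinearMap.det_toMatrix (Basis.finTwoProd F), Matrix.det_fin_two]
      simp [LinearMap.toMatrix_apply, Basis.finTwoProd, ha, hb, hc, hd]
    rw [h8] at h5
    rw [h5]
    simp
  have hcb : c = b := by linear_combination (-c) * h1 + a * h4 - b * h6
  have hda : d = -a := by linear_combination (-d) * h1 + b * h4 + a * h6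
  apply Subtype.ext
  apply LinearEquiv.ext
  intro x
  show g.1 (g.1 x) = x
  rw [hg x, hg]
  ext
  · show (x.1 * a + x.2 * c) * a + (x.1 * b + x.2 * d) * c = x.1
    linear_combination x.1 * h1 + x.1 * b * hcb + x.2 * c * hda
  · show (x.1 * a + x.2 * c) * b + (x.1 * b + x.2 * d) * d = x.2
    linear_combination x.1 * b * hda + x.2 * b * hcb + x.2 * h1 + x.2 * (d - a) * hda

/-- the base of the tower: a Sylow 2-subgroup of the orthogonal group of the plane `x² + y²` -/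
theorem base_BB [Fintype F] (h2 : (2 : F) ≠ 0) :
    BB ((sqF F).prod (sqF F)) ((Nat.card (O ((sqF F).prod (sqF F)))).factorization 2) := by
  classical
  haveI : Fact (Nat.Prime 2) := ⟨Nat.prime_two⟩
  have hS : Sep ((sqF F).prod (sqF F)) := sep_prod' (sep_sq h2) (sep_sq h2)
  have hd : 2 ≤ finrank F (F × F) := by
    rw [Module.finrank_prod, Module.finrank_self]
  haveI := finite_O ((sqF F).prod (sqF F))
  obtain ⟨D⟩ : Nonempty (Sylow 2 (O ((sqF F).prod (sqF F)))) := inferInstance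
  have hcov : ∀ g : O ((sqF F).prod (sqF F)), ∃ x : ↥(D : Subgroup (O ((sqF F).prod (sqF F)))),
      spin ((sqF F).prod (sqF F)) ((D : Subgroup (O ((sqF F).prod (sqF F)))).subtype x) =
        spin ((sqF F).prod (sqF F)) g := by
    intro g
    obtain ⟨x, hx, hxg⟩ := sylow_cover h2 hS hd D g
    exact ⟨⟨x, hx⟩, hxg⟩
  have hX : X2 ((spin ((sqF F).prod (sqF F))).comp
      (D : Subgroup (O ((sqF F).prod (sqF F)))).subtype) :=
    fun x => spin_sq h2 hS hd _
  obtain ⟨u₀, hu₀⟩ := Cfsg.Agent.Lib.Helper44.QClass.exists_q_eq hS hd (1 : F)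
  obtain ⟨s, hs⟩ := hcov (refl ((sqF F).prod (sqF F)) u₀)
  have hs1 : (spin ((sqF F).prod (sqF F))
      ((D : Subgroup (O ((sqF F).prod (sqF F)))).subtype s)).1 = -1 := by
    rw [hs, spin_refl h2 hS hd (by rw [hu₀]; exact one_ne_zero)]
  obtain ⟨hE, hPW, hII'⟩ := base_props
    ((spin ((sqF F).prod (sqF F))).comp (D : Subgroup (O ((sqF F).prod (sqF F)))).subtype)
    ((MonoidHom.fst Fˣ Fˣ).comp ((spin ((sqF F).prod (sqF F))).comp
      (D : Subgroup (O ((sqF F).prod (sqF F)))).subtype)) hX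
    (by
      intro x hx
      rw [MonoidHom.mem_ker] at hx ⊢
      rw [MonoidHom.comp_apply, hx]
      rfl) s
    (by
      show (spin ((sqF F).prod (sqF F))
        ((D : Subgroup (O ((sqF F).prod (sqF F)))).subtype s)).1 ≠ 1
      rw [hs1]
      exact neg_one_ne_one h2)
    (by
      intro g
      show (spin ((sqF F).prod (sqF F)) ((D : Subgroup (O ((sqF F).prod (sqF F)))).subtype g)).1 = 1 ∨
        (spin ((sqF F).prod (sqF F)) ((D : Subgroup (O ((sqF F).prod (sqF F)))).subtype g)).1 =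
        (spin ((sqF F).prod (sqF F)) ((D : Subgroup (O ((sqF F).prod (sqF F)))).subtype s)).1
      rw [hs1]
      exact (spin_values h2 hS hd _).1)
    (by
      intro g hg
      have hg' : (spin ((sqF F).prod (sqF F))
          ((D : Subgroup (O ((sqF F).prod (sqF F)))).subtype g)).1 ≠ 1 := hg
      have h5 : (spin ((sqF F).prod (sqF F))
          ((D : Subgroup (O ((sqF F).prod (sqF F)))).subtype g)).1 = -1 := by
        rcases (spin_values h2 hS hd ((D : Subgroup (O ((sqF F).prod (sqF F)))).subtype g)).1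
          with h | h
        · exact absurd h hg'
        · exact h
      rw [spin_fst h2 hS hd] at h5
      have h6 := det_neg_involution h2 _ h5
      exact Subtype.ext h6)
  exact ⟨↥(D : Subgroup (O ((sqF F).prod (sqF F)))), inferInstance,
    (D : Subgroup (O ((sqF F).prod (sqF F)))).subtype, Subtype.val_injective,
    Sylow.card_eq_multiplicity D, hE, hPW, hII', hcov⟩

end base

end Cfsg.Agent.Lib.Helper44.SylO3
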