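import Mathlib
import Cfsg.Agent.Lib.Helper44.SylE3
import Cfsg.Agent.Lib.Helper44.QDiag
import Cfsg.Agent.Lib.Helper44.SylO3

set_option autoImplicit false

/-!
The towers of 2-subgroups in the orthogonal groups of sums of squares, diagonal bases, and the
transport to isometric quadratic spaces.
-/

namespace Cfsg.Agent.Lib.Helper44.SylO4

open Module QuadraticMap
open scoped commutatorElement
open Cfsg.Agent.Lib.Helper44.QSpace Cfsg.Agent.Lib.Helper44.OGroup Cfsg.Agent.Lib.Helper44.Spinor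
open Cfsg.Agent.Lib.Helper44.SylE1 Cfsg.Agent.Lib.Helper44.SylO1
open Cfsg.Agent.Lib.Helper44.SylO2 Cfsg.Agent.Lib.Helper44.SylO3
open Cfsg.Agent.Lib.Helper44.QDiag

universe u

/-- a bundled finite-dimensional quadratic space -/
structure QS (F : Type u) [Field F] where
  /-- the space -/
  V : Type u
  [acg : AddCommGroup V]
  [mod : Module F V]
  [fd : FiniteDimensional F V]
  /-- the form -/
  Q : QuadraticForm F V

attribute [instance] QS.acg QS.mod QS.fd

section spaces

variable {F : Type u} [Field F]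

/-- the orthogonal sum -/
abbrev QS.prod (X Y : QS F) : QS F where
  V := X.V × Y.V
  Q := X.Q.prod Y.Q

/-- the line with the form `d x²` -/
abbrev line (F : Type u) [Field F] (d : F) : QS F where
  V := F
  Q := d • sqF F

/-- an orthonormal basis with `n` elements -/
def ONB (X : QS F) (n : ℕ) : Prop :=
  ∃ (κ : Type) (_ : Fintype κ) (b : Basis κ F X.V), Fintype.card κ = n ∧ (∀ i, X.Q (b i) = 1) ∧
    ∀ i j, i ≠ j → polar X.Q (b i) (b j) = 0

/-- an orthogonal basis with `n + 1` elements, the form being `1` on all but one of them, where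
it is `d` -/
def OBd (X : QS F) (n : ℕ) (d : F) : Prop :=
  ∃ (κ : Type) (_ : Fintype κ) (b : Basis κ F X.V) (p₀ : κ), Fintype.card κ = n + 1 ∧
    (∀ i j, i ≠ j → polar X.Q (b i) (b j) = 0) ∧ X.Q (b p₀) = d ∧ ∀ i, i ≠ p₀ → X.Q (b i) = 1

theorem ONB.finrank {X : QS F} {n : ℕ} (h : ONB X n) : finrank F X.V = n := by
  obtain ⟨κ, _, b, hc, -, -⟩ := h
  rw [Module.finrank_eq_card_basis b, hc]

theorem onb_line : ONB (line F 1) 1 := by
  refine ⟨Unit, inferInstance, Basis.singleton Unit F, by simp, ?_, ?_⟩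
  · intro i
    show (1 : F) • ((Basis.singleton Unit F i) * (Basis.singleton Unit F i)) = 1
    rw [Basis.singleton_apply]
    simp
  · intro i j hij
    exact absurd (Subsingleton.elim i j) hij

theorem prod_q_inl (X Y : QS F) (x : X.V) : (X.prod Y).Q (x, 0) = X.Q x := by
  show X.Q x + Y.Q 0 = X.Q x
  rw [map_zero, add_zero]

theorem prod_q_inr (X Y : QS F) (y : Y.V) : (X.prod Y).Q (0, y) = Y.Q y := by
  show X.Q 0 + Y.Q y = Y.Q y
  rw [map_zero, zero_add]

theorem prod_basis_inl (X Y : QS F) {κ₁ κ₂ : Type} (b₁ : Basis κ₁ F X.V) (b₂ : Basis κ₂ F Y.V)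
    (i : κ₁) : (b₁.prod b₂ (Sum.inl i) : X.V × Y.V) = (b₁ i, 0) :=
  Prod.ext (Basis.prod_apply_inl_fst b₁ b₂ i) (Basis.prod_apply_inl_snd b₁ b₂ i)

theorem prod_basis_inr (X Y : QS F) {κ₁ κ₂ : Type} (b₁ : Basis κ₁ F X.V) (b₂ : Basis κ₂ F Y.V)
    (i : κ₂) : (b₁.prod b₂ (Sum.inr i) : X.V × Y.V) = (0, b₂ i) :=
  Prod.ext (Basis.prod_apply_inr_fst b₁ b₂ i) (Basis.prod_apply_inr_snd b₁ b₂ i)

theorem prod_polar (X Y : QS F) (x y : X.V × Y.V) :
    polar (X.prod Y).Q x y = polar X.Q x.1 y.1 + polar Y.Q x.2 y.2 :=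
  polar_prod X.Q Y.Q x y

theorem prod_orth (X Y : QS F) {κ₁ κ₂ : Type} (b₁ : Basis κ₁ F X.V) (b₂ : Basis κ₂ F Y.V)
    (h₁ : ∀ i j, i ≠ j → polar X.Q (b₁ i) (b₁ j) = 0)
    (h₂ : ∀ i j, i ≠ j → polar Y.Q (b₂ i) (b₂ j) = 0) :
    ∀ i j, i ≠ j → polar (X.prod Y).Q (b₁.prod b₂ i : X.V × Y.V) (b₁.prod b₂ j) = 0 := by
  intro i j hij
  rcases i with i | i <;> rcases j with j | j
  · rw [prod_basis_inl, prod_basis_inl, prod_polar]
    simp only [polar_zero_left, add_zero]
    exact h₁ i j (fun h => hij (by rw [h]))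
  · rw [prod_basis_inl, prod_basis_inr, prod_polar]
    simp only [polar_zero_left, polar_zero_right, add_zero]
  · rw [prod_basis_inr, prod_basis_inl, prod_polar]
    simp only [polar_zero_left, polar_zero_right, add_zero]
  · rw [prod_basis_inr, prod_basis_inr, prod_polar]
    simp only [polar_zero_left, zero_add]
    exact h₂ i j (fun h => hij (by rw [h]))

theorem onb_prod {X Y : QS F} {n m : ℕ} (hX : ONB X n) (hY : ONB Y m) :
    ONB (X.prod Y) (n + m) := by
  obtain ⟨κ₁, _, b₁, hc₁, hq₁, ho₁⟩ := hX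
  obtain ⟨κ₂, _, b₂, hc₂, hq₂, ho₂⟩ := hY
  refine ⟨κ₁ ⊕ κ₂, inferInstance, b₁.prod b₂, by rw [Fintype.card_sum, hc₁, hc₂], ?_,
    prod_orth X Y b₁ b₂ ho₁ ho₂⟩
  intro i
  rcases i with i | i
  · rw [prod_basis_inl, prod_q_inl]
    exact hq₁ i
  · rw [prod_basis_inr, prod_q_inr]
    exact hq₂ i

theorem obd_of_onb {X : QS F} {n : ℕ} (h : ONB X (n + 1)) : OBd X n 1 := by
  obtain ⟨κ, _, b, hc, hq, ho⟩ := h
  have hne : Nonempty κ := by
    rw [← Fintype.card_pos_iff, hc]
    omega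
  obtain ⟨p₀⟩ := hne
  exact ⟨κ, inferInstance, b, p₀, hc, ho, hq p₀, fun i _ => hq i⟩

theorem obd_prod {X : QS F} {n : ℕ} (h : ONB X n) (d : F) : OBd (X.prod (line F d)) n d := by
  obtain ⟨κ, _, b, hc, hq, ho⟩ := h
  refine ⟨κ ⊕ Unit, inferInstance, b.prod (Basis.singleton Unit F), Sum.inr (), ?_, ?_, ?_, ?_⟩
  · rw [Fintype.card_sum, hc]
    simp
  · apply prod_orth X (line F d) b (Basis.singleton Unit F) ho
    intro i j hij
    exact absurd (Subsingleton.elim i j) hij
  · rw [prod_basis_inr X (line F d) b (Basis.singleton Unit F) (), prod_q_inr]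
    show d • ((Basis.singleton Unit F ()) * (Basis.singleton Unit F ())) = d
    rw [Basis.singleton_apply]
    simp
  · intro i hi
    rcases i with i | i
    · rw [prod_basis_inl X (line F d) b (Basis.singleton Unit F) i, prod_q_inl]
      exact hq i
    · exact absurd rfl hi

end spaces

section diag

variable {F : Type u} [Field F] {V : Type u} [AddCommGroup V] [Module F V]

/-- a diagonal basis with values `1, …, 1, d` -/
def HasDiag (Q : QuadraticForm F V) (n : ℕ) (d : F) : Prop :=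
  ∃ b : Basis (Fin (n + 1)) F V, (∀ i j, i ≠ j → polar Q (b i) (b j) = 0) ∧
    (∀ i, i ≠ Fin.last n → Q (b i) = 1) ∧ Q (b (Fin.last n)) = d

theorem hasDiag_of_obd {X : QS F} {n : ℕ} {d : F} (h : OBd X n d) : HasDiag X.Q n d := by
  classical
  obtain ⟨κ, _, b, p₀, hc, ho, hd, hq⟩ := h
  let e₀ : Fin (n + 1) ≃ κ := (Fintype.equivFinOfCardEq hc).symm
  let e : Fin (n + 1) ≃ κ := e₀.trans (Equiv.swap (e₀ (Fin.last n)) p₀)
  have he : e (Fin.last n) = p₀ := by
    show Equiv.swap (e₀ (Fin.last n)) p₀ (e₀ (Fin.last n)) = p₀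
    exact Equiv.swap_apply_left _ _
  refine ⟨b.reindex e.symm, ?_, ?_, ?_⟩
  · intro i j hij
    rw [Basis.reindex_apply, Basis.reindex_apply, Equiv.symm_symm]
    exact ho _ _ (fun h => hij (e.injective h))
  · intro i hi
    rw [Basis.reindex_apply, Equiv.symm_symm]
    apply hq
    intro h
    rw [← he] at h
    exact hi (e.injective h)
  · rw [Basis.reindex_apply, Equiv.symm_symm, he]
    exact hd

theorem hasDiag_rescale {Q : QuadraticForm F V} {n : ℕ} {d c : F} (hc : c ≠ 0)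
    (h : HasDiag Q n (c * c * d)) : HasDiag Q n d := by
  classical
  obtain ⟨b, ho, hq, hd⟩ := h
  let w : Fin (n + 1) → F := fun i => if i = Fin.last n then c⁻¹ else 1
  have hw : ∀ i, IsUnit (w i) := by
    intro i
    by_cases hi : i = Fin.last n
    · simp only [w, hi, if_true]
      exact (inv_ne_zero hc).isUnit
    · simp only [w, hi, if_false]
      exact isUnit_one
  refine ⟨b.isUnitSMul hw, ?_, ?_, ?_⟩
  · intro i j hij
    rw [Basis.isUnitSMul_apply, Basis.isUnitSMul_apply, polar_smul_l, polar_smul_r, ho i j hij,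
      mul_zero, mul_zero]
  · intro i hi
    rw [Basis.isUnitSMul_apply, q_smul, hq i hi]
    simp only [w, hi, if_false]
    ring
  · rw [Basis.isUnitSMul_apply, q_smul, hd]
    simp only [w, if_true]
    field_simp

variable {V' : Type u} [AddCommGroup V'] [Module F V']

theorem iso_of_hasDiag {Q : QuadraticForm F V} {Q' : QuadraticForm F V'} {n : ℕ} {d : F}
    (h : HasDiag Q n d) (h' : HasDiag Q' n d) :
    ∃ Φ : V ≃ₗ[F] V', ∀ x, Q' (Φ x) = Q x := by
  obtain ⟨b, ho, hq, hd⟩ := h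
  obtain ⟨b', ho', hq', hd'⟩ := h'
  let Φ : V ≃ₗ[F] V' := b.equiv b' (Equiv.refl _)
  have hΦ : ∀ i, Φ (b i) = b' i := fun i => by
    show b.equiv b' (Equiv.refl _) (b i) = b' i
    rw [Basis.equiv_apply]
    rfl
  have e : Q'.comp (Φ : V →ₗ[F] V') = Q := by
    apply quad_ext_basis b
    · intro i
      show Q' (Φ (b i)) = Q (b i)
      rw [hΦ]
      by_cases hi : i = Fin.last n
      · rw [hi, hd, hd']
      · rw [hq i hi, hq' i hi]
    · intro i j
      have e1 : polar (⇑(Q'.comp (Φ : V →ₗ[F] V'))) (b i) (b j) = polar Q' (Φ (b i)) (Φ (b j)) := by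
        simp only [polar, QuadraticMap.comp_apply, LinearEquiv.coe_coe, map_add]
      rw [e1, hΦ, hΦ]
      by_cases hij : i = j
      · subst hij
        rw [polar_self', polar_self']
        by_cases hi : i = Fin.last n
        · rw [hi, hd, hd']
        · rw [hq i hi, hq' i hi]
      · rw [ho i j hij, ho' i j hij]
  refine ⟨Φ, fun x => ?_⟩
  rw [← e]
  rfl

/-- the isomorphism of orthogonal groups induced by an isometry -/
def conjO {Q : QuadraticForm F V} {Q' : QuadraticForm F V'} (Φ : V ≃ₗ[F] V')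
    (hΦ : ∀ x, Q' (Φ x) = Q x) : O Q ≃* O Q' where
  toFun g := ⟨Φ.symm.trans (g.1.trans Φ), fun x => by
    show Q' (Φ (g.1 (Φ.symm x))) = Q' x
    rw [hΦ, g.2, ← hΦ, LinearEquiv.apply_symm_apply]⟩
  invFun g := ⟨Φ.trans (g.1.trans Φ.symm), fun x => by
    show Q (Φ.symm (g.1 (Φ x))) = Q x
    rw [← hΦ, LinearEquiv.apply_symm_apply, g.2, hΦ]⟩
  left_inv g := by
    apply Subtype.ext
    apply LinearEquiv.ext
    intro x
    show Φ.symm (Φ (g.1 (Φ.symm (Φ x)))) = g.1 x
    rw [LinearEquiv.symm_apply_apply, LinearEquiv.symm_apply_apply]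
  right_inv g := by
    apply Subtype.ext
    apply LinearEquiv.ext
    intro x
    show Φ (Φ.symm (g.1 (Φ (Φ.symm x)))) = g.1 x
    rw [LinearEquiv.apply_symm_apply, LinearEquiv.apply_symm_apply]
  map_mul' g h := by
    apply Subtype.ext
    apply LinearEquiv.ext
    intro x
    show Φ (g.1 (h.1 (Φ.symm x))) = Φ (g.1 (Φ.symm (Φ (h.1 (Φ.symm x)))))
    rw [LinearEquiv.symm_apply_apply]

end diag

section tower

variable (F : Type u) [Field F]

/-- the spaces `F^(2^j)` with the sum of squares -/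
def U : ℕ → QS F
  | 0 => line F 1
  | (j + 1) => (U j).prod (U j)

/-- the 2-adic valuation of the order of the orthogonal group of the plane `x² + y²` -/
noncomputable def s0 : ℕ := (Nat.card (O ((sqF F).prod (sqF F)))).factorization 2

/-- the exponent of the order of the tower on `k` planes -/
noncomputable def A (s k : ℕ) : ℕ := k * s + padicValNat 2 k.factorial

variable {F}

theorem line_one_Q : (line F 1).Q = sqF F := one_smul _ _

theorem U_sep (h2 : (2 : F) ≠ 0) : ∀ j, Sep (U F j).Q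
  | 0 => by
    show Sep ((1 : F) • sqF F)
    exact sep_smul_sq h2 one_ne_zero
  | (j + 1) => sep_prod' (U_sep h2 j) (U_sep h2 j)

theorem U_onb : ∀ j, ONB (U F j) (2 ^ j)
  | 0 => onb_line
  | (j + 1) => by
    have h := onb_prod (U_onb j) (U_onb j)
    rw [pow_succ, mul_two]
    exact h

theorem A_double (s j : ℕ) : A s (2 ^ (j + 1)) = 2 * A s (2 ^ j) + 1 := by
  unfold A
  rw [pow_succ, mul_two, Cfsg.Agent.Lib.Helper44.SylE3.val_fact_double]
  ring

theorem A_add (s j b : ℕ) (hb : b < 2 ^ j) : A s (2 ^ j + b) = A s (2 ^ j) + A s b := by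
  unfold A
  rw [Cfsg.Agent.Lib.Helper44.SylE3.val_fact_add j b hb]
  ring

theorem tw [Fintype F] (h2 : (2 : F) ≠ 0) : ∀ j,
    BB (U F (j + 1)).Q (A (s0 F) (2 ^ j)) ∧ (1 ≤ j → GG (U F (j + 1)).Q (A (s0 F) (2 ^ j)))
  | 0 => by
    refine ⟨?_, fun h => absurd h (by norm_num)⟩
    have h := base_BB (F := F) h2
    have e : A (s0 F) (2 ^ 0) = (Nat.card (O ((sqF F).prod (sqF F)))).factorization 2 := by
      unfold A s0
      simp
    rw [e]
    have e2 : (U F (0 + 1)).Q = (line F 1).Q.prod (line F 1).Q := rfl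
    have e3 : (line F 1).Q.prod (line F 1).Q = (sqF F).prod (sqF F) := by
      rw [line_one_Q]
    exact e3 ▸ h
  | (j + 1) => by
    obtain ⟨hB, -⟩ := tw h2 j
    have hS : Sep (U F (j + 1)).Q := U_sep h2 (j + 1)
    have hd : 2 ≤ finrank F (U F (j + 1)).V := by
      rw [(U_onb (F := F) (j + 1)).finrank]
      calc 2 = 2 ^ 1 := by norm_num
        _ ≤ 2 ^ (j + 1) := Nat.pow_le_pow_right (by norm_num) (by omega)
    have hsw : swapO (U F (j + 1)).Q ∈ commutator (O ((U F (j + 1)).Q.prod (U F (j + 1)).Q)) :=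
      swapO_mem_commutator (U F j).Q
    have hG : GG (U F (j + 1 + 1)).Q (A (s0 F) (2 ^ (j + 1))) := by
      rw [A_double]
      exact wreath_GG h2 hS hd hsw hB
    have hSS : Sep (U F (j + 1 + 1)).Q := U_sep h2 (j + 1 + 1)
    have hdd : 2 ≤ finrank F (U F (j + 1 + 1)).V := by
      rw [(U_onb (F := F) (j + 1 + 1)).finrank]
      calc 2 = 2 ^ 1 := by norm_num
        _ ≤ 2 ^ (j + 1 + 1) := Nat.pow_le_pow_right (by norm_num) (by omega)
    exact ⟨hG.bb h2 hSS hdd, fun _ => hG⟩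

/-- the towers on `k` planes -/
theorem tt [Fintype F] (h2 : (2 : F) ≠ 0) : ∀ k : ℕ, 1 ≤ k →
    ∃ X : QS F, Sep X.Q ∧ ONB X (2 * k) ∧ ET X.Q (A (s0 F) k) ∧ (2 ≤ k → GG X.Q (A (s0 F) k)) := by
  intro k
  induction k using Nat.strong_induction_on with
  | _ k ih =>
    intro hk
    have hk1 : 2 ^ Nat.log 2 k ≤ k := Nat.pow_log_le_self 2 (by omega)
    have hk2 : k < 2 ^ (Nat.log 2 k + 1) := Nat.lt_pow_succ_log_self (by norm_num) k
    generalize Nat.log 2 k = j at hk1 hk2
    obtain ⟨hB, hG⟩ := tw (F := F) h2 j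
    have honb : ONB (U F (j + 1)) (2 * 2 ^ j) := by
      have h := U_onb (F := F) (j + 1)
      rw [pow_succ, mul_comm] at h
      exact h
    rcases Nat.eq_or_lt_of_le hk1 with h | h
    · rw [← h]
      refine ⟨U F (j + 1), U_sep h2 (j + 1), honb, hB.et, fun h2k => hG ?_⟩
      by_contra hj
      have hj0 : j = 0 := by omega
      rw [hj0] at h2k
      norm_num at h2k
    · have hb : k - 2 ^ j < 2 ^ j := by
        rw [pow_succ] at hk2
        omega
      have hb0 : 1 ≤ k - 2 ^ j := by omega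
      have hblt : k - 2 ^ j < k := by
        have : 0 < 2 ^ j := pow_pos (by norm_num) j
        omega
      have hj1 : 1 ≤ j := by
        by_contra hj
        have hj0 : j = 0 := by omega
        rw [hj0] at hb
        norm_num at hb
        omega
      obtain ⟨Y, hYS, hYo, hYE, -⟩ := ih _ hblt hb0
      have hS : Sep (U F (j + 1)).Q := U_sep h2 (j + 1)
      have hd : 2 ≤ finrank F (U F (j + 1)).V := by
        rw [(U_onb (F := F) (j + 1)).finrank]
        calc 2 = 2 ^ 1 := by norm_num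
          _ ≤ 2 ^ (j + 1) := Nat.pow_le_pow_right (by norm_num) (by omega)
      have e : k = 2 ^ j + (k - 2 ^ j) := by omega
      have hGG : GG ((U F (j + 1)).prod Y).Q (A (s0 F) k) := by
        have h3 := prod_GG h2 hS hYS hd (hG hj1) hYE
        have h4 : A (s0 F) k = A (s0 F) (2 ^ j) + A (s0 F) (k - 2 ^ j) := by
          conv_lhs => rw [e]
          exact A_add _ j _ hb
        rw [h4]
        exact h3
      have hSS : Sep ((U F (j + 1)).prod Y).Q := sep_prod' hS hYS
      have honb' : ONB ((U F (j + 1)).prod Y) (2 * k) := by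
        have h3 := onb_prod honb hYo
        have h4 : 2 * k = 2 * 2 ^ j + 2 * (k - 2 ^ j) := by omega
        rw [h4]
        exact h3
      have hdd : 2 ≤ finrank F ((U F (j + 1)).prod Y).V := by
        rw [honb'.finrank]
        omega
      exact ⟨(U F (j + 1)).prod Y, hSS, honb', (hGG.bb h2 hSS hdd).et, fun _ => hGG⟩

theorem sep_line (h2 : (2 : F) ≠ 0) {d : F} (hd : d ≠ 0) : Sep (line F d).Q :=
  sep_smul_sq h2 hd

theorem line_finrank (d : F) : finrank F (line F d).V = 1 := Module.finrank_self F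

/-- the tower for an even number of squares -/
theorem final_one [Fintype F] (h2 : (2 : F) ≠ 0) (k : ℕ) (hk : 2 ≤ k) :
    ∃ X : QS F, Sep X.Q ∧ HasDiag X.Q (2 * k - 1) 1 ∧ GG X.Q (A (s0 F) k) := by
  obtain ⟨X, hS, honb, -, hG⟩ := tt (F := F) h2 k (by omega)
  have h3 : 2 * k = (2 * k - 1) + 1 := by omega
  rw [h3] at honb
  exact ⟨X, hS, hasDiag_of_obd (obd_of_onb honb), hG hk⟩

/-- the tower for an even number of squares plus one more coefficient -/
theorem final_odd [Fintype F] (h2 : (2 : F) ≠ 0) (k : ℕ) (hk : 2 ≤ k) (d : F) (hd : d ≠ 0) :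
    ∃ X : QS F, Sep X.Q ∧ HasDiag X.Q (2 * k) d ∧ GG X.Q (A (s0 F) k + 1) := by
  obtain ⟨X, hS, honb, -, hG⟩ := tt (F := F) h2 k (by omega)
  have hdim : 2 ≤ finrank F X.V := by
    rw [honb.finrank]
    omega
  haveI : Nontrivial (line F d).V := inferInstanceAs (Nontrivial F)
  exact ⟨X.prod (line F d), sep_prod' hS (sep_line h2 hd), hasDiag_of_obd (obd_prod honb d),
    prod_GG h2 hS (sep_line h2 hd) hdim (hG hk) (et_one h2 _)⟩

/-- the tower for an even number of squares plus a square and one more coefficient -/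
theorem final_even [Fintype F] (h2 : (2 : F) ≠ 0) (k : ℕ) (hk : 2 ≤ k) (d : F) (hd : d ≠ 0) :
    ∃ X : QS F, Sep X.Q ∧ HasDiag X.Q (2 * k + 1) d ∧ GG X.Q (A (s0 F) k + 1 + 1) := by
  obtain ⟨X, hS, honb, -, hG⟩ := tt (F := F) h2 k (by omega)
  have hdim : 2 ≤ finrank F X.V := by
    rw [honb.finrank]
    omega
  haveI : Nontrivial (line F d).V := inferInstanceAs (Nontrivial F)
  haveI : Nontrivial (line F (1 : F)).V := inferInstanceAs (Nontrivial F)
  have hS1 : Sep (X.prod (line F 1)).Q := sep_prod' hS (sep_line h2 one_ne_zero)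
  have honb1 : ONB (X.prod (line F 1)) (2 * k + 1) := onb_prod honb onb_line
  have hdim1 : 2 ≤ finrank F (X.prod (line F 1)).V := by
    rw [honb1.finrank]
    omega
  have hG1 : GG (X.prod (line F 1)).Q (A (s0 F) k + 1) :=
    prod_GG h2 hS (sep_line h2 one_ne_zero) hdim (hG hk) (et_one h2 _)
  exact ⟨(X.prod (line F 1)).prod (line F d), sep_prod' hS1 (sep_line h2 hd),
    hasDiag_of_obd (obd_prod honb1 d),
    prod_GG h2 hS1 (sep_line h2 hd) hdim1 hG1 (et_one h2 _)⟩

end tower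

section master

variable {F : Type u} [Field F] [Fintype F] {V : Type u} [AddCommGroup V] [Module F V]
  [FiniteDimensional F V]

omit [Fintype F] [FiniteDimensional F V] in
theorem card_O_congr {V' : Type u} [AddCommGroup V'] [Module F V'] {Q : QuadraticForm F V}
    {Q' : QuadraticForm F V'} (Φ : V ≃ₗ[F] V') (hΦ : ∀ x, Q' (Φ x) = Q x) :
    Nat.card (O Q) = Nat.card (O Q') := Nat.card_congr (conjO Φ hΦ).toEquiv

/-- a tower on an isometric space forces its order to divide the order of the orthogonal group -/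
theorem le_of_GG (X : QS F) {s : ℕ} (hG : GG X.Q s) (Q : QuadraticForm F V)
    (Φ : V ≃ₗ[F] X.V) (hΦ : ∀ x, X.Q (Φ x) = Q x) : s ≤ (Nat.card (O Q)).factorization 2 := by
  haveI : Fact (Nat.Prime 2) := ⟨Nat.prime_two⟩
  haveI := finite_O Q
  haveI := finite_O X.Q
  obtain ⟨S, _, f, hf, hcard, -⟩ := hG
  have h1 : Nat.card S ∣ Nat.card (O X.Q) := Subgroup.card_dvd_of_injective f hf
  rw [hcard, ← card_O_congr Φ hΦ] at h1
  have hne : Nat.card (O Q) ≠ 0 := Nat.card_pos.ne'
  exact (Nat.Prime.pow_dvd_iff_le_factorization Nat.prime_two hne).mp h1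

/-- the main transport: a tower of Sylow order on an isometric space -/
theorem master (h2 : (2 : F) ≠ 0) (X : QS F) (hS : Sep X.Q) (hdim : 2 ≤ finrank F X.V) {s : ℕ}
    (hG : GG X.Q s) (Q : QuadraticForm F V) (Φ : V ≃ₗ[F] X.V) (hΦ : ∀ x, X.Q (Φ x) = Q x)
    (hcard : (Nat.card (O Q)).factorization 2 = s) :
    ∀ P : Sylow 2 ↥(commutator (O Q)), ∀ x : ↥(P : Subgroup ↥(commutator (O Q))),
      x ^ 2 ∈ commutator ↥(P : Subgroup ↥(commutator (O Q))) := by
  haveI := finite_O Q
  haveI := finite_O X.Q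
  obtain ⟨S, _, f, hf, hc, hP1, -, -, -⟩ := hG
  have hc' : Nat.card S = 2 ^ (Nat.card (O X.Q)).factorization 2 := by
    rw [hc, ← card_O_congr Φ hΦ, hcard]
  have h1 := kernel_sylow (spin X.Q) f hf hc' hP1
  have hker : (spin X.Q).ker = commutator (O X.Q) := ker_spin_eq h2 hS hdim
  have h3 : ∀ P : Sylow 2 ↥(commutator (O X.Q)), ∀ x : ↥(P : Subgroup ↥(commutator (O X.Q))),
      x ^ 2 ∈ commutator ↥(P : Subgroup ↥(commutator (O X.Q))) := hker ▸ h1
  exact sylow_sq_of_equiv (conjO Φ hΦ).symm h3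

end master

end Cfsg.Agent.Lib.Helper44.SylO4
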