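import Mathlib
import Cfsg.Agent.Lib.Helper44.SylE3
import Cfsg.Agent.Lib.Helper44.SylO4

set_option autoImplicit false

/-!
Arithmetic of the 2-parts of the orders of the even-dimensional orthogonal groups.
-/

namespace Cfsg.Agent.Lib.Helper44.SylO5

open Cfsg.Agent.Lib.Helper44.SylE3 Cfsg.Agent.Lib.Helper44.SylO4

/-- the valuation of `q² - 1` -/
noncomputable def c0 (q : ℕ) : ℕ := padicValNat 2 (q - 1) + padicValNat 2 (q + 1)

theorem val_two_of_mod (n : ℕ) (h : n % 4 = 2) : padicValNat 2 n = 1 := by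
  have h1 : n = 2 * (n / 2) := by omega
  have h2 : ¬ 2 ∣ n / 2 := by omega
  rw [h1, padicValNat.mul (by norm_num) (by omega), padicValNat_self,
    padicValNat.eq_zero_of_not_dvd h2]

theorem two_le_val (n : ℕ) (h : n % 4 = 0) (hn : n ≠ 0) : 2 ≤ padicValNat 2 n := by
  have h1 : 2 ^ 2 ∣ n := by
    norm_num
    omega
  exact (padicValNat_dvd_iff_le hn).mp h1

theorem c0_cases (q : ℕ) (hq : q % 2 = 1) (hq1 : 1 < q) :
    (padicValNat 2 (q + 1) = 1 ∧ 2 ≤ padicValNat 2 (q - 1)) ∨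
      (padicValNat 2 (q - 1) = 1 ∧ 2 ≤ padicValNat 2 (q + 1)) := by
  have h4 : q % 4 = 1 ∨ q % 4 = 3 := by omega
  rcases h4 with h | h
  · left
    exact ⟨val_two_of_mod _ (by omega), two_le_val _ (by omega) (by omega)⟩
  · right
    exact ⟨val_two_of_mod _ (by omega), two_le_val _ (by omega) (by omega)⟩

theorem c0_ge (q : ℕ) (hq : q % 2 = 1) (hq1 : 1 < q) : 3 ≤ c0 q := by
  unfold c0
  rcases c0_cases q hq hq1 with ⟨h1, h2⟩ | ⟨h1, h2⟩ <;> omega

theorem pow_gt_one (q : ℕ) (hq1 : 1 < q) (n : ℕ) : 1 < q ^ (n + 1) :=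
  Nat.one_lt_pow (by omega) hq1

theorem prod_ne_zero (q : ℕ) (hq1 : 1 < q) (k : ℕ) :
    ∏ i ∈ Finset.range k, (q ^ (2 * (i + 1)) - 1) ≠ 0 := by
  rw [Finset.prod_ne_zero_iff]
  intro i _
  have h := pow_gt_one q hq1 (2 * i + 1)
  have e : 2 * i + 1 + 1 = 2 * (i + 1) := by ring
  rw [e] at h
  omega

theorem prod_val (q : ℕ) (hq : q % 2 = 1) (hq1 : 1 < q) (k : ℕ) :
    padicValNat 2 (∏ i ∈ Finset.range k, (q ^ (2 * (i + 1)) - 1)) =
      k * c0 q + padicValNat 2 k.factorial := by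
  induction k with
  | zero => simp
  | succ k ih =>
    have h1 := pow_gt_one q hq1 (2 * k + 1)
    have e : 2 * k + 1 + 1 = 2 * (k + 1) := by ring
    rw [e] at h1
    rw [Finset.prod_range_succ, padicValNat.mul (prod_ne_zero q hq1 k) (by omega), ih,
      val_fact k]
    have h3 := val_even q hq hq1 k
    have e2 : 2 * k + 2 = 2 * (k + 1) := by ring
    rw [e2] at h3
    rw [h3]
    unfold c0
    ring

theorem pm_val (q : ℕ) (hq : q % 2 = 1) (hq1 : 1 < q) (k : ℕ) :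
    padicValNat 2 (q ^ (k + 1) - 1) + padicValNat 2 (q ^ (k + 1) + 1) =
        c0 q + padicValNat 2 (k + 1) ∧
      (padicValNat 2 (q ^ (k + 1) - 1) = 1 ∨ padicValNat 2 (q ^ (k + 1) + 1) = 1) ∧
      (Even (k + 1) → padicValNat 2 (q ^ (k + 1) + 1) = 1) := by
  have hx := pow_gt_one q hq1 k
  have hodd : q ^ (k + 1) % 2 = 1 := by
    rw [Nat.pow_mod, hq]
    simp
  refine ⟨?_, ?_, ?_⟩
  · have h3 := val_even q hq hq1 k
    have e2 : q ^ (2 * k + 2) - 1 = (q ^ (k + 1) - 1) * (q ^ (k + 1) + 1) := by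
      have e3 : q ^ (2 * k + 2) = q ^ (k + 1) * q ^ (k + 1) := by
        rw [← pow_add]
        congr 1
        ring
      rw [e3]
      generalize q ^ (k + 1) = x at hx
      obtain ⟨y, rfl⟩ : ∃ y, x = y + 1 := ⟨x - 1, by omega⟩
      rw [Nat.add_sub_cancel]
      apply Nat.sub_eq_of_eq_add
      ring
    rw [e2, padicValNat.mul (by omega) (by omega)] at h3
    rw [h3]
    unfold c0
    ring
  · have h4 : q ^ (k + 1) % 4 = 1 ∨ q ^ (k + 1) % 4 = 3 := by omega
    rcases h4 with h | h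
    · right
      exact val_two_of_mod _ (by omega)
    · left
      exact val_two_of_mod _ (by omega)
  · rintro ⟨t, ht⟩
    apply val_two_of_mod
    have h5 : q ^ (k + 1) % 4 = 1 := by
      rw [ht, ← two_mul, pow_mul, Nat.pow_mod]
      have h6 : q ^ 2 % 4 = 1 := by
        have h4 : q % 4 = 1 ∨ q % 4 = 3 := by omega
        rw [Nat.pow_mod]
        rcases h4 with h | h <;> rw [h]
      rw [h6]
      simp
    omega

theorem pow_val (q : ℕ) (hq : q % 2 = 1) (n : ℕ) : padicValNat 2 (q ^ n) = 0 := by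
  apply padicValNat.eq_zero_of_not_dvd
  intro h
  have h1 := Nat.Prime.dvd_of_dvd_pow Nat.prime_two h
  omega

/-- the 2-parts of the orders of `O⁺` and `O⁻` in dimension `2(k+1)` -/
theorem arith (q : ℕ) (hq : q % 2 = 1) (hq1 : 1 < q) (k : ℕ) :
    ((padicValNat 2 (2 * q ^ ((k + 1) * k) * (q ^ (k + 1) - 1) *
          ∏ i ∈ Finset.range k, (q ^ (2 * (i + 1)) - 1)) = A (c0 q) (k + 1) ∧
        padicValNat 2 (2 * q ^ ((k + 1) * k) * (q ^ (k + 1) + 1) *
          ∏ i ∈ Finset.range k, (q ^ (2 * (i + 1)) - 1)) = A (c0 q) k + 2) ∨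
      (padicValNat 2 (2 * q ^ ((k + 1) * k) * (q ^ (k + 1) - 1) *
          ∏ i ∈ Finset.range k, (q ^ (2 * (i + 1)) - 1)) = A (c0 q) k + 2 ∧
        padicValNat 2 (2 * q ^ ((k + 1) * k) * (q ^ (k + 1) + 1) *
          ∏ i ∈ Finset.range k, (q ^ (2 * (i + 1)) - 1)) = A (c0 q) (k + 1))) ∧
    A (c0 q) k + 2 < A (c0 q) (k + 1) ∧
    (Even (k + 1) → padicValNat 2 (2 * q ^ ((k + 1) * k) * (q ^ (k + 1) - 1) *
          ∏ i ∈ Finset.range k, (q ^ (2 * (i + 1)) - 1)) = A (c0 q) (k + 1)) := by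
  have hx := pow_gt_one q hq1 k
  have hP := prod_ne_zero q hq1 k
  have hqn : q ^ ((k + 1) * k) ≠ 0 := by
    have : 0 < q ^ ((k + 1) * k) := pow_pos (by omega) _
    omega
  have e1 : padicValNat 2 (2 * q ^ ((k + 1) * k) * (q ^ (k + 1) - 1) *
      ∏ i ∈ Finset.range k, (q ^ (2 * (i + 1)) - 1)) =
      1 + padicValNat 2 (q ^ (k + 1) - 1) + (k * c0 q + padicValNat 2 k.factorial) := by
    rw [padicValNat.mul (mul_ne_zero (mul_ne_zero (by norm_num) hqn) (by omega)) hP,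
      padicValNat.mul (mul_ne_zero (by norm_num) hqn) (by omega),
      padicValNat.mul (by norm_num) hqn, padicValNat_self, pow_val q hq, prod_val q hq hq1]
  have e2 : padicValNat 2 (2 * q ^ ((k + 1) * k) * (q ^ (k + 1) + 1) *
      ∏ i ∈ Finset.range k, (q ^ (2 * (i + 1)) - 1)) =
      1 + padicValNat 2 (q ^ (k + 1) + 1) + (k * c0 q + padicValNat 2 k.factorial) := by
    rw [padicValNat.mul (mul_ne_zero (mul_ne_zero (by norm_num) hqn) (by omega)) hP,
      padicValNat.mul (mul_ne_zero (by norm_num) hqn) (by omega),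
      padicValNat.mul (by norm_num) hqn, padicValNat_self, pow_val q hq, prod_val q hq hq1]
  obtain ⟨h1, h2, h3⟩ := pm_val q hq hq1 k
  have hc := c0_ge q hq hq1
  have hA1 : A (c0 q) (k + 1) = (k + 1) * c0 q + (padicValNat 2 (k + 1) + padicValNat 2 k.factorial) := by
    unfold A
    rw [val_fact k]
  have hA0 : A (c0 q) k = k * c0 q + padicValNat 2 k.factorial := rfl
  rw [e1, e2, hA1, hA0]
  have e3 : (k + 1) * c0 q = k * c0 q + c0 q := by ring
  rw [e3]
  refine ⟨?_, by omega, ?_⟩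
  · rcases h2 with h | h
    · right
      omega
    · left
      omega
  · intro hev
    have := h3 hev
    omega

end Cfsg.Agent.Lib.Helper44.SylO5
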