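import Mathlib
import Cfsg.Agent.Lib.Helper44.SylO5
import Cfsg.Agent.Lib.Helper44.OMat
import Cfsg.Agent.Lib.Helper45.OrthCard

set_option autoImplicit false

/-!
Sylow 2-subgroups of `Ω⁺_{2m}(q)` and `Ω⁻_{2m}(q)`, `q` odd: squares lie in the derived subgroup.
-/

namespace Cfsg.Agent.Lib.Helper44.SylO6

open Module QuadraticMap
open Cfsg.Agent.Lib.Helper44.QSpace Cfsg.Agent.Lib.Helper44.OGroup
open Cfsg.Agent.Lib.Helper44.SylE1 Cfsg.Agent.Lib.Helper44.SylE4 Cfsg.Agent.Lib.Helper44.SylO1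
open Cfsg.Agent.Lib.Helper44.SylO2 Cfsg.Agent.Lib.Helper44.SylO3 Cfsg.Agent.Lib.Helper44.SylO4
open Cfsg.Agent.Lib.Helper44.SylO5
open Cfsg.Agent.Lib.Helper44.QDiag Cfsg.Agent.Lib.Helper44.FinSq Cfsg.Agent.Lib.Helper44.OMat
open Cfsg.Agent.Lib.Helper45.OrthStep Cfsg.Agent.Lib.Helper45.OrthCard

universe u

section general

variable {F : Type u} [Field F] [Fintype F]

section abstract

variable {V : Type u} [AddCommGroup V] [Module F V] [FiniteDimensional F V]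

omit [Fintype F] [FiniteDimensional F V] in
theorem HasDiag.finrank {Q : QuadraticForm F V} {n : ℕ} {d : F} (h : HasDiag Q n d) :
    finrank F V = n + 1 := by
  obtain ⟨b, -⟩ := h
  rw [Module.finrank_eq_card_basis b, Fintype.card_fin]

theorem diag_class (h2 : (2 : F) ≠ 0) (Q : QuadraticForm F V) (hS : Sep Q) (n : ℕ)
    (hfin : finrank F V = n + 1) :
    ∃ d : F, d ≠ 0 ∧ (d = 1 ∨ ¬ IsSquare d) ∧ HasDiag Q n d := by
  obtain ⟨b, ho, hq, hd⟩ := exists_diag_basis h2 n V Q hfin hS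
  by_cases hsq : IsSquare (Q (b (Fin.last n)))
  · obtain ⟨c, hc⟩ := hsq
    have hc0 : c ≠ 0 := by
      rintro rfl
      apply hd
      rw [hc]
      ring
    exact ⟨1, one_ne_zero, Or.inl rfl, hasDiag_rescale hc0 ⟨b, ho, hq, by rw [hc]; ring⟩⟩
  · exact ⟨_, hd, Or.inr hsq, b, ho, hq, rfl⟩

omit [FiniteDimensional F V] in
theorem hasDiag_nonsq {Q : QuadraticForm F V} {n : ℕ} {d d' : F} (hd : ¬ IsSquare d)
    (hd' : ¬ IsSquare d') (h : HasDiag Q n d) : HasDiag Q n d' := by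
  obtain ⟨r, hr⟩ := isSquare_mul_of_not_of_not hd hd'
  have hd'0 : d' ≠ 0 := fun h0 => hd' (h0 ▸ IsSquare.zero)
  have hd0 : d ≠ 0 := fun h0 => hd (h0 ▸ IsSquare.zero)
  have hr0 : r ≠ 0 := by
    rintro rfl
    rw [mul_zero] at hr
    exact mul_ne_zero hd0 hd'0 hr
  apply hasDiag_rescale (div_ne_zero hr0 hd'0)
  have e : r / d' * (r / d') * d' = d := by
    field_simp
    linear_combination -hr
  rw [e]
  exact h

/-- the comparison of two quadratic spaces of dimension `2(k+1)` with orthogonal groups of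
different 2-parts -/
theorem pair_logic (h2 : (2 : F) ≠ 0) {V₂ : Type u} [AddCommGroup V₂] [Module F V₂]
    [FiniteDimensional F V₂] (Q₁ : QuadraticForm F V) (Q₂ : QuadraticForm F V₂) (hS₁ : Sep Q₁)
    (hS₂ : Sep Q₂) (k : ℕ) (hk : 1 ≤ k) (hf₁ : finrank F V = (2 * k + 1) + 1)
    (hf₂ : finrank F V₂ = (2 * k + 1) + 1)
    (hv : ((Nat.card (O Q₁)).factorization 2 = A (s0 F) (k + 1) ∧
          (Nat.card (O Q₂)).factorization 2 = A (s0 F) k + 2) ∨
        ((Nat.card (O Q₁)).factorization 2 = A (s0 F) k + 2 ∧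
          (Nat.card (O Q₂)).factorization 2 = A (s0 F) (k + 1)))
    (hAB : A (s0 F) k + 2 < A (s0 F) (k + 1))
    (hk' : 2 ≤ k ∨ (Nat.card (O Q₁)).factorization 2 = A (s0 F) (k + 1)) :
    ∀ P : Sylow 2 ↥(commutator (O Q₁)), ∀ x : ↥(P : Subgroup ↥(commutator (O Q₁))),
      x ^ 2 ∈ commutator ↥(P : Subgroup ↥(commutator (O Q₁))) := by
  obtain ⟨d₁, hd₁0, hd₁, hD₁⟩ := diag_class h2 Q₁ hS₁ (2 * k + 1) hf₁
  obtain ⟨d₂, hd₂0, hd₂, hD₂⟩ := diag_class h2 Q₂ hS₂ (2 * k + 1) hf₂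
  obtain ⟨X₁, hX₁S, hX₁D, hX₁G⟩ := final_one (F := F) h2 (k + 1) (by omega)
  have e : 2 * (k + 1) - 1 = 2 * k + 1 := by omega
  rw [e] at hX₁D
  have hX₁dim : 2 ≤ finrank F X₁.V := by
    rw [HasDiag.finrank hX₁D]
    omega
  rcases hd₁ with rfl | hns₁
  · obtain ⟨Φ, hΦ⟩ := iso_of_hasDiag hD₁ hX₁D
    have hle := le_of_GG X₁ hX₁G Q₁ Φ hΦ
    have hv₁ : (Nat.card (O Q₁)).factorization 2 = A (s0 F) (k + 1) := by
      rcases hv with ⟨h, _⟩ | ⟨h, _⟩ <;> omega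
    exact master h2 X₁ hX₁S hX₁dim hX₁G Q₁ Φ hΦ hv₁
  · rcases hd₂ with rfl | hns₂
    · obtain ⟨Φ₂, hΦ₂⟩ := iso_of_hasDiag hD₂ hX₁D
      have hle := le_of_GG X₁ hX₁G Q₂ Φ₂ hΦ₂
      have hv₁ : (Nat.card (O Q₁)).factorization 2 = A (s0 F) k + 1 + 1 := by
        rcases hv with ⟨_, h⟩ | ⟨h, _⟩ <;> omega
      rcases hk' with hk2 | hk2
      · obtain ⟨X₂, hX₂S, hX₂D, hX₂G⟩ := final_even (F := F) h2 k hk2 d₁ hd₁0
        obtain ⟨Φ, hΦ⟩ := iso_of_hasDiag hD₁ hX₂D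
        have hX₂dim : 2 ≤ finrank F X₂.V := by
          rw [HasDiag.finrank hX₂D]
          omega
        exact master h2 X₂ hX₂S hX₂dim hX₂G Q₁ Φ hΦ hv₁
      · omega
    · have hD₂' := hasDiag_nonsq hns₂ hns₁ hD₂
      obtain ⟨Φ, hΦ⟩ := iso_of_hasDiag hD₁ hD₂'
      have hc := card_O_congr Φ hΦ
      exfalso
      rw [hc] at hv
      rcases hv with ⟨h, h'⟩ | ⟨h, h'⟩ <;> omega

end abstract

section prelude

variable {ι : Type} [Fintype ι] [DecidableEq ι]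

omit [Fintype F] [Fintype ι] [DecidableEq ι] in
theorem sep_of_nd (h2 : (2 : F) ≠ 0) (Q : QuadraticForm F (ι → F)) (h : ND Q) : Sep Q := by
  intro x hx
  apply h x
  · have h1 := hx x
    rw [polar_self'] at h1
    rcases mul_eq_zero.mp h1 with h3 | h3
    · exact absurd h3 h2
    · exact h3
  · exact hx

omit [Fintype F] in
theorem card_O_eq (Q : QuadraticForm F (ι → F)) :
    Nat.card (O Q) = Nat.card ↥(Cfsg.isometryGroup F ⇑Q) :=
  Nat.card_congr (isoEquiv Q).symm.toEquiv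

theorem good_omega (Q : QuadraticForm F (ι → F))
    (h : ∀ P : Sylow 2 ↥(commutator (O Q)), ∀ x : ↥(P : Subgroup ↥(commutator (O Q))),
      x ^ 2 ∈ commutator ↥(P : Subgroup ↥(commutator (O Q)))) :
    ∀ P : Sylow 2 ↥(Cfsg.Omega F ⇑Q), ∀ x : ↥(P : Subgroup ↥(Cfsg.Omega F ⇑Q)),
      x ^ 2 ∈ commutator ↥(P : Subgroup ↥(Cfsg.Omega F ⇑Q)) :=
  sylow_sq_of_equiv (isoEquiv Q).symm h

end prelude

section plane

theorem eight_dvd (h2 : (2 : F) ≠ 0) : 8 ∣ Nat.card (O ((sqF F).prod (sqF F))) := by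
  obtain ⟨S, _, f, hf, hcard, -⟩ := et_one h2 (sqF F)
  have hc : ∀ a b, ((inlO (sqF F) (sqF F)).comp f) a * ((inrO (sqF F) (sqF F)).comp f) b =
      ((inrO (sqF F) (sqF F)).comp f) b * ((inlO (sqF F) (sqF F)).comp f) a :=
    fun a b => inl_inr_comm _ _ (f a) (f b)
  have hconj : ∀ a, swapO (sqF F) * ((inlO (sqF F) (sqF F)).comp f) a * (swapO (sqF F))⁻¹ =
      ((inrO (sqF F) (sqF F)).comp f) a := fun a => swapO_conj _ (f a)
  have hinj : ∀ a b, ((inlO (sqF F) (sqF F)).comp f) a * ((inrO (sqF F) (sqF F)).comp f) b = 1 →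
      a = 1 ∧ b = 1 := by
    intro a b hab
    have h3 : inlO (sqF F) (sqF F) (f a) * inrO (sqF F) (sqF F) (f b) =
        inlO (sqF F) (sqF F) 1 * inrO (sqF F) (sqF F) 1 := by
      rw [map_one, map_one, mul_one]
      exact hab
    obtain ⟨h4, h5⟩ := inl_inr_eq _ _ _ _ _ _ h3
    exact ⟨hf (by rw [h4, map_one]), hf (by rw [h5, map_one])⟩
  have hne : ∀ a b, ((inlO (sqF F) (sqF F)).comp f) a * ((inrO (sqF F) (sqF F)).comp f) b ≠
      swapO (sqF F) := by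
    intro a b hab
    have h3 := congrArg (fun k : O ((sqF F).prod (sqF F)) => (k.1 ((1 : F), (0 : F))).2) hab
    have h4 : (f b).1 0 = (1 : F) := h3
    rw [map_zero] at h4
    exact zero_ne_one h4
  have h1 := Subgroup.card_dvd_of_injective (wrG _ _ hc (swapO (sqF F)) (swapO_mul_self _) hconj)
    (wrG_injective _ _ hc _ _ hconj hinj hne)
  rw [SemidirectProduct.card, Nat.card_prod, hcard, Nat.card_eq_fintype_card (α := ℤˣ),
    Fintype.card_units_int] at h1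
  exact h1

theorem exists_aniso (h2 : (2 : F) ≠ 0) :
    ∃ a b : F, ∀ z₁ z₂ : F, z₁ ^ 2 + a * z₁ * z₂ + b * z₂ ^ 2 = 0 → z₁ = 0 ∧ z₂ = 0 := by
  obtain ⟨ζ, hζ⟩ := FiniteField.exists_nonsquare (ringChar_ne_two_of_two_ne_zero h2)
  refine ⟨0, -ζ, ?_⟩
  intro z₁ z₂ h
  have hz₂ : z₂ = 0 := by
    by_contra hne
    apply hζ
    refine ⟨z₁ / z₂, ?_⟩
    field_simp
    linear_combination -h
  rw [hz₂] at h
  have hz₁ : z₁ ^ 2 = 0 := by linear_combination h
  exact ⟨pow_eq_zero_iff (by norm_num) |>.mp hz₁, hz₂⟩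

omit [Fintype F] in
theorem finrank_plus (m : ℕ) : finrank F (Fin m ⊕ Fin m → F) = m + m := by
  rw [Module.finrank_fintype_fun_eq_card, Fintype.card_sum, Fintype.card_fin]

omit [Fintype F] in
theorem finrank_minus (k : ℕ) : finrank F ((Fin k ⊕ Fin k) ⊕ Fin 2 → F) = k + k + 2 := by
  rw [Module.finrank_fintype_fun_eq_card, Fintype.card_sum, Fintype.card_sum, Fintype.card_fin,
    Fintype.card_fin]

theorem card_QP (k : ℕ) : Nat.card (O (QP (F := F) (k + 1))) =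
    2 * Fintype.card F ^ ((k + 1) * k) * (Fintype.card F ^ (k + 1) - 1) *
      ∏ i ∈ Finset.range k, (Fintype.card F ^ (2 * (i + 1)) - 1) := by
  rw [card_O_eq, QP_coe]
  exact card_plus rfl k

theorem card_QM (a b : F)
    (hab : ∀ z₁ z₂ : F, z₁ ^ 2 + a * z₁ * z₂ + b * z₂ ^ 2 = 0 → z₁ = 0 ∧ z₂ = 0) (k : ℕ) :
    Nat.card (O (QM k a b)) =
    2 * Fintype.card F ^ ((k + 1) * k) * (Fintype.card F ^ (k + 1) + 1) *
      ∏ i ∈ Finset.range k, (Fintype.card F ^ (2 * (i + 1)) - 1) := by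
  rw [card_O_eq, QM_coe]
  exact card_minus rfl a b hab k

theorem s0_def' : s0 F = (Nat.card (O (U F 1).Q)).factorization 2 := by
  have e3 : (U F 1).Q = (sqF F).prod (sqF F) := by
    show (line F 1).Q.prod (line F 1).Q = (sqF F).prod (sqF F)
    rw [line_one_Q]
  rw [e3]
  rfl

theorem s0_eq (hF : Odd (Fintype.card F)) : s0 F = c0 (Fintype.card F) := by
  have h2 : (2 : F) ≠ 0 := two_ne_zero_of_odd_card hF
  have hq : Fintype.card F % 2 = 1 := Nat.odd_iff.mp hF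
  have hq1 : 1 < Fintype.card F := Fintype.one_lt_card
  obtain ⟨a, b, hab⟩ := exists_aniso (F := F) h2
  have hD : HasDiag (U F 1).Q 1 1 := by
    have h := U_onb (F := F) 1
    exact hasDiag_of_obd (obd_of_onb h)
  have hcP : Nat.card (O (QP (F := F) (0 + 1))) = 2 * (Fintype.card F - 1) := by
    rw [card_QP]
    simp
  have hcM : Nat.card (O (QM 0 a b)) = 2 * (Fintype.card F + 1) := by
    rw [card_QM a b hab]
    simp
  have hSP : Sep (QP (F := F) (0 + 1)) := sep_of_nd h2 _ (nd_QP _)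
  have hSM : Sep (QM 0 a b) := sep_of_nd h2 _ (nd_QM 0 a b hab)
  obtain ⟨d₁, hd₁0, hd₁, hD₁⟩ := diag_class h2 (QP (F := F) (0 + 1)) hSP 1 (by rw [finrank_plus])
  obtain ⟨d₂, hd₂0, hd₂, hD₂⟩ := diag_class h2 (QM 0 a b) hSM 1 (by rw [finrank_minus])
  have h8 : 3 ≤ s0 F := by
    have h := eight_dvd (F := F) h2
    haveI := finite_O ((sqF F).prod (sqF F))
    have hne : Nat.card (O ((sqF F).prod (sqF F))) ≠ 0 := Nat.card_pos.ne'
    exact (Nat.Prime.pow_dvd_iff_le_factorization Nat.prime_two hne).mp (by norm_num; exact h)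
  have hval : ∀ n : ℕ, n ≠ 0 → (2 * n).factorization 2 = 1 + padicValNat 2 n := by
    intro n hn
    rw [Nat.factorization_def _ Nat.prime_two, padicValNat.mul (by norm_num) hn, padicValNat_self]
  have hcases : s0 F = 1 + padicValNat 2 (Fintype.card F - 1) ∨
      s0 F = 1 + padicValNat 2 (Fintype.card F + 1) := by
    rcases hd₁ with rfl | hns₁
    · left
      obtain ⟨Φ, hΦ⟩ := iso_of_hasDiag hD₁ hD
      rw [s0_def', ← card_O_congr Φ hΦ, hcP, hval _ (by omega)]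
    · rcases hd₂ with rfl | hns₂
      · right
        obtain ⟨Φ, hΦ⟩ := iso_of_hasDiag hD₂ hD
        rw [s0_def', ← card_O_congr Φ hΦ, hcM, hval _ (by omega)]
      · exfalso
        have hD₂' := hasDiag_nonsq hns₂ hns₁ hD₂
        obtain ⟨Φ, hΦ⟩ := iso_of_hasDiag hD₁ hD₂'
        have hc := card_O_congr Φ hΦ
        rw [hcP, hcM] at hc
        omega
  unfold c0
  rcases c0_cases _ hq hq1 with ⟨h3, h4⟩ | ⟨h3, h4⟩ <;> rcases hcases with h | h <;> omega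

end plane

section final

theorem setup (hF : Odd (Fintype.card F)) (k : ℕ) (a b : F)
    (hab : ∀ z₁ z₂ : F, z₁ ^ 2 + a * z₁ * z₂ + b * z₂ ^ 2 = 0 → z₁ = 0 ∧ z₂ = 0) :
    (((Nat.card (O (QP (F := F) (k + 1)))).factorization 2 = A (s0 F) (k + 1) ∧
          (Nat.card (O (QM k a b))).factorization 2 = A (s0 F) k + 2) ∨
        ((Nat.card (O (QP (F := F) (k + 1)))).factorization 2 = A (s0 F) k + 2 ∧
          (Nat.card (O (QM k a b))).factorization 2 = A (s0 F) (k + 1))) ∧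
      A (s0 F) k + 2 < A (s0 F) (k + 1) ∧
      (Even (k + 1) → (Nat.card (O (QP (F := F) (k + 1)))).factorization 2 = A (s0 F) (k + 1)) := by
  have hq : Fintype.card F % 2 = 1 := Nat.odd_iff.mp hF
  have hq1 : 1 < Fintype.card F := Fintype.one_lt_card
  rw [card_QP, card_QM a b hab, s0_eq hF, Nat.factorization_def _ Nat.prime_two,
    Nat.factorization_def _ Nat.prime_two]
  exact arith _ hq hq1 k

/-- Sylow 2-subgroups of `Ω⁺_{2(k+1)}(q)`, `q` odd -/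
theorem plus_main (hF : Odd (Fintype.card F)) (k : ℕ) (hk' : Even (k + 1) ∨ 2 ≤ k) :
    ∀ P : Sylow 2 ↥(Cfsg.Omega F (Cfsg.quadFormPlus (k + 1) F)),
      ∀ x : ↥(P : Subgroup ↥(Cfsg.Omega F (Cfsg.quadFormPlus (k + 1) F))),
        x ^ 2 ∈ commutator ↥(P : Subgroup ↥(Cfsg.Omega F (Cfsg.quadFormPlus (k + 1) F))) := by
  have h2 : (2 : F) ≠ 0 := two_ne_zero_of_odd_card hF
  obtain ⟨a, b, hab⟩ := exists_aniso (F := F) h2
  obtain ⟨hv, hAB, hev⟩ := setup hF k a b hab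
  have hSP : Sep (QP (F := F) (k + 1)) := sep_of_nd h2 _ (nd_QP _)
  have hSM : Sep (QM k a b) := sep_of_nd h2 _ (nd_QM k a b hab)
  have hk : 1 ≤ k := by
    rcases hk' with ⟨t, ht⟩ | h
    · omega
    · omega
  have h := pair_logic h2 (QP (F := F) (k + 1)) (QM k a b) hSP hSM k hk
    (by rw [finrank_plus]; omega) (by rw [finrank_minus]; omega) hv hAB
    (by
      rcases hk' with h | h
      · exact Or.inr (hev h)
      · exact Or.inl h)
  have h3 := good_omega (QP (F := F) (k + 1)) h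
  rw [QP_coe] at h3
  exact h3

/-- Sylow 2-subgroups of `Ω⁻_{2(k+1)}(q)`, `q` odd -/
theorem minus_main (hF : Odd (Fintype.card F)) (k : ℕ) (hk : 2 ≤ k) (a b : F)
    (hab : ∀ z₁ z₂ : F, z₁ ^ 2 + a * z₁ * z₂ + b * z₂ ^ 2 = 0 → z₁ = 0 ∧ z₂ = 0) :
    ∀ P : Sylow 2 ↥(Cfsg.Omega F (Cfsg.quadFormMinus k F a b)),
      ∀ x : ↥(P : Subgroup ↥(Cfsg.Omega F (Cfsg.quadFormMinus k F a b))),
        x ^ 2 ∈ commutator ↥(P : Subgroup ↥(Cfsg.Omega F (Cfsg.quadFormMinus k F a b))) := by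
  have h2 : (2 : F) ≠ 0 := two_ne_zero_of_odd_card hF
  obtain ⟨hv, hAB, -⟩ := setup hF k a b hab
  have hSP : Sep (QP (F := F) (k + 1)) := sep_of_nd h2 _ (nd_QP _)
  have hSM : Sep (QM k a b) := sep_of_nd h2 _ (nd_QM k a b hab)
  have h := pair_logic h2 (QM k a b) (QP (F := F) (k + 1)) hSM hSP k (by omega)
    (by rw [finrank_minus]; omega) (by rw [finrank_plus]; omega)
    (by
      rcases hv with ⟨h, h'⟩ | ⟨h, h'⟩
      · exact Or.inr ⟨h', h⟩
      · exact Or.inl ⟨h', h⟩) hAB (Or.inl hk)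
  have h3 := good_omega (QM k a b) h
  rw [QM_coe] at h3
  exact h3

end final

end general

end Cfsg.Agent.Lib.Helper44.SylO6
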